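/-
A-groups project (S2554), part II: class functions on the 2-section of `t` when `C(t) = ⟨t⟩ × L`.
-/
import Cfsg.Agent.Lib.AG.BSW3
import Cfsg.Agent.Lib.AG.M2

set_option autoImplicit false
set_option linter.unusedSectionVars false

namespace Cfsg.Agent.Lib.AG.CH

open Subgroup Cfsg.Agent.Lib Cfsg.Agent.Lib.Char Cfsg.Agent.Lib.Char.Pair Finset

section Int

theorem had4 {y1 y2 y3 y4 p1 p2 p3 p4 q1 q2 q3 q4 : ℤ} (a1 : p1 = 1 ∨ p1 = -1)
    (a2 : p2 = 1 ∨ p2 = -1) (a3 : p3 = 1 ∨ p3 = -1) (a4 : p4 = 1 ∨ p4 = -1)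
    (b1 : q1 = 1 ∨ q1 = -1) (b2 : q2 = 1 ∨ q2 = -1) (b3 : q3 = 1 ∨ q3 = -1)
    (b4 : q4 = 1 ∨ q4 = -1) (e1 : y1 + y2 + y3 + y4 = 0)
    (e2 : p1 * y1 + p2 * y2 + p3 * y3 + p4 * y4 = 0)
    (e3 : q1 * y1 + q2 * y2 + q3 * y3 + q4 * y4 = 0) (e4 : p1 + p2 + p3 + p4 = 0)
    (e5 : q1 + q2 + q3 + q4 = 0) (e6 : p1 * q1 + p2 * q2 + p3 * q3 + p4 * q4 = 0) :
    p2 * q2 * y2 = p1 * q1 * y1 ∧ p3 * q3 * y3 = p1 * q1 * y1 ∧ p4 * q4 * y4 = p1 * q1 * y1 := by
  rcases a1 with rfl | rfl <;> rcases a2 with rfl | rfl <;> rcases a3 with rfl | rfl <;>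
    rcases a4 with rfl | rfl <;> rcases b1 with rfl | rfl <;> rcases b2 with rfl | rfl <;>
    rcases b3 with rfl | rfl <;> rcases b4 with rfl | rfl <;> omega

variable {ι : Type*} [Fintype ι] {x : ι → ℕ} (hx : ∀ a, 0 < x a)
include hx

theorem had3 {d d1 d2 : ι → ℤ} (h4 : ∑ a, d a * d a = 4) (h0 : ∑ a, d a * x a = 0)
    (h41 : ∑ a, d1 a * d1 a = 4) (h01 : ∑ a, d1 a * x a = 0) (h42 : ∑ a, d2 a * d2 a = 4)
    (h02 : ∑ a, d2 a * x a = 0) (o1 : ∑ a, d a * d1 a = 0) (o2 : ∑ a, d a * d2 a = 0)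
    (o3 : ∑ a, d1 a * d2 a = 0) (p1 : ∀ a, 2 ∣ d a - d1 a) (p2 : ∀ a, 2 ∣ d a - d2 a) :
    ∃ (i0 : ι) (ω : ℤ), (ω = 1 ∨ ω = -1) ∧ (∀ i, d i ≠ 0 → x i = x i0) ∧
      ∑ i, d i * (d i + d1 i + d2 i) ^ 2 = 8 * ω ∧
      ∀ m : ι → ℤ, ∑ i, m i * m i ≤ 4 → ∑ i, m i * x i = 0 → ∑ i, m i * d i = 0 →
        ∑ i, m i * d1 i = 0 → ∑ i, m i * d2 i = 0 → ∀ i, d i ≠ 0 → m i = 0 := by
  classical
  obtain ⟨a, b, c, e, k⟩ := C2.col hx h4 h0
  have z1 : ∀ i, d i = 0 → d1 i = 0 := fun i e => by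
    have := p1 i; have := C2.col0 hx h41 h01 i; omega
  have z2 : ∀ i, d i = 0 → d2 i = 0 := fun i e => by
    have := p2 i; have := C2.col0 hx h42 h02 i; omega
  have mem : ∀ i, d i ≠ 0 → i = a ∨ i = b ∨ i = c ∨ i = e := fun i hi => by
    have := (k (fun j => if j = i then (1 : ℤ) else 0) fun j hj =>
      if_neg fun (e : j = i) => hi (e ▸ hj)).1
    rw [Finset.sum_ite_eq' univ i, if_pos (mem_univ i)] at this
    by_contra hc
    push Not at hc
    rw [if_neg hc.1.symm, if_neg hc.2.1.symm, if_neg hc.2.2.1.symm, if_neg hc.2.2.2.symm] at this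
    omega
  have s := (k (fun _ => (0 : ℤ)) fun _ _ => rfl).2
  have q : ∀ i ∈ [a, b, c, e], (d1 i = 1 ∨ d1 i = -1) ∧ (d2 i = 1 ∨ d2 i = -1) := fun i hi => by
    have r1 := p1 i; have := C2.col0 hx h41 h01 i; have r2 := p2 i; have := C2.col0 hx h42 h02 i
    have := s i hi
    omega
  have sg : ∀ {u v : ℤ}, (u = 1 ∨ u = -1) → (v = 1 ∨ v = -1) → u * v = 1 ∨ u * v = -1 := by
    rintro u v (rfl | rfl) (rfl | rfl) <;> simp
  have sa := s a (by simp); have sb := s b (by simp); have sc := s c (by simp)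
  have se := s e (by simp)
  obtain ⟨a1, a2⟩ := q a (by simp); obtain ⟨b1, b2⟩ := q b (by simp)
  obtain ⟨c1, c2⟩ := q c (by simp); obtain ⟨e1, e2⟩ := q e (by simp)
  have sq : ∀ {u : ℤ}, (u = 1 ∨ u = -1) → u * u = 1 := by rintro u (rfl | rfl) <;> rfl
  have qa := sq sa; have qb := sq sb; have qc := sq sc; have qe := sq se
  rw [(k _ fun i e => by simp [e, z1 i e, z2 i e]).1] at o1 o2 o3
  have H : ∀ m : ι → ℤ, ∑ i, m i * d i = 0 → ∑ i, m i * d1 i = 0 → ∑ i, m i * d2 i = 0 →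
      ∀ i ∈ [a, b, c, e], d i * d1 i * d2 i * m i = d a * d1 a * d2 a * m a := by
    intro m f0 f1 f2
    rw [(k _ fun i e => by simp [e, z1 i e, z2 i e]).1] at f0 f1 f2
    have := had4 (y1 := d a * m a) (y2 := d b * m b) (y3 := d c * m c) (y4 := d e * m e)
      (sg sa a1) (sg sb b1) (sg sc c1) (sg se e1) (sg sa a2) (sg sb b2) (sg sc c2) (sg se e2)
      (by linear_combination f0)
      (by linear_combination f1 + d1 a * m a * qa + d1 b * m b * qb + d1 c * m c * qc +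
        d1 e * m e * qe)
      (by linear_combination f2 + d2 a * m a * qa + d2 b * m b * qb + d2 c * m c * qc +
        d2 e * m e * qe) o1 o2
      (by linear_combination o3 + d1 a * d2 a * qa + d1 b * d2 b * qb + d1 c * d2 c * qc +
        d1 e * d2 e * qe)
    simp only [List.forall_mem_cons, List.not_mem_nil, IsEmpty.forall_iff, implies_true, true_and,
      and_true]
    exact ⟨by linear_combination this.1 - d b * d1 b * d2 b * m b * qb + d a * d1 a * d2 a * m a * qa,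
      by linear_combination this.2.1 - d c * d1 c * d2 c * m c * qc + d a * d1 a * d2 a * m a * qa,
      by linear_combination this.2.2 - d e * d1 e * d2 e * m e * qe + d a * d1 a * d2 a * m a * qa⟩
  have HX := H (fun i => x i) (by simpa [mul_comm] using h0) (by simpa [mul_comm] using h01)
    (by simpa [mul_comm] using h02)
  have wa := sg (sg sa a1) a2
  have eq : ∀ i ∈ [a, b, c, e], x i = x a ∧ d i * d1 i * d2 i = d a * d1 a * d2 a := fun i hi => by
    have h1 := HX i hi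
    have h2 := sg (sg (s i hi) (q i hi).1) (q i hi).2
    have := hx i; have := hx a
    rcases h2 with h2 | h2 <;> rcases wa with h3 | h3 <;> rw [h2, h3] at h1 ⊢ <;> omega
  have mem' : ∀ i, d i ≠ 0 → i ∈ [a, b, c, e] := fun i hi => by simpa using mem i hi
  have eb := eq b (by simp); have ec := eq c (by simp); have ee := eq e (by simp)
  refine ⟨a, d a * d1 a * d2 a, wa, fun i hi => (eq i (mem' i hi)).1, ?_, ?_⟩
  · rw [(k _ fun i e => by simp [e, z1 i e, z2 i e]).1] at h0 h01 h02 ⊢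
    rw [eb.1, ec.1, ee.1] at h0 h01 h02
    have x0 : (x a : ℤ) ≠ 0 := by have := hx a; omega
    have t0 : d a + d b + d c + d e = 0 := mul_right_cancel₀ x0 (by linear_combination h0)
    have t1 : d1 a + d1 b + d1 c + d1 e = 0 := mul_right_cancel₀ x0 (by linear_combination h01)
    have t2 : d2 a + d2 b + d2 c + d2 e = 0 := mul_right_cancel₀ x0 (by linear_combination h02)
    have r : ∀ i ∈ [a, b, c, e], d i * (d i + d1 i + d2 i) ^ 2 =
        3 * d i + 2 * d1 i + 2 * d2 i + 2 * (d a * d1 a * d2 a) := fun i hi => by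
      rw [← (eq i hi).2]
      rcases s i hi with h1 | h1 <;> rcases (q i hi).1 with h2 | h2 <;>
        rcases (q i hi).2 with h3 | h3 <;> rw [h1, h2, h3] <;> rfl
    rw [r a (by simp), r b (by simp), r c (by simp), r e (by simp)]
    linear_combination 3 * t0 + 2 * t1 + 2 * t2
  · intro m m4 m0 f0 f1 f2
    have HM := H m f0 f1 f2
    have em : ∀ i ∈ [a, b, c, e], m i = m a := fun i hi => by
      have h1 := HM i hi
      rw [(eq i hi).2] at h1
      rcases wa with h3 | h3 <;> rw [h3] at h1 <;> omega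
    suffices m a = 0 from fun i hi => (em i (mem' i hi)).trans this
    by_contra ma
    have u1 : ∀ f : ι → ℤ, ∑ i, f i = ∑ i, (if d i = 0 then f i else 0) +
        ∑ i, if d i = 0 then 0 else f i := fun f => by
      rw [← sum_add_distrib]; exact sum_congr rfl fun i _ => by split_ifs <;> simp
    have ne : ∀ i ∈ [a, b, c, e], ¬ d i = 0 := fun i hi => by have := s i hi; omega
    have u2 : ∀ f : ι → ℤ, (∑ i, if d i = 0 then 0 else f i) = f a + f b + f c + f e := fun f => by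
      rw [(k _ fun i e => if_pos e).1, if_neg (ne a (by simp)), if_neg (ne b (by simp)),
        if_neg (ne c (by simp)), if_neg (ne e (by simp))]
    rw [u1, u2, em b (by simp), em c (by simp), em e (by simp)] at m4 m0
    have n : ∀ i ∈ (univ : Finset ι), 0 ≤ if d i = 0 then m i * m i else 0 := fun i _ => by
      split_ifs
      · exact mul_self_nonneg _
      · exact le_rfl
    have n1 := sum_nonneg n
    have n2 : 1 ≤ m a * m a := by have := mul_self_pos.2 ma; omega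
    have n3 := (sum_eq_zero_iff_of_nonneg n).1 (by omega)
    rw [sum_eq_zero fun i hi => by
      have := n3 i hi
      split_ifs at this ⊢ with h1
      · rw [mul_self_eq_zero.1 this, zero_mul]
      · rfl, eb.1, ec.1, ee.1] at m0
    have x0 : (x a : ℤ) ≠ 0 := by have := hx a; omega
    exact mul_ne_zero ma x0 (by linarith)

end Int

variable {G : Type*} [Group G] [Fintype G]

theorem exists_int {f : G → ℂ} (hf : IsVChar f) : ∃ d : Irr G → ℤ, ∀ i, ip f (chi i) = d i := by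
  choose d hd using (isVChar_iff.1 hf).2
  exact ⟨d, hd⟩

theorem ip_int_sum {f g : G → ℂ} (hf : IsClass f) {d e : Irr G → ℤ} (hd : ∀ i, ip f (chi i) = d i)
    (he : ∀ i, ip g (chi i) = e i) : ip f g = ((∑ i, d i * e i : ℤ) : ℂ) := by
  rw [hf.ip_eq_sum]; push_cast; exact sum_congr rfl fun i _ => by rw [hd, he]

theorem one_int_sum {f : G → ℂ} (hf : IsClass f) {d : Irr G → ℤ} (hd : ∀ i, ip f (chi i) = d i) :
    f 1 = ((∑ i, d i * deg i : ℤ) : ℂ) := by
  rw [hf.apply_eq_sum]; push_cast; exact sum_congr rfl fun i _ => by rw [hd, chi_one]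

open Classical in
/-- the number of ways to write `g⁻¹` as a product of two involutions -/
noncomputable def nn (g : G) : ℂ := ∑ a : G, if a ∈ DD 2 G ∧ a * g⁻¹ ∈ DD 2 G then 1 else 0

theorem DD_conj {a : G} (x : G) : x * a * x⁻¹ ∈ DD 2 G ↔ a ∈ DD 2 G := by
  rw [mem_DD, mem_DD, show x * a * x⁻¹ = MulAut.conj x a from rfl, MulEquiv.orderOf_eq]

theorem isClass_nn : IsClass (nn : G → ℂ) := fun g x => by
  classical
  unfold nn
  symm
  refine Fintype.sum_equiv (MulAut.conj x).toEquiv _ _ fun a => if_congr ?_ rfl rfl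
  change _ ↔ x * a * x⁻¹ ∈ _ ∧ x * a * x⁻¹ * _ ∈ _
  rw [DD_conj, show x * a * x⁻¹ * (x * g * x⁻¹)⁻¹ = x * (a * g⁻¹) * x⁻¹ by group, DD_conj]

theorem SJ_eq (f : G → ℂ) : SJ f = Fintype.card G * ip f nn := by
  classical
  rw [ip, mul_inv_cancel_left₀ card_ne_zero']
  simp only [nn, mul_sum, inv_inv]
  rw [sum_comm, SJ, ← sum_subset (subset_univ (DD 2 G)) fun a _ ha => by simp [ha]]
  refine sum_congr rfl fun a ha => ?_
  have a2 := (mem_DD2.1 ha).1
  rw [← Equiv.sum_comp (Equiv.mulLeft a)]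
  simp only [Equiv.coe_mulLeft, ← mul_assoc, a2, one_mul, ha, true_and, mul_ite, mul_one, mul_zero]
  rw [← sum_filter, filter_mem_eq_inter, univ_inter]

theorem SJ_sum {f : G → ℂ} (hf : IsClass f) {t : G} (ht : ∀ a ∈ DD 2 G, IsConj t a) :
    SJ f = (#(DD 2 G) : ℂ) ^ 2 * ∑ i, ip f (chi i) * (chi i t ^ 2 / deg i) := by
  have h1 : ∀ i : Irr G, SJ (chi i) = (#(DD 2 G) : ℂ) ^ 2 * (chi i t ^ 2 / deg i) := fun i => by
    have := SI.SJ (f := chi i) ⟨i, .inl rfl⟩ ht
    rw [chi_one] at this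
    rw [← mul_div_assoc, ← this, mul_div_cancel_right₀ _ (deg_ne_zero i)]
  rw [SJ_eq, hf.ip_eq_sum, mul_sum, mul_sum]
  refine sum_congr rfl fun i _ => ?_
  rw [mul_left_comm, ip_comm nn, ← SJ_eq, h1]; ring

variable {L : Type*} [Group L] [Fintype L]

/-- `C(t) = ⟨t⟩ × L` -/
structure TL (t : G) (ι : L →* G) : Prop where
  inj : Function.Injective ι
  tt : t * t = 1
  comm : ∀ l, t * ι l = ι l * t
  nmem : ∀ l, ι l ≠ t
  cent : ∀ g, t * g = g * t → ∃ l, g = ι l ∨ g = t * ι l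

namespace TL
variable {t : G} {ι : L →* G} (h : TL t ι)
include h

theorem tinv : t⁻¹ = t := inv_eq_of_mul_eq_one_right h.tt

theorem ttx (g : G) : t * (t * g) = g := by rw [← mul_assoc, h.tt, one_mul]

theorem ne (l m : L) : ι l ≠ t * ι m := fun e =>
  h.nmem (l * m⁻¹) (by rw [map_mul, e, map_inv, mul_inv_cancel_right])

theorem mul_t (l m : L) : t * ι l * (t * ι m) = ι (l * m) := by
  rw [h.comm l, mul_assoc, h.ttx, map_mul]

theorem mul_t' (l m : L) : ι l * (t * ι m) = t * ι (l * m) := by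
  rw [← mul_assoc, ← h.comm l, mul_assoc, map_mul]

theorem inv_t (l : L) : (t * ι l)⁻¹ = t * ι l⁻¹ :=
  inv_eq_of_mul_eq_one_right (by rw [h.mul_t, mul_inv_cancel, map_one])

theorem mem (l : L) : ι l ∈ centralizer ({t} : Set G) := mem_centralizer_singleton_iff.2 (h.comm l).symm

theorem mem' (l : L) : t * ι l ∈ centralizer ({t} : Set G) :=
  mul_mem (mem_centralizer_singleton_iff.2 rfl) (h.mem l)

theorem sum_C (F : G → ℂ) (hF : ∀ g, t * g ≠ g * t → F g = 0) :
    ∑ g, F g = ∑ l, F (ι l) + ∑ l, F (t * ι l) := by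
  classical
  rw [← sum_subset (subset_univ (univ.image ι ∪ univ.image fun l => t * ι l)) fun g _ hg =>
    hF g fun e => hg (by obtain ⟨l, rfl | rfl⟩ := h.cent g e <;> simp),
    sum_union (disjoint_left.2 fun g h1 h2 => by
      obtain ⟨l, -, rfl⟩ := mem_image.1 h1
      obtain ⟨m, -, e⟩ := mem_image.1 h2
      exact h.ne l m e.symm),
    sum_image fun a _ b _ e => h.inj e, sum_image fun a _ b _ e => h.inj (mul_left_cancel e)]

theorem card_C : Nat.card (centralizer ({t} : Set G)) = 2 * Fintype.card L := by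
  classical
  have := h.sum_C (fun g => if g ∈ centralizer ({t} : Set G) then 1 else 0) fun g hg =>
    if_neg fun e => hg (mem_centralizer_singleton_iff.1 e).symm
  simp only [h.mem, h.mem', if_true, sum_const, card_univ, sum_boole, nsmul_eq_mul, mul_one] at this
  rw [Nat.card_eq_fintype_card, Fintype.card_subtype, two_mul]
  exact_mod_cast this

theorem exists_proj : ∃ (ρ : centralizer ({t} : Set G) →* L) (σ : centralizer ({t} : Set G) →* ℂ),
    ∀ l, ρ ⟨_, h.mem l⟩ = l ∧ σ ⟨_, h.mem l⟩ = 1 ∧ ρ ⟨_, h.mem' l⟩ = l ∧ σ ⟨_, h.mem' l⟩ = -1 := by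
  classical
  have ex : ∀ c : centralizer ({t} : Set G), ∃ l, (c : G) = ι l ∨ (c : G) = t * ι l := fun c =>
    h.cent c (mem_centralizer_singleton_iff.1 c.2).symm
  choose r hr using ex
  have uq : ∀ (c : centralizer ({t} : Set G)) l, ((c : G) = ι l ∨ (c : G) = t * ι l) → r c = l := by
    intro c l hl
    rcases hr c with a | a <;> rcases hl with b | b
    · exact h.inj (a.symm.trans b)
    · exact absurd (a.symm.trans b) (h.ne _ _)
    · exact absurd (b.symm.trans a) (h.ne _ _)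
    · exact h.inj (mul_left_cancel (a.symm.trans b))
  have n1 : ∀ l, ¬ ∃ m, ι m = t * ι l := fun l ⟨m, e⟩ => h.ne m l e
  refine ⟨MonoidHom.mk' r fun a b => uq _ _ ?_, ⟨⟨fun c => if ∃ l, ι l = c then 1 else -1,
    if_pos ⟨1, by simp⟩⟩, fun a b => ?_⟩, fun l => ⟨uq _ _ (.inl rfl), if_pos ⟨l, rfl⟩,
      uq _ _ (.inr rfl), if_neg (n1 l)⟩⟩
  · rw [Subgroup.coe_mul]
    rcases hr a with e | e <;> rcases hr b with f | f <;> rw [e, f]
    · exact .inl (map_mul ι _ _).symm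
    · exact .inr (h.mul_t' _ _)
    · exact .inr (by rw [map_mul, mul_assoc])
    · exact .inl (h.mul_t _ _)
  · rcases hr a with e | e <;> rcases hr b with f | f <;>
      simp only [Subgroup.coe_mul, e, f, h.mul_t, h.mul_t', mul_assoc t (ι _) (ι _), ← map_mul, n1,
        exists_apply_eq_apply, if_true, if_false] <;> simp

theorem pow_odd {l : L} (hl : ¬ 2 ∣ orderOf l) : (t * ι l) ^ orderOf l = t := by
  obtain ⟨k, hk⟩ : Odd (orderOf l) := Nat.not_even_iff_odd.1 fun e => hl e.two_dvd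
  rw [Commute.mul_pow (h.comm l), ← map_pow, pow_orderOf_eq_one, map_one, mul_one, hk, pow_succ,
    pow_mul, pow_two, h.tt, one_pow, one_mul]

theorem pow_odd' {l : L} (hl : ¬ 2 ∣ orderOf l) {n : ℕ} (hn : ¬ 2 ∣ n) :
    (t * ι l) ^ (orderOf l * n) = t := by
  obtain ⟨k, rfl⟩ : Odd n := Nat.not_even_iff_odd.1 fun e => hn e.two_dvd
  rw [pow_mul, h.pow_odd hl, pow_succ, pow_mul, pow_two, h.tt, one_pow, one_mul]

theorem ti {l m : L} (hl : ¬ 2 ∣ orderOf l) (hm : ¬ 2 ∣ orderOf m) {x : G}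
    (e : x⁻¹ * (t * ι l) * x = t * ι m) : x ∈ centralizer ({t} : Set G) := by
  have h1 := h.pow_odd' hl hm
  have h2 := h.pow_odd' hm hl
  rw [← e, mul_comm, show x⁻¹ * (t * ι l) * x = x⁻¹ * (t * ι l) * x⁻¹⁻¹ by rw [inv_inv], conj_pow,
    h1] at h2
  rw [mem_centralizer_singleton_iff]
  calc x * t = x * (x⁻¹ * t * x⁻¹⁻¹) := by rw [h2]
    _ = _ := by group

theorem exists_D : ∃ D : (L → ℂ) → G → ℂ, (∀ P, IsVChar P → IsVChar (D P)) ∧
    (∀ P, IsClass (D P)) ∧ (∀ P, D P 1 = 0) ∧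
    (∀ P F, IsClass F → ip (D P) F = ip P fun l => F (t * ι l)) ∧
    ∀ P, IsClass P → (∀ l, 2 ∣ orderOf l → P l = 0) → ∀ l, ¬ 2 ∣ orderOf l →
      D P (t * ι l) = 2 * P l := by
  classical
  obtain ⟨ρ, σ, hρ⟩ := h.exists_proj
  refine ⟨fun P => ind (centralizer {t}) ((1 - ⇑σ) * (P ∘ ρ)), fun P hP =>
    ((isVChar_one.sub (isChar_lin σ).isVChar).mul (hP.comp ρ)).ind, fun P => isClass_ind _ _,
    fun P => by simp only [ind_one]; simp, fun P F hF => ?_, fun P hP h2 l hl => ?_⟩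
  · rw [ip_ind _ _ hF, ip, ip, ← Nat.card_eq_fintype_card, h.card_C]
    have := sum_ext0_mul (H := centralizer {t}) ((1 - ⇑σ) * (P ∘ ρ)) fun g => F g⁻¹
    simp only [Function.comp_apply, coe_subtype, Subgroup.coe_inv]
    rw [← this, h.sum_C _ fun g hg => by
      rw [ext0_of_not_mem _ fun e => hg (mem_centralizer_singleton_iff.1 e).symm, zero_mul]]
    simp only [ext0_of_mem _ (h.mem _), ext0_of_mem _ (h.mem' _), Pi.mul_apply, Pi.sub_apply,
      Pi.one_apply, Function.comp_apply, hρ, h.inv_t, sub_self, zero_mul, sum_const_zero, zero_add,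
      mul_assoc, ← mul_sum]
    have := card_ne_zero' (G := L)
    push_cast; field_simp; ring
  · dsimp only
    rw [show t * ι l = (⟨_, h.mem' l⟩ : centralizer ({t} : Set G)) from rfl,
      ind_apply_of_TI (A := {g | ∃ m, ¬ 2 ∣ orderOf m ∧ g = t * ι m})
      (((isVChar_one.sub (isChar_lin σ).isVChar).isClass).mul (hP.comp ρ))]
    · simp only [Pi.mul_apply, Pi.sub_apply, Pi.one_apply, Function.comp_apply, hρ]; ring
    · rintro ⟨c, hc⟩ h1
      obtain ⟨m, rfl | rfl⟩ := h.cent c (mem_centralizer_singleton_iff.1 hc).symm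
      · simp [hρ] at h1
      · exact ⟨m, fun e => h1 (by simp [hρ, h2 m e]), rfl⟩
    · rintro x ⟨m, hm, e⟩
      exact h.ti hl hm e

theorem mem_DD_ι {l : L} : ι l ∈ DD 2 G ↔ l ∈ DD 2 L := by
  rw [mem_DD, mem_DD, orderOf_injective ι h.inj]

theorem mem_DD_t {l : L} : t * ι l ∈ DD 2 G ↔ l * l = 1 := by
  rw [mem_DD2, h.mul_t, map_eq_one_iff ι h.inj, and_iff_left]
  exact fun e => h.ne 1 l (by rw [e, map_one])

theorem nn_eq {l : L} (hl : ¬ 2 ∣ orderOf l) : nn (t * ι l) = 2 * nn l := by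
  classical
  have o1 : ∀ a ∈ DD 2 L, a ≠ l ∧ a ≠ l⁻¹ := fun a ha =>
    ⟨fun e => hl (by rw [← e, mem_DD.1 ha]), fun e => hl (by rw [← orderOf_inv, ← e, mem_DD.1 ha])⟩
  unfold nn
  rw [h.sum_C, two_mul]
  · congr 1 <;> refine sum_congr rfl fun a _ => if_congr ?_ rfl rfl
    · rw [h.inv_t, h.mul_t', h.mem_DD_ι, h.mem_DD_t]
      refine and_congr_right fun ha => ?_
      rw [mem_DD2, and_iff_left (mul_inv_eq_one.not.2 (o1 a ha).1)]
    · rw [h.inv_t, h.mul_t, h.mem_DD_ι, h.mem_DD_t]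
      refine and_congr_left fun ha => ?_
      rw [mem_DD2, and_iff_left]
      rintro rfl
      exact (o1 _ ha).2 (one_mul _)
  · intro a ha
    refine if_neg fun ⟨h1, h2⟩ => ha ?_
    have a2 := (mem_DD2.1 h1).1
    have b2 := (mem_DD2.1 h2).1
    have e : a⁻¹ * (t * ι l) * a = t * ι l⁻¹ := by
      rw [← h.inv_t]
      generalize t * ι l = g at b2
      calc a⁻¹ * g * a = a⁻¹ * (a * g⁻¹ * (a * g⁻¹) * g) * a := by rw [b2, one_mul]
        _ = g⁻¹ * (a * a) := by group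
        _ = _ := by rw [a2, mul_one]
    exact (mem_centralizer_singleton_iff.1 (h.ti hl (by rwa [orderOf_inv]) e)).symm

theorem isClass_t {F : G → ℂ} (hF : IsClass F) : IsClass fun l => F (t * ι l) := fun l m => by
  change F (t * ι (m * l * m⁻¹)) = F (t * ι l)
  rw [← hF (t * ι l) (ι m), map_mul, map_mul, map_inv, ← mul_assoc, ← mul_assoc, h.comm m,
    mul_assoc (ι m)]

theorem card_DD (hc : ∀ a ∈ DD 2 G, IsConj t a) :
    #(DD 2 G) * (2 * Fintype.card L) = Fintype.card G := by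
  classical
  rw [← h.card_C, ← Nat.card_eq_fintype_card, ← Invol.card_conj_mul_card_centralizer t]
  congr 1
  rw [← Fintype.card_coe, ← Nat.card_eq_fintype_card]
  refine Nat.card_congr (Equiv.subtypeEquivRight fun a => ⟨hc a, fun e => ?_⟩)
  obtain ⟨g, rfl⟩ := isConj_iff.1 e
  exact (DD_conj g).2 (mem_DD2.2 ⟨h.tt, fun e => h.nmem 1 (by rw [e, map_one])⟩)

theorem parity {K : Subgroup L} [Fintype K] {u : L} (uu : u * u = 1)
    (uK : ∀ r : K, u * r = r * u) {x : G} {α : K ≃* K} (xt : x * t * x⁻¹ = ι u)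
    (xr : ∀ r : K, x * ι r * x⁻¹ = ι (α r)) (ν : K →* ℂ) (i : Irr G) :
    ∃ n : ℤ, ip (⇑ν - ⇑(ν.comp α.toMonoidHom)) (fun r => chi i (t * ι r)) = 2 * n := by
  classical
  let X : Subgroup G := centralizer {t} ⊓ centralizer {t * ι u}
  have hj : t * ι u * (t * ι u) = 1 := by rw [h.mul_t, uu, map_one]
  have hX : ∀ g : X, X.subtype g * (t * ι u) = t * ι u * X.subtype g := fun g =>
    mem_centralizer_singleton_iff.1 g.2.2
  let z : X := ⟨t, mem_centralizer_singleton_iff.2 rfl, mem_centralizer_singleton_iff.2 (by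
    rw [h.ttx, h.comm, mul_assoc, h.tt, mul_one])⟩
  have hz : z ∈ center X := mem_center_iff.2 fun g =>
    Subtype.ext (mem_centralizer_singleton_iff.1 g.2.1)
  let κ : K →* X := (ι.comp K.subtype).codRestrict X fun r => ⟨h.mem r,
    mem_centralizer_singleton_iff.2 (by
      change ι r * _ = _ * ι r
      rw [h.mul_t', mul_assoc, ← map_mul, uK])⟩
  have h1 := ((((isVChar_chi i).comp X.subtype).sub (C2.isChar_half X.subtype hj hX i).isVChar).shift
    hz (Subtype.ext h.tt)).comp κ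
  obtain ⟨n, hn⟩ := (isChar_lin ν).isVChar.ip_int h1
  refine ⟨n, ?_⟩
  rw [← hn, ip_sub_left, ip, ip, ip]
  have e1 : ∑ r : K, (ν.comp α.toMonoidHom) r * chi i (t * ι (r⁻¹ : K)) =
      ∑ r : K, ν r * chi i (t * ι (r⁻¹ : K) * (t * ι u)) := by
    refine Fintype.sum_equiv α.toEquiv _ _ fun r => ?_
    change ν (α r) * _ = ν (α r) * chi i (t * ι ((α r)⁻¹ : K) * _)
    rw [← isClass_chi i _ x, ← conj_mul, xt, xr, h.mul_t, ← map_mul, uK, map_inv]
  rw [e1, ← mul_sub, ← sum_sub_distrib, mul_left_comm, mul_sum _ _ 2]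
  congr 1
  refine sum_congr rfl fun r _ => ?_
  change _ = 2 * (ν r * (chi i (t * ι (r⁻¹ : K)) -
    (chi i (t * ι (r⁻¹ : K)) + chi i (t * ι (r⁻¹ : K) * (t * ι u))) / 2))
  ring

end TL

end Cfsg.Agent.Lib.AG.CH
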