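/-
Characters of `L` (type TB) vanishing on elements of even order.
-/
import Cfsg.Agent.Lib.AG.BSW5

set_option autoImplicit false
set_option linter.unusedSectionVars false

namespace Cfsg.Agent.Lib.AG

open Subgroup Cfsg.Agent.Lib Cfsg.Agent.Lib.Char Cfsg.Agent.Lib.Char.Pair Finset

variable {G : Type*} [Group G] [Fintype G] {t s w : G} {K : Subgroup G}

open Classical in
/-- the virtual characters `Π_ν` of a group of type TB -/
structure CHL (K : Subgroup G) (P : (K →* ℂ) → G → ℂ) (y : ℤ) (q k' : ℕ) : Prop where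
  vc : ∀ ν, IsVChar (P ν)
  even : ∀ ν, ν ≠ 1 → ∀ g, 2 ∣ orderOf g → P ν g = 0
  gram : ∀ ν ν', ν ≠ 1 → ν' ≠ 1 →
    ip (P ν) (P ν') = 2 * ((if ν = ν' then 1 else 0) + (if ν = lbar ν' then 1 else 0))
  one : ∀ ν, P ν 1 = 2 * y
  val : ∀ ν (r : K), r ≠ 1 → P ν r = -2 * (ν r + ν r⁻¹)
  off : ∀ ν ν', ν ≠ 1 → ν' ≠ 1 → ∀ g, (∀ x, x⁻¹ * g * x ∉ K) → P ν g = P ν' g
  diff : ∀ ν ν', P ν - P ν' = -ind K (⇑ν - ⇑ν')
  sj : ∀ ν, ν ≠ 1 → SJ (P ν) * y = 8 * (q * k') ^ 2
  hy : y = 2 * k' ∨ y = -2 * k'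
  num : (q = 4 * Nat.card K + 1 ∧ k' = 2 * Nat.card K + 1) ∨
    (q + 1 = 4 * Nat.card K ∧ k' + 1 = 2 * Nat.card K)
  card : Nat.card G = 4 * Nat.card K * k' * q
  cardJ : #(DD 2 G) = q * k'
  span : ∀ F : G → ℂ, IsClass F → (∀ g, 2 ∣ orderOf g → F g = 0) → (∀ ν, ν ≠ 1 → ip F (P ν) = 0) →
    (∀ π : G → ℂ, IsVChar π → (∀ g, 2 ∣ orderOf g → π g = 0) → (ip π π = 1 ∨ ip π π = 2) →
      (∀ ν, ν ≠ 1 → ip π (P ν) = 0) → ip F π = 0) → F = 0

theorem val_zero_of_ip (T : Subgroup G) (hT : ∀ a b : T, a * b = b * a) {f : G → ℂ} (hf : IsClass f)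
    (h : ∀ l : T →* ℂ, l ≠ 1 → ip (Th T l) f = 0) {x : G} (hx : x ∈ T) (x1 : x ≠ 1) : f x = 0 := by
  have := val_of_ip T hT (hf.add (isClass_const 1)) (fun l hl => by
    rw [ip_add_right, h l hl, zero_add]
    exact ip_Th_const T hl (isClass_const 1) 1 fun _ _ _ => rfl) hx x1
  simpa using this

theorem ip_eq_zero_of_supp {f g : G → ℂ} (hf : ∀ x, 2 ∣ orderOf x → f x = 0)
    (hg : ∀ x, ¬ 2 ∣ orderOf x → g x = 0) : ip f g = 0 := by
  rw [ip, sum_eq_zero, mul_zero]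
  intro x _
  by_cases e : 2 ∣ orderOf x
  · rw [hf x e, zero_mul]
  · rw [hg x⁻¹ (by rwa [orderOf_inv]), mul_zero]

namespace VK

variable (h : VS t s w K)
include h

/-- projection `T → K` -/
noncomputable def pr : ↥(K ⊔ zpowers t) →* K where
  toFun x := ⟨(x : G) ^ (Nat.card K + 1), by
    rcases h.memT.1 x.2 with e | e
    · exact pow_mem e _
    · rwa [pow_succ', h.powT e]⟩
  map_one' := Subtype.ext (by simp)
  map_mul' x y := Subtype.ext ((show Commute (x : G) y from h.Tcomm x.2 y.2).mul_pow _)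

theorem pr_K (x : ↥(K ⊔ zpowers t)) (hx : (x : G) ∈ K) : h.pr x = ⟨x, hx⟩ :=
  Subtype.ext (by show (x : G) ^ _ = x; rw [pow_succ, h.powK hx, one_mul])

theorem pr_t : h.pr ⟨t, h.tT⟩ = 1 := Subtype.ext (by
  show t ^ _ = 1
  obtain ⟨n, hn⟩ := h.Kodd
  rw [hn, show 2 * n + 1 + 1 = 2 * (n + 1) by ring, pow_mul, pow_two, h.tt, one_pow])

theorem even_conj {g : G} (hg : 2 ∣ orderOf g) : ∃ x : G, x⁻¹ * g * x ∈ K ⊔ zpowers t ∧
    x⁻¹ * g * x ∉ K := by
  obtain ⟨-, x, hx⟩ := h.inA_of_prime Nat.prime_two (dvd_mul_right _ _) hg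
  refine ⟨x, hx, fun e => ?_⟩
  have := K.orderOf_dvd_natCard e
  rw [show orderOf (x⁻¹ * g * x) = orderOf g by simpa using (MulAut.conj x⁻¹).orderOf_eq g] at this
  exact h.Kodd.not_two_dvd_nat (hg.trans this)

theorem even_of_not {g : G} (hg : g ∈ K ⊔ zpowers t) (hK : g ∉ K) : 2 ∣ orderOf g := by
  have := orderOf_pow_dvd (x := g) (Nat.card K)
  rwa [h.powT ((h.memT.1 hg).resolve_left hK), orderOf_eq_prime ((pow_two t).trans h.tt) h.t1] at this

set_option maxHeartbeats 800000 in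
theorem chl (hK : K ≠ ⊥) : ∃ P y q k', CHL K P y q k' := by
  classical
  obtain ⟨ψ, q, k', hs, hq, hG, hA, -, -⟩ := h.char2 hK
  obtain ⟨e, heK, het⟩ := h.exists_eps
  have k3 := h.three_le hK
  have he : e = lbar e := h.lin_ext (fun x hx => by
    rw [heK x hx]; exact (heK x⁻¹ (inv_mem hx)).symm) (h.lbar_t e).symm
  have e1 : e ≠ 1 := by rintro rfl; norm_num at het
  have heT : ∀ x : ↥(K ⊔ zpowers t), (x : G) ∉ K → e x = -1 := fun x hx => by
    have : x = (x * ⟨t, h.tT⟩) * ⟨t, h.tT⟩ := Subtype.ext (by simp [mul_assoc, h.tt])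
    rw [this, map_mul, heK _ ((h.memT.1 x.2).resolve_left hx), het, one_mul]
  set a : G → ℂ := fun g => (ψ g : ℂ) with ha
  have aT : ∀ x ∈ K ⊔ zpowers t, x ≠ 1 → a x = 1 := fun x hx x1 => by
    simp [ha, hA x (InA.of_mem hx x1)]
  have a1 : ip a 1 = 0 := by
    have s1 : SI (1 : G → ℂ) := ⟨triv G, Or.inl chi_triv.symm⟩
    rcases hs.cases s1 with e | e | e
    · exact e
    all_goals
      have := congrFun e 1
      simp only [Pi.one_apply, Pi.neg_apply, ha] at this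
      norm_cast at this; omega
  have n1 : ∀ {l : ↥(K ⊔ zpowers t) →* ℂ}, l ≠ lbar l → l ≠ 1 := by
    rintro l hl rfl; exact hl (MonoidHom.ext fun x => rfl)
  let c : (↥(K ⊔ zpowers t) →* ℂ) → G → ℂ := fun l => Th _ l - 1 - a
  have dec : ∀ l, l ≠ lbar l → Dec (Th _ l) (Th _ e) a (c l) := fun l hl => by
    obtain ⟨a', c', d⟩ := h.exists_dec het he hl
    have i1 := ip_Th_const _ (n1 hl) hs.vc.isClass 1 aT
    have i2 := ip_Th_const _ e1 hs.vc.isClass 1 aT
    have i3 : ip c' a = 0 := by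
      rcases d.sc.cases hs with e | e | e
      · exact e
      · rw [e, ip_comm, d.cE] at i2; exact absurd i2 zero_ne_one
      · rw [e, ip_comm, ip_neg_left, d.cE] at i2; norm_num at i2
    rw [d.eq, ip_add_left, ip_add_left, ip_comm 1, a1, i3, zero_add, add_zero] at i1
    obtain rfl := d.sa.eq_of_ip hs i1
    rwa [show c l = c' by simp only [c]; rw [d.eq]; abel]
  have cc : ∀ l m, l ≠ lbar l → m ≠ lbar m → ip (c l) (c m) =
      (if l = m then 1 else 0) + (if l = lbar m then 1 else 0) := fun l m hl hm => by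
    have := h.ip_Th_Th (n1 hl) (n1 hm)
    rw [(dec l hl).eq, (dec m hm).eq] at this
    simp only [ip_add_left, ip_add_right, ip_one_one, a1, ip_comm 1 a, hs.norm, (dec l hl).c1,
      ip_comm 1 (c m), (dec m hm).c1, (dec m hm).ac, ip_comm (c l) a, (dec l hl).ac] at this
    linear_combination this
  have cT : ∀ l (x : ↥(K ⊔ zpowers t)), x ≠ 1 → c l x = -(l x + l x⁻¹) := fun l x x1 => by
    simp only [c, Pi.sub_apply, Pi.one_apply, h.Th_mem, aT x x.2 fun e => x1 (Subtype.ext e)]; ring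
  have cvc : ∀ l, IsVChar (c l) := fun l => ((vc_Th _ l).sub isVChar_one).sub hs.vc
  have r1 : ∀ ν : K →* ℂ, ν ≠ 1 → ν.comp h.pr ≠ lbar (ν.comp h.pr) := fun ν hν e =>
    hν (MonoidHom.ext fun x => by
      have := h.real_K e ⟨x, mem_sup_left x.2⟩ x.2
      rwa [MonoidHom.comp_apply, h.pr_K _ x.2] at this)
  have r2 : ∀ ν : K →* ℂ, ν ≠ 1 → e * ν.comp h.pr ≠ lbar (e * ν.comp h.pr) := fun ν hν e2 =>
    hν (MonoidHom.ext fun x => by
      have := h.real_K e2 ⟨x, mem_sup_left x.2⟩ x.2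
      rwa [MonoidHom.mul_apply, heK _ x.2, one_mul, MonoidHom.comp_apply, h.pr_K _ x.2] at this)
  have res : ∀ {ν ν' : K →* ℂ} {f f' : ↥(K ⊔ zpowers t) →* ℂ},
      (∀ (x : ↥(K ⊔ zpowers t)) (hx : (x : G) ∈ K), f x = ν ⟨x, hx⟩) →
      (∀ (x : ↥(K ⊔ zpowers t)) (hx : (x : G) ∈ K), f' x = ν' ⟨x, hx⟩) →
      f ⟨t, h.tT⟩ = f' ⟨t, h.tT⟩ → (f = f' ↔ ν = ν') := fun h1 h2 h3 =>
    ⟨fun e => MonoidHom.ext fun x => by
      rw [← h1 ⟨x, mem_sup_left x.2⟩ x.2, ← h2 ⟨x, mem_sup_left x.2⟩ x.2, e],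
      fun e => h.lin_ext (fun x hx => by rw [h1 x hx, h2 x hx, e]) h3⟩
  have p1 : ∀ (ν : K →* ℂ) (x : ↥(K ⊔ zpowers t)) (hx : (x : G) ∈ K), ν.comp h.pr x = ν ⟨x, hx⟩ :=
    fun ν x hx => by
    rw [MonoidHom.comp_apply, h.pr_K _ hx]
  have p2 : ∀ (ν : K →* ℂ) (x : ↥(K ⊔ zpowers t)) (hx : (x : G) ∈ K),
      (e * ν.comp h.pr) x = ν ⟨x, hx⟩ := fun ν x hx => by
    rw [MonoidHom.mul_apply, heK x hx, one_mul, p1 ν x hx]
  have q1 : ∀ ν : K →* ℂ, ν.comp h.pr ⟨t, h.tT⟩ = 1 := fun ν => by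
    rw [MonoidHom.comp_apply, h.pr_t, map_one]
  have q2 : ∀ ν : K →* ℂ, (e * ν.comp h.pr) ⟨t, h.tT⟩ = -1 := fun ν => by
    rw [MonoidHom.mul_apply, q1, het, mul_one]
  have ev : ∀ {f : G → ℂ}, IsClass f → (∀ x : ↥(K ⊔ zpowers t), (x : G) ∉ K → f x = 0) →
      ∀ g, 2 ∣ orderOf g → f g = 0 := fun hf h0 g hg => by
    obtain ⟨x, hx, hx'⟩ := h.even_conj hg
    rw [← hf.conj' g x]; exact h0 ⟨_, hx⟩ hx'
  have Pev : ∀ ν : K →* ℂ, ∀ g, 2 ∣ orderOf g → (c (ν.comp h.pr) + c (e * ν.comp h.pr)) g = 0 :=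
    fun ν => ev ((cvc _).add (cvc _)).isClass fun x hx => by
      have x1 : x ≠ 1 := fun e => hx (by rw [e]; exact K.one_mem)
      rw [Pi.add_apply, cT _ x x1, cT _ x x1, MonoidHom.mul_apply, MonoidHom.mul_apply, heT x hx,
        heT x⁻¹ (fun e => hx (inv_mem_iff.1 e))]; ring
  have od : ∀ {f : G → ℂ}, IsClass f → (∀ g, ¬ InA (K ⊔ zpowers t) g → f g = 0) →
      (∀ x : ↥(K ⊔ zpowers t), (x : G) ∈ K → f x = 0) → ∀ g, ¬ 2 ∣ orderOf g → f g = 0 :=
    fun {f} hf h0 h1 g hg => by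
    by_cases hA : InA (K ⊔ zpowers t) g
    · obtain ⟨-, x, hx⟩ := hA
      rw [← hf.conj' g x]
      refine h1 ⟨_, hx⟩ (by_contra fun e => hg ?_)
      have := h.even_of_not hx e
      rwa [show orderOf (x⁻¹ * g * x) = orderOf g by
        simpa using (MulAut.conj x⁻¹).orderOf_eq g] at this
    · exact h0 g hA
  have cJ : #(DD 2 G) = q * k' := by
    have := (centralizer ({t} : Set G)).index_mul_card
    rw [h.cardH, hG, ← h.card_DD] at this
    exact Nat.eq_of_mul_eq_mul_right (show 0 < 4 * Nat.card K by omega) (by rw [this]; ring)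
  refine ⟨fun ν => c (ν.comp h.pr) + c (e * ν.comp h.pr), -1 - ψ 1, q, k',
    fun ν => (cvc _).add (cvc _), fun ν _ => Pev ν, fun ν ν' hν hν' => ?_, fun ν => ?_,
    fun ν r hr => ?_, fun ν ν' hν hν' g hg => ?_, fun ν ν' => ?_, fun ν hν => ?_, by omega, by tauto, hG, cJ,
    fun F hF F0 FP Fπ => ?_⟩
  · simp only [ip_add_left, ip_add_right, cc _ _ (r1 ν hν) (r1 ν' hν'), cc _ _ (r1 ν hν) (r2 ν' hν'),
      cc _ _ (r2 ν hν) (r1 ν' hν'), cc _ _ (r2 ν hν) (r2 ν' hν')]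
    have b1 : ∀ {f : ↥(K ⊔ zpowers t) →* ℂ},
        (∀ (x : ↥(K ⊔ zpowers t)) (hx : (x : G) ∈ K), f x = ν' ⟨x, hx⟩) →
        ∀ (x : ↥(K ⊔ zpowers t)) (hx : (x : G) ∈ K), lbar f x = lbar ν' ⟨x, hx⟩ :=
      fun h1 x hx => h1 x⁻¹ (inv_mem hx)
    have ne : ∀ {f f' : ↥(K ⊔ zpowers t) →* ℂ}, f ⟨t, h.tT⟩ = 1 → f' ⟨t, h.tT⟩ = -1 → f ≠ f' := by
      rintro f f' h1 h2 rfl; rw [h1] at h2; norm_num at h2
    rw [if_neg (ne (q1 ν) (q2 ν')), if_neg (ne (q1 ν) ((h.lbar_t _).trans (q2 ν'))),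
      if_neg (ne (q1 ν') (q2 ν)).symm, if_neg (ne ((h.lbar_t _).trans (q1 ν')) (q2 ν)).symm]
    simp only [res (p1 ν) (p1 ν') (by rw [q1, q1]), res (p2 ν) (p2 ν') (by rw [q2, q2]),
      res (p1 ν) (b1 (p1 ν')) (by rw [h.lbar_t, q1, q1]),
      res (p2 ν) (b1 (p2 ν')) (by rw [h.lbar_t, q2, q2])]
    ring
  · simp only [c, Pi.add_apply, Pi.sub_apply, Th_one, Pi.one_apply, ha]; push_cast; ring
  · have x1 : (⟨r, mem_sup_left r.2⟩ : ↥(K ⊔ zpowers t)) ≠ 1 := fun e =>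
      hr (Subtype.ext (congrArg (Subtype.val : ↥(K ⊔ zpowers t) → G) e))
    have i1 := cT (ν.comp h.pr) _ x1
    have i2 := cT (e * ν.comp h.pr) _ x1
    rw [p1 _ _ r.2, p1 _ _ (inv_mem r.2)] at i1
    rw [p2 _ _ r.2, p2 _ _ (inv_mem r.2)] at i2
    rw [Pi.add_apply]
    linear_combination i1 + i2
  · by_cases hA : InA (K ⊔ zpowers t) g
    · obtain ⟨-, x, hx⟩ := hA
      have := h.even_of_not hx (hg x)
      rw [show orderOf (x⁻¹ * g * x) = orderOf g by
        simpa using (MulAut.conj x⁻¹).orderOf_eq g] at this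
      rw [Pev ν g this, Pev ν' g this]
    · simp only [c, Pi.add_apply, Pi.sub_apply, Th_zero _ _ hA]
  · funext g
    have hk : (Nat.card K : ℂ) ≠ 0 := by exact_mod_cast (show Nat.card K ≠ 0 by omega)
    have : ∀ y : G, ext0 _ (1 - ⇑(ν.comp h.pr)) y + ext0 _ (1 - ⇑(e * ν.comp h.pr)) y -
        (ext0 _ (1 - ⇑(ν'.comp h.pr)) y + ext0 _ (1 - ⇑(e * ν'.comp h.pr)) y) =
        -2 * ext0 K (⇑ν - ⇑ν') y := fun y => by
      by_cases hy : y ∈ K ⊔ zpowers t
      · simp only [ext0_of_mem _ hy, Pi.sub_apply, Pi.one_apply]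
        by_cases hy' : y ∈ K
        · rw [ext0_of_mem _ hy', p1 ν ⟨y, hy⟩ hy', p2 ν ⟨y, hy⟩ hy', p1 ν' ⟨y, hy⟩ hy',
            p2 ν' ⟨y, hy⟩ hy', Pi.sub_apply]; ring
        · rw [ext0_of_not_mem _ hy', MonoidHom.mul_apply, MonoidHom.mul_apply, heT ⟨y, hy⟩ hy']; ring
      · simp only [ext0_of_not_mem _ hy, ext0_of_not_mem _ fun e => hy (mem_sup_left e)]; ring
    have e3 := sum_congr rfl fun x (_ : x ∈ univ) => this (x⁻¹ * g * x)
    simp only [sum_sub_distrib, sum_add_distrib, ← mul_sum] at e3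
    simp only [c, Pi.add_apply, Pi.sub_apply, Pi.neg_apply, Th, ind, h.cardT]
    push_cast
    linear_combination (2 * Nat.card K : ℂ)⁻¹ * e3
  · have t1 : (⟨t, h.tT⟩ : ↥(K ⊔ zpowers t)) ≠ 1 := fun e => h.t1 (congrArg Subtype.val e)
    have i : ∀ l, l ≠ lbar l → SJ (c l) * (-1 - ψ 1) = 4 * (q * k') ^ 2 := fun l hl => by
      have := (dec l hl).sc.SJ h.DD_conj
      have i1 : c l t = -(l ⟨t, h.tT⟩ + l (⟨t, h.tT⟩ : ↥(K ⊔ zpowers t))⁻¹) := cT l ⟨t, h.tT⟩ t1
      have i2 : l (⟨t, h.tT⟩ : ↥(K ⊔ zpowers t))⁻¹ = l ⟨t, h.tT⟩ := h.lbar_t l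
      have i3 : c l 1 = -1 - ψ 1 := by simp only [c, Pi.sub_apply, Th_one, Pi.one_apply, ha]; ring
      rw [cJ, i1, i2, i3] at this
      rcases h.lin_t l with e | e <;> rw [e] at this <;> push_cast at this <;>
        linear_combination this
    rw [SJ_add]; push_cast
    linear_combination i _ (r1 ν hν) + i _ (r2 ν hν)
  · have Fc : ∀ l, l ≠ lbar l → ip F (c l) = 0 := fun l hl => by
      let ν : K →* ℂ := l.comp (inclusion le_sup_left)
      have hν : ν ≠ 1 := fun e => hl (h.lin_ext (fun x hx => by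
        rw [show l x = ν ⟨x, hx⟩ from rfl, show lbar l x = ν ⟨x, hx⟩⁻¹ from rfl, e]; rfl)
        (h.lbar_t l).symm)
      have i1 := FP ν hν
      have i2 : ip F (c (ν.comp h.pr) - c (e * ν.comp h.pr)) = 0 :=
        ip_eq_zero_of_supp F0 (od ((cvc _).sub (cvc _)).isClass
          (fun g hg => by simp only [c, Pi.sub_apply, Th_zero _ _ hg, sub_self]) fun x hx => by
          simp only [c, Pi.sub_apply, h.Th_mem, p1 _ _ hx, p2 _ _ hx, p1 _ x⁻¹ (inv_mem hx),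
            p2 _ x⁻¹ (inv_mem hx), sub_self])
      rw [ip_add_right] at i1; rw [ip_sub_right] at i2
      rcases h.lin_t l with e2 | e2
      · rw [(res (ν' := ν) (fun _ _ => rfl) (p1 ν) (by rw [e2, q1])).2 rfl]
        linear_combination (i1 + i2) / 2
      · rw [(res (ν' := ν) (fun _ _ => rfl) (p2 ν) (by rw [e2, q2])).2 rfl]
        linear_combination (i1 - i2) / 2
    have E1 : ip (Th _ e) 1 = 1 := ip_Th_const _ e1 (isClass_const 1) 1 fun _ _ _ => rfl
    have EE : ip (Th _ e) (Th _ e) = 4 := by rw [h.ip_Th_Th e1 e1, if_pos rfl, if_pos he]; norm_num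
    obtain ⟨m, hm⟩ := vc_Th _ e
    have c1 : ∀ j, ip (Th _ e) (chi j) = m j := fun j => by
      rw [hm]; exact ip_sum_smul_chi (fun i => (m i : ℂ)) j
    have mm : ∑ i, m i * m i = 4 := by
      have := ip_sum_sum (fun i => (m i : ℂ)) (fun i => (m i : ℂ))
      rw [← hm, EE] at this; exact_mod_cast this.symm
    have mt : m (triv G) = 1 := by
      have := c1 (triv G); rw [chi_triv, E1] at this; exact_mod_cast this.symm
    have key : ∀ j, ip F (chi j) = m j * ip F 1 := fun j => by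
      by_cases hj : j = triv G
      · rw [hj, mt, chi_triv]; simp
      have sj : SI (chi j) := ⟨j, Or.inl rfl⟩
      by_cases hc : ∃ l, l ≠ lbar l ∧ ip (c l) (chi j) ≠ 0
      · obtain ⟨l, hl, hc⟩ := hc
        rw [← c1]
        rcases ((dec l hl).sc.cases sj).resolve_left hc with e2 | e2 <;> rw [e2]
        · rw [Fc l hl, ip_comm (Th _ e), (dec l hl).cE, zero_mul]
        · rw [ip_neg_right, ip_neg_right, Fc l hl, ip_comm (Th _ e), (dec l hl).cE]; simp
      push Not at hc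
      have j1 : ip (chi j) 1 = 0 := by rw [← chi_triv, ip_chi_chi, if_neg hj]
      have hπ : IsVChar (chi j - (m j : ℂ) • 1) := (isVChar_chi j).sub (isVChar_one.zsmul _)
      have := Fπ _ hπ (ev hπ.isClass fun x hx => ?_) ?_ fun ν hν => ?_
      · rw [ip_sub_right, ip_smul_right] at this; linear_combination this
      · have x1 : (x : G) ≠ 1 := fun e => hx (e ▸ K.one_mem)
        obtain ⟨l, hl⟩ := h.exists_nonreal hK
        rcases hs.cases sj with e2 | e2 | e2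
        · have := val_zero_of_ip _ (fun a b => Subtype.ext (h.Tcomm a.2 b.2))
            ((isClass_chi j).sub (IsClass.smul (m j) ((IsClass.smul (1 / 2) (vc_Th _ e).isClass).sub
              (isClass_const 1)))) (fun l l1 => ?_) x.2 x1
          · simp only [Pi.sub_apply, Pi.smul_apply, smul_eq_mul, h.Th_mem, heT x hx,
              heT x⁻¹ (fun e => hx (inv_mem_iff.1 e)), Pi.one_apply] at this ⊢
            linear_combination this
          · have L1 : ip (Th _ l) (fun _ => 1) = 1 := ip_Th_const _ l1 (isClass_const 1) 1 fun _ _ _ => rfl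
            rw [ip_sub_right, ip_smul_right, ip_sub_right, ip_smul_right, L1]
            by_cases hl : l = lbar l
            · rw [(h.real_eq heK het hl).resolve_left l1, c1, EE]; ring
            · rw [h.ip_Th_Th l1 e1, ← he, if_neg (by rintro rfl; exact hl he), (dec l hl).eq,
                ip_add_left, ip_add_left, hc l hl, e2, ip_comm, j1]; ring
        · rw [← c1, e2, ip_comm, (dec l hl).aE]; simp [aT x x.2 x1]
        · rw [← c1, e2, ip_neg_right, ip_comm, (dec l hl).aE]; simp [aT x x.2 x1]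
      · have b := sum_le_sum_of_subset_of_nonneg (f := fun i => m i * m i) (subset_univ {triv G, j})
          fun i _ _ => mul_self_nonneg _
        rw [mm, sum_pair (Ne.symm hj), mt] at b
        have : m j = 0 ∨ m j = 1 ∨ m j = -1 := by
          have : -2 < m j := by nlinarith
          have : m j < 2 := by nlinarith
          omega
        simp only [ip_sub_left, ip_sub_right, ip_smul_left, ip_smul_right, sj.norm, j1, ip_comm 1 (chi j),
          ip_one_one]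
        rcases this with e | e | e <;> rw [e] <;> norm_num
      · simp only [ip_sub_left, ip_add_right, ip_smul_left, ip_comm (chi j), hc _ (r1 ν hν),
          hc _ (r2 ν hν), ip_comm 1, (dec _ (r1 ν hν)).c1, (dec _ (r2 ν hν)).c1]; ring
    have z := ip_eq_zero_of_supp F0 (od (vc_Th _ e).isClass (fun g hg => Th_zero _ _ hg) fun x hx => by
      rw [h.Th_mem, heK x hx, heK x⁻¹ (inv_mem hx)]; ring)
    rw [hF.ip_eq_sum] at z
    simp only [key, c1] at z
    have : ip F 1 = 0 := by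
      have e4 : ∑ i, (m i : ℂ) * m i = 4 := by exact_mod_cast mm
      have : ip F 1 * ∑ i, (m i : ℂ) * m i = 0 := by
        rw [mul_sum, ← z]; exact sum_congr rfl fun i _ => by ring
      rw [e4] at this; linear_combination this / 4
    exact hF.eq_zero_of_ip fun j => by rw [key, this, mul_zero]

end VK

end Cfsg.Agent.Lib.AG
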