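/-
A-groups project (S2554): vocabulary for the Ree type configuration `C(t) = ⟨t⟩ × L₂(q)`.
-/
import Cfsg.Agent.Lib.AG.Defs1

set_option autoImplicit false

namespace Cfsg.Agent.Lib.AG

open Subgroup

variable {G : Type*} [Group G]

/-- `C(t) = ⟨t⟩ × L`, `L ≅ L₂(q)`; `E = ⟨t, u⟩`, `K = O(C(E))`, `C(E) = E K ⟨c⟩`, `w` of order 3
permutes `t → u → tu` and centralises `c`; `Q D` is a Borel subgroup of `L`; `|L| = 4 k q n`. -/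
structure RZ (t u c w : G) (L K Q D : Subgroup G) (p q n : ℕ) : Prop where
  ag : AG G
  simple : IsSimpleGroup G
  n16 : ¬ 16 ∣ Nat.card G
  tt : t * t = 1
  t1 : t ≠ 1
  conj : ∀ e : G, e * e = 1 → e ≠ 1 → IsConj t e
  tL : t ∉ L
  Lt : ∀ g ∈ L, t * g = g * t
  cent : ∀ g : G, t * g = g * t → g ∈ L ∨ t * g ∈ L
  uL : u ∈ L
  KL : K ≤ L
  K1 : K ≠ ⊥
  cyc : IsCyclic K
  vs : ∃ s v : L, VS (⟨u, uL⟩ : L) s v (K.subgroupOf L) ∧ (c = s ∨ c = t * s)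
  w3 : w ^ 3 = 1
  wt : w * t * w⁻¹ = u
  wu : w * u * w⁻¹ = t * u
  wc : w * c = c * w
  prime : p.Prime
  QL : Q ≤ L
  DL : D ≤ L
  expQ : ∀ x ∈ Q, x ^ p = 1
  cardQ : Nat.card Q = q
  q11 : 11 ≤ q
  cardL : Nat.card L = 4 * Nat.card K * q * n
  centQ : ∀ x ∈ Q, x ≠ 1 → ∀ g ∈ L, x * g = g * x → g ∈ Q
  tiQ : ∀ g ∈ L, ∀ x ∈ Q, x ≠ 1 → g * x * g⁻¹ ∈ Q → g ∈ Q ⊔ D
  normD : D ≤ normalizer (Q : Set G)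
  cardD : 2 * Nat.card D + 1 = q
  maxQD : ∀ M : Subgroup G, Q ⊔ D ≤ M → M ≤ L → M = Q ⊔ D ∨ M = L
  eps : (q = 4 * Nat.card K + 1 ∧ q + 1 = 2 * n ∧ D = K ⊔ zpowers u) ∨
    (q + 1 = 4 * Nat.card K ∧ q = 2 * n + 1 ∧ ∀ d ∈ D, u * d * u = d⁻¹)
  tor : ∀ z ∈ L, z ≠ 1 → (orderOf z).Coprime (2 * Nat.card K * p) →
    Nat.card ↥(L ⊓ centralizer {z}) = n ∧ ∃ i ∈ L, i * i = 1 ∧ i ≠ 1 ∧ i * z * i = z⁻¹

end Cfsg.Agent.Lib.AG
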