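/-
A-groups project (S2554), part II: the order formula `|G| = 4 k q³ χ(1)`.
-/
import Cfsg.Agent.Lib.AG.ChG
import Cfsg.Agent.Lib.AG.ChL
import Cfsg.Agent.Lib.AG.Defs2

set_option autoImplicit false
set_option linter.unusedSectionVars false

namespace Cfsg.Agent.Lib.AG

open Subgroup Cfsg.Agent.Lib Cfsg.Agent.Lib.Char Cfsg.Agent.Lib.Char.Pair Finset

namespace CH

variable {G L : Type*} [Group G] [Fintype G] [Group L] [Fintype L]

theorem ip_odd {P F F' : L → ℂ} (hP : ∀ g, 2 ∣ orderOf g → P g = 0)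
    (hF : ∀ g, ¬ 2 ∣ orderOf g → F g = F' g) : ip P F = ip P F' := by
  unfold ip
  congr 1
  refine sum_congr rfl fun g _ => ?_
  by_cases e : 2 ∣ orderOf g
  · rw [hP g e, zero_mul, zero_mul]
  · rw [hF _ (by rwa [orderOf_inv])]

theorem TL.main {t : G} {ι : L →* G} (h : TL t ι) (hc : ∀ a ∈ DD 2 G, IsConj t a)
    {K : Subgroup L} {P : (K →* ℂ) → L → ℂ} {y : ℤ} {q k' : ℕ} (c : CHL K P y q k')
    (hr : ∀ ν : K →* ℂ, ν ≠ 1 → ν ≠ lbar ν) {a b e : K →* ℂ} (a1 : a ≠ 1) (b1 : b ≠ 1)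
    (e1 : e ≠ 1) (ab : ip (P a) (P b) = 0) (ae : ip (P a) (P e) = 0) (be : ip (P b) (P e) = 0)
    (pab : ∀ i, ∃ n : ℤ, ip (P a - P b) (fun l => chi i (t * ι l)) = 2 * n)
    (pbe : ∀ i, ∃ n : ℤ, ip (P b - P e) (fun l => chi i (t * ι l)) = 2 * n) :
    ∃ i : Irr G, q ^ 2 * deg i = 2 * #(DD 2 G) * k' := by
  classical
  obtain ⟨D, Dv, Dc, D1, Dip, Dval⟩ := h.exists_D
  have nP : ∀ ν ≠ 1, ip (P ν) (P ν) = 2 := fun ν hν => by
    rw [c.gram ν ν hν hν, if_pos rfl, if_neg (hr ν hν)]; norm_num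
  have co : ∀ π, IsVChar π → ∃ m : Irr G → ℤ, (∀ i, ip (D π) (chi i) = m i) ∧
      (∀ i, ip π (fun l => chi i (t * ι l)) = m i) ∧ ∑ i, m i * deg i = 0 := fun π hπ => by
    obtain ⟨m, hm⟩ := exists_int (Dv π hπ)
    refine ⟨m, hm, fun i => by rw [← hm, Dip _ _ (isClass_chi i)], ?_⟩
    exact_mod_cast (one_int_sum (Dc π) hm).symm.trans (D1 π)
  have gr : ∀ {π π' : L → ℂ} {m m' : Irr G → ℤ} (N : ℤ), IsVChar π' →
      (∀ g, 2 ∣ orderOf g → π g = 0) → (∀ g, 2 ∣ orderOf g → π' g = 0) →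
      (∀ i, ip (D π) (chi i) = m i) → (∀ i, ip (D π') (chi i) = m' i) → ip π π' = N →
      ∑ i, m i * m' i = 2 * N := by
    intro π π' m m' N v' e e' hm hm' hN
    have := ip_int_sum (Dc π) hm hm'
    rw [Dip _ _ (Dc π'), ip_odd (F' := (2 : ℂ) • π') e fun g hg => Dval π' v'.isClass e' g hg,
      ip_smul_right, hN] at this
    exact_mod_cast this.symm
  obtain ⟨d, d1, d2, d3⟩ := co _ (c.vc a)
  obtain ⟨f, f1, f2, f3⟩ := co _ (c.vc b)
  obtain ⟨g, g1, g2, g3⟩ := co _ (c.vc e)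
  have ea := c.even a a1
  have eb := c.even b b1
  have ee := c.even e e1
  have dd := gr 2 (c.vc a) ea ea d1 d1 (nP a a1)
  have ff := gr 2 (c.vc b) eb eb f1 f1 (nP b b1)
  have gg := gr 2 (c.vc e) ee ee g1 g1 (nP e e1)
  have df := gr 0 (c.vc b) ea eb d1 f1 (by rw [ab]; simp)
  have dg := gr 0 (c.vc e) ea ee d1 g1 (by rw [ae]; simp)
  have fg := gr 0 (c.vc e) eb ee f1 g1 (by rw [be]; simp)
  have p1 : ∀ i, 2 ∣ d i - f i := fun i => by
    obtain ⟨n, hn⟩ := pab i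
    rw [ip_sub_left, d2, f2] at hn
    exact ⟨n, by exact_mod_cast hn⟩
  have p2 : ∀ i, 2 ∣ d i - g i := fun i => by
    obtain ⟨n, hn⟩ := pbe i
    rw [ip_sub_left, f2, g2] at hn
    have : f i - g i = 2 * n := by exact_mod_cast hn
    have := p1 i
    omega
  obtain ⟨i0, ω, hω, hx, h8, key⟩ := had3 deg_pos dd d3 ff f3 gg g3 df dg fg p1 p2
  have val : ∀ i, d i ≠ 0 → chi i t = y * (d i + f i + g i : ℤ) := fun i hi => by
    let T : L → ℂ := fun l => if 2 ∣ orderOf l then 0 else chi i (t * ι l)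
    have k2 : ∀ π, IsVChar π → (∀ g, 2 ∣ orderOf g → π g = 0) → ∀ N u v w : ℤ, N ≤ 2 →
        ip π π = N → ip (P a) π = (2 * u : ℤ) → ip (P b) π = (2 * v : ℤ) →
        ip (P e) π = (2 * w : ℤ) →
        ip (T - ((d i : ℂ) / 2) • P a - ((f i : ℂ) / 2) • P b - ((g i : ℂ) / 2) • P e) π = 0 := by
      intro π vπ eπ N u v w N2 hN hu hv hw
      obtain ⟨m, m1, m2, m3⟩ := co π vπ
      have mm := gr N vπ eπ eπ m1 m1 hN
      have dm := gr _ vπ ea eπ d1 m1 hu
      have fm := gr _ vπ eb eπ f1 m1 hv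
      have gm := gr _ vπ ee eπ g1 m1 hw
      have ex : ∀ z : Irr G → ℤ, ∑ j, (m j - u * d j - v * f j - w * g j) * z j =
          ∑ j, z j * m j - u * ∑ j, d j * z j - v * ∑ j, f j * z j - w * ∑ j, g j * z j :=
        fun z => by
          simp only [mul_sum, ← sum_sub_distrib]; exact sum_congr rfl fun j _ => by ring
      have cm : ∀ z z' : Irr G → ℤ, ∑ j, z j * z' j = ∑ j, z' j * z j := fun z z' =>
        sum_congr rfl fun j _ => mul_comm _ _
      have o1 := ex d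
      have o2 := ex f
      have o3 := ex g
      rw [dm, dd, cm f, df, cm g, dg] at o1
      rw [fm, df, ff, cm g, fg] at o2
      rw [gm, dg, fg, gg] at o3
      have o4 := ex m
      rw [mm, dm, fm, gm] at o4
      have := key (fun j => m j - u * d j - v * f j - w * g j) (by
        rw [ex, cm d, cm f, cm g, o1, o2, o3, o4]
        nlinarith [mul_self_nonneg u, mul_self_nonneg v, mul_self_nonneg w])
        (by rw [ex, cm _ m, m3, d3, f3, g3]; ring) (by rw [o1]; ring) (by rw [o2]; ring)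
        (by rw [o3]; ring) i hi
      have e2 : (m i : ℂ) = u * d i + v * f i + w * g i := by
        exact_mod_cast (by linarith : m i = u * d i + v * f i + w * g i)
      rw [ip_sub_left, ip_sub_left, ip_sub_left, ip_smul_left, ip_smul_left, ip_smul_left, hu, hv,
        hw, ip_comm, ip_odd eπ fun l hl => if_neg hl, m2, e2]
      push_cast; ring
    have gi : ∀ ν ν', ν ≠ 1 → ν' ≠ 1 → ∃ u : ℤ, ip (P ν) (P ν') = (2 * u : ℤ) := fun ν ν' h1 h2 =>
      ⟨(if ν = ν' then 1 else 0) + (if ν = lbar ν' then 1 else 0), by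
        rw [c.gram ν ν' h1 h2]; push_cast; rfl⟩
    have := congrFun (c.span _ ((((show IsClass T from fun l m => ?_).sub
      ((c.vc a).isClass.smul _)).sub ((c.vc b).isClass.smul _)).sub
      ((c.vc e).isClass.smul _)) (fun l hl => by simp [T, hl, ea l hl, eb l hl, ee l hl])
      (fun ν hν => by
        obtain ⟨u, hu⟩ := gi a ν a1 hν
        obtain ⟨v, hv⟩ := gi b ν b1 hν
        obtain ⟨w, hw⟩ := gi e ν e1 hν
        exact k2 _ (c.vc ν) (c.even ν hν) 2 u v w le_rfl (nP ν hν) hu hv hw)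
      fun π vπ eπ hN ho => by
        have z : ∀ ν ≠ 1, ip (P ν) π = (2 * 0 : ℤ) := fun ν hν => by rw [ip_comm, ho ν hν]; simp
        rcases hN with hN | hN
        · exact k2 π vπ eπ 1 0 0 0 (by norm_num) (by rw [hN]; simp) (z a a1) (z b b1) (z e e1)
        · exact k2 π vπ eπ 2 0 0 0 le_rfl hN (z a a1) (z b b1) (z e e1)) 1
    · simp only [T, Pi.sub_apply, Pi.smul_apply, c.one, orderOf_one,
        map_one, mul_one, smul_eq_mul, Pi.zero_apply] at this
      rw [if_neg (by norm_num)] at this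
      push_cast; linear_combination this
    · simp only [T]
      rw [show m * l * m⁻¹ = MulAut.conj m l from rfl, MulEquiv.orderOf_eq]
      exact if_congr Iff.rfl rfl (h.isClass_t (isClass_chi i) l m)
  have s1 := SJ_sum (Dc (P a)) hc
  rw [sum_congr rfl (g := fun i => (y : ℂ) ^ 2 / deg i0 * (d i * (d i + f i + g i) ^ 2 : ℤ))
    fun i _ => by
      rw [d1]
      by_cases hi : d i = 0
      · simp [hi]
      · rw [val i hi, hx i hi]; push_cast; ring, ← mul_sum, ← Int.cast_sum, h8, SJ_eq,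
    Dip _ _ isClass_nn, ip_odd (F' := (2 : ℂ) • nn) ea fun l hl => h.nn_eq hl, ip_smul_right,
    ← h.card_DD hc] at s1
  have s2 := c.sj a a1
  rw [SJ_eq] at s2
  have N0 : (#(DD 2 G) : ℂ) ≠ 0 := by
    intro e0
    have := h.card_DD hc
    rw [Nat.cast_eq_zero.1 e0, zero_mul] at this
    exact Fintype.card_ne_zero this.symm
  have k0 : (k' : ℂ) ≠ 0 := by
    have := c.num
    exact_mod_cast (by omega : k' ≠ 0)
  have x0 := deg_ne_zero i0
  have s3 : (4 * q ^ 2 * k' ^ 2 * deg i0 : ℂ) = #(DD 2 G) * y ^ 3 * ω := by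
    refine mul_left_cancel₀ (mul_ne_zero N0 (by norm_num : (8 : ℂ) ≠ 0)) ?_
    push_cast at s1
    field_simp at s1
    linear_combination (deg i0 : ℂ) * (-4) * #(DD 2 G) * s2 + #(DD 2 G) * y * s1
  refine ⟨i0, ?_⟩
  have s4 : (q ^ 2 * deg i0 : ℤ) = 2 * #(DD 2 G) * k' ∨ (q ^ 2 * deg i0 : ℤ) = -(2 * #(DD 2 G) * k') := by
    have k4 : (4 * k' ^ 2 : ℂ) ≠ 0 := mul_ne_zero (by norm_num) (pow_ne_zero 2 k0)
    rcases c.hy with e | e <;> rcases hω with rfl | rfl <;> rw [e] at s3 <;> push_cast at s3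
    · left; exact_mod_cast mul_left_cancel₀ k4 (show _ * (q ^ 2 * deg i0 : ℂ) = _ * (2 * #(DD 2 G) * k') by linear_combination s3)
    · right; exact_mod_cast mul_left_cancel₀ k4 (show _ * (q ^ 2 * deg i0 : ℂ) = _ * -(2 * #(DD 2 G) * k') by linear_combination s3)
    · right; exact_mod_cast mul_left_cancel₀ k4 (show _ * (q ^ 2 * deg i0 : ℂ) = _ * -(2 * #(DD 2 G) * k') by linear_combination s3)
    · left; exact_mod_cast mul_left_cancel₀ k4 (show _ * (q ^ 2 * deg i0 : ℂ) = _ * (2 * #(DD 2 G) * k') by linear_combination s3)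
  zify
  rcases s4 with s4 | s4
  · exact s4
  · have : (0 : ℤ) ≤ q ^ 2 * deg i0 := by positivity
    have : (0 : ℤ) ≤ 2 * #(DD 2 G) * k' := by positivity
    omega

theorem lin_fix {A : Type*} [Group A] [Finite A] {β : A →* A} (hβ : ∀ r, β r = r → r = 1)
    {ν : A →* ℂ} (h : ∀ r, ν (β r) = ν r) : ν = 1 := by
  have hinj : Function.Injective fun u => u⁻¹ * β u := fun u v huv => by
    have h2 : u⁻¹ * β u = v⁻¹ * β v := huv
    refine mul_inv_eq_one.1 (hβ _ ?_)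
    rw [map_mul, map_inv, mul_inv_eq_iff_eq_mul, mul_assoc, ← h2, mul_inv_cancel_left]
  ext w
  obtain ⟨u, rfl⟩ := Finite.surjective_of_injective hinj w
  change ν (u⁻¹ * β u) = 1
  rw [map_mul, h, ← map_mul, inv_mul_cancel, map_one]

theorem TL.order {t : G} {ι : L →* G} (h : TL t ι) (hc : ∀ a ∈ DD 2 G, IsConj t a)
    {u s v : L} {K : Subgroup L} (hv : VS u s v K) (hK : K ≠ ⊥) {x : G} {α : K ≃* K}
    (xt : x * t * x⁻¹ = ι u) (xr : ∀ r : K, x * ι r * x⁻¹ = ι (α r))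
    (a3 : ∀ r, α (α (α r)) = r) (hα : ∀ r, α r = r → r = 1) :
    ∃ (q k' : ℕ) (i : Irr G), ((q = 4 * Nat.card K + 1 ∧ k' = 2 * Nat.card K + 1) ∨
      (q + 1 = 4 * Nat.card K ∧ k' + 1 = 2 * Nat.card K)) ∧
      Nat.card L = 4 * Nat.card K * k' * q ∧ Nat.card G = 4 * Nat.card K * q ^ 3 * deg i := by
  classical
  have := Fintype.ofFinite K
  obtain ⟨P, y, q, k', c⟩ := hv.chl hK
  have hT : ∀ a b : K, a * b = b * a := fun a b => Subtype.ext (hv.Kcomm a.2 b.2)
  have hr : ∀ ν : K →* ℂ, ν ≠ 1 → ν ≠ lbar ν := fun ν h1 e => h1 (lin_fix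
    (β := MonoidHom.mk' (fun r => r⁻¹) fun a b => by rw [mul_inv_rev, hT])
    (fun r hr => Subtype.ext (hv.K_sq r.2 (congrArg Subtype.val (inv_eq_iff_mul_eq_one.1 hr))))
    fun r => (DFunLike.congr_fun e r).symm)
  have st : ∀ ν : K →* ℂ, ν ≠ 1 → ν.comp α.toMonoidHom ≠ 1 ∧
      ip (P ν) (P (ν.comp α.toMonoidHom)) = 0 ∧
      ∀ i, ∃ n : ℤ, ip (P ν - P (ν.comp α.toMonoidHom)) (fun l => chi i (t * ι l)) = 2 * n := by
    intro ν h1
    have h2 : ν.comp α.toMonoidHom ≠ 1 := fun e => h1 (MonoidHom.ext fun r => by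
      rw [← a3 r]; exact DFunLike.congr_fun e _)
    refine ⟨h2, ?_, fun i => ?_⟩
    · rw [c.gram _ _ h1 h2, if_neg fun e => h1 (lin_fix (β := α.toMonoidHom) hα fun r =>
        (DFunLike.congr_fun e r).symm), if_neg fun e => h1 (lin_fix
          (β := α.toMonoidHom.comp α.toMonoidHom) (fun r hr => hα r ?_) fun r => ?_)]
      · simp
      · exact (congrArg α hr).symm.trans (a3 r)
      · have e' : ∀ r, ν r = ν (α r⁻¹) := DFunLike.congr_fun e
        rw [e' r, e' (α r⁻¹), map_inv α r, inv_inv]; rfl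
    · obtain ⟨n, hn⟩ := h.parity hv.tt (fun r => hv.Kt r r.2) xt xr ν i
      exact ⟨-n, by
        rw [c.diff, ip_neg_left, ip_ind _ _ (h.isClass_t (isClass_chi i))]
        push_cast; rw [mul_neg, ← hn]; rfl⟩
  obtain ⟨ν, h1⟩ : ∃ ν : K →* ℂ, ν ≠ 1 := by
    by_contra! hn
    obtain ⟨r, hr, r1⟩ := (bot_or_exists_ne_one K).resolve_left hK
    have s0 := sum_deg_mul_chi (G := K) ⟨r, hr⟩
    rw [if_neg (fun e => r1 (congrArg Subtype.val e)), sum_congr rfl fun i _ => by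
      rw [deg_eq_one_of_comm hT, show chi i _ = 1 from
        DFunLike.congr_fun (hn (linOf (deg_eq_one_of_comm hT i))) _]] at s0
    have : Nonempty (Irr K) := ⟨triv _⟩
    simp at s0
  obtain ⟨h2, o1, p1⟩ := st ν h1
  obtain ⟨h3, o2, p2⟩ := st _ h2
  obtain ⟨-, o3, -⟩ := st _ h3
  rw [show ((ν.comp α.toMonoidHom).comp α.toMonoidHom).comp α.toMonoidHom = ν from
    MonoidHom.ext fun r => congrArg ν (a3 r), ip_comm] at o3
  obtain ⟨i, hi⟩ := h.main hc c hr h1 h2 h3 o1 o3 o2 p1 p2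
  refine ⟨q, k', i, c.num, c.card, ?_⟩
  rw [Nat.card_eq_fintype_card, ← h.card_DD hc, ← Nat.card_eq_fintype_card, c.card, mul_assoc _ _
    (deg i), pow_succ' q 2, mul_assoc q, hi]
  ring

end CH

open Cfsg.Agent.Lib.Core in
theorem RZ.ch {G : Type*} [Group G] [Finite G] {t u c w : G} {L K Q D : Subgroup G} {p q n : ℕ}
    (h : RZ t u c w L K Q D p q n) (hw : ∀ y ∈ K, w * y = y * w → y = 1) :
    ∃ χ : Irr G, Nat.card G = 4 * Nat.card K * q ^ 3 * deg χ := by
  have := Fintype.ofFinite G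
  have := Fintype.ofFinite L
  obtain ⟨s, v, hv, -⟩ := h.vs
  have hT : CH.TL t L.subtype := ⟨L.subtype_injective, h.tt, fun l => h.Lt l l.2,
    fun l e => h.tL (e ▸ l.2), fun g hg => (h.cent g hg).elim (fun e => ⟨⟨g, e⟩, .inl rfl⟩)
      fun e => ⟨⟨t * g, e⟩, .inr (by rw [coe_subtype, ← mul_assoc, h.tt, one_mul])⟩⟩
  have ck := card_subgroupOf h.KL
  obtain ⟨j, hj⟩ := hv.Kodd
  have hN : ∀ y ∈ K, w * y * w⁻¹ ∈ K := fun y hy => by
    have yL := h.KL hy
    have e1 : t * y = y * t := h.Lt y yL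
    have e2 : u * y = y * u := congrArg Subtype.val (hv.Kt ⟨y, yL⟩ hy)
    have e3 : (w * y * w⁻¹) ^ Nat.card (K.subgroupOf L) = 1 := by
      rw [conj_pow, show y ^ _ = 1 from congrArg Subtype.val (hv.powK (g := ⟨y, yL⟩) hy)]; simp
    have f1 : u * (w * y * w⁻¹) = w * y * w⁻¹ * u := by rw [← h.wt, conj_mul, conj_mul, e1]
    have f2 : t * u * (w * y * w⁻¹) = w * y * w⁻¹ * (t * u) := by
      rw [← h.wu, conj_mul, conj_mul, e2]
    generalize w * y * w⁻¹ = g at e3 f1 f2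
    have f3 : t * g = g * t := mul_right_cancel (b := u) (by
      rw [mul_assoc, ← f1, ← mul_assoc, f2, mul_assoc])
    rcases h.cent g f3 with gL | gL
    · have e4 : (⟨g, gL⟩ : L) ^ Nat.card (K.subgroupOf L) = 1 := Subtype.ext e3
      rcases hv.memH.1 (show (⟨u, h.uL⟩ : L) * ⟨g, gL⟩ = _ * _ from Subtype.ext f1) with e | e
      · exact (hv.memT.1 e).resolve_right fun e => hv.t1 ((hv.powT e).symm.trans e4)
      · rw [hj, pow_succ, pow_mul, pow_two, (hv.outer e).1, one_pow, one_mul] at e4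
        rw [show g = 1 from congrArg Subtype.val e4]; exact one_mem _
    · have := pow_mem gL (Nat.card (K.subgroupOf L))
      rw [Commute.mul_pow f3, e3, hj, pow_succ, pow_mul, pow_two, h.tt, one_pow, one_mul,
        mul_one] at this
      exact absurd this h.tL
  let f : K.subgroupOf L →* K.subgroupOf L := MonoidHom.mk'
    (fun r => ⟨⟨w * r * w⁻¹, h.KL (hN _ r.2)⟩, hN _ r.2⟩) fun a b =>
      Subtype.ext (Subtype.ext conj_mul.symm)
  have fi : Function.Injective f := fun a b e => Subtype.ext (Subtype.ext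
    ((MulAut.conj w).injective (congrArg (fun r : K.subgroupOf L => ((r : L) : G)) e)))
  obtain ⟨q', k', i, hn, hL, hG⟩ := hT.order (fun a ha => h.conj a (mem_DD2.1 ha).1 (mem_DD2.1 ha).2)
    hv (fun e => h.K1 (card_eq_one.1 (by rw [← ck, e, card_bot])))
    (α := MulEquiv.ofBijective f (Finite.injective_iff_bijective.1 fi)) h.wt (fun r => rfl)
    (fun r => Subtype.ext (Subtype.ext (by
      change w * (w * (w * r * w⁻¹) * w⁻¹) * w⁻¹ = r
      rw [show ∀ z : G, w * (w * (w * z * w⁻¹) * w⁻¹) * w⁻¹ = w ^ 3 * z * (w ^ 3)⁻¹ from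
        fun z => by simp [pow_succ, mul_assoc], h.w3]; simp)))
    fun r hr => Subtype.ext (Subtype.ext (hw _ r.2 (mul_inv_eq_iff_eq_mul.1
      (congrArg (fun r : K.subgroupOf L => ((r : L) : G)) hr))))
  rw [ck] at hn hL hG
  refine ⟨i, ?_⟩
  have k0 : 0 < 4 * Nat.card K := by have := Nat.card_pos (α := K); omega
  have e : k' * q' = q * n := Nat.eq_of_mul_eq_mul_left k0 (by
    rw [← mul_assoc, ← mul_assoc, ← hL, h.cardL])
  suffices q = q' by rw [this, hG]
  rcases hn with ⟨a, b⟩ | ⟨a, b⟩ <;> rcases h.eps with ⟨a', b', -⟩ | ⟨a', b', -⟩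
  · omega
  · exact absurd (e.trans (mul_comm q n)) (Nat.mul_lt_mul'' (by omega) (by omega)).ne'
  · exact absurd (e.trans (mul_comm q n)) (Nat.mul_lt_mul'' (by omega) (by omega)).ne
  · omega

end Cfsg.Agent.Lib.AG
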