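/-
A-groups project (S2554): first facts on the minimal counterexample.
-/
import Cfsg.Agent.Lib.AG.Defs1
import Cfsg.Agent.Lib.AG.Basic
import Cfsg.Agent.Lib.Transfer.Residual

set_option autoImplicit false

namespace Cfsg.Agent.Lib.AG

open Subgroup Cfsg.Agent.Lib.Core
open scoped commutatorElement

universe u

variable {G : Type u} [Group G] [Finite G] {S A : Subgroup G} (h : Cx S A)
include h

theorem Cx.A_le : A ≤ S := fun x hx => ((h.memA x).1 hx).1

theorem Cx.sq {x : G} (hx : x ∈ A) : x * x = 1 := ((h.memA x).1 hx).2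

theorem Cx.S_comm {x y : G} (hx : x ∈ S) (hy : y ∈ S) : x * y = y * x := h.ag.comm h.syl.isPGroup hx hy

theorem Cx.S_le_cent {U : Subgroup G} (hU : U ≤ S) : S ≤ centralizer (U : Set G) := h.ag.syl_le_centralizer h.syl hU

theorem Cx.A_two : IsPGroup 2 A := h.syl.isPGroup.to_le h.A_le

theorem Cx.norm_A : normalizer (S : Set G) ≤ normalizer (A : Set G) := fun g hg =>
  mem_normalizer_of_conj_mem fun x hx =>
    (h.memA _).2 ⟨conj_mem_of_mem_normalizer hg (h.A_le hx), by rw [conj_mul, h.sq hx]; simp⟩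

theorem Cx.exists_A : ∃ a ∈ A, a ≠ 1 := by
  have := h.rk
  exact (A.nontrivial_iff_exists_ne_one).1 (Finite.one_lt_card_iff_nontrivial.1 (by omega))

theorem Cx.perfect : commutator G = ⊤ := by
  have := h.simple
  refine (commutator_normal ⊤ ⊤).eq_bot_or_eq_top.resolve_left fun e => ?_
  have c : ∀ x y : G, x * y = y * x := fun x y =>
    commutatorElement_eq_one_iff_mul_comm.1 (mem_bot.1 (e.le (commutator_mem_commutator (mem_top x) (mem_top y))))
  obtain ⟨a, ha, a1⟩ := h.exists_A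
  have n : (zpowers a).Normal := ⟨fun x hx g => by rwa [c g x, mul_inv_cancel_right]⟩
  have e := n.eq_bot_or_eq_top.resolve_left (zpowers_ne_bot.2 a1)
  have h1 := card_le_of_le (e.ge.trans' le_top : A ≤ zpowers a)
  rw [Nat.card_zpowers, orderOf_eq_prime (p := 2) (by rw [pow_two, h.sq ha]) a1] at h1
  have := h.rk
  omega

theorem Cx.cent_N : S ⊓ centralizer (normalizer (S : Set G) : Set G) = ⊥ := by
  obtain ⟨P, rfl⟩ := h.syl.exists_sylow_top
  have := h.ag.isMulCommutative P.2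
  obtain ⟨-, h1, -⟩ := Transfer.commutator_sup_centralizer_of_abelian (A := (P : Subgroup G)) le_normalizer le_rfl
    (Transfer.coprime_card_sylow_relIndex P le_normalizer)
  rwa [← Transfer.commutator_inf_abelian_sylow, h.perfect, top_inf_eq, ← inf_assoc, inf_idem] at h1

/-- a complement of `S` in `N(S)` -/
theorem Cx.compl : ∃ Γ : Subgroup G, Γ ≤ normalizer (S : Set G) ∧ ¬ 2 ∣ Nat.card Γ ∧
    Γ ⊔ S = normalizer (S : Set G) ∧ S ⊓ centralizer (Γ : Set G) = ⊥ := by
  have h1 : ¬ 2 ∣ S.relIndex (normalizer (S : Set G)) :=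
    (h.syl.mono le_normalizer le_top).not_dvd_relIndex le_rfl
  obtain ⟨n, hn⟩ := IsPGroup.iff_card.1 h.syl.isPGroup
  obtain ⟨Γ, h2, -, h3, h4⟩ := exists_complement (le_normalizer (H := S)) le_rfl
    (hn ▸ Nat.Coprime.pow_left n ((Nat.Prime.coprime_iff_not_dvd Nat.prime_two).2 h1))
  refine ⟨Γ, h2, h4 ▸ h1, h3, eq_bot_iff.2 (le_trans ?_ h.cent_N.le)⟩
  rw [← h3, centralizer_sup]
  exact le_inf inf_le_left (le_inf inf_le_right (inf_le_left.trans (h.S_le_cent le_rfl)))

theorem Cx.fp {U : Subgroup G} (hU : U ≤ A) (hn : normalizer (S : Set G) ≤ normalizer (U : Set G)) :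
    ⁅U, normalizer (S : Set G)⁆ = U := by
  obtain ⟨Γ, h1, h2, -, h4⟩ := h.compl
  have := (coprimeAct_of_isPGroup_right h2 (h.A_two.to_le hU) (h1.trans hn)).inf_centralizer_sup_commutator
  rw [eq_bot_iff.2 ((inf_le_inf_right _ (hU.trans h.A_le)).trans h4.le), bot_sup_eq] at this
  exact le_antisymm (commutator_le_of_le_normalizer_left hn) (this.ge.trans (commutator_mono le_rfl h1))

theorem Cx.not_index_two {U U' : Subgroup G} (hU : U ≤ A) (h' : U' ≤ U)
    (hn : normalizer (S : Set G) ≤ normalizer (U : Set G))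
    (hn' : normalizer (S : Set G) ≤ normalizer (U' : Set G)) :
    Nat.card U ≠ 2 * Nat.card U' := fun e => by
  have i : (U'.subgroupOf U).index = 2 := by
    have := card_mul_relIndex h'
    rw [e, mul_comm] at this
    exact Nat.eq_of_mul_eq_mul_right Nat.card_pos this
  have : U ≤ U' := (h.fp hU hn).ge.trans (commutator_le.2 fun u hu n hN => by
    have m : n * u⁻¹ * n⁻¹ ∈ U := conj_mem_of_mem_normalizer (hn hN) (inv_mem hu)
    have := (mul_mem_iff_of_index_two i (a := ⟨u, hu⟩) (b := ⟨_, m⟩)).2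
      (by simpa only [mem_subgroupOf, inv_mem_iff] using (mem_normalizer_iff.1 (hn' hN) u⁻¹))
    rw [mem_subgroupOf] at this
    simpa [commutatorElement_def, mul_assoc] using this)
  have := card_le_of_le this
  have := Nat.card_pos (α := U')
  omega

theorem Cx.fuse {x y : G} (hx : x ∈ S) (hy : y ∈ S) (hc : IsConj x y) :
    ∃ g ∈ normalizer (S : Set G), g * x * g⁻¹ = y := by
  obtain ⟨P, rfl⟩ := h.syl.exists_sylow_top
  have := h.ag.isMulCommutative P.2
  obtain ⟨g, rfl⟩ := isConj_iff.1 hc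
  exact Transfer.control_of_abelian_sylow P x hx g hy

theorem Cx.se {M : Subgroup G} (hM : M ≠ ⊤) (h1 : normalizer (S : Set G) ≤ M)
    (h2 : ∀ a ∈ A, a ≠ 1 → centralizer {a} ≤ M) : False := by
  have hS : IsSyl 2 S M := h.syl.mono (le_normalizer.trans h1) le_top
  have k : ∀ t ∈ M, orderOf t = 2 → ∃ m ∈ M, m * t * m⁻¹ ∈ S := fun t ht t2 => by
    obtain ⟨m, hm, e⟩ := hS.exists_conj_le (isPGroup_zpowers (k := 1) (x := t)
      (by rw [pow_one, ← t2, pow_orderOf_eq_one])) (zpowers_le.2 ht)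
    exact ⟨m, hm, map_conj_le_iff.1 e t (mem_zpowers t)⟩
  obtain ⟨a, ha, a1⟩ := h.exists_A
  refine h.nse M (Invol.isStronglyEmbedded_iff.2 ⟨hM, ?_, fun g t ht t2 hg => ?_⟩)
  · exact even_iff_two_dvd.2 (orderOf_eq_prime (p := 2) (by rw [pow_two, h.sq ha]) a1 ▸
      orderOf_dvd_natCard M (hS.le (h.A_le ha)))
  obtain ⟨m, hm, e⟩ := k t ht t2
  obtain ⟨m', hm', e'⟩ := k _ hg (by rw [← t2]; exact (MulAut.conj g).orderOf_eq t)
  obtain ⟨n, hn, e2⟩ := h.fuse e e' (isConj_iff.2 ⟨m' * g * m⁻¹, by group⟩)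
  have tt : t * t = 1 := by rw [← pow_two, ← t2, pow_orderOf_eq_one]
  have := h2 (m * t * m⁻¹) ((h.memA _).2 ⟨e, by rw [conj_mul, tt]; simp⟩)
    (fun e => by simp at e; simp [e] at t2) (x := n⁻¹ * (m' * g * m⁻¹)) (mem_centralizer_singleton_iff.2 (by
      calc _ = n⁻¹ * (m' * (g * t * g⁻¹) * m'⁻¹) * (m' * g * m⁻¹) := by group
        _ = _ := by rw [← e2]; group))
  simpa [mul_assoc] using mul_mem (mul_mem (inv_mem hm') (mul_mem (h1 hn) this)) hm

theorem Cx.odd_pow {g : G} (hg : g ∈ normalizer (S : Set G)) :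
    ∃ m, Odd m ∧ g ^ m ∈ centralizer (S : Set G) := by
  obtain ⟨m, k, h1, h2⟩ := Transfer.exists_coprime_pow_pow_eq_one (p := 2) g
  exact ⟨m, Nat.coprime_two_right.1 h1, h.S_le_cent le_rfl (h.syl.le_of_le_normalizer' (isPGroup_zpowers h2) le_top
    (zpowers_le.2 (pow_mem hg m)) (mem_zpowers _))⟩

end Cfsg.Agent.Lib.AG
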