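/-
A-groups project (S2554): Bender's argument, general lemmas.
-/
import Cfsg.Agent.Lib.AG.Cx0
import Cfsg.Agent.Lib.AG.K4

set_option autoImplicit false

namespace Cfsg.Agent.Lib.AG.BI

open Subgroup Cfsg.Agent.Lib.Core
open scoped commutatorElement

universe u

variable {G : Type u} [Group G]

/-- the elements of `Y` inverted by `t` -/
def Iv (Y : Subgroup G) (t : G) : Subgroup G := closure {y | y ∈ Y ∧ t * y * t = y⁻¹}

theorem Iv_le (Y : Subgroup G) (t : G) : Iv Y t ≤ Y := (closure_le _).2 fun _ h => h.1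

theorem mem_Iv_of {Y : Subgroup G} {t y : G} (h1 : y ∈ Y) (h2 : t * y * t = y⁻¹) : y ∈ Iv Y t :=
  subset_closure ⟨h1, h2⟩

theorem Iv_mono {Y Z : Subgroup G} (h : Y ≤ Z) (t : G) : Iv Y t ≤ Iv Z t :=
  closure_mono fun _ hy => ⟨h hy.1, hy.2⟩

theorem inv_self {t : G} (ht : t * t = 1) : t⁻¹ = t := inv_eq_of_mul_eq_one_right ht

theorem inv_of_Iv {Y : Subgroup G} {t y : G} (hY : Y ≤ centralizer (Y : Set G)) (ht : t * t = 1)
    (h : y ∈ Iv Y t) : t * y * t = y⁻¹ := by
  induction h using closure_induction with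
  | mem x hx => exact hx.2
  | one => simpa using ht
  | mul x z hx hz h1 h2 =>
    have c : x * z = z * x := (hY (Iv_le Y t hz) x (Iv_le Y t hx))
    calc t * (x * z) * t = (t * x * t) * (t * z * t) := by
          rw [show t * x * t * (t * z * t) = t * x * (t * t) * z * t by group, ht]; group
      _ = (x * z)⁻¹ := by rw [h1, h2, c]; group
  | inv x hx h1 =>
    calc t * x⁻¹ * t = (t * x * t)⁻¹ := by rw [mul_inv_rev, mul_inv_rev, inv_self ht]; group
      _ = x⁻¹⁻¹ := by rw [h1]

theorem comm_mem_Iv {Y : Subgroup G} {t y : G} (ht : t * t = 1) (hn : t ∈ normalizer (Y : Set G))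
    (hy : y ∈ Y) : y⁻¹ * t * y * t ∈ Iv Y t := by
  refine mem_Iv_of ?_ ?_
  · have := conj_mem_of_mem_normalizer hn hy
    rw [inv_self ht] at this
    simpa [mul_assoc] using mul_mem (inv_mem hy) this
  · rw [show t * (y⁻¹ * t * y * t) * t = t * y⁻¹ * t * y * (t * t) by group, ht, mul_inv_rev,
      mul_inv_rev, mul_inv_rev, inv_self ht]; group

theorem le_cent_of_Iv {Y : Subgroup G} {t : G} (ht : t * t = 1) (hn : t ∈ normalizer (Y : Set G))
    (h : Iv Y t = ⊥) : Y ≤ centralizer {t} := fun y hy => by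
  have := mem_bot.1 (h.le (comm_mem_Iv ht hn hy))
  rw [mem_C]
  calc t * y = y * (y⁻¹ * t * y * t) * t⁻¹ := by group
    _ = y * t := by rw [this, inv_self ht, mul_one]

/-- odd subgroups inverted by `t` and normalised by `C(t)` -/
structure Dd (t : G) (D : Subgroup G) : Prop where
  odd : ¬ 2 ∣ Nat.card D
  inv : ∀ x ∈ D, t * x * t = x⁻¹
  norm : centralizer {t} ≤ normalizer (D : Set G)

/-- the largest member of `Dd t` -/
def Dm (t : G) : Subgroup G := sSup {D | Dd t D}

theorem Dd.le {t : G} {D : Subgroup G} (h : Dd t D) : D ≤ Dm t := le_sSup h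

theorem dd_bot (t : G) (ht : t * t = 1) : Dd t ⊥ :=
  ⟨by simp, fun x hx => by rw [mem_bot.1 hx]; simpa using ht,
    (normalizer_eq_top (⊥ : Subgroup G)).ge.trans' le_top⟩

theorem Dd.conj {t : G} {D : Subgroup G} (h : Dd t D) (g : G) :
    Dd (g * t * g⁻¹) (D.map (MulAut.conj g).toMonoidHom) where
  odd := by rw [card_map_conj]; exact h.odd
  inv := fun x hx => by
    have := h.inv _ (mem_map_conj.1 hx)
    calc g * t * g⁻¹ * x * (g * t * g⁻¹) = g * (t * (g⁻¹ * x * g) * t) * g⁻¹ := by group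
      _ = x⁻¹ := by rw [this]; group
  norm := by
    rw [← map_conj_centralizer_singleton, ← map_conj_normalizer]
    exact map_mono h.norm

variable [Finite G]

theorem eq_one_of_odd {X : Subgroup G} (hX : ¬ 2 ∣ Nat.card X) {x : G} (hx : x ∈ X)
    (h : x * x = 1) : x = 1 := by
  by_contra h1
  have := orderOf_eq_prime (p := 2) (by rw [pow_two, h]) h1
  exact hX (this ▸ orderOf_dvd_natCard X hx)

theorem mem_of_sq {X W : Subgroup G} (hX : ¬ 2 ∣ Nat.card X) {x : G} (hx : x ∈ X)
    (h : x * x ∈ W) : x ∈ W := by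
  have h1 : x ∈ zpowers (x ^ 2) := by
    rw [mem_zpowers_pow_iff]
    exact (Nat.coprime_two_left.2 (Nat.odd_iff.2 (Nat.two_dvd_ne_zero.1 fun h2 =>
      hX (h2.trans (orderOf_dvd_natCard X hx)))))
  exact zpowers_le.2 (by rw [pow_two]; exact h) h1

theorem dd_Iv {Y : Subgroup G} {t : G} (hY : Y ≤ centralizer (Y : Set G)) (ht : t * t = 1)
    (ho : ¬ 2 ∣ Nat.card Y) (hn : centralizer {t} ≤ normalizer (Y : Set G)) : Dd t (Iv Y t) where
  odd := not_dvd_card_of_le ho (Iv_le Y t)
  inv := fun _ hx => inv_of_Iv hY ht hx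
  norm := fun g hg => mem_normalizer_of_conj_mem fun x hx => by
    refine mem_Iv_of (conj_mem_of_mem_normalizer (hn hg) (Iv_le Y t hx)) ?_
    have c := mem_C.1 hg
    have c' : g⁻¹ * t = t * g⁻¹ := by
      calc g⁻¹ * t = g⁻¹ * (t * g) * g⁻¹ := by group
        _ = t * g⁻¹ := by rw [c]; group
    calc t * (g * x * g⁻¹) * t = (t * g) * x * (g⁻¹ * t) := by group
      _ = g * (t * x * t) * g⁻¹ := by rw [c, c']; group
      _ = (g * x * g⁻¹)⁻¹ := by rw [inv_of_Iv hY ht hx]; group

theorem Dd.not_cent {t : G} {D : Subgroup G} (h : Dd t D) (ht : t * t = 1) (h1 : D ≠ ⊥) :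
    ¬ D ≤ centralizer {t} := fun hc => h1 (eq_bot_iff.2 fun x hx => mem_bot.2 (by
  refine eq_one_of_odd h.odd hx ?_
  have e := h.inv x hx
  rw [mem_C.1 (hc hx), mul_assoc, ht, mul_one] at e
  exact mul_eq_one_iff_eq_inv.2 e))

/-- an odd `C(a)`-invariant subgroup not centralised by `a` makes `a` bad -/
theorem Dm_ne_bot (hA : AG G) {X : Subgroup G} {a : G} (ha : a * a = 1) (hX : ¬ 2 ∣ Nat.card X)
    (hn : centralizer {a} ≤ normalizer (X : Set G)) (hc : ¬ X ≤ centralizer {a}) : Dm a ≠ ⊥ := by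
  intro h0
  have aC : a ∈ centralizer ({a} : Set G) := mem_C.2 rfl
  have hF := dd_Iv (hA.fitting_le_centralizer X) ha (not_dvd_card_of_le hX (fittingOf_le X))
    (le_normalizer_fittingOf hn)
  have h1 : fittingOf X ≤ centralizer {a} :=
    le_cent_of_Iv ha (le_normalizer_fittingOf hn aC) (le_bot_iff.1 (hF.le.trans h0.le))
  have hz : zpowers a ≤ normalizer (X : Set G) := zpowers_le.2 (hn aC)
  have act : CoprimeAct (zpowers a) X :=
    coprimeAct_of_isPGroup_left (p := 2) (isPGroup_zpowers (k := 1) (by simpa [pow_two] using ha)) hX hz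
  refine hc ?_
  rw [← centralizer_zpowers] at h1 ⊢
  refine act.le_centralizer (le_trans ?_ h1)
  refine le_trans (le_inf (commutator_le_of_le_normalizer_left hz) ?_)
    (inf_centralizer_fittingOf_le_of_isSolvable (solv_of_odd hX))
  exact (commutator_mono le_rfl (le_centralizer_iff.1 h1)).trans
    (commutator_le_of_le_normalizer_right (le_normalizer_centralizer
      (le_normalizer_fittingOf le_normalizer)))

theorem nil_comm (hA : AG G) {X Y : Subgroup G} (hX : Group.IsNilpotent X) (hY : Group.IsNilpotent Y)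
    (h1 : X ≤ normalizer (Y : Set G)) (h2 : Y ≤ normalizer (X : Set G)) :
    X ≤ centralizer (Y : Set G) :=
  (le_sup_left.trans (hA.nilpotent_le_centralizer (isNilpotent_sup hX hY h1 h2))).trans
    (centralizer_le_centralizer le_sup_right)

theorem Fs_le (hA : AG G) {M X : Subgroup G} (h : X ≤ fittingOf M) :
    FstarOf M ≤ centralizer (X : Set G) := by
  refine le_trans ?_ (centralizer_le_centralizer h)
  rw [FstarOf_eq]
  exact sup_le (le_centralizer_iff.1 (fittingOf_le_centralizer_EOf M)) (hA.fitting_le_centralizer M)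

theorem U2 (hA : AG G) {M Y : Subgroup G} (hYM : Y ≤ M) (hY : Group.IsNilpotent Y)
    (hn : FstarOf M ≤ normalizer (Y : Set G)) : Y ≤ fittingOf M := by
  refine le_fittingOf_of_le_centralizer hYM ?_ (nil_comm hA hY (fittingOf_isNilpotent M)
    (le_normalizer_fittingOf (hYM.trans le_normalizer)) ((fittingOf_le_FstarOf M).trans hn))
  rw [le_centralizer_iff, EOf_le_iff]
  intro K hK
  have h1 : Comp (Y ⊔ FstarOf M) K := hK.mono
    ((hK.le_EOf.trans (EOf_le_FstarOf M)).trans le_sup_right) (sup_le hYM (FstarOf_le M))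
  exact le_centralizer_iff.1 ((le_fittingOf le_sup_left (sup_le le_normalizer hn) hY).trans
    h1.fittingOf_le_centralizer)

theorem norm_ne_top [IsSimpleGroup G] {X : Subgroup G} (h0 : X ≠ ⊥) (h1 : X ≠ ⊤) :
    normalizer (X : Set G) ≠ ⊤ := fun e =>
  (normal_of_le_normalizer_top e.ge).eq_bot_or_eq_top.elim h0 h1

theorem norm_eq [IsSimpleGroup G] {M X : Subgroup G} (hM : IsCoatom M) (h0 : X ≠ ⊥) (h1 : X ≤ M)
    (hn : M ≤ normalizer (X : Set G)) : normalizer (X : Set G) = M :=
  ((hM.le_iff.1 hn).resolve_left (norm_ne_top h0 fun e => hM.1 (top_le_iff.1 (e.ge.trans h1))))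

theorem exists_max {X : Subgroup G} (h : X ≠ ⊤) : ∃ M, IsCoatom M ∧ X ≤ M :=
  (eq_top_or_exists_le_coatom X).resolve_left h

theorem U1 [IsSimpleGroup G] (hA : AG G) {q : ℕ} [Fact q.Prime] {M R : Subgroup G} (hM : IsCoatom M)
    (h : FstarOf M ≤ R) (h0 : OpOf q M ≠ ⊥) : OpOf q R ≤ OpOf q M := by
  have n1 : FstarOf M ≤ normalizer (OpOf q R : Set G) := le_normalizer_OpOf (h.trans le_normalizer)
  have h1 : OpOf q M ≤ centralizer (OpOf q R : Set G) := hA.comm_of_sup (OpOf_isPGroup M)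
    (OpOf_isPGroup R) (((OpOf_le_fittingOf M).trans (fittingOf_le_FstarOf M)).trans n1)
  have h2 : OpOf q R ≤ M := (le_normalizer_of_le_centralizer (le_centralizer_iff.1 h1)).trans
    (norm_eq hM h0 (OpOf_le M) (le_normalizer_OpOf le_normalizer)).le
  exact le_OpOf_of_le_fittingOf (OpOf_isPGroup R) (U2 hA h2 (OpOf_isPGroup R).isNilpotent n1)

theorem U0 [IsSimpleGroup G] (hA : AG G) {M R : Subgroup G} (hM : IsCoatom M) (hR : IsCoatom R)
    (h1 : FstarOf M ≤ R) (h2 : FstarOf R ≤ M) (h0 : fittingOf M ≠ ⊥) : R = M := by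
  have e : fittingOf R = fittingOf M := le_antisymm
    (U2 hA ((fittingOf_le_FstarOf R).trans h2) (fittingOf_isNilpotent R)
      (le_normalizer_fittingOf (h1.trans le_normalizer)))
    (U2 hA ((fittingOf_le_FstarOf M).trans h1) (fittingOf_isNilpotent M)
      (le_normalizer_fittingOf (h2.trans le_normalizer)))
  rw [← norm_eq hM h0 (fittingOf_le M) (le_normalizer_fittingOf le_normalizer), ← e,
    norm_eq hR (e ▸ h0) (fittingOf_le R) (le_normalizer_fittingOf le_normalizer)]

theorem exists_third {V : Subgroup G} (h : 4 ≤ Nat.card V) (v : G) : ∃ w ∈ V, w ≠ 1 ∧ w ≠ v := by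
  classical
  by_contra hc
  push Not at hc
  have h1 : (V : Set G) ⊆ {1, v} := fun w hw => by
    by_cases e : w = 1
    · exact Or.inl e
    · exact Or.inr (hc w hw e)
  have h2 := Set.ncard_le_ncard h1 (Set.toFinite _)
  have h3 : ({1, v} : Set G).ncard ≤ 2 := (Set.ncard_insert_le _ _).trans (by simp)
  have h4 : Nat.card V = (V : Set G).ncard := (Nat.card_coe_set_eq _)
  omega

end Cfsg.Agent.Lib.AG.BI
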