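/-
A-groups project (S2554): Bender's argument: every involution centralises the odd order
subgroups normalised by its centraliser.
-/
import Cfsg.Agent.Lib.AG.Good1
import Cfsg.Agent.Lib.AG.St

set_option autoImplicit false

namespace Cfsg.Agent.Lib.AG

open Subgroup Cfsg.Agent.Lib.Core
open scoped commutatorElement

universe u

variable {G : Type u} [Group G] [Finite G] {S A : Subgroup G}

namespace BI

section cx
variable (h : Cx S A)
include h

theorem elab_A : Cfsg.IsElementaryAbelian 2 A :=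
  ⟨h.ag.isMulCommutative h.A_two, fun a ha => by rw [pow_two, h.sq ha]⟩

theorem S_le_C {a : G} (ha : a ∈ A) : S ≤ centralizer {a} := fun x hx =>
  mem_C.2 (h.S_comm (h.A_le ha) hx)

theorem C_ne_top {a : G} (ha : a ∈ A) (h1 : a ≠ 1) : centralizer ({a} : Set G) ≠ ⊤ := fun e =>
  h1 (mem_bot.1 (h.cent_N.le ⟨h.A_le ha, fun g _ => (mem_C.1 (e.ge (mem_top g))).symm⟩))

theorem gen_A {X W : Subgroup G} (hX : ¬ 2 ∣ Nat.card X) (hn : A ≤ normalizer (X : Set G))
    (hW : ∀ B, IsCocyclic B A → X ⊓ centralizer (B : Set G) ≤ W) : X ≤ W :=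
  le_of_cocyclic_centralizers (elab_A h).1 hn (coprime_card_of_isPGroup h.A_two hX) hW

theorem cocyc_meet {B B' : Subgroup G} (hB : IsCocyclic B A) (hB' : IsCocyclic B' A) :
    ∃ e ∈ B ⊓ B', e ≠ 1 := by
  have h1 := hB.card_le (elab_A h)
  have h2 := hB'.card_le (elab_A h)
  have h3 := card_sup_mul_card_inf (H := B) (N := B') (le_normalizer_of_le_centralizer
    ((hB.1.trans h.A_le).trans (h.S_le_cent (hB'.1.trans h.A_le))))
  have h4 : Nat.card ↥(B ⊔ B') ≤ Nat.card A := card_le_of_le (sup_le hB.1 hB'.1)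
  have h5 := h.rk
  by_contra hc
  push Not at hc
  have e : B ⊓ B' = ⊥ := eq_bot_iff.2 fun x hx => mem_bot.2 (hc x hx)
  rw [e, card_bot, mul_one] at h3
  nlinarith

theorem dd_comm {t t' : G} (ht : t ∈ A) (ht' : t' ∈ A) {D D' : Subgroup G} (hD : Dd t D)
    (hD' : Dd t' D') : D ≤ centralizer (D' : Set G) := by
  have key : ∀ {s : G} {X : Subgroup G} {e : G}, s ∈ A → Dd s X → e ∈ A → e ≠ 1 →
      X ⊓ centralizer {e} ≤ fittingOf (centralizer {e}) := fun {s X e} hs hX he e1 =>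
    le_fitting_of_inv h.ag h.ih (C_ne_top h he e1) (S_le_C h he (h.A_le hs)) (h.sq hs) inf_le_right
      (not_dvd_card_of_le hX.odd inf_le_left) (fun x hx => hX.inv x hx.1)
      (le_normalizer_inf (inf_le_right.trans hX.norm) (inf_le_left.trans le_normalizer))
  refine gen_A h hD.odd ((h.A_le.trans (S_le_C h ht)).trans hD.norm) fun B hB => ?_
  rw [le_centralizer_iff]
  refine gen_A h hD'.odd ((h.A_le.trans (S_le_C h ht')).trans hD'.norm) fun B' hB' => ?_
  obtain ⟨e, he, e1⟩ := cocyc_meet h hB hB'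
  have heA := hB.1 he.1
  have c : ∀ {Y : Subgroup G}, e ∈ Y → centralizer (Y : Set G) ≤ centralizer {e} := fun hY =>
    centralizer_le (Set.singleton_subset_iff.2 hY)
  exact (((inf_le_inf_left _ (c he.2)).trans (key ht' hD' heA e1)).trans
    (h.ag.fitting_le_centralizer _)).trans
    (centralizer_le_centralizer ((inf_le_inf_left _ (c he.1)).trans (key ht hD heA e1)))

theorem dd_Dm {t : G} (ht : t ∈ A) : Dd t (Dm t) := by
  obtain ⟨M, -, hM, hmax⟩ := exists_maximal_subgroup (P := Dd t) (dd_bot t (h.sq ht))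
  suffices e : Dm t = M by rwa [e]
  refine le_antisymm (sSup_le fun D hD => ?_) hM.le
  have c1 := dd_comm h ht ht hD hM
  have c2 := dd_comm h ht ht hM hD
  have ab : D ⊔ M ≤ centralizer ((D ⊔ M : Subgroup G) : Set G) :=
    sup_le (le_centralizer_sup (dd_comm h ht ht hD hD) c1)
      (le_centralizer_sup c2 (dd_comm h ht ht hM hM))
  have : Dd t (D ⊔ M) := ⟨not_dvd_card_sup hD.odd hM.odd (le_normalizer_of_le_centralizer c1),
    fun x hx => inv_of_Iv ab (h.sq ht) ((sup_le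
      (fun y hy => mem_Iv_of (mem_sup_left hy) (hD.inv y hy))
      (fun y hy => mem_Iv_of (mem_sup_right hy) (hM.inv y hy)) : D ⊔ M ≤ Iv (D ⊔ M) t) hx),
    le_normalizer_sup hD.norm hM.norm⟩
  exact le_sup_left.trans (hmax _ this le_sup_right).le

theorem conj_A {g a : G} (hg : g ∈ normalizer (S : Set G)) (ha : a ∈ A) : g * a * g⁻¹ ∈ A :=
  conj_mem_of_mem_normalizer (h.norm_A hg) ha

end cx

/-- a bad involution `t` and a maximal subgroup over `N(D(t))` -/
structure Bad (S A M : Subgroup G) (t : G) : Prop extends Cx S A where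
  tA : t ∈ A
  bad : Dm t ≠ ⊥
  max : IsCoatom M
  nD : normalizer (Dm t : Set G) ≤ M

/-- the `p`-part of the product of the `D(a)` -/
def Wp (A M : Subgroup G) (p : ℕ) : Subgroup G := ⨆ a : A, Dm (a : G) ⊓ OpOf p M

variable {M : Subgroup G} {t : G} (b : Bad S A M t)
include b

theorem Bad.dd {a : G} (ha : a ∈ A) : Dd a (Dm a) := dd_Dm b.toCx ha

theorem Bad.Ct : centralizer {t} ≤ M := (b.dd b.tA).norm.trans b.nD

theorem Bad.SM : S ≤ M := (S_le_C b.toCx b.tA).trans b.Ct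

theorem Bad.l1 {R X : Subgroup G} {a : G} (hR : R ≠ ⊤) (ha : a ∈ R) (a2 : a * a = 1) (hX : Dd a X)
    (hXR : X ≤ R) : X ≤ fittingOf R :=
  le_fitting_of_inv b.ag b.ih hR ha a2 hXR hX.odd hX.inv (inf_le_right.trans hX.norm)

theorem Bad.Dm_le {a : G} (ha : a ∈ A) : Dm a ≤ fittingOf M :=
  b.l1 b.max.1 (b.SM (b.A_le ha)) (b.sq ha) (b.dd ha) ((le_normalizer_of_le_centralizer
    (dd_comm b.toCx ha b.tA (b.dd ha) (b.dd b.tA))).trans b.nD)

theorem Bad.norm_le {X : Subgroup G} (hX : X ≤ fittingOf M) (h0 : X ≠ ⊥)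
    (ht : t ∈ normalizer (X : Set G)) : normalizer (X : Set G) ≤ M := by
  have := b.simple
  obtain ⟨R, hR, hle⟩ := exists_max (norm_ne_top h0 fun e =>
    b.max.1 (top_le_iff.1 (e.ge.trans (hX.trans (fittingOf_le M)))))
  have h1 : FstarOf M ≤ R := (le_normalizer_of_le_centralizer (Fs_le b.ag hX)).trans hle
  have h2 : Dm t ≤ fittingOf R := b.l1 hR.1 (hle ht) (b.sq b.tA) (b.dd b.tA)
    (((b.Dm_le b.tA).trans (fittingOf_le_FstarOf M)).trans h1)
  have h3 : FstarOf R ≤ M := (le_normalizer_of_le_centralizer (Fs_le b.ag h2)).trans b.nD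
  rw [← U0 b.ag b.max hR h1 h3 fun e => b.bad (le_bot_iff.1 ((b.Dm_le b.tA).trans e.le))]
  exact hle

theorem Bad.cent_le {a : G} (ha : a ∈ A) (h0 : Dm a ≠ ⊥) : centralizer {a} ≤ M :=
  (b.dd ha).norm.trans (b.norm_le (b.Dm_le ha) h0
    ((b.dd ha).norm (S_le_C b.toCx ha (b.A_le b.tA))))

theorem Bad.N_le : normalizer (S : Set G) ≤ M := by
  have hn : normalizer (S : Set G) ≤ normalizer ((⨆ a : A, Dm (a : G) : Subgroup G) : Set G) :=
    fun g hg => mem_normalizer_of_conj_mem (map_conj_le_iff.1 (by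
      rw [Subgroup.map_iSup]
      exact iSup_le fun a => ((b.dd a.2).conj g).le.trans
        (le_iSup (fun a : A => Dm (a : G)) ⟨_, conj_A b.toCx hg a.2⟩)))
  exact hn.trans (b.norm_le (iSup_le fun a => b.Dm_le a.2)
    (fun e => b.bad (le_bot_iff.1 ((le_iSup (fun a : A => Dm (a : G)) ⟨t, b.tA⟩).trans e.le)))
    (hn (le_normalizer (b.A_le b.tA))))

theorem Bad.N_Wp (p : ℕ) : normalizer (S : Set G) ≤ normalizer (Wp A M p : Set G) :=
  fun g hg => mem_normalizer_of_conj_mem (map_conj_le_iff.1 (by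
    rw [Wp, Subgroup.map_iSup]
    refine iSup_le fun a => le_trans ?_
      (le_iSup (fun a : A => Dm (a : G) ⊓ OpOf p M) ⟨_, conj_A b.toCx hg a.2⟩)
    exact le_inf ((map_mono inf_le_left).trans ((b.dd a.2).conj g).le)
      (map_conj_le_of_le inf_le_right (le_normalizer_OpOf (b.N_le.trans le_normalizer) hg))))

omit b [Finite G] in
theorem Wp_le (p : ℕ) : Wp A M p ≤ OpOf p M := iSup_le fun _ => inf_le_right

theorem Bad.odd_Op {p : ℕ} [Fact p.Prime] (h0 : Wp A M p ≠ ⊥) (X : Subgroup G) :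
    ¬ 2 ∣ Nat.card (OpOf p X) := by
  refine not_dvd_card_of_isPGroup (OpOf_isPGroup X) fun e => h0 ?_
  subst e
  refine iSup_eq_bot.2 fun a => ?_
  rw [inf_comm]
  exact inf_eq_bot_of_isPGroup_of_not_dvd (OpOf_isPGroup M) (b.dd a.2).odd

theorem Bad.op_le {p : ℕ} [Fact p.Prime] (h0 : Wp A M p ≠ ⊥) {e : G} (he : e ∈ A)
    (hc : ¬ centralizer {e} ≤ M) {R : Subgroup G} (hR : IsCoatom R) (heR : centralizer {e} ≤ R) :
    OpOf p M ≤ OpOf p R ∧ OpOf p M ≤ centralizer {e} := by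
  have := b.simple
  have ab : OpOf p M ≤ centralizer (OpOf p M : Set G) :=
    b.ag.le_centralizer (OpOf_isPGroup M) le_rfl le_rfl
  have nM : ∀ {a : G}, a ∈ A → a ∈ normalizer (OpOf p M : Set G) := fun ha =>
    le_normalizer_OpOf le_normalizer (b.SM (b.A_le ha))
  by_cases hX : ∃ a ∈ A, Dm a ⊓ OpOf p M ⊓ centralizer {e} ≠ ⊥
  · obtain ⟨a, ha, hX⟩ := hX
    have h1 : Dm a ⊓ R ≤ fittingOf R := le_fitting_of_inv b.ag b.ih hR.1
      (heR (S_le_C b.toCx he (b.A_le ha))) (b.sq ha) inf_le_right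
      (not_dvd_card_of_le (b.dd ha).odd inf_le_left) (fun x hx => (b.dd ha).inv x hx.1)
      (le_normalizer_inf (inf_le_right.trans (b.dd ha).norm) (inf_le_left.trans le_normalizer))
    have h2 : Dm a ⊓ OpOf p M ⊓ centralizer {e} ≤ fittingOf R :=
      (inf_le_inf inf_le_left heR).trans h1
    have h3 : normalizer ((Dm a ⊓ OpOf p M ⊓ centralizer {e} : Subgroup G) : Set G) ≤ M :=
      b.norm_le ((inf_le_left.trans inf_le_right).trans (OpOf_le_fittingOf M)) hX
        (le_normalizer_inf (H := S) (le_normalizer_inf ((S_le_C b.toCx ha).trans (b.dd ha).norm)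
          (le_normalizer_OpOf (b.SM.trans le_normalizer)))
          ((S_le_C b.toCx he).trans le_normalizer) (b.A_le b.tA))
    have h4 : OpOf p M ≤ OpOf p R := U1 b.ag hR
      ((le_normalizer_of_le_centralizer (Fs_le b.ag h2)).trans h3) fun e0 => hX (le_bot_iff.1
        ((le_OpOf_of_le_fittingOf ((OpOf_isPGroup M).to_le (inf_le_left.trans inf_le_right)) h2).trans
          e0.le))
    refine ⟨h4, h4.trans ?_⟩
    by_contra hn
    exact hc (b.cent_le he (Dm_ne_bot b.ag (b.sq he) (b.odd_Op h0 R)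
      (le_normalizer_OpOf (heR.trans le_normalizer)) hn))
  · exfalso
    push Not at hX
    have e2 := b.sq he
    have hW : Wp A M p ≤ Iv (OpOf p M) e := iSup_le fun a z hz => by
      refine mem_Iv_of hz.2 ?_
      have z1 : e * z * e⁻¹ ∈ Dm (a : G) ⊓ OpOf p M := conj_mem_of_mem_normalizer
        (le_normalizer_inf (H := S) ((S_le_C b.toCx a.2).trans (b.dd a.2).norm)
          (le_normalizer_OpOf (b.SM.trans le_normalizer)) (b.A_le he)) hz
      rw [inv_self e2] at z1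
      have c : z * (e * z * e) = (e * z * e) * z := ab z1.2 z hz.2
      have z2 : z * (e * z * e) ∈ Dm (a : G) ⊓ OpOf p M ⊓ centralizer {e} := by
        refine ⟨mul_mem hz z1, mem_C.2 ?_⟩
        calc e * (z * (e * z * e)) = (e * z * e) * z * e := by group
          _ = z * (e * z * e) * e := by rw [c]
      exact eq_inv_of_mul_eq_one_right (mem_bot.1 ((hX a a.2).le z2))
    have hi : ∀ w ∈ Wp A M p, e * w * e = w⁻¹ := fun w hw => inv_of_Iv ab e2 (hW hw)
    have oW : ¬ 2 ∣ Nat.card (Wp A M p) := not_dvd_card_of_le (b.odd_Op h0 M) (Wp_le p)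
    have eC : e ∉ centralizer (Wp A M p : Set G) := fun ec => h0 (eq_bot_iff.2 fun w hw =>
      mem_bot.2 (eq_one_of_odd oW hw (by
        have := hi w hw
        rw [← ec w hw, mul_assoc, e2, mul_one] at this
        exact mul_eq_one_iff_eq_inv.2 this)))
    have n1 : normalizer (S : Set G) ≤
        normalizer ((A ⊓ centralizer (Wp A M p : Set G) : Subgroup G) : Set G) :=
      le_normalizer_inf b.norm_A (le_normalizer_centralizer (b.N_Wp p))
    refine b.not_index_two (U := A ⊓ centralizer (Wp A M p : Set G) ⊔ zpowers e)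
      (sup_le inf_le_left (zpowers_le.2 he)) le_sup_left (fun g hg => ?_) n1 ?_
    · refine mem_normalizer_of_conj_mem (map_conj_le_iff.1 ?_)
      rw [Subgroup.map_sup, MonoidHom.map_zpowers]
      refine sup_le ((map_conj_le_of_le le_rfl (n1 hg)).trans le_sup_left) (zpowers_le.2 ?_)
      have h1 : g * e * g⁻¹ * e ∈ A ⊓ centralizer (Wp A M p : Set G) := by
        refine ⟨mul_mem (conj_A b.toCx hg he) he, fun w hw => ?_⟩
        have w1 := hi _ (conj_mem_of_mem_normalizer' (b.N_Wp p hg) (inv_mem hw))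
        have w2 := hi w hw
        have g2 : g * e * g⁻¹ * (g * e * g⁻¹) = 1 := by rw [conj_mul, e2]; group
        calc w * (g * e * g⁻¹ * e) = (g * (g⁻¹ * w⁻¹ * g)⁻¹ * g⁻¹) * (g * e * g⁻¹ * e) := by group
          _ = (g * (e * (g⁻¹ * w⁻¹ * g) * e) * g⁻¹) * (g * e * g⁻¹ * e) := by rw [w1]
          _ = g * e * g⁻¹ * w⁻¹ * (g * e * g⁻¹ * (g * e * g⁻¹)) * e := by group
          _ = g * e * g⁻¹ * (e * w * e) * e := by rw [g2, w2, mul_one]
          _ = g * e * g⁻¹ * e * w * (e * e) := by group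
          _ = g * e * g⁻¹ * e * w := by rw [e2, mul_one]
      have : (MulAut.conj g).toMonoidHom e = g * e * g⁻¹ * e * e := by
        rw [mul_assoc _ e e, e2, mul_one]; rfl
      rw [this]
      exact mul_mem (mem_sup_left h1) (mem_sup_right (mem_zpowers e))
    · have e1 : e ≠ 1 := fun e1 => eC (e1 ▸ one_mem _)
      have c1 := card_sup_mul_card_inf (H := A ⊓ centralizer (Wp A M p : Set G)) (N := zpowers e)
        (le_normalizer_of_le_centralizer ((inf_le_left.trans b.A_le).trans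
          (b.S_le_cent (zpowers_le.2 (b.A_le he)))))
      have o : orderOf e = 2 := orderOf_eq_prime (by rw [pow_two, e2]) e1
      have c2 : A ⊓ centralizer (Wp A M p : Set G) ⊓ zpowers e = ⊥ := by
        have : Fact (Nat.card (zpowers e)).Prime := ⟨by rw [Nat.card_zpowers, o]; norm_num⟩
        rcases ((A ⊓ centralizer (Wp A M p : Set G)).subgroupOf (zpowers e)).eq_bot_or_eq_top_of_prime_card with h1 | h1
        · exact disjoint_iff.1 (subgroupOf_eq_bot.1 h1)
        · exact absurd (subgroupOf_eq_top.1 h1 (mem_zpowers e)).2 eC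
      rw [c2, card_bot, mul_one, Nat.card_zpowers, o] at c1
      omega

theorem Bad.exists_p : ∃ p : ℕ, p.Prime ∧ Wp A M p ≠ ⊥ ∧ ¬ OpOf p M ≤ centralizer {t} := by
  have hd := b.dd b.tA
  obtain ⟨p, hp, h0⟩ := exists_OpOf_ne_bot
    (isNilpotent_of_le (fittingOf_isNilpotent M) (b.Dm_le b.tA)) b.bad
  have : Fact p.Prime := ⟨hp⟩
  have h1 : OpOf p (Dm t) ≤ OpOf p M :=
    le_OpOf_of_le_fittingOf (OpOf_isPGroup _) ((OpOf_le _).trans (b.Dm_le b.tA))
  refine ⟨p, hp, fun e => h0 (le_bot_iff.1 (((le_inf (OpOf_le _) h1).trans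
    (le_iSup (fun a : A => Dm (a : G) ⊓ OpOf p M) ⟨t, b.tA⟩)).trans e.le)), fun hc => ?_⟩
  exact Dd.not_cent (D := OpOf p (Dm t)) ⟨not_dvd_card_of_le hd.odd (OpOf_le _),
    fun x hx => hd.inv x (OpOf_le _ hx), le_normalizer_OpOf hd.norm⟩ (b.sq b.tA) h0 (h1.trans hc)

theorem Bad.X_le {e : G} (he : e ∈ A) (hc : ¬ centralizer {e} ≤ M) :
    fittingOf M ≤ centralizer {e} := by
  have op : ∀ {e : G}, e ∈ A → ¬ centralizer {e} ≤ M → ∀ p : ℕ, p.Prime → Wp A M p ≠ ⊥ →
      OpOf p M ≤ centralizer {e} := fun {e} he hc p hp h0 => by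
    have : Fact p.Prime := ⟨hp⟩
    by_cases e1 : e = 1
    · exact fun x _ => mem_C.2 (by rw [e1, one_mul, mul_one])
    obtain ⟨R, hR, heR⟩ := exists_max (C_ne_top b.toCx he e1)
    exact (b.op_le h0 he hc hR heR).2
  have mul : ∀ {U : Subgroup G} {x y : G}, U ≤ centralizer {x} → U ≤ centralizer {x * y} →
      U ≤ centralizer {y} := fun {U x y} h1 h2 z hz => mem_C.2 (by
    have c1 := mem_C.1 (h1 hz)
    have c2 := mem_C.1 (h2 hz)
    calc y * z = x⁻¹ * (x * y * z) := by group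
      _ = x⁻¹ * (z * x) * y := by rw [c2]; group
      _ = z * y := by rw [← c1]; group)
  refine fittingOf_le_of_forall_OpOf fun q hq => ?_
  have : Fact q.Prime := ⟨hq⟩
  by_cases q2 : q = 2
  · subst q2
    exact (OpOf_le_of_isSyl (b.syl.mono b.SM le_top)).trans (S_le_C b.toCx he)
  by_cases h0 : Wp A M q = ⊥
  swap
  · exact op he hc q hq h0
  have in1 : ∀ {a : G}, a ∈ A → centralizer {a} ≤ M → OpOf q M ≤ centralizer {a} :=
    fun {a} ha hM => by
    have n : centralizer {a} ≤ normalizer (OpOf q M : Set G) :=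
      le_normalizer_OpOf (hM.trans le_normalizer)
    have hd := dd_Iv (b.ag.le_centralizer (OpOf_isPGroup (p := q) M) le_rfl le_rfl) (b.sq ha)
      (not_dvd_card_of_isPGroup (OpOf_isPGroup M) (Ne.symm q2)) n
    exact le_cent_of_Iv (b.sq ha) (n (mem_C.2 rfl)) (le_bot_iff.1 (((le_inf hd.le (Iv_le _ _)).trans
      (le_iSup (fun a : A => Dm (a : G) ⊓ OpOf q M) ⟨a, ha⟩)).trans h0.le))
  obtain ⟨p, hp, hW, hn⟩ := b.exists_p
  refine mul (in1 b.tA b.Ct) (in1 (mul_mem b.tA he) ?_)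
  by_contra hc'
  refine hn (mul (op he hc p hp hW) ?_)
  rw [b.S_comm (b.A_le he) (b.A_le b.tA)]
  exact op (mul_mem b.tA he) hc' p hp hW

theorem Bad.t_not : ¬ fittingOf M ≤ centralizer {t} := fun hc =>
  (b.dd b.tA).not_cent (b.sq b.tA) b.bad ((b.Dm_le b.tA).trans hc)

theorem Bad.odd_le {X : Subgroup G} (hX : ¬ 2 ∣ Nat.card X) (hn : A ≤ normalizer (X : Set G)) :
    X ≤ M := by
  refine gen_A b.toCx hX hn fun B hB => ?_
  by_cases hc : ∃ a ∈ B, centralizer {a} ≤ M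
  · obtain ⟨a, ha, hM⟩ := hc
    exact inf_le_right.trans ((centralizer_le (Set.singleton_subset_iff.2 ha)).trans hM)
  exfalso
  push Not at hc
  have h1 : B ≤ A ⊓ centralizer (fittingOf M : Set G) := fun a ha =>
    ⟨hB.1 ha, fun x hx => (mem_C.1 (b.X_le (hB.1 ha) (hc a ha) hx)).symm⟩
  have h2 := hB.card_le (elab_A b.toCx)
  have h3 := card_le_of_le h1
  have h4 : A ⊓ centralizer (fittingOf M : Set G) < A := lt_of_le_of_ne inf_le_left fun e =>
    b.t_not fun x hx => mem_C.2 ((e.ge b.tA).2 x hx).symm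
  have h5 := card_lt_of_lt h4
  obtain ⟨k, hk⟩ := card_dvd_of_le h4.le
  refine b.not_index_two le_rfl h4.le b.norm_A (le_normalizer_inf b.norm_A
    (le_normalizer_centralizer (le_normalizer_fittingOf (b.N_le.trans le_normalizer)))) ?_
  have h6 : 0 < Nat.card ↥(A ⊓ centralizer (fittingOf M : Set G)) := Nat.card_pos
  have : k = 2 := by
    rcases k with _ | _ | _ | k
    · omega
    · omega
    · rfl
    · nlinarith
  rw [hk, this, mul_comm]

section five
variable {e : G} {K D : Subgroup G} (he : e ∈ A) (hK : PComp 2 (centralizer {e}) K) (hKM : ¬ K ≤ M)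
  (hD : CD S K D)
include he hK hKM hD

theorem Bad.B_le (e1 : e ≠ 1) {c : G} (hc : c ∈ A) (hc' : c ∈ CM K) :
    fittingOf M ≤ centralizer {c} := by
  refine b.X_le hc fun hM => hKM ?_
  obtain ⟨K0, h1, -, h2, -⟩ := PComp.down b.ag b.ih (C_ne_top b.toCx he e1)
    (b.syl.mono (S_le_C b.toCx he) le_top) hK (B := zpowers c) (zpowers_le.2 ⟨b.A_le hc, hc'⟩)
  refine h2.trans (sup_le ((h1.le.trans inf_le_right).trans ?_)
    (b.odd_le (OppOf_not_dvd K) (le_normalizer_OppOf (b.A_le.trans hD.norm))))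
  rwa [centralizer_zpowers]

omit he hK hKM in
theorem Bad.split {a : G} (ha : a ∈ A) : ∃ v ∈ S ⊓ K, ∃ c ∈ A, c ∈ CM K ∧ a = v * c := by
  obtain ⟨v, hv, c, hc, e⟩ := hD.split a (b.A_le ha)
  refine ⟨v, hv, c, ?_, hc.2, e⟩
  have : c = v⁻¹ * a := by rw [e]; group
  rw [this]
  exact mul_mem (inv_mem ((b.memA v).2 ⟨hv.1, hD.sq v hv⟩)) ha

/-- if `t` acts on an `M`-invariant subgroup of `F(M)`, so do all involutions of `S ∩ K` -/
theorem Bad.V_not (e1 : e ≠ 1) {U : Subgroup G} (hU : U ≤ fittingOf M)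
    (hn : M ≤ normalizer (U : Set G)) (ht : ¬ U ≤ centralizer {t}) {v : G} (hv : v ∈ S ⊓ K)
    (v1 : v ≠ 1) : ¬ U ≤ centralizer {v} := fun hc => by
  obtain ⟨w, hw, c, hc1, hc2, e⟩ := b.split hD b.tA
  have h1 := hU.trans (b.B_le he hK hKM hD e1 hc1 hc2)
  have h2 : U ≤ centralizer {w} := by
    by_cases w1 : w = 1
    · exact fun x _ => mem_C.2 (by rw [w1, one_mul, mul_one])
    obtain ⟨d, hd, rfl⟩ := hD.trans v hv w hw v1 w1
    rw [← map_conj_centralizer_singleton, ← map_conj_eq_iff.2 (hn (b.N_le (hD.DN hd)))]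
    exact map_mono hc
  refine ht fun x hx => mem_C.2 ?_
  rw [e, mul_assoc, mem_C.1 (h1 hx), ← mul_assoc, mem_C.1 (h2 hx), mul_assoc]

theorem Bad.A0_le (e1 : e ≠ 1) {a : G} (ha : a ∈ A) (hc : fittingOf M ≤ centralizer {a}) :
    a ∈ CM K := by
  obtain ⟨v, hv, c, hc1, hc2, e⟩ := b.split hD ha
  have h1 := b.B_le he hK hKM hD e1 hc1 hc2
  by_cases v1 : v = 1
  · rwa [e, v1, one_mul]
  refine absurd (fun x hx => mem_C.2 ?_)
    (b.V_not he hK hKM hD e1 le_rfl (le_normalizer_fittingOf le_normalizer) b.t_not hv v1)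
  calc v * x = v * (x * c) * c⁻¹ := by group
    _ = a * x * c⁻¹ := by rw [← mem_C.1 (h1 hx), e]; group
    _ = x * v := by rw [mem_C.1 (hc hx), e]; group

theorem Bad.V_E (e1 : e ≠ 1) {v : G} (hv : v ∈ S ⊓ K) : v ∈ centralizer (EOf M : Set G) := by
  by_cases v1 : v = 1
  · exact v1 ▸ one_mem _
  suffices H : EOf M ≤ centralizer {v} from fun x hx => (mem_C.1 (H hx)).symm
  refine EOf_le_iff.2 fun L hL => ?_
  have ev : 2 ∣ Nat.card L := by
    by_contra ho
    exact hL.qs.not_isSolvable (solv_of_odd ho)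
  obtain ⟨DL, hDL⟩ := PComp.cd b.ag b.ih b.max.1 (b.syl.mono b.SM le_top) (hL.pcomp ev)
  have hO : OppOf 2 L = ⊥ := (b.ag.eq_bot_or_eq_of_qs hL.qs (OppOf_le L)
    (le_normalizer_OppOf le_normalizer)).resolve_right fun e => OppOf_not_dvd (p := 2) L (by rwa [e])
  have hCM : CM L ≤ centralizer (L : Set G) := fun c hc k hk => by
    have := hc.2 k hk
    rw [hO, mem_bot] at this
    calc k * c = (c * k * c⁻¹ * k⁻¹) * k * c := by rw [this, one_mul]
      _ = c * k := by group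
  have hcd : ∀ d ∈ D, ∀ x ∈ S ⊓ L, x * d = d * x := fun d hd x hx =>
    hD.DC hd x ⟨hx.1, b.A0_le he hK hKM hD e1 ((b.memA x).2 ⟨hx.1, hDL.sq x hx⟩)
      fun y hy => mem_C.2 (hL.fittingOf_le_centralizer hy x hx.2)⟩
  have hnd : ∀ d ∈ D, d ∈ normalizer (L : Set G) := fun d hd => by
    rw [← map_conj_eq_iff]
    refine (hL.conj (le_normalizer (b.N_le (hD.DN hd)))).eq_of_not_le_centralizer hL fun hc => ?_
    obtain ⟨x, hx, x1, -⟩ := exists_third hDL.four 1
    refine x1 (mem_bot.1 ((b.ag.inf_centralizer_of_perfect hL.qs.perfect).le ⟨hx.2, hc ?_⟩))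
    rw [mem_map_conj, mul_assoc, hcd d hd x hx, inv_mul_cancel_left]
    exact hx.2
  obtain ⟨w, hw, w1, wv⟩ := exists_third hD.four v
  have wv1 : w * v ≠ 1 := fun e => wv (by
    rw [eq_inv_of_mul_eq_one_left e, inv_self (hD.sq v hv)])
  obtain ⟨d, hd, e⟩ := hD.trans w hw (w * v) (mul_mem hw hv) w1 wv1
  obtain ⟨x, hx, c, hc, rfl⟩ := hDL.split w hw.1
  have e' : v = c⁻¹ * (d * c * d⁻¹) := by
    calc v = (x * c)⁻¹ * (d * x * c * d⁻¹) := by rw [mul_assoc d x c, e]; group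
      _ = c⁻¹ * (d * c * d⁻¹) := by rw [← hcd d hd x hx]; group
  have : v ∈ centralizer (L : Set G) := e' ▸ mul_mem (inv_mem (hCM hc.2))
    (conj_mem_of_mem_normalizer (normalizer_le_normalizer_centralizer _ (hnd d hd)) (hCM hc.2))
  exact fun y hy => mem_C.2 (this y hy).symm

theorem Bad.five (e1 : e ≠ 1) (hc : ¬ centralizer {e} ≤ M) : False := by
  have := b.simple
  obtain ⟨p, hp, hW, hpt⟩ := b.exists_p
  have : Fact p.Prime := ⟨hp⟩
  obtain ⟨R0, hR0, heR⟩ := exists_max (C_ne_top b.toCx he e1)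
  have UY := (b.op_le hW he hc hR0 heR).1
  have U0 : OpOf p M ≠ ⊥ := fun e => hW (le_bot_iff.1 ((Wp_le p).trans e.le))
  have nU : M ≤ normalizer (OpOf p M : Set G) := le_normalizer_OpOf le_normalizer
  have NU := norm_eq b.max U0 (OpOf_le M) nU
  have nY : R0 ≤ normalizer (OpOf p R0 : Set G) := le_normalizer_OpOf le_normalizer
  have abY : OpOf p R0 ≤ centralizer (OpOf p R0 : Set G) :=
    b.ag.le_centralizer (OpOf_isPGroup R0) le_rfl le_rfl
  have YM : OpOf p R0 ≤ M := (le_normalizer_of_le_centralizer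
    (abY.trans (centralizer_le_centralizer UY))).trans NU.le
  have YF : OpOf p R0 ≤ centralizer (fittingOf M : Set G) :=
    nil_comm b.ag (OpOf_isPGroup R0).isNilpotent (fittingOf_isNilpotent M)
      (le_normalizer_fittingOf (YM.trans le_normalizer)) (((b.X_le he hc).trans heR).trans nY)
  have Vn : ∀ {v : G}, v ∈ S ⊓ K → v ≠ 1 → ¬ OpOf p M ≤ centralizer {v} := fun hv v1 =>
    b.V_not he hK hKM hD e1 (OpOf_le_fittingOf M) nU hpt hv v1
  obtain ⟨v, hv, v1, -⟩ := exists_third hD.four 1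
  have v2 := hD.sq v hv
  have vA : v ∈ A := (b.memA v).2 ⟨hv.1, v2⟩
  have ZU : Iv (OpOf p R0) v ≤ OpOf p M := by
    refine le_OpOf_of_le_fittingOf ((OpOf_isPGroup R0).to_le (Iv_le _ _))
      (le_fittingOf_of_le_centralizer ((Iv_le _ _).trans YM) (fun z hz => ?_)
        ((Iv_le _ _).trans YF))
    have vE := b.V_E he hK hKM hD e1 hv
    refine mem_of_sq (b.odd_Op hW R0) (Iv_le _ _ hz) ?_
    have h1 := mul_mem (conj_mem_of_mem_normalizer (le_normalizer_centralizer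
      (le_normalizer_EOf le_normalizer) (YM (Iv_le _ _ hz))) vE) vE
    have h2 := inv_of_Iv abY v2 (inv_mem hz)
    rwa [show z * v * z⁻¹ * v = z * (v * z⁻¹ * v) by group, h2, inv_inv] at h1
  have ZZ : Iv (OpOf p R0) v = Iv (OpOf p M) v := le_antisymm
    (fun z hz => mem_Iv_of (ZU hz) (inv_of_Iv abY v2 hz)) (Iv_mono UY v)
  have CvM : centralizer {v} ≤ M := by
    by_contra h1
    exact Vn hv v1 ((OpOf_le_fittingOf M).trans (b.X_le vA h1))
  have dZ : Dd v (Iv (OpOf p R0) v) := ZZ ▸ dd_Iv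
    (b.ag.le_centralizer (OpOf_isPGroup M) le_rfl le_rfl) v2 (b.odd_Op hW M) (CvM.trans nU)
  have Z0 : Iv (OpOf p R0) v ≠ ⊥ := fun e =>
    Vn hv v1 (le_cent_of_Iv v2 (nU (b.SM hv.1)) (ZZ ▸ e))
  have NZ : normalizer (Iv (OpOf p R0) v : Set G) ≤ M :=
    b.norm_le (ZU.trans (OpOf_le_fittingOf M)) Z0 (dZ.norm (S_le_C b.toCx vA (b.A_le b.tA)))
  have Zlt : Nat.card (Iv (OpOf p R0) v) < Nat.card (OpOf p M) := by
    refine card_lt_of_lt (lt_of_le_of_ne ZU fun e => ?_)
    obtain ⟨w, hw, w1, wv⟩ := exists_third hD.four v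
    have wv1 : w * v ≠ 1 := fun e => wv (by rw [eq_inv_of_mul_eq_one_left e, inv_self v2])
    obtain ⟨d, hd, e'⟩ := hD.trans v hv w hw v1 w1
    have h1 := dZ.conj d
    rw [e, e', map_conj_eq_iff.2 (nU (b.N_le (hD.DN hd)))] at h1
    refine Vn (mul_mem hw hv) wv1 fun u hu => mem_C.2 ?_
    have h2 := dZ.inv u (e.ge hu)
    have h3 := h1.inv _ (inv_mem hu)
    calc w * v * u = w * (v * u * v) * w * (w⁻¹ * v⁻¹) := by group
      _ = u * (w * v) := by rw [h2, h3, inv_inv, inv_self v2, inv_self (hD.sq w hw)]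
  refine hKM fun k hk => ?_
  have kY := nY (heR (hK.le hk))
  have dZ' := dZ.conj k
  have t2 : k * v * k⁻¹ * (k * v * k⁻¹) = 1 := by rw [conj_mul, v2]; group
  have hf : ∀ u : OpOf p M, (u : G)⁻¹ * (k * v * k⁻¹) * u * (k * v * k⁻¹) ∈
      (Iv (OpOf p R0) v).map (MulAut.conj k).toMonoidHom := fun u => by
    have := comm_mem_Iv v2 (nY (heR (S_le_C b.toCx he hv.1)))
      (conj_mem_of_mem_normalizer' kY (UY u.2))
    rw [mem_map_conj]
    convert this using 1
    group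
  have X0 : OpOf p M ⊓ centralizer {k * v * k⁻¹} ≠ ⊥ := fun e0 => by
    have inj : Function.Injective fun u : OpOf p M =>
        (⟨_, hf u⟩ : (Iv (OpOf p R0) v).map (MulAut.conj k).toMonoidHom) := fun u u' e => by
      have e1 : (u : G)⁻¹ * (k * v * k⁻¹) * u = (u' : G)⁻¹ * (k * v * k⁻¹) * u' :=
        mul_right_cancel (congrArg Subtype.val e)
      have : (u : G) * (u' : G)⁻¹ ∈ OpOf p M ⊓ centralizer {k * v * k⁻¹} := by
        refine mem_inf.2 ⟨mul_mem u.2 (inv_mem u'.2), mem_C.2 ?_⟩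
        calc k * v * k⁻¹ * ((u : G) * (u' : G)⁻¹)
            = u * ((u : G)⁻¹ * (k * v * k⁻¹) * u) * (u' : G)⁻¹ := by group
          _ = u * (u' : G)⁻¹ * (k * v * k⁻¹) := by rw [e1]; group
      exact Subtype.ext (mul_inv_eq_one.1 (mem_bot.1 (e0.le this)))
    have := Nat.card_le_card_of_injective _ inj
    rw [card_map_conj] at this
    omega
  obtain ⟨R, hR, hXR⟩ := exists_max (norm_ne_top X0 fun e =>
    b.max.1 (top_le_iff.1 (e.ge.trans (inf_le_left.trans (OpOf_le M)))))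
  have CR := (le_normalizer_of_le_centralizer le_rfl).trans hXR
  have Z'Y : (Iv (OpOf p R0) v).map (MulAut.conj k).toMonoidHom ≤ OpOf p R0 :=
    map_conj_le_of_le (Iv_le _ _) kY
  have h1 : (Iv (OpOf p R0) v).map (MulAut.conj k).toMonoidHom ≤ fittingOf R :=
    b.l1 hR.1 (CR fun x hx => (mem_C.1 hx.2).symm) t2 dZ'
      (((Z'Y.trans abY).trans (centralizer_le_centralizer (inf_le_left.trans UY))).trans CR)
  have h2 := (le_OpOf_of_le_fittingOf ((OpOf_isPGroup R0).to_le Z'Y) h1).trans (U1 b.ag b.max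
    ((Fs_le b.ag (inf_le_left.trans (OpOf_le_fittingOf M))).trans CR) U0)
  have h3 : FstarOf M ≤ M.map (MulAut.conj k).toMonoidHom := by
    refine (le_normalizer_of_le_centralizer (Fs_le b.ag (h2.trans (OpOf_le_fittingOf M)))).trans ?_
    rw [← map_conj_normalizer]
    exact map_mono NZ
  have h4 := U1 b.ag b.max h3 U0
  rw [← OpOf_conj] at h4
  exact NU.le (mem_normalizer_of_conj_mem (map_conj_le_iff.1 h4))

end five

theorem Bad.false : False := by
  refine b.se b.max.1 b.N_le fun e he e1 => ?_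
  by_contra hc
  have hS := b.syl.mono (S_le_C b.toCx he) le_top
  refine hc (fact b.ag b.ih (C_ne_top b.toCx he e1) hS
    (b.odd_le (OppOf_not_dvd _) (le_normalizer_OppOf
      ((b.A_le.trans (S_le_C b.toCx he)).trans le_normalizer))) (fun K hK => ?_)
    (inf_le_right.trans b.N_le))
  by_contra hKM
  obtain ⟨D, hD⟩ := PComp.cd b.ag b.ih (C_ne_top b.toCx he e1) hS hK
  exact b.five he hK hKM hD e1 hc

end BI

theorem Cx.good (h : Cx S A) {a : G} (ha : a ∈ A) (h1 : a ≠ 1) {X : Subgroup G}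
    (hX : ¬ 2 ∣ Nat.card X) (hn : centralizer {a} ≤ normalizer (X : Set G)) :
    X ≤ centralizer {a} := by
  by_contra hc
  have := h.simple
  have h0 := BI.Dm_ne_bot h.ag (h.sq ha) hX hn hc
  obtain ⟨M, hM, hle⟩ := BI.exists_max (BI.norm_ne_top h0 fun e =>
    h1 (BI.eq_one_of_odd (BI.dd_Dm h ha).odd (e.ge (mem_top a)) (h.sq ha)))
  exact BI.Bad.false ⟨h, ha, h0, hM, hle⟩

end Cfsg.Agent.Lib.AG
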