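/-
A-groups project (S2554): fixed points in `[X, A]` for an elementary abelian 2-group `A` acting on a
group `X` of odd order.
-/
import Cfsg.Agent.Lib.AG.K4
import Cfsg.Agent.Lib.Core.Baer

set_option autoImplicit false

namespace Cfsg.Agent.Lib.AG.DS

open Subgroup Cfsg.Agent.Lib.Core
open scoped commutatorElement

universe u

variable {G : Type u} [Group G]

/-- `{x ∈ N(W) | [x, U] ≤ W}` -/
def Cm (U W : Subgroup G) : Subgroup G where
  carrier := {x | x ∈ normalizer (W : Set G) ∧ ∀ u ∈ U, ⁅x, u⁆ ∈ W}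
  one_mem' := ⟨one_mem _, fun k _ => by simp⟩
  mul_mem' := by
    rintro a b ⟨ha, ha'⟩ ⟨hb, hb'⟩
    refine ⟨mul_mem ha hb, fun k hk => ?_⟩
    have : ⁅a * b, k⁆ = a * ⁅b, k⁆ * a⁻¹ * ⁅a, k⁆ := by simp only [commutatorElement_def]; group
    rw [this]
    exact mul_mem (conj_mem_of_mem_normalizer ha (hb' k hk)) (ha' k hk)
  inv_mem' := by
    rintro a ⟨ha, ha'⟩
    refine ⟨inv_mem ha, fun k hk => ?_⟩
    have : ⁅a⁻¹, k⁆ = a⁻¹ * ⁅a, k⁆⁻¹ * a := by simp only [commutatorElement_def]; group
    rw [this]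
    exact conj_mem_of_mem_normalizer' ha (inv_mem (ha' k hk))

theorem le_Cm {X U W : Subgroup G} : X ≤ Cm U W ↔ X ≤ normalizer (W : Set G) ∧ ⁅X, U⁆ ≤ W :=
  ⟨fun h => ⟨fun _ hx => (h hx).1, commutator_le.2 fun _ hx => (h hx).2⟩,
    fun h _ hx => ⟨h.1 hx, fun _ hu => h.2 (commutator_mem_commutator hx hu)⟩⟩

theorem le_norm_iSup {ι : Sort*} {X : Subgroup G} {Z : ι → Subgroup G}
    (h : ∀ i, X ≤ normalizer (Z i : Set G)) : X ≤ normalizer ((⨆ i, Z i : Subgroup G) : Set G) := by
  intro x hx
  rw [← map_conj_eq_iff, Subgroup.map_iSup]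
  exact iSup_congr fun i => map_conj_eq_iff.2 (h i hx)

theorem cent_norm {X A F : Subgroup G} (hF : F ≤ A) :
    X ⊓ centralizer (A : Set G) ≤ normalizer ((⁅X ⊓ centralizer (F : Set G), A⁆ : Subgroup G) : Set G) :=
  le_normalizer_commutator (le_normalizer_of_le (inf_le_inf_left _ (centralizer_le_centralizer hF)))
    (le_normalizer_of_le_centralizer inf_le_right)

theorem norm_cent {A F : Subgroup G} (hA : IsMulCommutative A) (hF : F ≤ A) :
    A ≤ centralizer (F : Set G) :=
  (le_centralizer_iff_isMulCommutative.2 hA).trans (centralizer_le_centralizer hF)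

variable [Finite G]

theorem gen {A X W : Subgroup G} (hA : IsMulCommutative A) (h : CoprimeAct A X)
    (hW : ∀ F, IsCocyclic F A → ⁅X ⊓ centralizer (F : Set G), A⁆ ≤ W) : ⁅X, A⁆ ≤ W := by
  let Z := ⨆ F : {F // IsCocyclic F A}, ⁅X ⊓ centralizer (F.1 : Set G), A⁆
  refine le_trans (le_Cm.1 (?_ : X ≤ Cm A Z)).2 (iSup_le fun F => hW F.1 F.2)
  refine le_of_cocyclic_centralizers hA h.le_norm h.coprime fun F hF => ?_
  have h1 : ⁅X ⊓ centralizer (F : Set G), A⁆ ≤ Z := le_iSup_of_le ⟨F, hF⟩ le_rfl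
  refine le_Cm.2 ⟨?_, h1⟩
  rw [← (h.mono_right inf_le_left (le_normalizer_inf h.le_norm
    (le_normalizer_of_le (norm_cent hA hF.1)))).inf_centralizer_sup_commutator]
  exact sup_le ((inf_le_inf_right _ inf_le_left).trans (le_norm_iSup fun F' => cent_norm F'.2.1))
    (le_normalizer_of_le h1)

theorem cent_le_commutator {A X : Subgroup G} (h : CoprimeAct A X) (hX : ⁅X, A⁆ = X) :
    X ⊓ centralizer (A : Set G) ≤ ⁅X, X⁆ := by
  have h1 : X ≤ X ⊔ A := le_sup_left
  have h2 : A ≤ X ⊔ A := le_sup_right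
  have h3 : X ⊔ A ≤ normalizer (X : Set G) := sup_le le_normalizer h.le_norm
  obtain ⟨Q, _, _, f, -, hk, -⟩ := exists_bar ((commutator_le_of_le_normalizer_left
    le_normalizer).trans h1) (le_normalizer_commutator h3 h3)
  have h4 : IsMulCommutative (bar f X) := by
    rw [← le_centralizer_iff_isMulCommutative, bar_le_centralizer_iff f h1 h1, hk]
  have h5 := inf_centralizer_inf_commutator_eq_bot h4 (bar_le_normalizer f h.le_norm)
    ((h.coprime.coprime_dvd_left (card_bar_dvd f A)).coprime_dvd_right (card_bar_dvd f X))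
  rw [← bar_commutator f h1 h2, hX] at h5
  rw [← hk, ← bar_eq_bot_iff f (inf_le_left.trans h1), eq_bot_iff, ← h5]
  exact le_inf (bar_le_centralizer f inf_le_right) (bar_mono f inf_le_left)

omit [Finite G] in
theorem cocyc_cases {A F F' : Subgroup G} (hA : IsElementaryAbelian 2 A) (hF : IsCocyclic F A)
    (hF' : F' ≤ A) : F' ≤ F ∨ A ≤ F ⊔ F' := by
  obtain ⟨h1, a, ha, h2⟩ := hF
  by_cases h : F' ≤ F
  · exact Or.inl h
  right
  obtain ⟨x, hx, hx'⟩ := SetLike.not_le_iff_exists.1 h
  obtain ⟨y, hy, z, hz, rfl⟩ := (mem_sup_of_le_normalizer_left (((zpowers_le.2 ha).trans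
    (le_normalizer_of_le_centralizer (norm_cent hA.1 h1))))).1 (h2 (hF' hx))
  refine h2.trans (sup_le le_sup_left (zpowers_le.2 ?_))
  obtain ⟨n, rfl⟩ := hz
  have h3 : a ^ (2 : ℤ) = 1 := by exact_mod_cast hA.2 a ha
  rcases Int.even_or_odd' n with ⟨m, rfl | rfl⟩
  · simp only [zpow_mul, h3, one_zpow, mul_one] at hx'
    exact absurd hy hx'
  · simp only [zpow_add, zpow_mul, h3, one_zpow, one_mul, zpow_one] at hx
    simpa using mul_mem (inv_mem (mem_sup_left hy)) (mem_sup_right hx : _ ∈ F ⊔ F')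

theorem lemG {A R : Subgroup G} (hA : IsElementaryAbelian 2 A) (X : Subgroup G) :
    A ≤ normalizer (X : Set G) → ¬ 2 ∣ Nat.card X →
    X ⊓ centralizer (A : Set G) ≤ normalizer (R : Set G) →
    (∀ F, IsCocyclic F A → ⁅X ⊓ centralizer (F : Set G), A⁆ ⊓ centralizer (A : Set G) ≤ R) →
    ⁅X, A⁆ ⊓ centralizer (A : Set G) ≤ R := by
  induction X using subgroup_induction with | _ X ih =>
  intro hn ho hR hF
  have hA2 := isPGroup_of_isElementaryAbelian hA
  have ca : ∀ {U : Subgroup G}, U ≤ X → A ≤ normalizer (U : Set G) → CoprimeAct A U :=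
    fun h1 h2 => coprimeAct_of_isPGroup_left hA2 (not_dvd_card_of_le ho h1) h2
  have ih' : ∀ U, U < X → A ≤ normalizer (U : Set G) → ⁅U, A⁆ ⊓ centralizer (A : Set G) ≤ R :=
    fun U h1 h2 => ih U h1 h2 (not_dvd_card_of_le ho h1.le) ((inf_le_inf_right _ h1.le).trans hR)
      fun F h => (inf_le_inf_right _ (commutator_mono (inf_le_inf_right _ h1.le) le_rfl)).trans
        (hF F h)
  rcases (commutator_le_of_le_normalizer_left hn).lt_or_eq with hlt | hX
  · have := ih' _ hlt (normalizer_commutator_ge_right X A)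
    rwa [(ca le_rfl hn).commutator_commutator] at this
  rw [hX]
  by_cases h0 : X = ⊥
  · simp [h0]
  have hV := commutator_lt_of_isSolvable (solv_of_odd ho) h0
  set V := ⁅X, X⁆ with hVd
  have XV : X ≤ normalizer (V : Set G) := normalizer_commutator_ge_left X X
  have AV : A ≤ normalizer (V : Set G) := le_normalizer_commutator hn hn
  set V0 := (R ⊓ (V ⊓ centralizer (A : Set G))) ⊔ ⁅V, A⁆ with hV0
  have V0V : V0 ≤ V := sup_le (inf_le_right.trans inf_le_left)
    (commutator_le_of_le_normalizer_left AV)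
  have a1 : V ≤ normalizer (V0 : Set G) := by
    conv_lhs => rw [← (ca hV.le AV).inf_centralizer_sup_commutator]
    exact sup_le (le_normalizer_sup (le_normalizer_inf ((inf_le_inf_right _ hV.le).trans hR)
      le_normalizer) (inf_le_left.trans (normalizer_commutator_ge_left V A)))
      (le_normalizer_of_le le_sup_right)
  have nF : ∀ F, IsCocyclic F A →
      A ≤ normalizer ((X ⊓ centralizer (F : Set G) : Subgroup G) : Set G) := fun F h =>
    le_normalizer_inf hn (le_normalizer_of_le (norm_cent hA.1 h.1))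
  have lF : ∀ F, IsCocyclic F A → ⁅X ⊓ centralizer (F : Set G), A⁆ ≤ X ⊓ centralizer (F : Set G) :=
    fun F h => commutator_le_of_le_normalizer_left (nF F h)
  have b1 : ∀ F, IsCocyclic F A → ⁅X ⊓ centralizer (F : Set G), A⁆ ⊓ V ≤ V0 := fun F h => by
    rw [← (ca (inf_le_right.trans hV.le) (le_normalizer_inf
      (normalizer_commutator_ge_right _ A) AV)).inf_centralizer_sup_commutator]
    exact sup_le_sup (le_inf ((inf_le_inf_right _ inf_le_left).trans (hF F h))
      (inf_le_inf_right _ inf_le_right)) (commutator_mono inf_le_right le_rfl)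
  have c1 : ∀ F, IsCocyclic F A → ⁅V, ⁅X ⊓ centralizer (F : Set G), A⁆⁆ ≤ V0 := fun F h => by
    refine (le_Cm.1 ?_).2
    rw [← ((ca hV.le AV).mono_left h.1).inf_centralizer_sup_commutator]
    refine sup_le (le_Cm.2 ⟨inf_le_left.trans a1, le_trans (le_inf ?_ ?_) (b1 F h)⟩)
      (le_Cm.2 ⟨(commutator_le_of_le_normalizer_left (h.1.trans AV)).trans a1, ?_⟩)
    · exact commutator_le_of_le_normalizer_right ((inf_le_inf_right _ hV.le).trans
        (normalizer_commutator_ge_left _ A))
    · exact (commutator_mono inf_le_left le_rfl).trans (commutator_le_of_le_normalizer_left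
        (((lF F h).trans inf_le_left).trans XV))
    · refine (commutator_le_of_le_normalizer_left (le_normalizer_commutator
        (((lF F h).trans inf_le_left).trans XV)
        (le_normalizer_of_le_centralizer ((lF F h).trans inf_le_right)))).trans ?_
      exact (commutator_mono le_rfl h.1).trans le_sup_right
  have gen' : ∀ W, (∀ F, IsCocyclic F A → ⁅X ⊓ centralizer (F : Set G), A⁆ ≤ W) → X ≤ W :=
    fun W h => hX.ge.trans (gen hA.1 (ca le_rfl hn) h)
  have XV0 : X ≤ normalizer (V0 : Set G) := gen' _ fun F h =>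
    le_normalizer_iff_commutator_le_left.2 ((commutator_mono V0V le_rfl).trans (c1 F h))
  have AV0 : A ≤ normalizer (V0 : Set G) := le_normalizer_iff_commutator_le_left.2
    ((commutator_mono V0V le_rfl).trans le_sup_right)
  have d1 : ∀ F, IsCocyclic F A → ∀ F', IsCocyclic F' A →
      ⁅⁅X ⊓ centralizer (F' : Set G), A⁆, ⁅X ⊓ centralizer (F : Set G), A⁆⁆ ≤ V0 := by
    intro F h F' h'
    have l1 := (lF F h).trans inf_le_left
    have l2 := (lF F' h').trans inf_le_left
    rcases cocyc_cases hA h h'.1 with e | e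
    · refine le_trans (le_inf ?_ (commutator_mono l2 l1)) (b1 F' h')
      exact (commutator_mono le_rfl (commutator_mono (inf_le_inf_left _
        (centralizer_le_centralizer e)) le_rfl)).trans
        (commutator_le_of_le_normalizer_left le_normalizer)
    · set Y' := ⁅X ⊓ centralizer (F' : Set G), A⁆
      have e1 : Y' ≤ ⁅F, Y'⁆ := by
        have e2 : ⁅Y', A⁆ = Y' := (ca inf_le_left (nF F' h')).commutator_commutator
        refine e2.ge.trans ((commutator_comm _ _).le.trans (le_Cm.1 (e.trans (sup_le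
          (le_Cm.2 ⟨normalizer_commutator_ge_left _ _, le_rfl⟩) (le_Cm.2 ⟨?_, ?_⟩)))).2)
        · exact le_normalizer_commutator (le_normalizer_of_le_centralizer
            (h'.1.trans (norm_cent hA.1 h.1))) (h'.1.trans (normalizer_commutator_ge_right _ A))
        · rw [commutator_comm, commutator_eq_bot_iff_le_centralizer.2
            ((lF F' h').trans inf_le_right)]
          exact bot_le
      refine (commutator_mono e1 le_rfl).trans (three_subgroups' (h.1.trans AV0) (l2.trans XV0)
        (l1.trans XV0) ?_ ?_)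
      · exact (commutator_mono (commutator_mono l2 l1) h.1).trans le_sup_right
      · rw [commutator_eq_bot_iff_le_centralizer.2 ((lF F h).trans inf_le_right)]
        simp
  have e1 : V ≤ V0 := by
    refine (le_Cm.1 (gen' _ fun F h => le_Cm.2 ⟨((lF F h).trans inf_le_left).trans XV0, ?_⟩)).2
    rw [commutator_comm]
    exact (le_Cm.1 (gen' _ fun F' h' =>
      le_Cm.2 ⟨((lF F' h').trans inf_le_left).trans XV0, d1 F h F' h'⟩)).2
  refine (le_inf ((cent_le_commutator (ca le_rfl hn) hX).trans e1) inf_le_right).trans ?_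
  rw [hV0, sup_inf_of_le_normalizer_right (inf_le_right.trans inf_le_right)
    ((inf_le_right.trans inf_le_left).trans (normalizer_commutator_ge_left V A))]
  exact sup_le inf_le_left (ih' V hV AV)

end Cfsg.Agent.Lib.AG.DS
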