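/-
A-groups project (S2554): the linear lemmas, abstract form.
-/
import Cfsg.Agent.Lib.AG.Basic
import Cfsg.Agent.FT.BG03a
import Cfsg.Agent.FT.Main

set_option autoImplicit false
set_option linter.unusedSectionVars false

namespace Cfsg.Agent.Lib.AG

open Subgroup Cfsg.Agent.Lib.Core
open scoped commutatorElement

universe u

variable {G : Type u} [Group G] [Finite G]

theorem bot_of {X Y : Subgroup G} (h : X = ⊥) (h' : Y ≤ X) : Y = ⊥ := eq_bot_iff.2 (h'.trans h.le)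

theorem le_comm_of_cop {X U : Subgroup G} (h : CoprimeAct X U) (hc : U ⊓ centralizer (X : Set G) = ⊥) :
    U ≤ ⁅U, X⁆ := by
  have := h.inf_centralizer_sup_commutator
  rw [hc, bot_sup_eq] at this
  exact this.ge

/-- Lemma H: an abelian group normalised by a transitive group is semiregular -/
theorem semireg_of_trans {P V D : Subgroup G} (hP : ∀ x ∈ P, ∀ y ∈ P, x * y = y * x)
    (hV : ∀ x ∈ V, ∀ y ∈ V, x * y = y * x) (hPV : P ≤ normalizer (V : Set G)) (hD : D ≤ normalizer (P : Set G))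
    (hf : P ⊓ centralizer (V : Set G) = ⊥) (ht : ∀ x ∈ V, ∀ y ∈ V, x ≠ 1 → y ≠ 1 → ∃ d ∈ D, d * x * d⁻¹ = y)
    {v : G} (hv : v ∈ V) (v1 : v ≠ 1) : P ⊓ centralizer {v} = ⊥ := by
  have k : ∀ x ∈ V, ∀ y ∈ V, x ≠ 1 → y ≠ 1 → P ⊓ centralizer {x} ≤ P ⊓ centralizer {y} →
      P ⊓ centralizer {x} = P ⊓ centralizer {y} := fun x hx y hy x1 y1 hle => by
    obtain ⟨d, hd, rfl⟩ := ht x hx y hy x1 y1
    refine eq_of_le_of_card_ge hle (le_of_eq ?_)
    rw [← card_map_conj (P ⊓ centralizer {x}) d, map_conj_inf, map_conj_eq_iff.2 (hD hd),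
      map_conj_centralizer_singleton]
  by_contra hne
  obtain ⟨v', hv', hn⟩ : ∃ v' ∈ V, ¬ P ⊓ centralizer {v} ≤ centralizer {v'} := by
    by_contra! hc
    exact hne (bot_of hf (le_inf inf_le_left fun x hx => mem_centralizer_iff.2 fun y hy =>
      (mem_centralizer_singleton_iff.1 (hc y hy hx)).symm))
  have v'1 : v' ≠ 1 := by
    rintro rfl
    exact hn fun x _ => mem_centralizer_singleton_iff.2 (by simp)
  have w1 : v * v' ≠ 1 := fun e => hn fun x hx => by
    rw [eq_inv_of_mul_eq_one_right e]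
    exact mem_centralizer_singleton_iff.2 (Commute.inv_right (mem_centralizer_singleton_iff.1 hx.2))
  have c : ∀ y ∈ V, ∀ x ∈ P, ∀ z ∈ P ⊓ centralizer {y}, Commute z (x * y * x⁻¹ * y⁻¹) := fun y hy x hx z hz =>
    have h1 : Commute z x := hP z hz.1 x hx
    have h2 : Commute z y := mem_centralizer_singleton_iff.1 hz.2
    ((h1.mul_right h2).mul_right h1.inv_right).mul_right h2.inv_right
  have key : ∀ x ∈ P ⊓ centralizer {v * v'}, x * v * x⁻¹ * v⁻¹ = 1 ∧ x * v' * x⁻¹ * v'⁻¹ = 1 := fun x hx => by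
    have m := conj_mem_of_mem_normalizer (hPV hx.1) hv'
    have e : (x * v * x⁻¹ * v⁻¹) * (x * v' * x⁻¹ * v'⁻¹) = 1 := by
      calc _ = x * v * x⁻¹ * (v⁻¹ * (x * v' * x⁻¹)) * v'⁻¹ := by group
        _ = x * (v * v') * x⁻¹ * v⁻¹ * v'⁻¹ := by rw [hV _ (inv_mem hv) _ m]; group
        _ = 1 := by rw [mem_centralizer_singleton_iff.1 hx.2, hV v hv v' hv']; group
    suffices x * v * x⁻¹ * v⁻¹ = 1 from ⟨this, by rwa [this, one_mul] at e⟩
    by_contra u1
    have mu := mul_mem (conj_mem_of_mem_normalizer (hPV hx.1) hv) (inv_mem hv)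
    have e1 := k v hv _ mu v1 u1 fun z hz => ⟨hz.1, mem_centralizer_singleton_iff.2 (c v hv x hx.1 z hz)⟩
    have e2 := k v' hv' _ mu v'1 u1 fun z hz => ⟨hz.1, mem_centralizer_singleton_iff.2 (by
      rw [eq_inv_of_mul_eq_one_left e]; exact (c v' hv' x hx.1 z hz).inv_right)⟩
    exact hn (e1.trans e2.symm ▸ inf_le_right)
  have e1 := k _ (mul_mem hv hv') v hv w1 v1 fun x hx => ⟨hx.1, mem_centralizer_singleton_iff.2
    (mul_inv_eq_iff_eq_mul.1 (mul_inv_eq_one.1 (key x hx).1))⟩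
  exact hn (e1 ▸ fun x hx => mem_centralizer_singleton_iff.2 (mul_inv_eq_iff_eq_mul.1 (mul_inv_eq_one.1 (key x hx).2)))

omit [Finite G] in
theorem cent_of_card_two {U X : Subgroup G} (h : Nat.card U = 2) (hX : X ≤ normalizer (U : Set G)) :
    U ≤ centralizer (X : Set G) := fun u hu => mem_centralizer_iff.2 fun x hx => by
  by_cases u1 : u = 1
  · simp [u1]
  obtain ⟨y, -, hy⟩ := (Nat.card_eq_two_iff' (1 : U)).1 h
  have := (hy ⟨_, conj_mem_of_mem_normalizer (hX hx) hu⟩ (by simpa [Subtype.ext_iff] using u1)).trans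
    (hy ⟨u, hu⟩ (by simpa [Subtype.ext_iff] using u1)).symm
  exact mul_inv_eq_iff_eq_mul.1 (congrArg Subtype.val this)

/-- an odd order group `Γ` acting faithfully and without fixed points on `A` -/
structure LA (A Γ : Subgroup G) : Prop where
  ag : AG G
  two : IsPGroup 2 A
  odd : ¬ 2 ∣ Nat.card Γ
  norm : Γ ≤ normalizer (A : Set G)
  faith : Γ ⊓ centralizer (A : Set G) = ⊥
  fp : A ⊓ centralizer (Γ : Set G) = ⊥

/-- `A = V × B`, `D` centralises `B` and is regular on `V#` -/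
structure LS (A Γ V B D : Subgroup G) : Prop extends LA A Γ where
  VA : V ≤ A
  BA : B ≤ A
  disj : ∀ x ∈ V, x ∈ B → x = 1
  split : ∀ a ∈ A, ∃ v ∈ V, ∃ b ∈ B, a = v * b
  four : 4 ≤ Nat.card V
  DΓ : D ≤ Γ
  DV : D ≤ normalizer (V : Set G)
  DB : D ≤ centralizer (B : Set G)
  comm : ∀ d ∈ D, ∀ e ∈ D, d * e = e * d
  trans : ∀ x ∈ V, ∀ y ∈ V, x ≠ 1 → y ≠ 1 → ∃ d ∈ D, d * x * d⁻¹ = y
  reg : ∀ d ∈ D, ∀ x ∈ V, x ≠ 1 → d * x = x * d → d = 1

variable {A Γ V B D : Subgroup G}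

namespace LA
variable (h : LA A Γ)
include h

theorem A_comm {x y : G} (hx : x ∈ A) (hy : y ∈ A) : x * y = y * x := h.ag.comm h.two hx hy

theorem cop {U X : Subgroup G} (hU : U ≤ A) (hX : X ≤ Γ) (hn : X ≤ normalizer (U : Set G)) : CoprimeAct X U :=
  coprimeAct_of_isPGroup_right (fun e => h.odd (e.trans (card_dvd_of_le hX))) (h.two.to_le hU) hn

theorem F_norm {R : Subgroup G} (hR : R ≤ fittingOf Γ) :
    fittingOf Γ ≤ normalizer ((A ⊓ centralizer (R : Set G) : Subgroup G) : Set G) :=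
  le_normalizer_inf ((fittingOf_le Γ).trans h.norm) (le_normalizer_centralizer (le_normalizer_of_le_centralizer
    ((h.ag.fitting_le_centralizer Γ).trans (centralizer_le_centralizer hR))))

theorem not_two {R : Subgroup G} (hR : R ≤ fittingOf Γ) : Nat.card ↥(A ⊓ centralizer (R : Set G)) ≠ 2 := fun e => by
  have h1 : A ⊓ centralizer (fittingOf Γ : Set G) = A ⊓ centralizer (R : Set G) :=
    le_antisymm (inf_le_inf_left _ (centralizer_le_centralizer hR))
      (le_inf inf_le_left (cent_of_card_two e (h.F_norm hR)))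
  have h2 := cent_of_card_two e (X := Γ) (h1 ▸ le_normalizer_inf h.norm
    (le_normalizer_centralizer (le_normalizer_fittingOf le_normalizer)))
  rw [bot_of h.fp (le_inf inf_le_left h2), card_bot] at e
  omega

end LA

namespace LS
variable (h : LS A Γ V B D)
include h

theorem cent {d : G} (hd : d ∈ D) (d1 : d ≠ 1) : A ⊓ centralizer {d} = B := by
  refine le_antisymm (fun a ha => ?_) (le_inf h.BA fun b hb => mem_centralizer_singleton_iff.2 (h.DB hd b hb))
  obtain ⟨v, hv, b, hb, rfl⟩ := h.split a ha.1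
  by_cases v1 : v = 1
  · simpa [v1] using hb
  refine (d1 (h.reg d hd v hv v1 (mul_right_cancel (b := b) ?_))).elim
  rw [mul_assoc, ← mem_centralizer_singleton_iff.1 ha.2, mul_assoc, h.DB hd b hb, mul_assoc]

theorem comm_le {d : G} (hd : d ∈ D) : ⁅A, zpowers d⁆ ≤ V := commutator_le.2 fun a ha e he => by
  obtain ⟨v, hv, b, hb, rfl⟩ := h.split a ha
  have he := zpowers_le.2 hd he
  have : ⁅v * b, e⁆ = v * (e * v⁻¹ * e⁻¹) := by
    calc _ = v * (b * e) * (v * b)⁻¹ * e⁻¹ := by rw [commutatorElement_def]; group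
      _ = _ := by rw [h.DB he b hb]; group
  exact this ▸ mul_mem hv (conj_mem_of_mem_normalizer (h.DV he) (inv_mem hv))

theorem le_V {U : Subgroup G} {d : G} (hd : d ∈ D) (d1 : d ≠ 1) (hU : U ≤ A) (hn : d ∈ normalizer (U : Set G))
    (hB : U ⊓ B = ⊥) : U ≤ V := by
  refine (le_comm_of_cop (h.cop hU (zpowers_le.2 (h.DΓ hd)) (zpowers_le.2 hn)) ?_).trans
    ((commutator_mono hU le_rfl).trans (h.comm_le hd))
  rw [centralizer_zpowers]
  exact bot_of hB (le_inf inf_le_left ((inf_le_inf_right _ hU).trans (h.cent hd d1).le))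

theorem exV (v : G) : ∃ w ∈ V, w ≠ 1 ∧ w ≠ v := by
  by_contra! hc
  have : (V : Set G) ⊆ {1, v} := fun w hw => by by_cases e : w = 1; exacts [.inl e, .inr (hc w hw e)]
  have h1 := (Set.ncard_le_ncard this).trans (Set.ncard_insert_le _ _)
  have h2 := h.four
  rw [Set.ncard_singleton, ← Nat.card_coe_set_eq] at h1
  exact absurd (h2.trans h1) (by decide)

theorem inv_sub {U : Subgroup G} (hU : U ≤ A) (hn : D ≤ normalizer (U : Set G)) : U ≤ B ∨ V ≤ U := by
  by_cases hB : U ≤ B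
  · exact .inl hB
  obtain ⟨u, hu, hu'⟩ := SetLike.not_le_iff_exists.1 hB
  obtain ⟨v, hv, b, hb, rfl⟩ := h.split u (hU hu)
  have v1 : v ≠ 1 := by rintro rfl; exact hu' (by simpa using hb)
  obtain ⟨w, hw, w1, wv⟩ := h.exV v
  obtain ⟨d, hd, e⟩ := h.trans v hv w hw v1 w1
  have : d * (v * b) * d⁻¹ * (v * b)⁻¹ = w * v⁻¹ := by
    calc _ = d * v * (b * d⁻¹) * (v * b)⁻¹ := by group
      _ = _ := by rw [h.DB (inv_mem hd) b hb, ← e]; group
  have m : w * v⁻¹ ∈ U := this ▸ mul_mem (conj_mem_of_mem_normalizer (hn hd) hu) (inv_mem hu)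
  refine .inr fun y hy => ?_
  by_cases y1 : y = 1
  · exact y1 ▸ one_mem _
  obtain ⟨e, he, rfl⟩ := h.trans _ (mul_mem hw (inv_mem hv)) y hy (mul_inv_eq_one.not.2 wv) y1
  exact conj_mem_of_mem_normalizer (hn he) m

theorem VB : V ⊓ B = ⊥ := eq_bot_iff.2 fun x hx => h.disj x hx.1 hx.2

theorem cardA : Nat.card A = Nat.card V * Nat.card B := by
  have := card_sup_mul_card_inf (H := V) (N := B)
    (le_normalizer_of_le_centralizer (h.ag.le_centralizer h.two h.VA h.BA))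
  rw [h.VB, card_bot, mul_one] at this
  rw [← this]
  congr 2
  refine le_antisymm (fun a ha => ?_) (sup_le h.VA h.BA)
  obtain ⟨v, hv, b, hb, rfl⟩ := h.split a ha
  exact mul_mem_sup hv hb

theorem cardD : Nat.card D + 1 = Nat.card V := by
  obtain ⟨v, hv, v1, -⟩ := h.exV 1
  have : Nat.card D = Nat.card ((V : Set G) \ {1} : Set G) := Nat.card_congr (Equiv.ofBijective
    (fun d => ⟨d * v * (d : G)⁻¹, conj_mem_of_mem_normalizer (h.DV d.2) hv, by simpa using v1⟩) ⟨fun d e he => by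
      have he : (d : G) * v * (d : G)⁻¹ = e * v * (e : G)⁻¹ := congrArg Subtype.val he
      refine Subtype.ext (inv_mul_eq_one.1 (h.reg _ (mul_mem (inv_mem e.2) d.2) v hv v1 ?_)).symm
      calc _ = (e : G)⁻¹ * (d * v * (d : G)⁻¹) * d := by group
        _ = _ := by rw [he]; group, fun ⟨w, hw, w1⟩ => by
      obtain ⟨d, hd, e⟩ := h.trans v hv w hw v1 w1
      exact ⟨⟨d, hd⟩, Subtype.ext e⟩⟩)
  rw [this, Nat.card_coe_set_eq, Set.ncard_sdiff_singleton_add_one (one_mem V)]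
  exact (Nat.card_coe_set_eq _).symm

theorem D_ne : D ≠ ⊥ := fun e => by
  have := h.cardD
  have := h.four
  rw [e, card_bot] at *
  omega

theorem centD : A ⊓ centralizer (D : Set G) = B := by
  obtain ⟨⟨d, hd⟩, d1⟩ := ne_bot_iff_exists_ne_one.1 h.D_ne
  exact le_antisymm (fun a ha => (h.cent hd fun e => d1 (Subtype.ext e)).le
    ⟨ha.1, mem_centralizer_singleton_iff.2 (ha.2 d hd).symm⟩) (le_inf h.BA (le_centralizer_iff.1 h.DB))

theorem D_cent {X : Subgroup G} (hX : X ≤ D) : D ≤ centralizer (X : Set G) := fun d hd =>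
  mem_centralizer_iff.2 fun x hx => h.comm x (hX hx) d hd

variable {q : ℕ} [hq : Fact q.Prime]

/-- the `q`-part of `D` centralises `R` -/
theorem split_q {R : Subgroup G} (hR : IsPGroup q R) (hn : D ≤ normalizer (R : Set G)) :
    CoprimeAct (OppOf q D) R ∧ R ⊓ centralizer (OppOf q D : Set G) ≤ centralizer (D : Set G) := by
  refine ⟨coprimeAct_of_isPGroup_right (OppOf_not_dvd D) hR ((OppOf_le D).trans hn), ?_⟩
  nth_rewrite 2 [← OpOf_sup_OppOf (p := q) (isNilpotent_of_isMulCommutative (H := D)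
    ⟨⟨fun a b => Subtype.ext (h.comm _ a.2 _ b.2)⟩⟩)]
  exact le_centralizer_sup (inf_le_left.trans (le_centralizer_iff.1
    (h.ag.comm_of_sup (OpOf_isPGroup D) hR ((OpOf_le D).trans hn)))) inf_le_right

theorem le_cent {R U : Subgroup G} (hR : IsPGroup q R) (hn : D ≤ normalizer (R : Set G))
    (hc : R ⊓ centralizer (D : Set G) = ⊥) (hU : R ≤ normalizer (U : Set G)) (hD : D ≤ centralizer (U : Set G)) :
    R ≤ centralizer (U : Set G) := by
  obtain ⟨h1, h2⟩ := h.split_q hR hn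
  exact (le_comm_of_cop h1 (bot_of hc (le_inf inf_le_left h2))).trans ((commutator_mono le_rfl ((OppOf_le D).trans hD)).trans
    (commutator_le_of_le_normalizer_right (le_normalizer_centralizer hU)))

theorem sub {R : Subgroup G} (hR : IsPGroup q R) (hRΓ : R ≤ Γ) (hn : D ≤ normalizer (R : Set G))
    (hc : R ⊓ centralizer (D : Set G) = ⊥) {d : G} (hd : d ∈ D) (d1 : d ≠ 1) (hRd : R ≤ centralizer {d}) :
    R = ⊥ := by
  by_contra hne
  have hRA := hRΓ.trans h.norm
  have nz : R ≤ normalizer ((zpowers d : Subgroup G) : Set G) :=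
    le_normalizer_of_le_centralizer (centralizer_zpowers d ▸ hRd)
  have RB : R ≤ centralizer (B : Set G) := h.le_cent hR hn hc (h.cent hd d1 ▸ le_normalizer_inf hRA
    (centralizer_zpowers d ▸ le_normalizer_centralizer nz)) h.DB
  have eV : ⁅A, zpowers d⁆ = V := le_antisymm (h.comm_le hd) (by
    refine (le_comm_of_cop (h.cop h.VA (zpowers_le.2 (h.DΓ hd)) (zpowers_le.2 (h.DV hd))) ?_).trans
      (commutator_mono h.VA le_rfl)
    rw [centralizer_zpowers]
    exact bot_of h.VB (le_inf inf_le_left ((inf_le_inf_right _ h.VA).trans (h.cent hd d1).le)))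
  have RV : R ≤ normalizer (V : Set G) := eV ▸ le_normalizer_commutator hRA nz
  have fa : ∀ P ≤ Γ, P ≤ centralizer (B : Set G) → P ⊓ centralizer (V : Set G) = ⊥ := fun P h1 h2 =>
    bot_of h.faith fun x hx => ⟨h1 hx.1, mem_centralizer_iff.2 fun a ha => by
      obtain ⟨v, hv, b, hb, rfl⟩ := h.split a ha
      exact (Commute.mul_left (hx.2 v hv) (h2 hx.1 b hb)).eq⟩
  have h1 : V ⊓ centralizer (R : Set G) = ⊥ := by
    obtain e | e := h.inv_sub (inf_le_left.trans h.VA) (le_normalizer_inf h.DV (le_normalizer_centralizer hn))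
    · exact bot_of h.VB (le_inf inf_le_left e)
    · exact (hne (bot_of (fa R hRΓ RB) (le_inf le_rfl (le_centralizer_iff.1 (e.trans inf_le_right))))).elim
  have h2 := Transfer.card_modEq_card_inf_centralizer hR RV
  rw [h1, card_bot, ← h.cardD] at h2
  obtain ⟨⟨y, hy⟩, y2⟩ := exists_prime_orderOf_dvd_card' (G := D) q
    ((Nat.modEq_zero_iff_dvd).1 (Nat.ModEq.add_right_cancel' 1 (by simpa using h2)))
  rw [orderOf_mk] at y2
  obtain ⟨⟨x, hx⟩, x2⟩ := exists_prime_orderOf_dvd_card' q (dvd_card_of_isPGroup_of_ne_bot hR hne)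
  rw [orderOf_mk] at x2
  have hy' : IsPGroup q (zpowers y) := isPGroup_zpowers (k := 1) (by rw [pow_one, ← y2, pow_orderOf_eq_one])
  have hP := isPGroup_sup_of_le_normalizer hy' hR (zpowers_le.2 (hn hy))
  have PΓ : zpowers y ⊔ R ≤ Γ := sup_le (zpowers_le.2 (h.DΓ hy)) hRΓ
  have PV : zpowers y ⊔ R ≤ normalizer (V : Set G) := sup_le (zpowers_le.2 (h.DV hy)) RV
  have sr := fun v hv v1 => semireg_of_trans (fun _ a _ b => h.ag.comm hP a b)
    (fun _ a _ b => h.A_comm (h.VA a) (h.VA b)) PV (le_normalizer_sup (le_normalizer_of_le_centralizer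
      (h.D_cent (zpowers_le.2 hy))) hn) (fa _ PΓ (sup_le (zpowers_le.2 (h.DB hy)) RB)) h.trans (v := v) hv v1
  have cy : IsCyclic ↥(zpowers y ⊔ R) := by
    by_contra nc
    have := le_of_centralizers (W := ⊥) (h.ag.isMulCommutative hP) nc PV (h.cop h.VA PΓ PV).coprime
      fun a ha a1 v hv => by_contra fun v1 => a1 (mem_bot.1 ((sr v hv.1 v1).le
        ⟨ha, mem_centralizer_singleton_iff.2 (mem_centralizer_singleton_iff.1 hv.2).symm⟩))
    obtain ⟨v, hv, v1, -⟩ := h.exV 1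
    exact v1 (this hv)
  have e := (FT.eq_Ohm1_of_isCyclic cy hP le_sup_left (by rw [Nat.card_zpowers, y2])).trans
    (FT.eq_Ohm1_of_isCyclic cy hP ((zpowers_le.2 hx).trans le_sup_right) (by rw [Nat.card_zpowers, x2])).symm
  have : y = 1 := mem_bot.1 (hc.le ⟨zpowers_le.2 hx (e ▸ mem_zpowers y), h.D_cent le_rfl hy⟩)
  rw [this, orderOf_one] at y2
  exact hq.out.one_lt.ne y2

omit hq in
/-- the CLAIM -/
theorem claim : (∃ d ∈ D, d ≠ 1 ∧ d ∈ fittingOf Γ) ∨ (Nat.card V = 4 ∧ ∃ q : ℕ, q.Prime ∧ q ≠ 2 ∧ ∃ R ≤ fittingOf Γ,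
    IsPGroup q R ∧ A ⊓ centralizer (R : Set G) ≤ B ∧ Nat.card B = 2 * Nat.card ↥(A ⊓ centralizer (R : Set G))) := by
  by_cases hF : D ≤ centralizer (fittingOf Γ : Set G)
  · obtain ⟨⟨d, hd⟩, d1⟩ := ne_bot_iff_exists_ne_one.1 h.D_ne
    exact .inl ⟨d, hd, fun e => d1 (Subtype.ext e), inf_centralizer_fittingOf_le_of_isSolvable
      (FT.feit_thompson _ (Nat.odd_iff.2 (Nat.two_dvd_ne_zero.1 h.odd))) ⟨h.DΓ hd, hF hd⟩⟩
  right
  obtain ⟨q, hq, hQ⟩ : ∃ q : ℕ, q.Prime ∧ ¬ OpOf q Γ ≤ centralizer (D : Set G) := by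
    by_contra! hc
    exact hF (le_centralizer_iff.1 (fittingOf_le_of_forall_OpOf hc))
  have := Fact.mk hq
  have nQ : D ≤ normalizer (OpOf q Γ : Set G) := le_normalizer_OpOf (le_normalizer_of_le h.DΓ)
  obtain ⟨c1, c2⟩ := h.split_q (OpOf_isPGroup Γ) nQ
  have RQ : ⁅OpOf q Γ, OppOf q D⁆ ≤ OpOf q Γ := commutator_le_of_le_normalizer_left c1.le_norm
  have nR := le_normalizer_commutator nQ (le_normalizer_OppOf (p := q) (le_normalizer (H := D)))
  have R1 : ⁅OpOf q Γ, OppOf q D⁆ ≠ ⊥ := fun e =>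
    hQ (c2.trans' (le_inf le_rfl (commutator_eq_bot_iff_le_centralizer.1 e)))
  have hc : ⁅OpOf q Γ, OppOf q D⁆ ⊓ centralizer (D : Set G) = ⊥ := bot_of
    (inf_centralizer_inf_commutator_eq_bot (h.ag.isMulCommutative (OpOf_isPGroup Γ)) c1.le_norm c1.coprime)
      (le_inf (inf_le_right.trans (centralizer_le_centralizer (OppOf_le D))) inf_le_left)
  generalize ⁅OpOf q Γ, OppOf q D⁆ = R at RQ nR R1 hc
  have hR := (OpOf_isPGroup Γ).to_le RQ
  have RΓ := RQ.trans (OpOf_le Γ)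
  have q2 : q ≠ 2 := by
    rintro rfl
    exact h.odd ((dvd_card_of_isPGroup_of_ne_bot hR R1).trans (card_dvd_of_le RΓ))
  have fr : FT.Frob (R ⊔ D) R D := ⟨⟨nR, bot_of hc (inf_le_inf_left _ (h.D_cent le_rfl)), rfl⟩, R1,
    h.D_ne, fun d hd d1 => h.sub (hR.to_le inf_le_left) (inf_le_left.trans RΓ) (le_normalizer_inf nR
      (le_normalizer_centralizer (le_normalizer_of_le_centralizer fun e he =>
        mem_centralizer_singleton_iff.2 (h.comm e he d hd))))
      (bot_of hc (inf_le_inf_right _ inf_le_left)) hd d1 inf_le_right⟩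
  have LΓ : R ⊔ D ≤ Γ := sup_le RΓ h.DΓ
  have w := FT.H6.wielandt G _ R D A fr (LΓ.trans h.norm) (h.cop le_rfl LΓ (LΓ.trans h.norm)).coprime.symm
    (isSolvable_of_isPGroup h.two)
  have RA := RΓ.trans h.norm
  have cR := h.cop le_rfl RΓ RA
  have MA : ⁅A, R⁆ ≤ A := commutator_le_of_le_normalizer_left RA
  have CB : A ⊓ centralizer (R : Set G) ≤ B := by
    refine (h.inv_sub inf_le_left (le_normalizer_inf (h.DΓ.trans h.norm)
      (le_normalizer_centralizer nR))).resolve_right fun e => ?_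
    obtain e' | e' := h.inv_sub MA (le_normalizer_commutator (h.DΓ.trans h.norm) nR)
    · have := h.le_cent hR nR hc (le_normalizer_commutator RA le_normalizer)
        (h.DB.trans (centralizer_le_centralizer e'))
      exact R1 (bot_of h.faith (le_inf RΓ (le_centralizer_iff.1 (cR.le_centralizer (le_centralizer_iff.1 this)))))
    · obtain ⟨v, hv, v1, -⟩ := h.exV 1
      exact v1 (mem_bot.1 ((inf_centralizer_inf_commutator_eq_bot (h.ag.isMulCommutative h.two) RA cR.coprime).le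
        ⟨(e hv).2, e' hv⟩))
  have e1 : A ⊓ centralizer ((R ⊔ D : Subgroup G) : Set G) = A ⊓ centralizer (R : Set G) := by
    rw [centralizer_sup, ← inf_assoc]
    exact inf_eq_left.2 (CB.trans (le_centralizer_iff.1 h.DB))
  rw [e1, h.centD, h.cardA] at w
  obtain ⟨c, hc'⟩ := card_dvd_of_le CB
  have p0 := Nat.card_pos (α := ↥(A ⊓ centralizer (R : Set G)))
  have hD := h.cardD
  have h4 := h.four
  have c0 : 0 < c := Nat.pos_of_ne_zero fun e => by
    have := Nat.card_pos (α := B)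
    rw [hc', e] at this
    omega
  refine (fun (k : Nat.card V = 4 ∧ c = 2) => ⟨k.1, q, hq, q2, R, RQ.trans (OpOf_le_fittingOf Γ), hR, CB,
    by rw [hc', k.2, mul_comm]⟩) ?_
  rw [hc'] at w
  generalize Nat.card ↥(A ⊓ centralizer (R : Set G)) = c0 at *
  obtain ⟨n, hn⟩ : ∃ n, Nat.card D = n + 3 := ⟨Nat.card D - 3, by omega⟩
  have hV : Nat.card V = n + 4 := by omega
  rw [hn, hV] at w
  have w2 : n + 4 = c ^ (n + 2) := by
    refine Nat.eq_of_mul_eq_mul_left (show 0 < c0 ^ (n + 3) * (c0 * c) by positivity) ?_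
    calc _ = c0 ^ (n + 3) * ((n + 4) * (c0 * c)) := by ring
      _ = _ := by rw [w]; ring
  have c2 : 2 ≤ c := by
    by_contra hlt
    rw [show c = 1 by omega, one_pow] at w2
    omega
  have h5 := Nat.pow_le_pow_left c2 (n + 2)
  have h6 := Nat.lt_two_pow_self (n := n)
  have n0 : n = 0 := by rw [pow_add] at h5; omega
  subst n0
  exact ⟨hV, Nat.pow_left_injective (n := 2) (by norm_num) w2.symm⟩

omit hq in
theorem claim' (h4 : Nat.card B = 4) : ∃ d ∈ D, d ≠ 1 ∧ d ∈ fittingOf Γ :=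
  h.claim.resolve_right fun ⟨_, _, _, _, _, hR, _, _, e⟩ => h.not_two hR (by omega)

omit hq in
theorem lin1 (h2 : Nat.card B = 2) : Nat.card A = 8 := by
  obtain ⟨d, hd, d1, hF⟩ | ⟨h4, -⟩ := h.claim
  · exact (h.not_two (zpowers_le.2 hF) (by rwa [centralizer_zpowers, h.cent hd d1])).elim
  · rw [h.cardA, h4, h2]

omit hq in
theorem conj_cent {d g : G} (hd : d ∈ D) (d1 : d ≠ 1) (hF : d ∈ fittingOf Γ) (hg : g ∈ Γ) :
    fittingOf Γ ≤ normalizer ((B.map (MulAut.conj g).toMonoidHom : Subgroup G) : Set G) := by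
  rw [← h.cent hd d1, map_conj_inf, map_conj_eq_iff.2 (h.norm hg), map_conj_centralizer_singleton,
    ← centralizer_zpowers]
  exact h.F_norm (zpowers_le.2 (conj_mem_of_mem_normalizer (le_normalizer_fittingOf le_normalizer hg) hF))

omit hq in
theorem lin2 (h4 : 4 ≤ Nat.card B) (hp : ∀ g ∈ Γ, B ⊓ B.map (MulAut.conj g).toMonoidHom ≠ ⊥ →
      B.map (MulAut.conj g).toMonoidHom = B ∨ V.map (MulAut.conj g).toMonoidHom ≤ B) :
    ∀ g ∈ Γ, B ⊓ B.map (MulAut.conj g).toMonoidHom ≠ ⊥ := by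
  intro g hg e
  have cA : ∀ g ∈ Γ, ∀ U ≤ A, U.map (MulAut.conj g).toMonoidHom ≤ A := fun g hg U hU =>
    map_conj_le_of_le hU (h.norm hg)
  have hBV : Nat.card B ≤ Nat.card V := by
    have h1 := card_sup_mul_card_inf (H := B) (N := B.map (MulAut.conj g).toMonoidHom)
      (le_normalizer_of_le_centralizer (h.ag.le_centralizer h.two h.BA (cA g hg B h.BA)))
    have h2 := card_le_of_le (sup_le h.BA (cA g hg B h.BA))
    rw [e, card_bot, mul_one, card_map_conj] at h1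
    rw [h1, h.cardA] at h2
    exact Nat.le_of_mul_le_mul_right h2 Nat.card_pos
  obtain ⟨d, hd, d1, hF⟩ : ∃ d ∈ D, d ≠ 1 ∧ d ∈ fittingOf Γ :=
    h.claim.elim id fun k => h.claim' (by have := k.1; omega)
  have ti : ∀ k ∈ Γ, B.map (MulAut.conj k).toMonoidHom = B ∨ B.map (MulAut.conj k).toMonoidHom ≤ V := fun k hk => by
    by_cases e : B ⊓ B.map (MulAut.conj k).toMonoidHom = ⊥
    · exact .inr (h.le_V hd d1 (cA k hk B h.BA) (h.conj_cent hd d1 hF hk hF) (by rwa [inf_comm]))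
    refine .inl ((hp k hk e).elim id fun e' => (e ?_).elim)
    have e2 := eq_of_le_of_card_ge e' (by rwa [card_map_conj])
    nth_rewrite 1 [← e2]
    rw [← map_conj_inf, h.VB, Subgroup.map_bot]
  obtain ⟨b, hb, b1⟩ := B.nontrivial_iff_exists_ne_one.1 (Finite.one_lt_card_iff_nontrivial.1 (by omega))
  have nn : g ∉ normalizer (B : Set G) := fun k => b1 (mem_bot.1 (e.le ⟨hb, (map_conj_eq_iff.2 k).ge hb⟩))
  have h1 := (ti g hg).resolve_left fun k => nn (map_conj_eq_iff.1 k)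
  have h2 := map_conj_le_iff.1 ((ti _ (inv_mem hg)).resolve_left fun k => nn (inv_mem_iff.1 (map_conj_eq_iff.1 k)))
  have h3 : ∀ v ∈ V, g * v * g⁻¹ ∈ B := fun w hw => by
    obtain ⟨v, hv, c, hc, e1⟩ := h.split _ (conj_mem_of_mem_normalizer (h.norm hg) (h.VA hw))
    by_cases v1 : v = 1
    · rwa [e1, v1, one_mul]
    exfalso
    have m : g⁻¹ * v * g⁻¹⁻¹ ∈ V := by
      have : g⁻¹ * v * g⁻¹⁻¹ = w * (g⁻¹ * c * g⁻¹⁻¹)⁻¹ := by
        rw [← mul_inv_eq_iff_eq_mul.2 e1]; group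
      exact this ▸ mul_mem hw (inv_mem (h2 c hc))
    obtain ⟨x, hx, e2⟩ := h.trans _ (h2 b hb) _ (mul_mem m (h2 b hb)) (conj_eq_one_iff.not.2 b1) (by
      rw [conj_mul]
      exact conj_eq_one_iff.not.2 fun k => v1 (h.disj v hv (by rw [eq_inv_of_mul_eq_one_left k]; exact inv_mem hb)))
    have e3 : v * b ∈ B.map (MulAut.conj (g * x * g⁻¹)).toMonoidHom := by
      have : v * b = g * x * g⁻¹ * b * (g * x * g⁻¹)⁻¹ := by
        calc _ = g * (g⁻¹ * v * g⁻¹⁻¹ * (g⁻¹ * b * g⁻¹⁻¹)) * g⁻¹ := by group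
          _ = _ := by rw [← e2]; group
      exact this ▸ conj_mem_map_conj.2 hb
    obtain k | k := ti _ (mul_mem (mul_mem hg (h.DΓ hx)) (inv_mem hg))
    · exact v1 (h.disj v hv ((mul_mem_cancel_right hb).1 (k.le e3)))
    · exact b1 (h.disj b ((mul_mem_cancel_left hv).1 (k e3)) hb)
  have h4 : g ^ 2 ∈ normalizer (B : Set G) := mem_normalizer_of_conj_mem fun x hx => by
    simpa [pow_two, mul_assoc] using h3 _ (map_conj_le_iff.1 h1 x hx)
  obtain ⟨m, hm⟩ := exists_pow_eq_self_of_coprime (x := g) ((Nat.Prime.coprime_iff_not_dvd Nat.prime_two).2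
    fun k => h.odd (k.trans (orderOf_dvd_natCard Γ hg)))
  exact nn (hm ▸ pow_mem h4 m)

omit hq in
theorem lin3 {V' B' D' : Subgroup G} (h' : LS A Γ V' B' D') (h4 : Nat.card B = 4) (h4' : Nat.card V' = 4)
    (hi : B ⊓ B' = ⊥) : B' = V := by
  obtain ⟨d, hd, d1, hF⟩ := h.claim' h4
  have c1 := h.cardA
  have c2 := h'.cardA
  obtain ⟨e, he, e1, hF'⟩ | ⟨-, q, hq, q2, R, hR, hR', k1, k2⟩ := h'.claim
  · refine eq_of_le_of_card_ge (h.le_V hd d1 h'.BA ?_ (by rwa [inf_comm])) (by rw [h4] at c1; rw [h4'] at c2; omega)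
    simpa [map_conj_one] using h'.conj_cent he e1 hF' (one_mem Γ) hF
  exfalso
  have := Fact.mk hq
  have m1 := Transfer.card_modEq_card_inf_centralizer hR' (hR.trans ((fittingOf_le Γ).trans h.norm))
  have m2 := Transfer.card_modEq_card_inf_centralizer (Q := B) hR'
    (hR.trans (by simpa [map_conj_one] using h.conj_cent hd d1 hF (one_mem Γ)))
  rw [bot_of hi (le_inf inf_le_left ((inf_le_inf_right _ h.BA).trans k1)), card_bot, h4] at m2
  obtain ⟨n, hn⟩ := IsPGroup.iff_card.1 (h.two.to_le (inf_le_left : A ⊓ centralizer (R : Set G) ≤ A))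
  rw [c2, k2, h4', hn] at m1
  have q3 : q = 3 := (Nat.prime_dvd_prime_iff_eq hq Nat.prime_three).1 ((Nat.modEq_iff_dvd' (by norm_num)).1 m2.symm)
  subst q3
  have := (Nat.modEq_iff_dvd' (by omega)).1 m1.symm
  rw [show 4 * (2 * 2 ^ n) - 2 ^ n = 7 * 2 ^ n by omega] at this
  have := Nat.prime_three.dvd_of_dvd_pow (Nat.Coprime.dvd_of_dvd_mul_left (by norm_num) this)
  omega

end LS

end Cfsg.Agent.Lib.AG
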