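/-
A-groups project (S2554): the linear lemmas.
-/
import Cfsg.Agent.Lib.AG.Cx0
import Cfsg.Agent.Lib.AG.Lin1

set_option autoImplicit false

namespace Cfsg.Agent.Lib.AG

open Subgroup Cfsg.Agent.Lib.Core
open scoped commutatorElement

universe u

variable {G : Type u} [Group G] [Finite G] {S A : Subgroup G} (h : Cx S A)
include h

/-- an odd order subgroup of `N(S)` centralising `A` centralises `S` -/
theorem Cx.cent_of_A {X : Subgroup G} (hX : ¬ 2 ∣ Nat.card X) (hn : X ≤ normalizer (S : Set G))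
    (hc : X ≤ centralizer (A : Set G)) : X ≤ centralizer (S : Set G) := by
  have c := coprimeAct_of_isPGroup_right hX h.syl.isPGroup hn
  have l : ⁅S, X⁆ ≤ S := commutator_le_of_le_normalizer_left hn
  refine le_centralizer_iff.1 (commutator_eq_bot_iff_le_centralizer.1 (by_contra fun hne => ?_))
  obtain ⟨⟨a, ha⟩, a2⟩ := exists_prime_orderOf_dvd_card' 2
    (dvd_card_of_isPGroup_of_ne_bot (h.syl.isPGroup.to_le l) hne)
  rw [orderOf_mk] at a2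
  have := (inf_centralizer_inf_commutator_eq_bot (h.ag.isMulCommutative h.syl.isPGroup) hn c.coprime).le
    ⟨le_centralizer_iff.1 hc ((h.memA a).2 ⟨l ha, by rw [← pow_two, ← a2, pow_orderOf_eq_one]⟩), ha⟩
  rw [mem_bot.1 this, orderOf_one] at a2
  omega

omit [Finite G] h in
theorem CD.le_A [Finite G] (h : Cx S A) {K D : Subgroup G} (hD : CD S K D) : S ⊓ K ≤ A :=
  fun x hx => (h.memA x).2 ⟨hx.1, hD.sq x hx⟩

theorem Cx.model : ∃ (Q : Type u) (_ : Group Q) (_ : Finite Q) (f : normalizer (S : Set G) →* Q) (Γ : Subgroup G),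
    Γ ≤ normalizer (S : Set G) ∧ Γ ⊔ S = normalizer (S : Set G) ∧
    (∀ U ≤ A, ∀ x : normalizer (S : Set G), (x : G) ∈ A → (f x ∈ bar f U ↔ (x : G) ∈ U)) ∧
    (∀ U ≤ A, Nat.card (bar f U) = Nat.card U) ∧
    ∀ K D, CD S K D → ∃ D', LS (bar f A) (bar f Γ) (bar f (S ⊓ K)) (bar f (A ⊓ CM K)) D' := by
  obtain ⟨Γ, g1, g2, g3, g4⟩ := h.compl
  have AN : A ≤ normalizer (S : Set G) := h.A_le.trans le_normalizer
  have x2 : ¬ 2 ∣ Nat.card ↥(Γ ⊓ centralizer (A : Set G)) := fun e => g2 (e.trans (card_dvd_of_le inf_le_left))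
  obtain ⟨Q, _, _, f, hf, hk, -⟩ := exists_bar (N := Γ ⊓ centralizer (A : Set G)) (inf_le_left.trans g1)
    (g3.ge.trans (sup_le (le_normalizer_inf le_normalizer (le_normalizer_centralizer (g1.trans h.norm_A)))
      (le_normalizer_of_le_centralizer (le_centralizer_iff.1 (h.cent_of_A x2 (inf_le_left.trans g1) inf_le_right)))))
  have ker : ∀ x : normalizer (S : Set G), f x = 1 ↔ (x : G) ∈ Γ ⊓ centralizer (A : Set G) := fun x => by
    rw [← mem_kerOf, hk]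
  have inj : ∀ x y : normalizer (S : Set G), (x : G) ∈ A → (y : G) ∈ A → f x = f y → x = y := fun x y hx hy e =>
    Subtype.ext (inv_mul_eq_one.1 (mem_bot.1 ((inf_eq_bot_of_isPGroup_of_not_dvd h.A_two x2).le
      ⟨A.mul_mem (A.inv_mem hx) hy, (ker (x⁻¹ * y)).1 (by simp [e])⟩)))
  have cm : ∀ x y : normalizer (S : Set G), (y : G) ∈ A → f x * f y = f y * f x → (x : G) * y = y * x :=
    fun x y hy e => mul_inv_eq_iff_eq_mul.1 (congrArg Subtype.val (inj (x * y * x⁻¹) y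
      (conj_mem_of_mem_normalizer (h.norm_A x.2) hy) hy (by simp [e])))
  have cd : ∀ U ≤ A, Nat.card (bar f U) = Nat.card U := fun U hU =>
    card_bar_of_isPGroup f (h.A_two.to_le hU) (hU.trans AN) (hk ▸ x2)
  refine ⟨Q, inferInstance, inferInstance, f, Γ, g1, g3, fun U hU x hx => ⟨fun e => ?_, mem_bar_of_mem f⟩, cd,
    fun K D hD => ⟨bar f (Γ ⊓ (S ⊔ D)), ⟨h.ag.bar f hf, isPGroup_bar f h.A_two, not_dvd_card_bar f g2,
      bar_le_normalizer f (g1.trans h.norm_A), eq_bot_iff.2 ?_, eq_bot_iff.2 ?_⟩, bar_mono f (hD.le_A h),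
      bar_mono f inf_le_left, ?_, ?_, (cd _ (hD.le_A h)).symm ▸ hD.four, bar_mono f inf_le_left, bar_le_normalizer f ?_,
      bar_le_centralizer f ?_, ?_, ?_, ?_⟩⟩
  · obtain ⟨y, hy, e⟩ := (mem_bar f).1 e
    exact inj y x (hU hy) hx e ▸ hy
  · rintro _ ⟨hx0, hc⟩
    obtain ⟨x, hx, rfl⟩ := (mem_bar f).1 hx0
    exact (ker x).2 ⟨hx, mem_centralizer_iff.2 fun a ha =>
      (cm x ⟨a, AN ha⟩ ha (hc _ (mem_bar_of_mem f ha)).symm).symm⟩
  · rintro _ ⟨hx0, hc⟩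
    obtain ⟨x, hx, rfl⟩ := (mem_bar f).1 hx0
    rw [show x = 1 from Subtype.ext (mem_bot.1 (g4.le ⟨h.A_le hx, mem_centralizer_iff.2 fun a ha =>
      cm ⟨a, g1 ha⟩ x hx (hc _ (mem_bar_of_mem f ha))⟩)), map_one]
    exact one_mem _
  · intro _ hx0 hy0
    obtain ⟨x, hx, rfl⟩ := (mem_bar f).1 hx0
    obtain ⟨y, hy, e⟩ := (mem_bar f).1 hy0
    obtain rfl := inj y x hy.1 (hD.le_A h hx) e
    rw [show y = 1 from Subtype.ext (hD.disj y hx hy.2), map_one]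
  · intro _ hx0
    obtain ⟨x, hx, rfl⟩ := (mem_bar f).1 hx0
    obtain ⟨v, hv, c, hc, e⟩ := hD.split x (h.A_le hx)
    have : c ∈ A := (mul_mem_cancel_left (hD.le_A h hv)).1 (e ▸ hx)
    exact ⟨_, mem_bar_of_mem f (x := ⟨v, le_normalizer hv.1⟩) hv, _,
      mem_bar_of_mem f (x := ⟨c, le_normalizer hc.1⟩) ⟨this, hc.2⟩, by rw [← map_mul]; exact congrArg f (Subtype.ext e)⟩
  · exact inf_le_right.trans (sup_le (le_normalizer_of_le_centralizer (h.S_le_cent inf_le_left))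
      (le_normalizer_inf hD.DN (le_normalizer_of_le hD.DK)))
  · exact inf_le_right.trans (sup_le (h.S_le_cent (inf_le_left.trans h.A_le))
      (hD.DC.trans (centralizer_le_centralizer (inf_le_inf_right _ h.A_le))))
  · intro _ hx0 _ hy0
    obtain ⟨x, hx, rfl⟩ := (mem_bar f).1 hx0
    obtain ⟨y, hy, rfl⟩ := (mem_bar f).1 hy0
    obtain ⟨s, hs, d, hd, e⟩ := (mem_sup_of_le_normalizer_left hD.DN).1 hx.2
    obtain ⟨s', hs', d', hd', e'⟩ := (mem_sup_of_le_normalizer_left hD.DN).1 hy.2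
    rw [← mul_inv_eq_one, ← map_mul, ← map_mul, ← map_inv, ← map_mul, ker]
    refine ⟨Γ.mul_mem (Γ.mul_mem hx.1 hy.1) (Γ.inv_mem (Γ.mul_mem hy.1 hx.1)), centralizer_le_centralizer h.A_le ?_⟩
    have c := h.S_le_cent le_rfl
    have n := fun g (hg : g ∈ D) s (hs : s ∈ S) => c (conj_mem_of_mem_normalizer (hD.DN hg) hs)
    have : ((x * y * (y * x)⁻¹ : normalizer (S : Set G)) : G) = s * (d * s' * d⁻¹) * (d * d' * d⁻¹ * d'⁻¹) *
        (d' * s * d'⁻¹)⁻¹ * s'⁻¹ := by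
      simp only [coe_mul, coe_inv, ← e, ← e']; group
    rw [this]
    exact mul_mem (mul_mem (mul_mem (mul_mem (c hs) (n d hd s' hs')) (hD.comm d hd d' hd')) (inv_mem (n d' hd' s hs)))
      (inv_mem (c hs'))
  · intro _ hx0 _ hy0 x1 y1
    obtain ⟨x, hx, rfl⟩ := (mem_bar f).1 hx0
    obtain ⟨y, hy, rfl⟩ := (mem_bar f).1 hy0
    obtain ⟨d, hd, e⟩ := hD.trans x hx y hy (fun e => x1 (by rw [show x = 1 from Subtype.ext e, map_one]))
      fun e => y1 (by rw [show y = 1 from Subtype.ext e, map_one])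
    obtain ⟨γ, hγ, s, hs, e'⟩ := (mem_sup_of_le_normalizer_right g1).1 (g3.ge (hD.DN hd))
    refine ⟨_, mem_bar_of_mem f (x := ⟨γ, g1 hγ⟩) ⟨hγ, (mul_mem_cancel_right (mem_sup_left hs)).1
      (e' ▸ mem_sup_right hd)⟩, ?_⟩
    rw [← map_inv, ← map_mul, ← map_mul]
    refine congrArg f (Subtype.ext ?_)
    show γ * x * γ⁻¹ = y
    rw [← e, ← e', mul_assoc γ s, h.S_comm hs hx.1]; group
  · intro _ hx0 _ hy0 y1 e
    obtain ⟨x, hx, rfl⟩ := (mem_bar f).1 hx0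
    obtain ⟨y, hy, rfl⟩ := (mem_bar f).1 hy0
    obtain ⟨s, hs, d, hd, e'⟩ := (mem_sup_of_le_normalizer_left hD.DN).1 hx.2
    have e2 := cm x y (hD.le_A h hy) e
    rw [← e', ← mul_assoc, ← h.S_comm hs hy.1, mul_assoc, mul_assoc, mul_right_inj] at e2
    exact (ker x).2 ⟨hx.1, centralizer_le_centralizer h.A_le (e' ▸ mul_mem (h.S_le_cent le_rfl hs)
      (hD.reg d hd y hy (fun e => y1 (by rw [show y = 1 from Subtype.ext e, map_one])) e2))⟩

/-- LIN1 -/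
theorem Cx.lin1 {K D : Subgroup G} (hD : CD S K D) (h2 : Nat.card ↥(A ⊓ CM K) = 2) : Nat.card A = 8 := by
  obtain ⟨Q, _, _, f, Γ, -, -, -, cd, ls⟩ := h.model
  obtain ⟨D', l⟩ := ls K D hD
  rw [← cd A le_rfl, l.lin1 (by rw [cd _ inf_le_left, h2])]

omit h in
theorem bar_facts {Q : Type u} [Group Q] {f : normalizer (S : Set G) →* Q} (h : Cx S A)
    (m : ∀ U ≤ A, ∀ x : normalizer (S : Set G), (x : G) ∈ A → (f x ∈ bar f U ↔ (x : G) ∈ U)) {U W : Subgroup G}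
    (hU : U ≤ A) (hW : W ≤ A) : (bar f U ⊓ bar f W = ⊥ ↔ U ⊓ W = ⊥) ∧ (bar f U ≤ bar f W → U ≤ W) := by
  have AN : A ≤ normalizer (S : Set G) := h.A_le.trans le_normalizer
  refine ⟨⟨fun e => eq_bot_iff.2 fun x hx => (m ⊥ bot_le ⟨x, AN (hU hx.1)⟩ (hU hx.1)).1 ?_,
    fun e => eq_bot_iff.2 ?_⟩, fun e x hx => (m W hW ⟨x, AN (hU hx)⟩ (hU hx)).1 (e (mem_bar_of_mem f hx))⟩
  · rw [bar_bot, ← e]
    exact ⟨mem_bar_of_mem f hx.1, mem_bar_of_mem f hx.2⟩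
  · rintro _ ⟨hx0, hy⟩
    obtain ⟨x, hx, rfl⟩ := (mem_bar f).1 hx0
    rw [show x = 1 from Subtype.ext (mem_bot.1 (e.le ⟨hx, (m W hW x (hU hx)).1 hy⟩)), map_one]
    exact one_mem _

/-- LIN2 -/
theorem Cx.lin2 {K D : Subgroup G} (hD : CD S K D) (h4 : 4 ≤ Nat.card ↥(A ⊓ CM K))
    (hp : ∀ g ∈ normalizer (S : Set G),
      (A ⊓ CM K) ⊓ (A ⊓ CM K).map (MulAut.conj g).toMonoidHom ≠ ⊥ →
      (A ⊓ CM K).map (MulAut.conj g).toMonoidHom = A ⊓ CM K ∨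
        (S ⊓ K).map (MulAut.conj g).toMonoidHom ≤ A ⊓ CM K) :
    ∀ g ∈ normalizer (S : Set G),
      (A ⊓ CM K) ⊓ (A ⊓ CM K).map (MulAut.conj g).toMonoidHom ≠ ⊥ := by
  obtain ⟨Q, _, _, f, Γ, g1, g3, m, cd, ls⟩ := h.model
  obtain ⟨D', l⟩ := ls K D hD
  have cA : ∀ g ∈ Γ, (A ⊓ CM K).map (MulAut.conj g).toMonoidHom ≤ A := fun g hg =>
    map_conj_le_of_le inf_le_left (h.norm_A (g1 hg))
  have := l.lin2 (by rwa [cd _ inf_le_left]) (by
    intro _ hg0 e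
    obtain ⟨g, hg, rfl⟩ := (mem_bar f).1 hg0
    rw [← bar_conj] at e
    rw [← bar_conj, ← bar_conj]
    exact (hp g g.2 (mt (bar_facts h m inf_le_left (cA g hg)).1.2 e)).imp (congrArg _) (bar_mono f))
  intro g hg
  obtain ⟨γ, hγ, s, hs, rfl⟩ := (mem_sup_of_le_normalizer_right g1).1 (g3.ge hg)
  rw [← map_conj_map_conj, map_conj_eq_iff.2 (le_normalizer_of_le_centralizer
    (h.S_le_cent (inf_le_left.trans h.A_le)) hs)]
  have := this _ (mem_bar_of_mem f (x := ⟨γ, g1 hγ⟩) hγ)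
  rw [← bar_conj] at this
  exact mt (bar_facts h m inf_le_left (cA γ hγ)).1.2 this

/-- LIN3 -/
theorem Cx.lin3 {K D J D2 : Subgroup G} (hD : CD S K D) (hJ : CD S J D2) (h4 : Nat.card ↥(A ⊓ CM K) = 4)
    (h42 : Nat.card ↥(S ⊓ J) = 4) (hi : (A ⊓ CM K) ⊓ (A ⊓ CM J) = ⊥) : A ⊓ CM J = S ⊓ K := by
  obtain ⟨Q, _, _, f, Γ, -, -, m, cd, ls⟩ := h.model
  obtain ⟨D', l⟩ := ls K D hD
  obtain ⟨D2', l'⟩ := ls J D2 hJ
  have := l.lin3 l' (by rwa [cd _ inf_le_left]) (by rwa [cd _ (hJ.le_A h)])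
    ((bar_facts h m inf_le_left inf_le_left).1.2 hi)
  exact le_antisymm ((bar_facts h m inf_le_left (hD.le_A h)).2 this.le)
    ((bar_facts h m (hD.le_A h) inf_le_left).2 this.ge)

end Cfsg.Agent.Lib.AG
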