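/-
A-groups project (S2554), piece DS, part 1: balance.
-/
import Cfsg.Agent.Lib.AG.LemG
import Cfsg.Agent.Lib.AG.Good
import Cfsg.Agent.Lib.AG.Lin
import Cfsg.Agent.Lib.Core.Pump

set_option autoImplicit false

namespace Cfsg.Agent.Lib.AG.DS

open Subgroup Cfsg.Agent.Lib.Core
open scoped commutatorElement

universe u

variable {G : Type u} [Group G]

local notation "C[" a "]" => centralizer ({a} : Set _)
local notation "O[" a "]" => OppOf 2 (centralizer ({a} : Set _))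
local notation "𝐍" X:max => normalizer (X : Set _)
local notation "𝐂" X:max => centralizer (X : Set _)
local notation "cj(" g ", " X ")" => Subgroup.map (MulEquiv.toMonoidHom (MulAut.conj g)) X

theorem CM_eq (K : Subgroup G) : AG.CM K = Core.CM 2 K := Subgroup.ext fun _ => Iff.rfl

theorem norm_CM {X K : Subgroup G} (h : X ≤ 𝐍 K) : X ≤ normalizer (AG.CM K : Set G) := by
  rw [CM_eq]; exact le_normalizer_CM h

theorem cent_le_CM (K : Subgroup G) : 𝐂 K ≤ AG.CM K := by rw [CM_eq]; exact centralizer_le_CM K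

theorem cj_CM (K : Subgroup G) (g : G) : cj(g, AG.CM K) = AG.CM cj(g, K) := by
  rw [CM_eq, CM_eq, CM_conj]

theorem cent_le_C {E : Subgroup G} {e : G} (he : e ∈ E) : 𝐂 E ≤ C[e] :=
  centralizer_le (Set.singleton_subset_iff.2 he)

theorem Del_le {E : Subgroup G} {e : G} (he : e ∈ E) (h1 : e ≠ 1) : Del E ≤ O[e] :=
  iInf_le_of_le ⟨e, he, h1⟩ le_rfl

theorem le_Del {E X : Subgroup G} (h : ∀ e ∈ E, e ≠ 1 → X ≤ O[e]) : X ≤ Del E :=
  le_iInf fun e => h e.1 e.2.1 e.2.2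

theorem Del_anti {E F : Subgroup G} (h : E ≤ F) : Del F ≤ Del E :=
  le_Del fun _ he h1 => Del_le (h he) h1

theorem Del_cent (E : Subgroup G) : Del E ≤ 𝐂 E := fun x hx =>
  mem_centralizer_iff.2 fun e he => by
    by_cases h1 : e = 1
    · simp [h1]
    · exact (mem_centralizer_singleton_iff.1 (OppOf_le _ (Del_le he h1 hx))).symm

theorem cj_O (a g : G) : cj(g, O[a]) = O[g * a * g⁻¹] := by
  rw [OppOf_conj, map_conj_centralizer_singleton]

theorem cj_Del (E : Subgroup G) (g : G) : cj(g, Del E) ≤ Del cj(g, E) := by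
  refine le_Del fun e he h1 => ?_
  obtain ⟨e, he, rfl⟩ := he
  have h2 : e ≠ 1 := fun h => h1 (by simp [h])
  exact (map_mono (Del_le he h2)).trans (cj_O e g).le

variable [Finite G]

theorem norm_of_cj {X : Subgroup G} {g : G} (h : cj(g, X) ≤ X) : g ∈ 𝐍 X :=
  mem_normalizer_of_conj_mem (map_conj_le_iff.1 h)

theorem norm_Del {E X : Subgroup G} (h : X ≤ 𝐍 E) : X ≤ normalizer (Del E : Set G) := fun g hg =>
  norm_of_cj (by simpa only [map_conj_eq_iff.2 (h hg)] using cj_Del E g)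

theorem ne_bot_of_le {E : Subgroup G} {n : ℕ} (h : n + 2 ≤ Nat.card E) : ∃ e ∈ E, e ≠ 1 := by
  by_contra! h'
  rw [(eq_bot_iff_forall E).2 h', card_bot] at h
  omega

theorem Del_odd {E : Subgroup G} {n : ℕ} (h : n + 2 ≤ Nat.card E) : ¬ 2 ∣ Nat.card (Del E) := by
  obtain ⟨e, he, h1⟩ := ne_bot_of_le h
  exact not_dvd_card_of_le (OppOf_not_dvd _) (Del_le he h1)

theorem odd_le_O {M Z : Subgroup G} (hZ : Z ≤ OppPOf 2 M) (ho : ¬ 2 ∣ Nat.card Z) :
    Z ≤ OppOf 2 M := by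
  obtain ⟨P, hP⟩ := exists_isSyl 2 (OppPOf 2 M)
  refine (le_O_of_odd hP.2 hP.1 ?_ hZ ho).trans (subn_OppPOf M).OppOf_le
  refine le_antisymm (sup_le (OppOf_le _) hP.1) (hP.sup_OppOf.ge.trans (sup_le le_sup_right ?_))
  exact le_sup_of_le_left ((le_inf le_rfl (OppOf_le_OppPOf M)).trans (inf_OppOf_le (OppPOf_le M)))

theorem le_CM_of_ne {M K L : Subgroup G} (hK : PComp 2 M K) (hL : PComp 2 M L) (h : K ≠ L) :
    K ≤ AG.CM L := by rw [CM_eq]; exact hK.le_CM_of_ne hL h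

theorem eq_of_le_le {M K L K0 : Subgroup G} (hK : PComp 2 M K) (hL : PComp 2 M L) (h0 : PQS 2 K0)
    (h1 : K0 ≤ K) (h2 : K0 ≤ L) : K = L :=
  hK.eq_of_not_commutator_le hL fun h => h0.not_commutator_le (OppOf_not_dvd M)
    ((commutator_mono h1 h2).trans h)

variable {S A : Subgroup G} (h : Cx S A)
include h

theorem elem {E : Subgroup G} (hE : E ≤ A) : IsElementaryAbelian 2 E :=
  ⟨⟨⟨fun a b => Subtype.ext (h.S_comm (h.A_le (hE a.2)) (h.A_le (hE b.2)))⟩⟩,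
    fun a ha => by rw [pow_two, h.sq (hE ha)]⟩

theorem S_le_C {a : G} (ha : a ∈ A) : S ≤ C[a] := fun _ hx =>
  mem_centralizer_singleton_iff.2 (h.S_comm hx (h.A_le ha))

theorem A_le_C {a : G} (ha : a ∈ A) : A ≤ C[a] := h.A_le.trans (S_le_C h ha)

theorem A_cent {E : Subgroup G} (hE : E ≤ A) : A ≤ 𝐂 E := h.A_le.trans (h.S_le_cent (hE.trans h.A_le))

theorem csyl {a : G} (ha : a ∈ A) : IsSyl 2 S C[a] := h.syl.mono (S_le_C h ha) le_top

theorem cne {a : G} (h1 : a ≠ 1) : C[a] ≠ ⊤ := fun e => by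
  have h2 := h.ag.center_inf_commutator_top
  rw [h.perfect, inf_top_eq] at h2
  refine h1 (mem_bot.1 (h2 ▸ mem_center_iff.2 fun g => ?_))
  exact mem_centralizer_singleton_iff.1 (e ▸ mem_top g)

theorem norm_ne {W : Subgroup G} (h0 : W ≠ ⊥) (h1 : W ≠ ⊤) : normalizer (W : Set G) ≠ ⊤ := fun e => by
  have := h.simple
  exact (normal_of_le_normalizer_top e.ge).eq_bot_or_eq_top.elim h0 h1

theorem norm_ne_odd {W : Subgroup G} (h0 : W ≠ ⊥) (h1 : ¬ 2 ∣ Nat.card W) :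
    normalizer (W : Set G) ≠ ⊤ := by
  refine norm_ne h h0 ?_
  rintro rfl
  have := h.rk
  rw [eq_bot_of_isPGroup_of_not_dvd h.A_two (not_dvd_card_of_le h1 le_top), card_bot] at this
  omega

theorem cact {E X : Subgroup G} (hE : E ≤ A) (hX : ¬ 2 ∣ Nat.card X) (hn : E ≤ 𝐍 X) :
    CoprimeAct E X := coprimeAct_of_isPGroup_left (h.A_two.to_le hE) hX hn

theorem gen1 {E X W : Subgroup G} (hE : E ≤ A) (h4 : 4 ≤ Nat.card E) (hX : ¬ 2 ∣ Nat.card X)
    (hn : E ≤ 𝐍 X) (hW : ∀ e ∈ E, e ≠ 1 → X ⊓ C[e] ≤ W) : X ≤ W :=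
  le_of_centralizers (elem h hE).1 (fun hc => by
    have := card_le_of_isCyclic_of_isElementaryAbelian (elem h hE) hc; omega) hn
    (cact h hE hX hn).coprime hW

theorem gen2 {E X W : Subgroup G} (hE : E ≤ A) (hX : ¬ 2 ∣ Nat.card X) (hn : E ≤ 𝐍 X)
    (hW : ∀ F, F ≤ E → Nat.card E ≤ 2 * Nat.card F → IsCocyclic F E → X ⊓ 𝐂 F ≤ W) : X ≤ W :=
  le_of_cocyclic_centralizers (elem h hE).1 hn (cact h hE hX hn).coprime
    fun F hF => hW F hF.1 (hF.card_le (elem h hE)) hF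

theorem A_norm_O {a : G} (ha : a ∈ A) : A ≤ normalizer (O[a] : Set G) :=
  le_normalizer_OppOf (le_normalizer_of_le (A_le_C h ha))

theorem A_norm_Del {E : Subgroup G} (hE : E ≤ A) : A ≤ normalizer (Del E : Set G) :=
  norm_Del (le_normalizer_of_le_centralizer (A_cent h hE))

/-! ### the decomposition `A = V × B` -/

section CD
variable {K D : Subgroup G} (hD : CD S K D)
include hD

theorem V_le : S ⊓ K ≤ A := fun x hx => (h.memA x).2 ⟨hx.1, hD.sq x hx⟩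

theorem splitA {x : G} (hx : x ∈ A) : ∃ v ∈ S ⊓ K, ∃ c ∈ A ⊓ AG.CM K, x = v * c := by
  obtain ⟨v, hv, c, hc, rfl⟩ := hD.split x (h.A_le hx)
  exact ⟨v, hv, c, ⟨(A.mul_mem_cancel_left (V_le h hD hv)).1 hx, hc.2⟩, rfl⟩

theorem cardA : Nat.card A = Nat.card ↥(S ⊓ K) * Nat.card ↥(A ⊓ AG.CM K) := by
  have h1 := card_sup_mul_card_inf (H := S ⊓ K) (N := A ⊓ AG.CM K)
    ((V_le h hD).trans (le_normalizer_of_le_centralizer (A_cent h inf_le_left)))
  have h2 : S ⊓ K ⊔ A ⊓ AG.CM K = A := le_antisymm (sup_le (V_le h hD) inf_le_left) fun x hx => by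
    obtain ⟨v, hv, c, hc, rfl⟩ := splitA h hD hx
    exact mul_mem (mem_sup_left hv) (mem_sup_right hc)
  have h3 : S ⊓ K ⊓ (A ⊓ AG.CM K) = ⊥ :=
    (eq_bot_iff_forall _).2 fun x hx => hD.disj x hx.1 hx.2.2
  rwa [h2, h3, card_bot, mul_one] at h1

theorem card_sup {F : Subgroup G} (hF : F ≤ A) (h0 : F ⊓ AG.CM K = ⊥) :
    Nat.card ↥(F ⊔ A ⊓ AG.CM K) = Nat.card F * Nat.card ↥(A ⊓ AG.CM K) := by
  have h1 := card_sup_mul_card_inf (H := F) (N := A ⊓ AG.CM K)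
    (hF.trans (le_normalizer_of_le_centralizer (A_cent h inf_le_left)))
  rwa [← inf_assoc, inf_eq_left.2 hF, h0, card_bot, mul_one] at h1

theorem card_le {F : Subgroup G} (hF : F ≤ A) (h0 : F ⊓ AG.CM K = ⊥) :
    Nat.card F ≤ Nat.card ↥(S ⊓ K) := by
  have h1 := card_le_of_le (sup_le hF inf_le_left : F ⊔ A ⊓ AG.CM K ≤ A)
  rw [card_sup h hD hF h0, cardA h hD] at h1
  exact Nat.le_of_mul_le_mul_right h1 Nat.card_pos

theorem le_sup {F : Subgroup G} (hF : F ≤ A) (h0 : F ⊓ AG.CM K = ⊥)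
    (hc : Nat.card ↥(S ⊓ K) ≤ Nat.card F) : A ≤ F ⊔ A ⊓ AG.CM K := by
  refine (eq_of_le_of_card_ge (sup_le hF inf_le_left) ?_).ge
  rw [card_sup h hD hF h0, cardA h hD]
  exact Nat.mul_le_mul_right _ hc

theorem dich {U : Subgroup G} (hU : U ≤ A) (hn : D ≤ 𝐍 U) : U ≤ AG.CM K ∨ S ⊓ K ≤ U := by
  by_cases h0 : U ≤ AG.CM K
  · exact Or.inl h0
  right
  obtain ⟨x, hx, hx'⟩ := SetLike.not_le_iff_exists.1 h0
  obtain ⟨v, hv, c, hc, rfl⟩ := splitA h hD (hU hx)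
  have v1 : v ≠ 1 := by rintro rfl; exact hx' (by simpa using hc.2)
  obtain ⟨y, hy, y1, yv⟩ : ∃ y ∈ S ⊓ K, y ≠ 1 ∧ y ≠ v := by
    by_contra! h'
    have h1 : ((S ⊓ K : Subgroup G) : Set G) ⊆ {1, v} := fun y hy => by
      by_cases e : y = 1
      · exact Or.inl e
      · exact Or.inr (h' y hy e)
    have h2 := Set.ncard_le_ncard h1 (Set.toFinite _)
    have h3 := hD.four
    rw [← SetLike.coe_sort_coe, Nat.card_coe_set_eq] at h3
    have := Set.ncard_insert_le (1 : G) {v}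
    rw [Set.ncard_singleton] at this
    omega
  obtain ⟨d, hd, e⟩ := hD.trans v hv y hy v1 y1
  have h1 : y * v⁻¹ ∈ U := by
    have h2 := mul_mem (conj_mem_of_mem_normalizer (hn hd) hx) (inv_mem hx)
    have h3 : c * d = d * c := mem_centralizer_iff.1 (hD.DC hd) c ⟨h.A_le hc.1, hc.2⟩
    rwa [show d * (v * c) * d⁻¹ * (v * c)⁻¹ = d * v * d⁻¹ * (d * c * (c * d)⁻¹) * v⁻¹ by group,
      ← h3, mul_inv_cancel, mul_one, e] at h2
  intro z hz
  by_cases z1 : z = 1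
  · rw [z1]; exact one_mem _
  obtain ⟨d', hd', e'⟩ := hD.trans _ (mul_mem hy (inv_mem hv)) z hz
    (fun e => yv (mul_inv_eq_one.1 e)) z1
  exact e' ▸ conj_mem_of_mem_normalizer (hn hd') h1

end CD

/-! ### balance -/

theorem cd {b : G} (hb : b ∈ A) (b1 : b ≠ 1) {K : Subgroup G} (hK : PComp 2 C[b] K) :
    ∃ D, CD S K D := PComp.cd h.ag h.ih (cne h b1) (csyl h hb) hK

theorem mem_B {b : G} (hb : b ∈ A) {K : Subgroup G} (hK : PComp 2 C[b] K) : b ∈ A ⊓ AG.CM K :=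
  ⟨hb, cent_le_CM K (mem_centralizer_iff.2 fun _ hk => mem_centralizer_singleton_iff.1 (hK.le hk))⟩

theorem act {a b : G} (ha : a ∈ A) (hb : b ∈ A) (b1 : b ≠ 1) {K : Subgroup G}
    (hK : PComp 2 C[b] K) : O[a] ⊓ C[b] ≤ AG.CM K ∨ (Ty TB K ∧ a ∉ AG.CM K) :=
  (PComp.act h.ag h.ih (cne h b1) (csyl h hb) hK (h.A_le ha) (h.sq ha) inf_le_right
    (not_dvd_card_of_le (OppOf_not_dvd _) inf_le_left) (le_normalizer_inf
      (inf_le_right.trans (le_normalizer_OppOf le_normalizer))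
      (le_normalizer_of_le inf_le_left))).imp id fun h => ⟨h.1, h.2.1⟩

theorem le_O {a b : G} (ha : a ∈ A) (hb : b ∈ A) (b1 : b ≠ 1) {X : Subgroup G}
    (hX : X ≤ O[a] ⊓ C[b]) (hc : ∀ K, PComp 2 C[b] K → X ≤ AG.CM K) : X ≤ O[b] := by
  have ho := not_dvd_card_of_le (OppOf_not_dvd (p := 2) C[a]) (inf_le_left (b := C[b]))
  refine le_O_of_CM h.ag h.ih (cne h b1) (csyl h hb) (hX.trans inf_le_right)
    (not_dvd_card_of_le ho hX) hc ((commutator_mono le_rfl hX).trans (odd_le_O ?_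
      (not_dvd_card_of_le ho (commutator_le_of_le_normalizer_right ?_))))
  · exact (commutator_mono inf_le_right le_rfl).trans (commutator_le_of_le_normalizer_left
      (inf_le_right.trans (self_le_normalizer_OppPOf _)))
  · exact inf_le_left.trans (le_normalizer_inf
      (le_normalizer_OppOf (le_normalizer_of_le (S_le_C h ha))) (le_normalizer_of_le (S_le_C h hb)))

theorem odd_norm {b : G} (hb : b ∈ A) (b1 : b ≠ 1) {K Z : Subgroup G} (hK : PComp 2 C[b] K)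
    (hZ : Z ≤ C[b]) (ho : ¬ 2 ∣ Nat.card Z) (hn : A ≤ 𝐍 Z) : Z ≤ 𝐍 K := by
  obtain ⟨D, hD⟩ := cd h hb b1 hK
  exact PComp.odd_le_norm h.ag h.ih (cne h b1) (csyl h hb) hK hZ ho ((V_le h hD).trans hn)

theorem comm_le_CM {b : G} (hb : b ∈ A) (b1 : b ≠ 1) {K Z F : Subgroup G} (hK : PComp 2 C[b] K)
    (hZ : Z ≤ C[b]) (ho : ¬ 2 ∣ Nat.card Z) (hn : A ≤ 𝐍 Z) (hF : F ≤ A) (hc : Z ≤ 𝐂 F)
    (hA : A ≤ F ⊔ A ⊓ AG.CM K) : ⁅Z, A⁆ ≤ AG.CM K := by
  obtain ⟨D, hD⟩ := cd h hb b1 hK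
  have h1 : A ≤ normalizer (AG.CM K : Set G) := norm_CM (h.A_le.trans hD.norm)
  rw [commutator_comm]
  refine (le_Cm.1 (hA.trans (sup_le (le_Cm.2 ⟨hF.trans h1, ?_⟩)
    (le_Cm.2 ⟨inf_le_left.trans h1, ?_⟩)))).2
  · rw [commutator_comm, commutator_eq_bot_iff_le_centralizer.2 hc]; exact bot_le
  · exact (commutator_mono inf_le_right le_rfl).trans
      (commutator_le_of_le_normalizer_left (norm_CM (odd_norm h hb b1 hK hZ ho hn)))

theorem act_Del {E : Subgroup G} (hE : E ≤ A) (h4 : 4 ≤ Nat.card E) {b : G} (hb : b ∈ A)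
    (b1 : b ≠ 1) {K : Subgroup G} (hK : PComp 2 C[b] K) :
    Del E ⊓ C[b] ≤ AG.CM K ∨ (Nat.card ↥(S ⊓ K) = 4 ∧ E ⊓ AG.CM K = ⊥) := by
  by_cases h0 : Del E ⊓ C[b] ≤ AG.CM K
  · exact Or.inl h0
  have h1 : ∀ e ∈ E, e ≠ 1 → Ty TB K ∧ e ∉ AG.CM K := fun e he e1 =>
    (act h (hE he) hb b1 hK).resolve_left fun h2 => h0 ((inf_le_inf_right _ (Del_le he e1)).trans h2)
  obtain ⟨e, he, e1⟩ := ne_bot_of_le (n := 2) h4
  refine Or.inr ⟨Ty.card_TB h.ag h.ih (cne h b1) (csyl h hb) hK (h1 e he e1).1,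
    (eq_bot_iff_forall _).2 fun x hx => ?_⟩
  by_contra x1
  exact (h1 x hx.1 x1).2 hx.2

theorem bal3 {F : Subgroup G} (hF : F ≤ A) (h8 : 8 ≤ Nat.card F) {b : G} (hb : b ∈ A) (b1 : b ≠ 1) :
    Del F ⊓ C[b] ≤ O[b] := by
  obtain ⟨e, he, e1⟩ := ne_bot_of_le (n := 6) h8
  refine le_O h (hF he) hb b1 (inf_le_inf_right _ (Del_le he e1)) fun K hK => ?_
  refine (act_Del h hF (by omega) hb b1 hK).resolve_right fun ⟨h1, h2⟩ => ?_
  obtain ⟨D, hD⟩ := cd h hb b1 hK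
  have := card_le h hD hF h2
  omega

theorem wbal {E : Subgroup G} (hE : E ≤ A) (h4 : 4 ≤ Nat.card E) {b : G} (hb : b ∈ A) (b1 : b ≠ 1) :
    ⁅Del E ⊓ C[b], A⁆ ≤ O[b] := by
  obtain ⟨e, he, e1⟩ := ne_bot_of_le (n := 2) h4
  have hn : A ≤ normalizer ((Del E ⊓ C[b] : Subgroup G) : Set G) :=
    le_normalizer_inf (A_norm_Del h hE) (le_normalizer_of_le (A_le_C h hb))
  have h0 := commutator_le_of_le_normalizer_left hn
  refine le_O h (hE he) hb b1 (h0.trans (inf_le_inf_right _ (Del_le he e1))) fun K hK => ?_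
  rcases act_Del h hE h4 hb b1 hK with h1 | ⟨h1, h2⟩
  · exact h0.trans h1
  · obtain ⟨D, hD⟩ := cd h hb b1 hK
    exact comm_le_CM h hb b1 hK inf_le_right (not_dvd_card_of_le (Del_odd (n := 2) h4) inf_le_left)
      hn hE (inf_le_left.trans (Del_cent E)) (le_sup h hD hE h2 (by omega))

theorem bal {E : Subgroup G} (h16 : 16 ≤ Nat.card A) (hE : E ≤ A) (h4 : 4 ≤ Nat.card E) {b : G}
    (hb : b ∈ A) (b1 : b ≠ 1) : ⁅Del E, A⁆ ⊓ C[b] ≤ O[b] := by
  have ho := Del_odd (n := 2) h4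
  have h0 := commutator_le_of_le_normalizer_left (A_norm_Del h hE)
  have h1 : ⁅Del E, A⁆ ⊓ 𝐂 A ≤ Del A := by
    refine lemG (elem h le_rfl) _ (A_norm_Del h hE) ho
      (inf_le_right.trans (norm_Del (le_normalizer_of_le_centralizer le_rfl))) fun F hF => ?_
    have h2 := hF.card_le (elem h le_rfl)
    have h3 : ⁅Del E ⊓ 𝐂 F, A⁆ ≤ Del F := le_Del fun c hc c1 =>
      (commutator_mono (inf_le_inf_left _ (cent_le_C hc)) le_rfl).trans (wbal h hE h4 (hF.1 hc) c1)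
    exact le_Del fun c hc c1 => (inf_le_inf h3 (cent_le_C hc)).trans (bal3 h hF.1 (by omega) hc c1)
  rw [← (cact h le_rfl (not_dvd_card_of_le ho (inf_le_left.trans h0)) (le_normalizer_inf
    (normalizer_commutator_ge_right _ A)
      (le_normalizer_of_le (A_le_C h hb)))).inf_centralizer_sup_commutator]
  exact sup_le (((inf_le_inf_right _ inf_le_left).trans h1).trans (Del_le hb b1))
    ((commutator_mono (inf_le_inf_right _ h0) le_rfl).trans (wbal h hE h4 hb b1))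

end Cfsg.Agent.Lib.AG.DS
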