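/-
A-groups project (S2554), piece DS: signalizer functors.
-/
import Cfsg.Agent.Lib.AG.Del1
import Cfsg.Agent.S0217

set_option autoImplicit false

namespace Cfsg.Agent.Lib.AG.DS

open Subgroup Cfsg.Agent.Lib.Core
open scoped commutatorElement

universe u

variable {G : Type u} [Group G]

local notation "C[" a "]" => centralizer ({a} : Set _)
local notation "O[" a "]" => OppOf 2 (centralizer ({a} : Set _))
local notation "𝐍" X:max => normalizer (X : Set _)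
local notation "𝐂" X:max => centralizer (X : Set _)
local notation "cj(" g ", " X ")" => Subgroup.map (MulEquiv.toMonoidHom (MulAut.conj g)) X

/-- `A`-invariant subgroups of odd order which are balanced -/
structure FF (A X : Subgroup G) : Prop where
  odd : ¬ 2 ∣ Nat.card X
  inv : A ≤ 𝐍 X
  bal : ∀ b ∈ A, b ≠ 1 → X ⊓ C[b] ≤ O[b]

/-- the join of the balanced subgroups of `H` -/
def mu (A H : Subgroup G) : Subgroup G := ⨆ X : {X : Subgroup G // FF A X ∧ X ≤ H}, X.1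

variable {S A : Subgroup G}

theorem FF.sub {X Y : Subgroup G} (hX : FF A X) (h : Y ≤ X) (hn : A ≤ 𝐍 Y) : FF A Y :=
  ⟨not_dvd_card_of_le hX.odd h, hn, fun b hb b1 => (inf_le_inf_right _ h).trans (hX.bal b hb b1)⟩

theorem FF.inf {X H : Subgroup G} (hX : FF A X) (h : A ≤ H) : FF A (X ⊓ H) :=
  hX.sub inf_le_left (le_normalizer_inf hX.inv (le_normalizer_of_le h))

theorem FF.le_mu {X H : Subgroup G} (hX : FF A X) (h : X ≤ H) : X ≤ mu A H :=
  le_iSup_of_le ⟨X, hX, h⟩ le_rfl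

theorem mu_le (H : Subgroup G) : mu A H ≤ H := iSup_le fun X => X.2.2

theorem FF.mu {Z H : Subgroup G} (hZ : FF A Z) (h : ∀ X, FF A X → X ≤ H → X ≤ Z) : FF A (mu A H) :=
  hZ.sub (iSup_le fun X => h X.1 X.2.1 X.2.2) (le_norm_iSup fun X => X.2.1.inv)

theorem FF.le_O {X : Subgroup G} (hX : FF A X) {e : G} (he : e ∈ A) (e1 : e ≠ 1) (h : X ≤ C[e]) :
    X ≤ O[e] := (le_inf le_rfl h).trans (hX.bal e he e1)

theorem FF.le_Del {X E : Subgroup G} (hX : FF A X) (hE : E ≤ A) (h : X ≤ 𝐂 E) : X ≤ Del E :=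
  DS.le_Del fun _ he e1 => hX.le_O (hE he) e1 (h.trans (cent_le_C he))

variable [Finite G] (h : Cx S A)
include h

theorem FF.le_sup {X E E' : Subgroup G} (hX : FF A X) (hE : E ≤ E') (hE' : E' ≤ A) (hc : X ≤ 𝐂 E) :
    X ≤ ⁅Del E, E'⁆ ⊔ Del E' := by
  conv_lhs => rw [← (cact h hE' hX.odd (hE'.trans hX.inv)).inf_centralizer_sup_commutator, sup_comm]
  exact sup_le_sup (commutator_mono (hX.le_Del (hE.trans hE') hc) le_rfl)
    ((hX.inf (A_cent h hE')).le_Del hE' inf_le_right)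

theorem ff_Del {F : Subgroup G} (hF : F ≤ A) (h8 : 8 ≤ Nat.card F) : FF A (Del F) :=
  ⟨Del_odd (n := 6) h8, A_norm_Del h hF, fun _ hb b1 => bal3 h hF h8 hb b1⟩

theorem ff_star {E : Subgroup G} (h16 : 16 ≤ Nat.card A) (hE : E ≤ A) (h4 : 4 ≤ Nat.card E) :
    FF A (⁅Del E, A⁆ ⊔ Del A) := by
  refine ⟨not_dvd_card_of_le (Del_odd (n := 2) h4) (sup_le
    (commutator_le_of_le_normalizer_left (A_norm_Del h hE)) (Del_anti hE)),
    le_normalizer_sup (normalizer_commutator_ge_right _ A) (A_norm_Del h le_rfl), fun b hb b1 => ?_⟩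
  rw [sup_comm, sup_inf_of_le_normalizer_right ((Del_cent A).trans (cent_le_C hb))
    ((Del_anti hE).trans (normalizer_commutator_ge_left _ A))]
  exact sup_le (Del_le hb b1) (bal h h16 hE h4 hb b1)

theorem sf {A' H : Subgroup G} (hA : A' ≤ A) (h8 : 8 ≤ Nat.card A')
    (hH : ∀ e ∈ A', e ≠ 1 → FF A (mu A (H ⊓ C[e]))) : FF A (mu A H) := by
  obtain ⟨h1, h2⟩ := S0217.result (p := 2) A' (fun a ha b hb => h.S_comm (h.A_le (hA ha))
    (h.A_le (hA hb))) (elem h hA).2 h8 (fun e => mu A (H ⊓ C[e]))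
    (fun e _ _ => (mu_le _).trans inf_le_right) (fun e he e1 => (hH e he e1).odd)
    (fun e he e1 b hb x hx => conj_mem_of_mem_normalizer ((hH e he e1).inv (hA hb)) hx)
    (fun e he e1 => solv_of_odd (hH e he e1).odd)
    (fun e he e1 b hb _ => ((hH e he e1).inf (A_le_C h (hA hb))).le_mu
      (inf_le_inf_right _ ((mu_le _).trans inf_le_left)))
  have h3 := le_norm_iSup (Z := fun e : {e : G // e ∈ A' ∧ e ≠ 1} => mu A (H ⊓ C[e.1]))
    fun e => (hH e.1 e.2.1 e.2.2).inv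
  refine FF.mu ⟨h1, h3, fun b hb b1 => ?_⟩ fun X hX hXH => ?_
  · refine gen1 h hA (by omega) (not_dvd_card_of_le h1 inf_le_left) (hA.trans
      (le_normalizer_inf h3 (le_normalizer_of_le (A_le_C h hb)))) fun e he e1 => ?_
    rw [inf_right_comm, h2 e he e1]
    exact (hH e he e1).bal b hb b1
  · refine gen1 h hA (by omega) hX.odd (hA.trans hX.inv) fun e he e1 => ?_
    exact ((hX.inf (A_le_C h (hA he))).le_mu (inf_le_inf_right _ hXH)).trans
      (le_iSup_of_le (⟨e, he, e1⟩ : {e : G // e ∈ A' ∧ e ≠ 1}) le_rfl)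

theorem two_pow {E : Subgroup G} (hE : E ≤ A) : ∃ k, Nat.card E = 2 ^ k :=
  IsPGroup.iff_card.1 (h.A_two.to_le hE)

theorem four_le {E : Subgroup G} (hE : E ≤ A) {a e : G} (ha : a ∈ E) (he : e ∈ E) (a1 : a ≠ 1)
    (e1 : e ≠ 1) (ae : a ≠ e) : 4 ≤ Nat.card E := by
  obtain ⟨k, hk⟩ := two_pow h hE
  by_contra h4
  refine ae (eq_of_card_le_two ?_ ha he a1 e1)
  rw [hk] at h4 ⊢
  rcases k with _ | _ | k
  · norm_num
  · norm_num
  · exact absurd (Nat.pow_le_pow_right (n := 2) (by norm_num) (by omega : 2 ≤ k + 1 + 1)) h4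

theorem exists_avoid {a : G} (ha : a ∈ A) (a1 : a ≠ 1) :
    ∃ A', A' ≤ A ∧ a ∉ A' ∧ Nat.card A ≤ 2 * Nat.card A' := by
  obtain ⟨A', -, ⟨h1, h2⟩, h3⟩ := exists_maximal_subgroup (P := fun X => X ≤ A ∧ a ∉ X) (H := ⊥)
    ⟨bot_le, by simpa using a1⟩
  refine ⟨A', h1, h2, IsCocyclic.card_le ⟨h1, a, ha, fun x hx => ?_⟩ (elem h le_rfl)⟩
  by_cases h4 : a ∈ A' ⊔ zpowers x
  · rcases cocyc_cases (elem h (sup_le h1 (zpowers_le.2 hx))) (F := A') (F' := zpowers a)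
      ⟨le_sup_left, x, mem_sup_right (mem_zpowers x), le_rfl⟩ (zpowers_le.2 h4) with e | e
    · exact absurd (zpowers_le.1 e) h2
    · exact e (mem_sup_right (mem_zpowers x))
  · exact mem_sup_left (h3 _ ⟨sup_le h1 (zpowers_le.2 hx), h4⟩ le_sup_left ▸
      mem_sup_right (mem_zpowers x))

theorem ff_W (h16 : 16 ≤ Nat.card A) : FF A (mu A ⊤) := by
  refine sf h le_rfl h.rk fun a ha a1 => ?_
  obtain ⟨A', h1, h2, h3⟩ := exists_avoid h ha a1
  refine sf h h1 (by omega) fun e he e1 => ?_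
  have h4 : Vf a e ≤ A := Vf_le.2 ⟨ha, h1 he⟩
  refine (ff_star h h16 h4 (four_le h h4 t_mem_Vf s_mem_Vf a1 e1 fun e' => h2 (e' ▸ he))).mu
    fun X hX hc => hX.le_sup h h4 le_rfl ?_
  rwa [centralizer_Vf, ← top_inf_eq C[a]]

theorem norm_W (h16 : 16 ≤ Nat.card A) {E' : Subgroup G} (hE : E' ≤ A) (h8 : 8 ≤ Nat.card E') :
    𝐍 E' ≤ normalizer (mu A ⊤ : Set G) := by
  have hW := ff_W h h16
  have e : mu A ⊤ = ⨆ E : {E : Subgroup G // E ≤ E' ∧ 4 ≤ Nat.card E}, ⁅Del E.1, E'⁆ ⊔ Del E' := by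
    refine le_antisymm (gen2 h hE hW.odd (hE.trans hW.inv) fun F h1 h2 _ => ?_)
      (iSup_le fun E => sup_le ?_ ((ff_Del h hE h8).le_mu le_top))
    · exact ((hW.inf (A_cent h (h1.trans hE))).le_sup h h1 hE inf_le_right).trans
        (le_iSup_of_le (⟨F, h1, by omega⟩ : {E : Subgroup G // E ≤ E' ∧ 4 ≤ Nat.card E}) le_rfl)
    · exact ((commutator_mono le_rfl hE).trans le_sup_left).trans
        ((ff_star h h16 (E.2.1.trans hE) E.2.2).le_mu le_top)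
  intro g hg
  have hg' := map_conj_eq_iff.2 hg
  refine norm_of_cj ?_
  rw [e, Subgroup.map_iSup]
  refine iSup_le fun E => le_iSup_of_le (⟨cj(g, E.1), map_conj_le_of_le E.2.1 hg, by
    rw [card_map_conj]; exact E.2.2⟩ : {E : Subgroup G // E ≤ E' ∧ 4 ≤ Nat.card E}) ?_
  rw [Subgroup.map_sup, map_commutator, hg']
  exact sup_le_sup (commutator_mono (cj_Del _ g) le_rfl) (by simpa only [hg'] using cj_Del E' g)

/-! ### moving components -/

theorem down {a : G} (ha : a ∈ A) (a1 : a ≠ 1) {K B : Subgroup G} (hK : PComp 2 C[a] K)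
    (hB : B ≤ A ⊓ AG.CM K) : ∃ K0, PComp 2 (C[a] ⊓ 𝐂 B) K0 ∧ K0 ≤ K ∧ K ≤ K0 ⊔ OppOf 2 K ∧
      S ⊓ K0 = S ⊓ K ∧ S ⊓ AG.CM K0 = S ⊓ AG.CM K ∧ (Ty TB K0 ↔ Ty TB K) := by
  have hB' : B ≤ S ⊓ AG.CM K := hB.trans (inf_le_inf_right _ h.A_le)
  obtain ⟨K0, h1, h2, h3, h4, -⟩ := PComp.down h.ag h.ih (cne h a1) (csyl h ha) hK hB'
  obtain ⟨K', g1, g2, g3⟩ := PComp.up h.ag h.ih (cne h a1) (csyl h ha) (hB'.trans inf_le_left) h1
  obtain rfl := eq_of_le_le g1 hK h1.pqs g2 h2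
  rcases g3 with ⟨-, -, -, g4, g5, -⟩ | ⟨g4, -⟩
  · exact ⟨K0, h1, h2, h3, h4, g4, g5⟩
  · rw [h4] at g4; omega

theorem move {a b : G} (ha : a ∈ A) (a1 : a ≠ 1) {K : Subgroup G} (hK : PComp 2 C[a] K)
    (hT : Ty TB K) (hb : b ∈ A ⊓ AG.CM K) (b1 : b ≠ 1) : ∃ K', PComp 2 C[b] K' ∧ Ty TB K' ∧
      S ⊓ K' = S ⊓ K ∧ S ⊓ AG.CM K' = S ⊓ AG.CM K := by
  obtain ⟨K0, h1, -, -, h4, h5, h6⟩ := down h ha a1 hK (zpowers_le.2 hb)
  rw [centralizer_zpowers, inf_comm, ← centralizer_zpowers a] at h1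
  obtain ⟨K', g1, -, g3⟩ := PComp.up h.ag h.ih (cne h b1) (csyl h hb.1)
    (zpowers_le.2 (h.A_le ha)) h1
  rcases g3 with ⟨-, -, g3, g4, g5, -⟩ | ⟨-, g4⟩
  · exact ⟨K', g1, g5.1 (h6.2 hT), g3.symm.trans h4, g4.symm.trans h5⟩
  · exact absurd (h6.2 hT) g4

theorem fact' {a : G} (ha : a ∈ A) (a1 : a ≠ 1) {M : Subgroup G} (h1 : O[a] ≤ M)
    (h2 : ∀ K, PComp 2 C[a] K → K ≤ M) (h3 : 𝐍 S ≤ M) : C[a] ≤ M :=
  fact h.ag h.ih (cne h a1) (csyl h ha) h1 h2 (inf_le_right.trans h3)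

theorem B_eq {K L : Subgroup G} (e : S ⊓ AG.CM K = S ⊓ AG.CM L) : A ⊓ AG.CM K = A ⊓ AG.CM L := by
  rw [← inf_eq_left.2 h.A_le, inf_assoc, inf_assoc, e]

theorem four_mul_le {U : Subgroup G} (hU : U ≤ A) (h1 : ¬ A ≤ U)
    (h2 : Nat.card A ≠ 2 * Nat.card U) : 4 * Nat.card U ≤ Nat.card A := by
  obtain ⟨k, hk⟩ := two_pow h le_rfl
  have h3 := card_mul_relIndex hU
  obtain ⟨j, -, hj⟩ := (Nat.dvd_prime_pow Nat.prime_two).1 (hk ▸ Dvd.intro_left _ h3)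
  rw [hj] at h3
  rcases j with _ | _ | j
  · exact absurd (eq_of_le_of_card_ge hU (by omega)).ge h1
  · omega
  · rw [← h3, mul_comm]
    exact Nat.mul_le_mul_left _ (Nat.pow_le_pow_right (n := 2) (by norm_num) (by omega : 2 ≤ j + 1 + 1))

section Main
variable (hb : Beta2 A) {M : Subgroup G} (hM : ∀ E, E ≤ A → 8 ≤ Nat.card E → 𝐍 E ≤ M)
  (h16 : 16 ≤ Nat.card A)
include hb hM h16

theorem bad {a : G} (ha : a ∈ A) (a1 : a ≠ 1) (hn : ¬ C[a] ≤ M) : ∃ K, PComp 2 C[a] K ∧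
    Nat.card ↥(A ⊓ AG.CM K) = 4 ∧ Ty TA K ∧ ∀ b ∈ A ⊓ AG.CM K, ¬ C[b] ≤ M := by
  have hC : ∀ E, E ≤ A → 8 ≤ Nat.card E → 𝐂 E ≤ M := fun E h1 h2 =>
    (le_normalizer_of_le_centralizer le_rfl).trans (hM E h1 h2)
  have hN : 𝐍 S ≤ M := h.norm_A.trans (hM A le_rfl h.rk)
  have hO : O[a] ≤ M := gen2 h le_rfl (OppOf_not_dvd _) (A_norm_O h ha) fun F h1 h2 _ =>
    inf_le_right.trans (hC F h1 (by omega))
  obtain ⟨K, hK, hKM⟩ : ∃ K, PComp 2 C[a] K ∧ ¬ K ≤ M := by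
    by_contra! h'
    exact hn (fact' h ha a1 hO h' hN)
  obtain ⟨K0, h1, -, h3, -⟩ := down h ha a1 hK le_rfl
  have h4 : ¬ centralizer ((A ⊓ AG.CM K : Subgroup G) : Set G) ≤ M := fun e =>
    hKM (h3.trans (sup_le ((h1.le.trans inf_le_right).trans e) (hK.OppOf_le.trans hO)))
  have h5 := hb a ha a1 K hK
  have h6 : Nat.card ↥(A ⊓ AG.CM K) = 4 := by
    have h7 : ¬ 8 ≤ Nat.card ↥(A ⊓ AG.CM K) := fun e => h4 (hC _ inf_le_left e)
    obtain ⟨k, hk⟩ := two_pow h (inf_le_left : A ⊓ AG.CM K ≤ A)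
    rw [hk] at h5 h7 ⊢
    rcases k with _ | _ | _ | k
    iterate 3 omega
    exact absurd (Nat.pow_le_pow_right (n := 2) (by norm_num) (by omega : 3 ≤ k + 1 + 1 + 1)) h7
  refine ⟨K, hK, h6, by_contra fun hT => hKM ?_, fun b hb e => h4 ((cent_le_C hb).trans e)⟩
  obtain ⟨D, hD⟩ := cd h ha a1 hK
  refine PComp.gen h.ag h.ih (cne h a1) (csyl h ha) hK hT (hK.OppOf_le.trans hO)
    (inf_le_right.trans hN) fun v hv v1 => ?_
  have h7 : zpowers v ≤ A := zpowers_le.2 (V_le h hD hv)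
  refine le_trans ?_ (hC (zpowers v ⊔ A ⊓ AG.CM K) (sup_le h7 inf_le_left) ?_)
  · refine le_centralizer_sup (by rw [centralizer_zpowers]; exact inf_le_right) ?_
    exact (inf_le_left.trans inf_le_right).trans
      (centralizer_le_centralizer (inf_le_inf_right _ h.A_le))
  · rw [card_sup h hD h7 ((eq_bot_iff_forall _).2 fun x hx =>
      hD.disj x (zpowers_le.2 hv hx.1) hx.2), h6]
    have : Nontrivial (zpowers v) := (nontrivial_iff_ne_bot _).2 (by simpa using v1)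
    have := Finite.one_lt_card (α := zpowers v)
    omega

theorem main {a1 : G} (ha1 : a1 ∈ A) (a11 : a1 ≠ 1) {K1 : Subgroup G} (hK1 : PComp 2 C[a1] K1)
    (hT : Ty TB K1) {U : Subgroup G} (hU : ∀ a ∈ A, a ≠ 1 → C[a] ≤ M → a ∈ U) : A ≤ U := by
  have hN : 𝐍 S ≤ M := h.norm_A.trans (hM A le_rfl h.rk)
  obtain ⟨D1, hD1⟩ := cd h ha1 a11 hK1
  have c1 := Ty.card_TB h.ag h.ih (cne h a11) (csyl h ha1) hK1 hT
  have c2 := cardA h hD1
  have m1 := mem_B h ha1 hK1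
  have n1 : a1 ∉ S ⊓ K1 := fun e => a11 (hD1.disj _ e m1.2)
  have hB1 : ∀ b ∈ A ⊓ AG.CM K1, b ≠ 1 → C[b] ≤ M := fun b hb1 b1 => by
    by_contra hn
    obtain ⟨K, hK, h4, hTA, -⟩ := bad h hb hM h16 hb1.1 b1 hn
    obtain ⟨K', g1, g2, g3, -⟩ := move h ha1 a11 hK1 hT hb1 b1
    have g4 : K' ≠ K := by
      rintro rfl
      exact Ty.not_TA h.ag h.ih (cne h b1) hK (Or.inl g2) hTA
    have g5 : S ⊓ K1 = A ⊓ AG.CM K := eq_of_le_of_card_ge (le_inf (V_le h hD1)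
      (g3.ge.trans (inf_le_right.trans (le_CM_of_ne g1 hK g4)))) (by omega)
    exact b1 (hD1.disj b (g5 ▸ mem_B h hb1.1 hK) hb1.2)
  set A1 := closure {a : G | a ∈ A ∧ a ≠ 1 ∧ C[a] ≤ M}
  have l1 : A1 ≤ A := (closure_le _).2 fun a ha => ha.1
  have l2 : A ⊓ AG.CM K1 ≤ A1 := fun b hb1 => by
    by_cases b1 : b = 1
    · rw [b1]; exact one_mem _
    · exact subset_closure ⟨hb1.1, b1, hB1 b hb1 b1⟩
  have l3 : normalizer (S : Set G) ≤ normalizer (A1 : Set G) := fun g hg => norm_of_cj (by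
    rw [map_le_iff_le_comap]
    refine (closure_le _).2 fun a ha => subset_closure
      ⟨conj_mem_of_mem_normalizer (h.norm_A hg) ha.1, by simpa using ha.2.1, ?_⟩
    exact (map_conj_centralizer_singleton a g).ge.trans
      (map_conj_le_of_le ha.2.2 (le_normalizer (hN hg))))
  refine le_trans ?_ ((closure_le _).2 fun a ha => hU a ha.1 ha.2.1 ha.2.2 : A1 ≤ U)
  by_contra hA
  have l4 := four_mul_le h l1 hA (h.not_index_two le_rfl l1 h.norm_A l3)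
  have l5 : A ⊓ AG.CM K1 = A1 := eq_of_le_of_card_ge l2 (by rw [c1] at c2; omega)
  have key : ∀ a ∈ A, a ∉ A1 → a ∈ S ⊓ K1 := by
    intro a ha hn
    have a0 : a ≠ 1 := fun e => hn (e ▸ one_mem _)
    obtain ⟨K, hK, h4, -, h5⟩ := bad h hb hM h16 ha a0 fun e => hn (subset_closure ⟨ha, a0, e⟩)
    obtain ⟨D, hD⟩ := cd h ha a0 hK
    have c3 := cardA h hD
    rw [h4] at c3
    have g1 : S ⊓ K = A1 := eq_of_le_of_card_ge ((dich h hD l1 (hD.DN.trans l3)).resolve_left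
      fun e => h5 a1 ⟨ha1, e (l2 m1)⟩ (hB1 a1 m1 a11)) (by omega)
    have g2 : D ≤ normalizer ((S ⊓ K1 : Subgroup G) : Set G) := fun d hd => by
      have hd' := hD.DN hd
      have g3 : d * a1 * d⁻¹ ∈ A ⊓ AG.CM K1 := l5 ▸ conj_mem_of_mem_normalizer (l3 hd') (l2 m1)
      obtain ⟨K', g4, -, g5, g6⟩ := move h ha1 a11 hK1 hT g3 (by simpa using a11)
      have g7 := hK1.conj' d
      rw [map_conj_centralizer_singleton] at g7
      have g8 : cj(d, S ⊓ K1) = S ⊓ cj(d, K1) := by rw [map_conj_inf, map_conj_eq_iff.2 hd']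
      by_cases e : cj(d, K1) = K'
      · rw [← map_conj_eq_iff, g8, e, g5]
      · exfalso
        obtain ⟨v, hv, v1⟩ := ne_bot_of_le (n := 2) hD1.four
        have g9 : d * v * d⁻¹ ∈ A1 := by
          rw [← l5, ← B_eq h g6]
          exact ⟨conj_mem_of_mem_normalizer (h.norm_A hd') (V_le h hD1 hv),
            le_CM_of_ne g7 g4 e (conj_mem_map_conj.2 hv.2)⟩
        have g10 := conj_mem_of_mem_normalizer' (l3 hd') g9
        rw [← l5] at g10
        exact v1 (hD1.disj v hv (by simpa [mul_assoc] using g10.2))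
    rcases dich h hD (V_le h hD1) g2 with e | e
    · rw [eq_of_le_of_card_ge (le_inf (V_le h hD1) e) (by omega)]
      exact mem_B h ha hK
    · exact absurd (e (g1 ▸ l2 m1)) n1
  obtain ⟨v, hv, v1⟩ := ne_bot_of_le (n := 2) hD1.four
  refine n1 (((S ⊓ K1).mul_mem_cancel_left hv).1 (key _ (mul_mem (V_le h hD1 hv) ha1) fun e => ?_))
  rw [← l5] at e
  exact v1 (hD1.disj v hv (((AG.CM K1).mul_mem_cancel_right m1.2).1 e.2))

end Main

theorem O_bot (hb : Beta2 A) (hr : ∀ a ∈ A, a ≠ 1 → ∀ K, PComp 2 C[a] K → ¬ Ty TB K) {a : G}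
    (ha : a ∈ A) (a1 : a ≠ 1) : O[a] = ⊥ := by
  have hO : ∀ a ∈ A, FF A O[a] := fun a ha => ⟨OppOf_not_dvd _, A_norm_O h ha, fun b hb b1 =>
    le_O h ha hb b1 le_rfl fun K hK => (act h ha hb b1 hK).resolve_right fun e => hr b hb b1 K hK e.1⟩
  have hW : FF A (mu A ⊤) := sf h le_rfl h.rk fun e he e1 =>
    (hO e he).mu fun X hX hc => hX.le_O he e1 (hc.trans inf_le_right)
  have hN : ∀ E, E ≤ A → 4 ≤ Nat.card E → 𝐍 E ≤ normalizer (mu A ⊤ : Set G) := by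
    intro E hE h4 g hg
    have e : mu A ⊤ = ⨆ e : {e : G // e ∈ E ∧ e ≠ 1}, O[e.1] :=
      le_antisymm (gen1 h hE h4 hW.odd (hE.trans hW.inv) fun e he e1 => (hW.bal e (hE he) e1).trans
        (le_iSup_of_le (⟨e, he, e1⟩ : {e : G // e ∈ E ∧ e ≠ 1}) le_rfl))
        (iSup_le fun e => (hO _ (hE e.2.1)).le_mu le_top)
    refine norm_of_cj ?_
    rw [e, Subgroup.map_iSup]
    exact iSup_le fun e => le_iSup_of_le (⟨g * e.1 * g⁻¹, conj_mem_of_mem_normalizer hg e.2.1,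
      by simpa using e.2.2⟩ : {e : G // e ∈ E ∧ e ≠ 1}) (cj_O _ g).le
  have h0 : mu A ⊤ = ⊥ := by
    by_contra h0
    have h1 := h.norm_A.trans (hN A le_rfl (le_trans (by norm_num) h.rk))
    refine h.se (norm_ne_odd h h0 hW.odd) h1 fun b hb' b1 => ?_
    have h2 := ((hO b hb').le_mu le_top).trans le_normalizer
    refine fact' h hb' b1 h2 (fun K hK => ?_) h1
    obtain ⟨K0, g1, -, g3, -⟩ := down h hb' b1 hK le_rfl
    exact g3.trans (sup_le ((g1.le.trans inf_le_right).trans ((le_normalizer_of_le_centralizer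
      le_rfl).trans (hN _ inf_le_left (hb b hb' b1 K hK)))) (hK.OppOf_le.trans h2))
  exact eq_bot_iff.2 (h0 ▸ (hO a ha).le_mu le_top)

end DS

open Subgroup Cfsg.Agent.Lib.Core DS in
/-- `Δ(E)` centralises `A` -/
theorem Cx.del {G : Type*} [Group G] [Finite G] {S A : Subgroup G} (h : Cx S A) (hb : Beta2 A)
    {E : Subgroup G} (hE : E ≤ A) (h4 : 4 ≤ Nat.card E) : Del E ≤ centralizer (A : Set G) := by
  by_cases hr : ∀ a ∈ A, a ≠ 1 → ∀ K, PComp 2 (centralizer {a}) K → ¬ Ty TB K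
  · obtain ⟨e, he, e1⟩ := ne_bot_of_le (n := 2) h4
    exact (Del_le he e1).trans (by rw [O_bot h hb hr (hE he) e1]; exact bot_le)
  push Not at hr
  obtain ⟨a, ha, a1, K, hK, hT⟩ := hr
  obtain ⟨D, hD⟩ := cd h ha a1 hK
  have h16 : 16 ≤ Nat.card A := by
    rw [cardA h hD]; exact Nat.mul_le_mul hD.four (hb a ha a1 K hK)
  have hW := ff_W h h16
  have h1 : A ≤ centralizer (mu A ⊤ : Set G) :=
    main h hb (fun E h1 h2 => norm_W h h16 h1 h2) h16 ha a1 hK hT fun b hb' b1 e =>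
      mem_centralizer_iff.2 fun _ hx => mem_centralizer_singleton_iff.1 (h.good hb' b1 hW.odd e hx)
  exact (cact h le_rfl (Del_odd (n := 2) h4) (A_norm_Del h hE)).le_centralizer
    ((le_sup_left.trans ((ff_star h h16 hE h4).le_mu le_top)).trans (le_centralizer_iff.1 h1))

end Cfsg.Agent.Lib.AG
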