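/-
A-groups project (S2554), part II: basic facts on the Ree type configuration.
-/
import Cfsg.Agent.Lib.AG.Defs2
import Cfsg.Agent.Lib.AG.Kn
import Cfsg.Agent.Lib.AG.BSW1

set_option autoImplicit false
set_option linter.unusedSectionVars false

namespace Cfsg.Agent.Lib.AG

open Subgroup Cfsg.Agent.Lib.Core

universe u

variable {G : Type u} [Group G] [Finite G]

theorem mem_Vf' {t s : G} (tt : t * t = 1) (ss : s * s = 1) (cm : t * s = s * t) {x : G} :
    x ∈ Vf t s ↔ x = 1 ∨ x = t ∨ x = s ∨ x = t * s := by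
  have e1 : t * (t * s) = s := by rw [← mul_assoc, tt, one_mul]
  have e2 : s * (t * s) = t := by rw [cm, ← mul_assoc, ss, one_mul]
  have i1 : t⁻¹ = t := inv_eq_of_mul_eq_one_right tt
  have i2 : s⁻¹ = s := inv_eq_of_mul_eq_one_right ss
  refine ⟨fun hx => ?_, ?_⟩
  · induction hx using closure_induction_left with
    | one => exact Or.inl rfl
    | mul_left a ha y _ ih =>
      rcases ha with rfl | rfl <;> rcases ih with rfl | rfl | rfl | rfl <;>
        simp [tt, ss, e1, e2, ← cm]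
    | inv_mul_cancel a ha y _ ih =>
      rcases ha with rfl | rfl <;> rcases ih with rfl | rfl | rfl | rfl <;>
        simp [tt, ss, e1, e2, ← cm, i1, i2]
  · rintro (rfl | rfl | rfl | rfl)
    exacts [one_mem _, t_mem_Vf, s_mem_Vf, ts_mem_Vf]

theorem pow_odd_of_sq {t : G} (tt : t * t = 1) {m : ℕ} (hm : Odd m) : t ^ m = t := by
  obtain ⟨j, rfl⟩ := hm
  rw [pow_succ, pow_mul, sq, tt, one_pow, one_mul]

theorem orderOf_conj' (g x : G) : orderOf (g * x * g⁻¹) = orderOf x :=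
  (MulAut.conj g).orderOf_eq x

theorem comm_conj' {a b : G} (g : G) (h : a * b = b * a) :
    g * a * g⁻¹ * (g * b * g⁻¹) = g * b * g⁻¹ * (g * a * g⁻¹) := by
  calc _ = g * (a * b) * g⁻¹ := by group
    _ = _ := by rw [h]; group

variable {t u c w : G} {L K Q D : Subgroup G} {p q n : ℕ} (h : RZ t u c w L K Q D p q n)
include h

namespace RZ

theorem tinv : t⁻¹ = t := inv_eq_of_mul_eq_one_right h.tt

theorem ttx (x : G) : t * (t * x) = x := by rw [← mul_assoc, h.tt, one_mul]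

theorem simpleL : IsSimpleGroup L := by
  obtain ⟨s, v, hv, -⟩ := h.vs
  exact hv.simple

theorem oddK : Odd (Nat.card K) := by
  obtain ⟨s, v, hv, -⟩ := h.vs
  simpa [card_subgroupOf h.KL] using hv.Kodd

theorem K2 : ¬ 2 ∣ Nat.card K := by
  have := h.oddK
  rw [← Nat.not_even_iff_odd, even_iff_two_dvd] at this
  exact this

theorem uu : u * u = 1 := by
  obtain ⟨s, v, hv, -⟩ := h.vs
  exact congrArg Subtype.val hv.tt

theorem u1 : u ≠ 1 := by
  obtain ⟨s, v, hv, -⟩ := h.vs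
  exact fun e => hv.t1 (Subtype.ext e)

theorem uinv : u⁻¹ = u := inv_eq_of_mul_eq_one_right h.uu

theorem tu : t * u = u * t := h.Lt u h.uL

theorem t_ne_u : t ≠ u := fun e => h.tL (e ▸ h.uL)

theorem uK {y : G} (hy : y ∈ K) : u * y = y * u := by
  obtain ⟨s, v, hv, -⟩ := h.vs
  exact congrArg Subtype.val (hv.Kt ⟨y, h.KL hy⟩ hy)

theorem tK {y : G} (hy : y ∈ K) : t * y = y * t := h.Lt y (h.KL hy)

theorem memE {x : G} : x ∈ Vf t u ↔ x = 1 ∨ x = t ∨ x = u ∨ x = t * u := mem_Vf' h.tt h.uu h.tu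

/-- the second involution of `L` -/
theorem exs : ∃ s ∈ L, s * s = 1 ∧ s ≠ 1 ∧ u ≠ s ∧ u * s = s * u ∧ (c = s ∨ c = t * s) ∧
    (∀ y ∈ K, s * y * s = y⁻¹) ∧
    ∀ g ∈ L, u * g = g * u → ∃ y ∈ K, g = y ∨ g = y * u ∨ g = y * s ∨ g = y * (u * s) := by
  obtain ⟨s, v, hv, hc⟩ := h.vs
  refine ⟨s, s.2, congrArg Subtype.val hv.ss, fun e => hv.s1 (Subtype.ext e),
    fun e => hv.ts (Subtype.ext e), congrArg Subtype.val hv.comm, hc,
    fun y hy => congrArg Subtype.val (hv.Ks ⟨y, h.KL hy⟩ hy), fun g hg hu => ?_⟩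
  obtain ⟨x, hx, e⟩ := VS.cases hv (g := ⟨g, hg⟩) (Subtype.ext hu)
  exact ⟨x, hx, e.imp (congrArg Subtype.val) (.imp (congrArg Subtype.val)
    (.imp (congrArg Subtype.val) (congrArg Subtype.val)))⟩

theorem conjL {j : G} (hj : j ∈ L) (h2 : j * j = 1) (h1 : j ≠ 1) : ∃ g ∈ L, g⁻¹ * j * g = u := by
  obtain ⟨s, v, hv, -⟩ := h.vs
  obtain ⟨g, hg⟩ := hv.invol_conj (j := ⟨j, hj⟩) (Subtype.ext h2) (fun e => h1 (congrArg Subtype.val e))
  exact ⟨g, g.2, congrArg Subtype.val hg⟩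

theorem centKL {y g : G} (hy : y ∈ K) (y1 : y ≠ 1) (hg : g ∈ L) (h2 : y * g = g * y) :
    g ∈ K ∨ g * u ∈ K := by
  obtain ⟨s, v, hv, -⟩ := h.vs
  exact hv.memT.mp (hv.centK (x := ⟨y, h.KL hy⟩) (g := ⟨g, hg⟩) hy
    (fun e => y1 (congrArg Subtype.val e)) (Subtype.ext h2))

theorem odd_mem_L {g : G} (hg : t * g = g * t) (ho : Odd (orderOf g)) : g ∈ L := by
  refine (h.cent g hg).elim id fun h1 => absurd ?_ h.tL
  have := pow_mem h1 (orderOf g)
  rwa [Commute.mul_pow hg, pow_orderOf_eq_one, mul_one, pow_odd_of_sq h.tt ho] at this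

theorem odd_mem_K {g : G} (h1 : t * g = g * t) (h2 : u * g = g * u) (ho : Odd (orderOf g)) :
    g ∈ K := by
  obtain ⟨s, v, hv, -⟩ := h.vs
  have hg := h.odd_mem_L h1 ho
  refine VS.odd_mem_K hv (X := zpowers (⟨g, hg⟩ : L)) ?_ (mem_zpowers _) (Subtype.ext h2)
  rw [Nat.card_zpowers, ← orderOf_coe, ← even_iff_two_dvd, Nat.not_even_iff_odd]
  exact ho

theorem odd_of_mem_K {y : G} (hy : y ∈ K) : Odd (orderOf y) :=
  Odd.of_dvd_nat h.oddK (orderOf_dvd_natCard K hy)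

theorem wtu : w * (t * u) * w⁻¹ = t := by
  rw [show w * (t * u) * w⁻¹ = w * t * w⁻¹ * (w * u * w⁻¹) by group, h.wt, h.wu, h.tu, ← mul_assoc,
    h.uu, one_mul]

theorem num : Odd (Nat.card K) ∧ Odd n ∧ Odd q ∧ p ≠ 2 ∧ (Nat.card K).Coprime q ∧
    (Nat.card K).Coprime n ∧ q.Coprime n ∧ (∃ f, 0 < f ∧ q = p ^ f) ∧ 5 ≤ n := by
  have := Fact.mk h.prime
  obtain ⟨f, hf⟩ := IsPGroup.iff_card.mp
    (isPGroup_of_forall_pow (p := p) (P := Q) fun x hx => ⟨1, by simpa using h.expQ x hx⟩)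
  rw [h.cardQ] at hf
  have q11 := h.q11
  have f0 : 0 < f := Nat.pos_of_ne_zero fun e => by rw [e, pow_zero] at hf; omega
  have hk := h.oddK
  have oq : Odd q := by rcases h.eps with e | e <;> exact Nat.odd_iff.mpr (by omega)
  have p2 : p ≠ 2 := fun e => by
    rw [hf, e] at oq
    exact (Nat.not_even_iff_odd.mpr oq) (Nat.even_pow.mpr ⟨even_two, f0.ne'⟩)
  have co : ∀ a b i j : ℕ, (a * i = b * j + 1 ∨ a * i + 1 = b * j) → a.Coprime b := by
    intro a b i j e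
    refine Nat.coprime_of_dvd fun r hr ha hb => hr.one_lt.ne' (Nat.dvd_one.mp ?_)
    rcases e with e | e
    · exact (Nat.dvd_add_right (hb.mul_right j)).mp (e ▸ ha.mul_right i)
    · exact (Nat.dvd_add_right (ha.mul_right i)).mp (e ▸ hb.mul_right j)
  refine ⟨hk, ?_, oq, p2, co _ _ 4 1 ?_, co _ _ 2 1 ?_, co _ _ 1 2 ?_, ⟨f, f0, hf⟩, ?_⟩
  · rcases h.eps with e | e <;> exact Nat.odd_iff.mpr (by omega)
  all_goals rcases h.eps with e | e <;> omega

theorem L_le : L ≤ centralizer ({t} : Set G) := fun g hg => mem_C.mpr (h.Lt g hg)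

theorem cardH : Nat.card (centralizer ({t} : Set G)) = 8 * Nat.card K * q * n := by
  rw [card_two_mul h.L_le (a := t) (mem_C.mpr rfl) h.tL fun b hb => by
    rw [← mem_C.mp hb]; exact h.cent b (mem_C.mp hb), h.cardL]
  ring

theorem wE {x : G} (hx : x ∈ Vf t u) : w * x * w⁻¹ ∈ Vf t u := by
  rcases h.memE.mp hx with rfl | rfl | rfl | rfl
  · simp
  · rw [h.wt]; exact s_mem_Vf
  · rw [h.wu]; exact ts_mem_Vf
  · rw [h.wtu]; exact t_mem_Vf

theorem w_normE : w ∈ normalizer (Vf t u : Set G) := mem_normalizer_of_conj_mem fun _ => h.wE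

theorem basic : u * u = 1 ∧ u ≠ 1 ∧ t ≠ u ∧ t * u = u * t ∧ c * c = 1 ∧ t * c = c * t ∧
    u * c = c * u ∧ c ∉ Vf t u ∧ (∀ y ∈ K, c * y * c = y⁻¹) ∧ (∀ y ∈ K, u * y = y * u) ∧
    w ∈ normalizer (K : Set G) ∧ w ≠ 1 := by
  obtain ⟨s, sL, ss, s1, us, cm, hc, hK, -⟩ := h.exs
  have ts := h.Lt s sL
  have hs : s ∉ Vf t u := fun e => by
    rcases h.memE.mp e with e | e | e | e
    exacts [s1 e, h.tL (e ▸ sL), us e.symm, h.tL (by
      have := mul_mem sL h.uL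
      rwa [e, mul_assoc, h.uu, mul_one] at this)]
  refine ⟨h.uu, h.u1, h.t_ne_u, h.tu, ?_, ?_, ?_, ?_, fun y hy => ?_, fun y => h.uK,
    mem_normalizer_of_conj_mem fun y hy => ?_, fun e => h.t_ne_u ?_⟩
  · rcases hc with rfl | rfl
    · exact ss
    · rw [mul_assoc, ← mul_assoc s, ← ts, mul_assoc, ss, mul_one, h.tt]
  · rcases hc with rfl | rfl
    · exact ts
    · rw [mul_assoc, ← ts]
  · rcases hc with rfl | rfl
    · exact cm
    · rw [← mul_assoc, ← h.tu, mul_assoc, cm, mul_assoc]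
  · rcases hc with rfl | rfl
    · exact hs
    · exact fun e => hs (by simpa [h.ttx] using mul_mem t_mem_Vf e)
  · rcases hc with rfl | rfl
    · exact hK y hy
    · rw [show t * s * y * (t * s) = t * (s * y * t * s) by group, mul_assoc (s * y), ts,
        ← mul_assoc (s * y), hK y hy, ← h.tK (inv_mem hy), h.ttx]
  · have a1 := comm_conj' w (h.tK hy)
    have a2 := comm_conj' w (show t * u * y = y * (t * u) by
      rw [mul_assoc, h.uK hy, ← mul_assoc, h.tK hy, mul_assoc])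
    rw [h.wt] at a1
    rw [h.wtu] at a2
    exact h.odd_mem_K a2 a1 (by rw [orderOf_conj']; exact h.odd_of_mem_K hy)
  · simpa [e] using h.wt

theorem centE {g : G} (h1 : t * g = g * t) (h2 : u * g = g * u) :
    ∃ y ∈ K, ∃ e ∈ Vf t u, g = y * e ∨ g = y * e * c := by
  obtain ⟨s, sL, ss, s1, us, cm, hc, hK, hC⟩ := h.exs
  have ts := h.Lt s sL
  have key : ∀ g ∈ L, u * g = g * u → ∃ y ∈ K, ∃ e ∈ Vf t u, g = y * e ∨ g = y * e * c := by
    intro g hg hu
    obtain ⟨y, hy, e | e | e | e⟩ := hC g hg hu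
    · exact ⟨y, hy, 1, one_mem _, .inl (by simpa using e)⟩
    · exact ⟨y, hy, u, s_mem_Vf, .inl e⟩
    · rcases hc with rfl | rfl
      · exact ⟨y, hy, 1, one_mem _, .inr (by simpa using e)⟩
      · exact ⟨y, hy, t, t_mem_Vf, .inr (by rw [e, mul_assoc, h.ttx])⟩
    · rcases hc with rfl | rfl
      · exact ⟨y, hy, u, s_mem_Vf, .inr (by rw [e, mul_assoc])⟩
      · exact ⟨y, hy, t * u, ts_mem_Vf, .inr (by
          rw [e, h.tu, mul_assoc y, mul_assoc u, h.ttx])⟩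
  rcases h.cent g h1 with hg | hg
  · exact key g hg h2
  · obtain ⟨y, hy, e, he, h3⟩ := key _ hg (by rw [← mul_assoc, ← h.tu, mul_assoc, h2, mul_assoc])
    refine ⟨y, hy, t * e, mul_mem t_mem_Vf he, h3.imp (fun h3 => ?_) fun h3 => ?_⟩
    · rw [← mul_assoc, ← h.tK hy, mul_assoc, ← h3, h.ttx]
    · rw [← mul_assoc, ← h.tK hy, mul_assoc, mul_assoc, ← mul_assoc y, ← h3, h.ttx]

theorem centK {y g : G} (hy : y ∈ K) (y1 : y ≠ 1) (h1 : t * g = g * t) (h2 : y * g = g * y) :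
    ∃ y' ∈ K, ∃ e ∈ Vf t u, g = y' * e := by
  have key : ∀ g ∈ L, y * g = g * y → ∃ y' ∈ K, ∃ e ∈ Vf t u, g = y' * e := by
    intro g hg h2
    rcases h.centKL hy y1 hg h2 with h3 | h3
    · exact ⟨g, h3, 1, one_mem _, (mul_one g).symm⟩
    · exact ⟨_, h3, u, s_mem_Vf, by rw [mul_assoc, h.uu, mul_one]⟩
  rcases h.cent g h1 with hg | hg
  · exact key g hg h2
  · obtain ⟨y', hy', e, he, h3⟩ := key _ hg (by
      rw [← mul_assoc, ← h.tK hy, mul_assoc, h2, mul_assoc])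
    exact ⟨y', hy', t * e, mul_mem t_mem_Vf he, by
      rw [← mul_assoc, ← h.tK hy', mul_assoc, ← h3, h.ttx]⟩

theorem exg {e : G} (he : e * e = 1) (e1 : e ≠ 1) : ∃ g : G, g * e * g⁻¹ = t :=
  isConj_iff.mp (h.conj e he e1).symm

theorem four {e e' : G} (he : e * e = 1) (e1 : e ≠ 1) (he' : e' * e' = 1) (e1' : e' ≠ 1)
    (hne : e ≠ e') (hc : e * e' = e' * e) :
    ∃ g : G, g * e * g⁻¹ = t ∧ (g * e' * g⁻¹ = u ∨ g * e' * g⁻¹ = t * u) := by
  obtain ⟨g, hg⟩ := h.exg he e1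
  have c1 := comm_conj' g hc
  rw [hg] at c1
  have c2 : g * e' * g⁻¹ * (g * e' * g⁻¹) = 1 := by
    rw [show g * e' * g⁻¹ * (g * e' * g⁻¹) = g * (e' * e') * g⁻¹ by group, he']; group
  have key : ∀ l ∈ L, l⁻¹ * g * e * (l⁻¹ * g)⁻¹ = t := fun l hl => by
    rw [show l⁻¹ * g * e * (l⁻¹ * g)⁻¹ = l⁻¹ * (g * e * g⁻¹ * l) by group, hg, h.Lt l hl]; group
  rcases h.cent _ c1 with h1 | h1
  · obtain ⟨l, hl, h2⟩ := h.conjL h1 c2 (by simpa using e1')
    exact ⟨l⁻¹ * g, key l hl, .inl (by rw [← h2]; group)⟩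
  · obtain ⟨l, hl, h2⟩ := h.conjL h1 (by
      rw [mul_assoc t, ← mul_assoc _ t, ← c1, mul_assoc t, c2, mul_one, h.tt]) (fun e2 => hne (by
        rw [← hg, show g * e * g⁻¹ * (g * e' * g⁻¹) = g * (e * e') * g⁻¹ by group] at e2
        have e3 : e * e' = 1 := by simpa using e2
        rw [← mul_left_inj e', e3, he']))
    refine ⟨l⁻¹ * g, key l hl, .inr ?_⟩
    rw [← h2, ← mul_assoc, ← mul_assoc, h.Lt _ (inv_mem hl), mul_assoc _ t, h.ttx]; group

theorem odd_four {e e' z : G} (he : e * e = 1) (e1 : e ≠ 1) (he' : e' * e' = 1) (e1' : e' ≠ 1)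
    (hne : e ≠ e') (hc : e * e' = e' * e) (h1 : e * z = z * e) (h2 : e' * z = z * e')
    (hz : Odd (orderOf z)) : orderOf z ∣ Nat.card K := by
  obtain ⟨g, g1, g2⟩ := h.four he e1 he' e1' hne hc
  have a1 := comm_conj' g h1
  have a2 := comm_conj' g h2
  rw [g1] at a1
  rw [← orderOf_conj' g] at hz ⊢
  refine orderOf_dvd_natCard K (h.odd_mem_K a1 ?_ hz)
  rcases g2 with g2 | g2 <;> rw [g2] at a2
  · exact a2
  · rw [← h.ttx u, mul_assoc, a2, ← mul_assoc, a1, mul_assoc]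

theorem sq_of_four {y : G} (hy : y * y * (y * y) = 1) : y * y = 1 := by
  by_contra y1
  obtain ⟨g, hg⟩ := h.exg hy y1
  have e : g * y * g⁻¹ * (g * y * g⁻¹) = t := by rw [← hg]; group
  have c1 : t * (g * y * g⁻¹) = g * y * g⁻¹ * t := by rw [← e]; group
  rcases h.cent _ c1 with h1 | h1
  · exact h.tL (e ▸ mul_mem h1 h1)
  · refine h.tL ?_
    have := mul_mem h1 h1
    rwa [mul_assoc t, ← mul_assoc _ t, ← c1, mul_assoc t, h.ttx, e] at this

theorem sq_of_pow {i : ℕ} : ∀ {x : G}, x ^ 2 ^ i = 1 → x * x = 1 := by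
  induction i with
  | zero => intro x hx; simp [show x = 1 by simpa using hx]
  | succ i ih =>
    intro x hx
    exact h.sq_of_four (ih (by rw [← sq, ← pow_mul, ← pow_succ', hx]))

/-- Sylow 2-subgroups are elementary abelian -/
theorem sq {T : Subgroup G} (hT : IsPGroup 2 T) {x : G} (hx : x ∈ T) : x * x = 1 := by
  obtain ⟨i, hi⟩ := pow_eq_one_of_isPGroup hT hx
  exact h.sq_of_pow hi

theorem conj_mem_L {g x : G} (hg : t * g = g * t) (hx : x ∈ L) : g * x * g⁻¹ ∈ L := by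
  rcases h.cent g hg with h1 | h1
  · exact mul_mem (mul_mem h1 hx) (inv_mem h1)
  · have := mul_mem (mul_mem h1 hx) (inv_mem h1)
    rwa [hg, mul_assoc g, h.Lt x hx, show g * (x * t) * (g * t)⁻¹ = g * x * g⁻¹ by group] at this

theorem normE {g : G} (hg : g ∈ normalizer (Vf t u : Set G)) :
    ∃ i : ℕ, t * (g * w ^ i) = g * w ^ i * t ∧ u * (g * w ^ i) = g * w ^ i * u := by
  have key : ∀ i : ℕ, w ^ i * t * (w ^ i)⁻¹ = g⁻¹ * t * g →
      t * (g * w ^ i) = g * w ^ i * t ∧ u * (g * w ^ i) = g * w ^ i * u := by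
    intro i hi
    have a1 : t * (g * w ^ i) = g * w ^ i * t := by
      rw [mul_assoc g, ← mul_inv_cancel_right (w ^ i * t) (w ^ i)⁻¹, hi]; group
    refine ⟨a1, ?_⟩
    have a2 := h.conj_mem_L a1 h.uL
    have a3 := conj_mem_of_mem_normalizer (mul_mem hg (pow_mem h.w_normE i)) (s_mem_Vf (t := t))
    rcases h.memE.mp a3 with e | e | e | e
    · exact absurd (by simpa only [conj_eq_one_iff] using e) h.u1
    · exact absurd (e ▸ a2) h.tL
    · rw [mul_inv_eq_iff_eq_mul] at e; exact e.symm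
    · refine absurd ?_ h.tL
      have := mul_mem a2 h.uL
      rwa [e, mul_assoc, h.uu, mul_one] at this
  rcases h.memE.mp (conj_mem_of_mem_normalizer' hg t_mem_Vf) with e | e | e | e
  · refine absurd ?_ h.t1
    rw [← mul_left_inj g, ← mul_right_inj g⁻¹, ← mul_assoc, e]; simp
  · exact ⟨0, key 0 (by simp [e])⟩
  · exact ⟨1, key 1 (by simp [e, h.wt])⟩
  · exact ⟨2, key 2 (by rw [e, ← h.wu, ← h.wt, pow_two]; group)⟩

theorem not_four {z : G} (hz : Odd (orderOf z)) (hk : ¬ orderOf z ∣ Nat.card K) :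
    ¬ 4 ∣ Nat.card (centralizer ({z} : Set G)) := fun h4 => by
  obtain ⟨T, hT⟩ := exists_isSyl 2 (centralizer ({z} : Set G))
  have c4 : 4 ∣ Nat.card T := by
    rw [hT.card_eq]
    exact pow_dvd_pow 2 ((Nat.prime_two.pow_dvd_iff_le_factorization Nat.card_pos.ne').mp
      (show 2 ^ 2 ∣ _ from h4))
  obtain ⟨⟨e, he⟩, e1⟩ := ne_bot_iff_exists_ne_one.mp (hT.ne_bot ((show 2 ∣ 4 by norm_num).trans h4))
  have e1' : e ≠ 1 := fun x => e1 (Subtype.ext x)
  have ee := h.sq hT.isPGroup he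
  obtain ⟨e', he', hn⟩ : ∃ e' ∈ T, e' ∉ zpowers e := by
    by_contra! a
    have := c4.trans (card_dvd_of_le a)
    rw [Nat.card_zpowers, orderOf_eq_prime (p := 2) (by rwa [_root_.sq]) e1'] at this
    omega
  exact hk (h.odd_four ee e1' (h.sq hT.isPGroup he') (fun x => hn (x ▸ one_mem _))
    (fun x => hn (x ▸ mem_zpowers _)) (h.ag.comm hT.isPGroup he he') (mem_C.mp (hT.le he)).symm
    (mem_C.mp (hT.le he')).symm hz)

/-- centraliser in `C(e)` of an element of order dividing `n` -/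
theorem tor' {e z : G} (he : e * e = 1) (e1 : e ≠ 1) (hc : e * z = z * e) (z1 : z ≠ 1)
    (hz : (orderOf z).Coprime (2 * Nat.card K * p)) :
    Nat.card ↥(centralizer {e} ⊓ centralizer {z} : Subgroup G) = 2 * n ∧
    ∃ i : G, i * i = 1 ∧ i ≠ 1 ∧ e * i = i * e ∧ i * z * i = z⁻¹ := by
  obtain ⟨g, hg⟩ := h.exg he e1
  have c1 := comm_conj' g hc
  rw [hg] at c1
  rw [← orderOf_conj' g] at hz
  have zL := h.odd_mem_L c1 (Nat.coprime_two_right.mp
    (hz.coprime_dvd_right (by rw [mul_assoc]; exact dvd_mul_right _ _)))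
  obtain ⟨h1, i, iL, ii, i1, iz⟩ := h.tor _ zL (by simpa using z1) hz
  refine ⟨?_, g⁻¹ * i * g, ?_, fun e => i1 ?_, ?_, ?_⟩
  · rw [← card_map_conj _ g, map_conj_inf, map_conj_centralizer_singleton,
      map_conj_centralizer_singleton, hg, ← h1]
    refine card_two_mul (inf_le_inf_right _ h.L_le) (a := t) ⟨mem_C.mpr rfl, mem_C.mpr c1.symm⟩
      (fun a => h.tL a.1) fun b hb => (h.cent b (mem_C.mp hb.1)).imp (fun a => ⟨a, hb.2⟩)
        fun a => ⟨mem_C.mp hb.1 ▸ a, mul_mem hb.2 (mem_C.mpr c1.symm)⟩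
  · rw [show g⁻¹ * i * g * (g⁻¹ * i * g) = g⁻¹ * (i * i) * g by group, ii]; group
  · rw [← mul_left_inj g, ← mul_right_inj g⁻¹, ← mul_assoc, e]; simp
  · have := comm_conj' g⁻¹ (h.Lt i iL)
    rwa [← hg, show g⁻¹ * (g * e * g⁻¹) * g⁻¹⁻¹ = e by group, inv_inv] at this
  · rw [show g⁻¹ * i * g * z * (g⁻¹ * i * g) = g⁻¹ * (i * (g * z * g⁻¹) * i) * g by group, iz]; group

theorem p_dvd : p ∣ q := by
  obtain ⟨-, -, -, -, -, -, -, ⟨f, f0, e⟩, -⟩ := h.num
  exact e ▸ dvd_pow_self p f0.ne'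

theorem pQ : IsPGroup p Q :=
  isPGroup_of_forall_pow fun x hx => ⟨1, by simpa using h.expQ x hx⟩

theorem oddp : Odd p := h.prime.odd_of_ne_two h.num.2.2.2.1

theorem p_not_K : ¬ p ∣ Nat.card K := fun e =>
  h.prime.one_lt.ne' (Nat.eq_one_of_dvd_coprimes h.num.2.2.2.2.1 e h.p_dvd)

theorem p_not_n : ¬ p ∣ n := fun e =>
  h.prime.one_lt.ne' (Nat.eq_one_of_dvd_coprimes h.num.2.2.2.2.2.2.1 h.p_dvd e)

theorem odd_of_pow {x : G} {i : ℕ} (hx : x ^ p ^ i = 1) : Odd (orderOf x) :=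
  Odd.of_dvd_nat h.oddp.pow (orderOf_dvd_of_pow_eq_one hx)

theorem sylQ : IsSyl p Q L := by
  refine ⟨h.QL, h.pQ, ?_⟩
  have e := card_mul_relIndex h.QL
  have q11 := h.q11
  rw [h.cardQ, h.cardL, show 4 * Nat.card K * q * n = q * (2 * 2 * Nat.card K * n) by ring,
    Nat.mul_right_inj (by omega)] at e
  have p2 : ¬ p ∣ 2 := fun e => h.num.2.2.2.1 ((Nat.prime_dvd_prime_iff_eq h.prime Nat.prime_two).mp e)
  simp only [e, h.prime.dvd_mul, p2, h.p_not_K, h.p_not_n, or_self, not_false_eq_true]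

/-- `p`-elements of `C(e)` -/
theorem pcent {e x : G} (he : e * e = 1) (e1 : e ≠ 1) (hc : e * x = x * e) (_x1 : x ≠ 1)
    {i : ℕ} (hx : x ^ p ^ i = 1) :
    ∃ g : G, g * e * g⁻¹ = t ∧ g * x * g⁻¹ ∈ Q := by
  have := Fact.mk h.prime
  obtain ⟨g, hg⟩ := h.exg he e1
  have c1 := comm_conj' g hc
  rw [hg] at c1
  have hx' : (g * x * g⁻¹) ^ p ^ i = 1 := by rw [conj_pow, hx]; group
  obtain ⟨l, hl, h2⟩ := h.sylQ.exists_conj_le (isPGroup_zpowers hx')
    (zpowers_le.mpr (h.odd_mem_L c1 (h.odd_of_pow hx')))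
  refine ⟨l * g, ?_, ?_⟩
  · rw [show l * g * e * (l * g)⁻¹ = l * (g * e * g⁻¹) * l⁻¹ by group, hg, ← h.Lt l hl]; group
  · simpa [mul_assoc] using map_conj_le_iff.mp h2 _ (mem_zpowers _)

theorem exQ : ∃ x ∈ Q, x ≠ 1 := by
  have q11 := h.q11
  obtain ⟨⟨x, hx⟩, x1⟩ := ne_bot_iff_exists_ne_one.mp (show Q ≠ ⊥ from fun e => by
    have := h.cardQ; rw [e, card_bot] at this; omega)
  exact ⟨x, hx, fun e => x1 (Subtype.ext e)⟩

theorem not_four_p {x : G} (x1 : x ≠ 1) {i : ℕ} (hx : x ^ p ^ i = 1) :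
    ¬ 4 ∣ Nat.card (centralizer ({x} : Set G)) :=
  h.not_four (h.odd_of_pow hx) fun e => x1 (orderOf_eq_one_iff.mp (Nat.eq_one_of_dvd_coprimes
    (Nat.Coprime.pow_left i ((Nat.Prime.coprime_iff_not_dvd h.prime).mpr h.p_not_K))
    (orderOf_dvd_of_pow_eq_one hx) e))

omit h in
/-- a subgroup of order not divisible by 4 containing the involution `e` -/
theorem sup_of_not_four {X : Subgroup G} {e : G} (he : e * e = 1) (e1 : e ≠ 1) (hX : e ∈ X)
    (h4 : ¬ 4 ∣ Nat.card X) : IsSyl 2 (zpowers e) X ∧ OppOf 2 X ⊔ zpowers e = X := by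
  have c2 : Nat.card (zpowers e) = 2 := by
    rw [Nat.card_zpowers, orderOf_eq_prime (p := 2) (by rwa [_root_.sq]) e1]
  have hS : IsSyl 2 (zpowers e) X := ⟨zpowers_le.mpr hX,
    isPGroup_zpowers (k := 1) (by rwa [pow_one, _root_.sq]), fun a => h4 (by
      rw [← card_mul_relIndex (zpowers_le.mpr hX), c2]; exact Nat.mul_dvd_mul_left 2 a)⟩
  exact ⟨hS, sup_of_card_le_two hS c2.le⟩

theorem exP : ∃ P, IsSyl p P ⊤ ∧ P ⊓ centralizer {t} = Q ∧
    normalizer (Q : Set G) ≤ normalizer (P : Set G) ∧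
    ∀ P' : Subgroup G, IsPGroup p P' → Q ≤ P' → P' ≤ P := by
  have := Fact.mk h.prime
  obtain ⟨x, hx, x1⟩ := h.exQ
  have tC : t ∈ centralizer (Q : Set G) := fun y hy => (h.Lt y (h.QL hy)).symm
  have h4 : ¬ 4 ∣ Nat.card (centralizer (Q : Set G)) := fun a => h.not_four_p x1 (i := 1)
    (by simpa using h.expQ x hx) (a.trans (card_dvd_of_le (centralizer_le (by simpa using hx))))
  obtain ⟨s1, s2⟩ := sup_of_not_four h.tt h.t1 tC h4
  set F := OppOf 2 (centralizer (Q : Set G)) with hF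
  have FC : F ≤ centralizer (Q : Set G) := OppOf_le _
  have leF : ∀ P' : Subgroup G, IsPGroup p P' → Q ≤ P' → P' ≤ F := fun P' h1 h2 =>
    le_O_of_odd s1.isPGroup s1.le s2 (h.ag.le_centralizer h1 le_rfl h2) fun a => by
      obtain ⟨i, hi⟩ := IsPGroup.iff_card.mp h1
      exact h.num.2.2.2.1 ((Nat.prime_dvd_prime_iff_eq Nat.prime_two h.prime).mp
        (Nat.prime_two.dvd_of_dvd_pow (hi ▸ a))).symm
  have odd : ∀ f ∈ F, Odd (orderOf f) := fun f hf => by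
    rw [← Nat.not_even_iff_odd, even_iff_two_dvd]
    exact fun a => OppOf_not_dvd _ (a.trans (orderOf_dvd_natCard F hf))
  have fix : ∀ f ∈ F, t * f = f * t → f ∈ Q := fun f hf e =>
    h.centQ x hx x1 f (h.odd_mem_L e (odd f hf)) (FC hf x hx)
  have tF : ∀ f ∈ F, t * f * t ∈ F := fun f hf => by
    simpa [h.tinv] using conj_mem_of_mem_normalizer (le_normalizer_OppOf le_normalizer tC) hf
  have inv : ∀ f ∈ F, t * f * t * f ∈ Q := fun f hf => by
    have ha : f⁻¹ * (t * f * t) ∈ F := mul_mem (inv_mem hf) (tF f hf)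
    obtain ⟨m, hm⟩ := odd _ ha
    set a := f⁻¹ * (t * f * t) with a0
    have a1 : t * a * t⁻¹ = a⁻¹ := by
      rw [a0, mul_inv_rev, mul_inv_rev, mul_inv_rev, h.tinv, inv_inv]
      simp only [mul_assoc, h.tt, mul_one]
    have a2 : a ^ (m + 1) * a ^ (m + 1) = a := by
      rw [← pow_add, show m + 1 + (m + 1) = 2 * m + 1 + 1 by ring, ← hm, pow_succ,
        pow_orderOf_eq_one, one_mul]
    have a3 : t * a ^ (m + 1) * t⁻¹ = (a ^ (m + 1))⁻¹ := by rw [← conj_pow, a1, inv_pow]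
    have hb : a ^ (m + 1) ∈ F := pow_mem ha _
    generalize a ^ (m + 1) = b at *
    have a4 : t * f * t = f * (b * b) := by rw [a2, a0]; group
    have hc := fix _ (mul_mem hf hb) (by
      rw [show t * (f * b) = t * f * t⁻¹ * (t * b * t⁻¹) * t by group, a3, h.tinv, a4]; group)
    have := mul_mem hc hc
    rwa [show f * b * (f * b) = f * b * (f * b) * b * b⁻¹ by group, mul_assoc (f * b),
      FC hb _ hc, show f * b * (b * (f * b)) * b⁻¹ = f * (b * b) * f by group, ← a4] at this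
  have ab : ∀ a ∈ F, ∀ b ∈ F, a⁻¹ * b⁻¹ * a * b ∈ Q := fun a ha b hb => by
    have h2 := inv _ hb
    have h3 := mul_mem (inv_mem (mul_mem (inv _ ha) h2)) (inv _ (mul_mem ha hb))
    have h5 := FC (inv_mem ha) _ h2
    rwa [show t * (a * b) * t * (a * b) = t * a * t * a * (a⁻¹ * (t * b * t * b)) * (b⁻¹ * a * b) by
      simp only [mul_assoc, h.ttx, mul_inv_cancel_left], ← h5,
      show (t * a * t * a * (t * b * t * b))⁻¹ * (t * a * t * a * (t * b * t * b * a⁻¹) *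
        (b⁻¹ * a * b)) = a⁻¹ * b⁻¹ * a * b by group] at h3
  obtain ⟨P, hP, QP⟩ := exists_isSyl_ge h.pQ le_top
  have PF := leF P hP.isPGroup QP
  have hn : F ≤ normalizer (P : Set G) := fun f hf => mem_normalizer_of_conj_mem fun y hy => by
    simpa using mul_mem (QP (ab _ (inv_mem hf) _ (inv_mem (PF hy)))) hy
  have hP' := hP.mono PF le_top
  refine ⟨P, hP, le_antisymm (fun y hy => fix y (PF hy.1) (mem_C.mp hy.2))
    (le_inf QP (h.QL.trans h.L_le)), ?_, fun P' h1 h2 =>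
      le_of_isSyl_of_le_normalizer hP' hn h1 (leF P' h1 h2)⟩
  rw [hP'.eq_OpOf_of_le_normalizer hn]
  exact le_normalizer_OpOf (le_normalizer_OppOf (normalizer_le_normalizer_centralizer _))

end RZ

end Cfsg.Agent.Lib.AG
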