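/-
A-groups project (S2554), piece END0: a strongly `p`-embedded subgroup.
-/
import Cfsg.Agent.Lib.AG.Rz0
import Cfsg.Agent.Lib.AG.Loc4
import Cfsg.Agent.Lib.AG.Over

set_option autoImplicit false

namespace Cfsg.Agent.Lib.AG

open Subgroup Cfsg.Agent.Lib.Core

universe u

variable {G : Type u} [Group G] [Finite G]
variable {t u c w : G} {L K Q D : Subgroup G} {p q n : ℕ} (h : RZ t u c w L K Q D p q n)
include h

theorem RZ.exM {P A : Subgroup G} (hP : IsSyl p P ⊤) (hQ : P ⊓ centralizer {t} = Q)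
    (hN : normalizer (Q : Set G) ≤ normalizer (P : Set G)) (hne : P ≠ Q) (hA : A ≤ P)
    (hp : ∀ a ∈ A, a ^ p = 1) (h3 : p ^ 3 ≤ Nat.card A) :
    ∃ M : Subgroup G, normalizer (P : Set G) ≤ M ∧
      (∀ g ∈ M, t * g = g * t → g ∈ Q ⊔ D ∨ t * g ∈ Q ⊔ D) ∧
      ∀ v ∈ P, v ≠ 1 → ∀ g : G, g * v * g⁻¹ ∈ M → g ∈ M := by
  have : Fact p.Prime := ⟨h.prime⟩
  obtain ⟨-, -, -, p2, kq, -, -, ⟨f, f0, hf⟩, -⟩ := h.num
  have pq : p ∣ q := hf ▸ dvd_pow_self p f0.ne'
  have cm : ∀ x ∈ P, ∀ y ∈ P, x * y = y * x := fun x hx y hy => h.ag.comm hP.isPGroup hx hy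
  have hC : ∀ a ∈ P, P ≤ centralizer {a} := fun a ha =>
    h.ag.le_centralizer_singleton hP.isPGroup ha
  have sv : ∀ a ∈ Om p P cm, a ≠ 1 → Group.IsSolvable (centralizer ({a} : Set G)) :=
    fun a ha a1 => by
    have o := orderOf_eq_prime ha.2 a1
    refine (solv_of_not_four (h.not_four (o ▸ h.prime.odd_of_ne_two p2) fun hd => ?_)).1
    rw [o] at hd
    exact h.prime.one_lt.ne' (Nat.eq_one_of_dvd_coprimes kq hd pq)
  obtain ⟨hW, -⟩ := S0217.result (Om p P cm) (fun a ha b hb => cm a ha.1 b hb.1)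
    (fun a ha => ha.2) (h3.trans (card_le_of_le fun a ha => ⟨hA ha, hp a ha⟩))
    (fun a => OppOf p (centralizer {a})) (fun a _ _ => OppOf_le _)
    (fun a _ _ => OppOf_not_dvd _)
    (fun a ha _ b hb x hx => conj_mem_of_mem_normalizer
      (le_normalizer_OppOf le_normalizer (hC a ha.1 hb.1)) hx)
    (fun a ha a1 => isSolvable_of_le (sv a ha a1) (OppOf_le _)) fun a ha _ b hb b1 => by
      refine le_trans ?_ (OppOf_inf_centralizer_le (R := zpowers a)
        (LOf_eq_bot_of_isSolvable (sv b hb b1))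
        (isPGroup_zpowers_of_mem hP.isPGroup ha.1) (by simpa using hC b hb.1 ha.1))
      rw [centralizer_zpowers]
      exact (le_inf inf_le_left (le_inf inf_le_right (inf_le_left.trans (OppOf_le _)))).trans
        (inf_OppOf_le inf_le_right)
  set W := ⨆ a : {a : G // a ∈ Om p P cm ∧ a ≠ 1}, OppOf p (centralizer {(a : G)}) with hWd
  have hNW : normalizer (P : Set G) ≤ normalizer (W : Set G) := fun g hg =>
    mem_normalizer_of_conj_mem (map_conj_le_iff.mp (by
      rw [hWd, Subgroup.map_iSup]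
      refine iSup_le fun a => ?_
      rw [OppOf_conj, map_conj_centralizer_singleton]
      exact le_iSup_of_le (f := fun a : {a : G // a ∈ Om p P cm ∧ a ≠ 1} =>
        OppOf p (centralizer {(a : G)})) ⟨g * a * g⁻¹, ⟨conj_mem_of_mem_normalizer hg a.2.1.1, by
          rw [conj_pow, a.2.1.2, mul_one, mul_inv_cancel]⟩, by simpa using a.2.2⟩ le_rfl))
  have hCM : ∀ v ∈ P, v ≠ 1 → centralizer {v} ≤ W ⊔ normalizer (P : Set G) := fun v hv v1 => by
    obtain ⟨a, ha, a1, ap⟩ := exists_order_p (isPGroup_zpowers_of_mem hP.isPGroup hv)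
      (zpowers_ne_bot.2 v1)
    have aP : a ∈ P := zpowers_le.2 hv ha
    have h1 : centralizer {a} ≤ W ⊔ normalizer (P : Set G) := by
      rw [← h.ag.solv_fact (sv a ⟨aP, ap⟩ a1) (hP.mono (hC a aP) le_top)]
      exact sup_le_sup (le_iSup_of_le (f := fun a : {a : G // a ∈ Om p P cm ∧ a ≠ 1} =>
        OppOf p (centralizer {(a : G)})) ⟨a, ⟨aP, ap⟩, a1⟩ le_rfl) inf_le_right
    refine le_trans ?_ h1
    rw [← centralizer_zpowers v]
    exact centralizer_le (by simpa using ha)
  have PM : P ≤ W ⊔ normalizer (P : Set G) := le_normalizer.trans le_sup_right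
  have QP : Q ≤ P := hQ ▸ inf_le_left
  refine ⟨W ⊔ normalizer (P : Set G), le_sup_right, fun g hg hc => ?_, fun v hv v1 g hg => ?_⟩
  · have tM : t ∈ W ⊔ normalizer (P : Set G) := mem_sup_right (hN
      (centralizer_le_normalizer _ fun x hx => (h.Lt x (h.QL hx)).symm))
    have key : (W ⊔ normalizer (P : Set G)) ⊓ L = Q ⊔ D := by
      refine (h.maxQD _ (le_inf (((sup_le le_normalizer h.normD).trans hN).trans le_sup_right)
        (sup_le h.QL h.DL)) inf_le_right).resolve_right fun e => ?_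
      have LM : L ≤ W ⊔ normalizer (P : Set G) := e.ge.trans inf_le_left
      obtain ⟨s, v, vs, -⟩ := h.vs
      have := vs.simple
      have dich : ∀ X : Subgroup G, L ≤ normalizer (X : Set G) → L ⊓ X = ⊥ ∨ L ≤ X := fun X hX => by
        have nX : (X.subgroupOf L).Normal := ⟨fun x hx g =>
          mem_subgroupOf.2 (conj_mem_of_mem_normalizer (hX g.2) (mem_subgroupOf.1 hx))⟩
        rcases nX.eq_bot_or_eq_top with e | e
        · exact Or.inl (by rw [inf_comm]; exact disjoint_iff.1 (subgroupOf_eq_bot.1 e))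
        · exact Or.inr (subgroupOf_eq_top.1 e)
      have nW : W ⊔ normalizer (P : Set G) ≤ normalizer (W : Set G) := sup_le le_normalizer hNW
      have pL : p ∣ Nat.card L := (pq.trans h.cardQ.symm.dvd).trans (card_dvd_of_le h.QL)
      have h1 := (dich W (LM.trans nW)).resolve_right fun e => hW (pL.trans (card_dvd_of_le e))
      have h2 := (dich (W ⊔ P) (LM.trans (sup_le (le_normalizer_of_le le_sup_left)
        (le_normalizer_sup hNW le_rfl)))).resolve_left fun e => by
          have : Q = ⊥ := le_bot_iff.1 ((le_inf h.QL (QP.trans le_sup_right)).trans e.le)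
          have e1 := h.cardQ
          have := h.q11
          rw [‹Q = ⊥›, card_bot] at e1
          omega
      obtain ⟨a, b, hab⟩ := vs.toV4.not_comm
      obtain ⟨a1, ha1, a2, ha2, ea⟩ :=
        (mem_sup_of_le_normalizer_left (le_normalizer.trans hNW)).1 (h2 a.2)
      obtain ⟨b1, hb1, b2, hb2, eb⟩ :=
        (mem_sup_of_le_normalizer_left (le_normalizer.trans hNW)).1 (h2 b.2)
      have n2 : ∀ {x y : G}, x ∈ P → y ∈ W → x * y * x⁻¹ ∈ W := fun hx hy =>
        conj_mem_of_mem_normalizer (hNW (le_normalizer hx)) hy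
      have : (a : G) * b * (a : G)⁻¹ * (b : G)⁻¹ ∈ L ⊓ W := by
        refine mem_inf.2 ⟨mul_mem (mul_mem (mul_mem a.2 b.2) (inv_mem a.2)) (inv_mem b.2), ?_⟩
        have e : (a : G) * b * (a : G)⁻¹ * (b : G)⁻¹ =
            a1 * (a2 * b1 * a2⁻¹) * (b2 * a1⁻¹ * b2⁻¹) * b1⁻¹ := by
          rw [← ea, ← eb]
          calc a1 * a2 * (b1 * b2) * (a1 * a2)⁻¹ * (b1 * b2)⁻¹
              = a1 * (a2 * b1 * a2⁻¹) * (a2 * b2) * a2⁻¹ * a1⁻¹ * b2⁻¹ * b1⁻¹ := by group
            _ = _ := by rw [cm a2 ha2 b2 hb2]; group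
        rw [e]
        exact mul_mem (mul_mem (mul_mem ha1 (n2 ha2 hb1)) (n2 hb2 (inv_mem ha1))) (inv_mem hb1)
      rw [h1, mem_bot, mul_inv_eq_one, mul_inv_eq_iff_eq_mul] at this
      exact hab (Subtype.ext this)
    rcases h.cent g hc with h1 | h1
    · exact Or.inl (key.le ⟨hg, h1⟩)
    · exact Or.inr (key.le ⟨mul_mem tM hg, h1⟩)
  · have hz : IsPGroup p (zpowers (g * v * g⁻¹)) := by
      obtain ⟨k, hk⟩ := pow_eq_one_of_isPGroup hP.isPGroup hv
      exact isPGroup_zpowers (k := k) (by rw [conj_pow, hk]; simp)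
    obtain ⟨m, hm, h1⟩ := (hP.mono PM le_top).exists_conj_le hz (zpowers_le.2 hg)
    have h2 : m * g * v * (m * g)⁻¹ ∈ P := by
      have := map_conj_le_iff.1 h1 _ (mem_zpowers _)
      convert this using 1
      group
    have s1 := hP.mono (hC _ h2) le_top
    have s2 : IsSyl p (P.map (MulAut.conj (m * g)).toMonoidHom)
        (centralizer {m * g * v * (m * g)⁻¹}) := by
      rw [← map_conj_centralizer_singleton]
      exact (hP.mono (hC v hv) le_top).conj _
    obtain ⟨x, hx, e⟩ := s2.exists_conj s1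
    rw [map_conj_map_conj, map_conj_eq_iff] at e
    have h4 := hCM _ h2 (fun e => v1 (conj_eq_one_iff.1 e)) hx
    have := mul_mem (inv_mem hm) (mul_mem (inv_mem h4) (mem_sup_right e))
    simpa using this

end Cfsg.Agent.Lib.AG
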