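/-
A-groups project (S2554): character sums over an abelian TI-like subgroup.
-/
import Cfsg.Agent.Lib.AG.Basic
import Cfsg.Agent.Lib.Char.Virtual

set_option autoImplicit false

namespace Cfsg.Agent.Lib.AG.EM

open Subgroup Cfsg.Agent.Lib.Core Cfsg.Agent.Lib.Char Finset

variable {G : Type*} [Group G]

theorem sum_normSq [Fintype G] {f : G → ℂ} (hf : IsVChar f) :
    ((∑ g, Complex.normSq (f g) : ℝ) : ℂ) = Fintype.card G * ip f f := by
  rw [ip, ← mul_assoc, mul_inv_cancel₀ card_ne_zero', one_mul, Complex.ofReal_sum]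
  exact Finset.sum_congr rfl fun g _ => by rw [hf.inv, Complex.mul_conj]

theorem sq_deg_le [Finite G] (χ : Irr G) : deg χ * deg χ ≤ Nat.card G := by
  classical
  haveI := Fintype.ofFinite G
  have h := sum_deg_mul_chi (G := G) 1
  simp only [chi_one, if_true] at h
  have h1 : ∑ i : Irr G, deg i * deg i = Fintype.card G := by exact_mod_cast h
  rw [Nat.card_eq_fintype_card, ← h1]
  exact Finset.single_le_sum (f := fun i => deg i * deg i) (fun _ _ => Nat.zero_le _) (mem_univ χ)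

theorem lower [Fintype G] [DecidableEq G] (hG : ∀ a b : G, a * b = b * a) {f : G → ℂ}
    (hf : IsChar f) {s B : ℕ} (h1 : f 1 = (Fintype.card G * s + B : ℕ)) :
    (B : ℝ) * (Fintype.card G - B) ≤ ∑ g ∈ univ.erase 1, Complex.normSq (f g) := by
  have h2 := sum_normSq hf.isVChar
  obtain ⟨m, rfl⟩ := hf
  have h3 := sum_deg_mul_chi (G := G) 1
  simp only [chi_one, if_true, deg_eq_one_of_comm hG, Nat.cast_one, mul_one, sum_const,
    nsmul_eq_mul] at h3
  have h4 : (#(univ : Finset (Irr G)) : ℝ) = Fintype.card G := by exact_mod_cast h3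
  rw [ip_sum_sum, ← Finset.add_sum_erase _ _ (mem_univ 1), h1] at h2
  simp only [Finset.sum_apply, Pi.smul_apply, chi_one, deg_eq_one_of_comm hG, Nat.cast_one,
    smul_eq_mul, mul_one] at h1
  have h5 : ∑ i, (m i : ℝ) = Fintype.card G * s + B := by exact_mod_cast h1
  rw [Complex.normSq_natCast] at h2
  have h6 : ((Fintype.card G * s + B : ℕ) : ℝ) * (Fintype.card G * s + B : ℕ) +
      ∑ g ∈ univ.erase 1, Complex.normSq ((∑ i, (m i : ℂ) • chi i) g) =
      Fintype.card G * ∑ i, (m i : ℝ) * m i := by exact_mod_cast h2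
  have h7 : 0 ≤ ∑ i, ((m i : ℝ) - s) * (m i - s - 1) := Finset.sum_nonneg fun i _ => by
    have : (0 : ℤ) ≤ ((m i : ℤ) - s) * (m i - s - 1) := by
      rcases le_or_gt (m i : ℤ) s with h | h <;> nlinarith
    exact_mod_cast this
  have h8 : ∑ i, ((m i : ℝ) - s) * (m i - s - 1) =
      ∑ i, (m i : ℝ) * m i - (2 * s + 1) * ∑ i, (m i : ℝ) + s * (s + 1) * #(univ : Finset (Irr G)) := by
    rw [Finset.mul_sum, ← Finset.sum_sub_distrib, Finset.card_eq_sum_ones, Nat.cast_sum,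
      Finset.mul_sum, ← Finset.sum_add_distrib]
    exact Finset.sum_congr rfl fun i _ => by push_cast; ring
  rw [h8, h4, h5] at h7
  push_cast at h6
  have h9 : (0 : ℝ) ≤ Fintype.card G := Nat.cast_nonneg _
  nlinarith [mul_nonneg h9 h7]

theorem upper [Finite G] {P M : Subgroup G} [Fintype P] [DecidableEq P] (hP : P ≤ M)
    (h : ∀ v ∈ P, v ≠ 1 → ∀ g : G, g * v * g⁻¹ ∈ M → g ∈ M) (χ : Irr G) :
    ∑ g ∈ univ.erase (1 : P), Complex.normSq (chi χ g) ≤ Nat.card M := by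
  classical
  haveI := Fintype.ofFinite G
  haveI := Fintype.ofFinite (G ⧸ M)
  have h1 := sum_normSq (isVChar_chi χ)
  rw [ip_chi_chi, if_pos rfl, mul_one] at h1
  have h2 : ∑ g, Complex.normSq (chi χ g) = Fintype.card G := by exact_mod_cast h1
  let φ : (G ⧸ M) × P → G := fun x => x.1.out * x.2 * x.1.out⁻¹
  have hφ : Set.InjOn φ (univ ×ˢ univ.erase (1 : P) : Finset ((G ⧸ M) × P)) := by
    rintro ⟨c, v⟩ hv ⟨d, u⟩ - e
    have v1 : (v : G) ≠ 1 := fun e => by simpa [show v = 1 from Subtype.ext e] using hv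
    have e' : d.out⁻¹ * c.out * v * (d.out⁻¹ * c.out)⁻¹ = u := by
      rw [show d.out⁻¹ * c.out * v * (d.out⁻¹ * c.out)⁻¹ = d.out⁻¹ * φ (c, v) * d.out by
        simp only [φ]; group, e]
      simp only [φ]; group
    have h3 : d = c := by
      rw [← d.out_eq', ← c.out_eq', QuotientGroup.eq]
      exact h v v.2 v1 _ (e' ▸ hP u.2)
    subst h3
    exact Prod.ext rfl (Subtype.ext (by simpa using e'))
  have h3 : ∑ x ∈ univ ×ˢ univ.erase (1 : P), Complex.normSq (chi χ (φ x)) ≤ Fintype.card G := by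
    rw [← h2, ← Finset.sum_image (f := fun g => Complex.normSq (chi χ g)) hφ]
    exact Finset.sum_le_sum_of_subset_of_nonneg (subset_univ _) fun _ _ _ => Complex.normSq_nonneg _
  rw [Finset.sum_product] at h3
  simp only [φ, isClass_chi χ _ _, sum_const, nsmul_eq_mul] at h3
  rw [← Nat.card_eq_fintype_card, ← M.index_mul_card, card_univ, ← Nat.card_eq_fintype_card,
    ← index_eq_card, Nat.cast_mul] at h3
  exact le_of_mul_le_mul_left h3 (by exact_mod_cast Nat.pos_of_ne_zero M.index_ne_zero_of_finite)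

theorem bound [Finite G] {P M : Subgroup G} (hc : ∀ x ∈ P, ∀ y ∈ P, x * y = y * x) (hP : P ≤ M)
    (h : ∀ v ∈ P, v ≠ 1 → ∀ g : G, g * v * g⁻¹ ∈ M → g ∈ M) (χ : Irr G) {s B : ℕ}
    (e : deg χ = Nat.card P * s + B) : (B : ℤ) * (Nat.card P - B) ≤ Nat.card M := by
  classical
  haveI := Fintype.ofFinite G
  haveI := Fintype.ofFinite P
  have h1 := lower (G := P) (fun a b => Subtype.ext (hc a a.2 b b.2))
    ((isChar_chi χ).comp P.subtype) (s := s) (B := B)
    (by rw [← Nat.card_eq_fintype_card, ← e]; simp [chi_one])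
  rw [← Nat.card_eq_fintype_card] at h1
  exact_mod_cast h1.trans (upper hP h χ)

theorem index_eq [Finite G] {P M : Subgroup G}
    (h : ∀ v ∈ P, v ≠ 1 → ∀ g : G, g * v * g⁻¹ ∈ M → g ∈ M) (hP : P ≤ M) :
    ∃ m, M.index = 1 + Nat.card P * m := by
  let A : Set (G ⧸ M) := {((1 : G) : G ⧸ M)}ᶜ
  letI : MulAction P A :=
    { smul := fun v x => ⟨(v : G) • (x : G ⧸ M), fun e => x.2 (by
        have h1 : (v : G) • ((1 : G) : G ⧸ M) = ((1 : G) : G ⧸ M) :=
          QuotientGroup.eq.mpr (by simpa using hP v.2)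
        exact smul_left_cancel (v : G) (e.trans h1.symm))⟩
      one_smul := fun x => Subtype.ext (one_smul G (x : G ⧸ M))
      mul_smul := fun a b x => Subtype.ext (mul_smul (a : G) (b : G) (x : G ⧸ M)) }
  have h1 := Nat.card_congr (MulAction.selfEquivOrbitsQuotientProd (G := P) (X := A) fun c =>
    eq_bot_iff.2 fun g hg => by_contra fun g1 => c.2 (by
      obtain ⟨c, hc⟩ := c
      obtain ⟨x, rfl⟩ := QuotientGroup.mk_surjective c
      have h2 : (((g : G) * x : G) : G ⧸ M) = x := congrArg Subtype.val hg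
      have h3 := h g g.2 (fun e => g1 (Subtype.ext e)) x⁻¹
        (by simpa [mul_assoc] using inv_mem (QuotientGroup.eq.mp h2))
      exact QuotientGroup.eq.mpr (by simpa using h3)))
  rw [Nat.card_prod, Nat.card_coe_set_eq] at h1
  refine ⟨Nat.card (Quotient (MulAction.orbitRel P A)), ?_⟩
  rw [mul_comm, ← h1, index_eq_card, ← Set.ncard_add_ncard_compl {((1 : G) : G ⧸ M)},
    Set.ncard_singleton]

theorem arith1 {q a g m x P : ℤ} (q11 : 11 ≤ q) (hP : P = a * q ^ 3) (a1 : 1 ≤ a)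
    (g1 : 1 ≤ g) (m1 : 1 ≤ m) (hx : (q + 1) * x = a * (q - 1) * g * (1 + P * m))
    (hxx : x ≤ (q + 1) * q ^ 3) : a * g ≤ q + 3 := by
  have q3 : 0 < q ^ 3 := by positivity
  by_contra h
  have h2 : (q + 4) * (q - 1) ≤ a * g * (q - 1) :=
    mul_le_mul_of_nonneg_right (by omega) (by omega)
  have am : 1 ≤ a * m := one_le_mul_of_one_le_of_one_le a1 m1
  have h3 : q ^ 3 ≤ 1 + P * m := by
    have := mul_le_mul_of_nonneg_right am q3.le
    rw [hP]; linarith
  have h4 : (q + 4) * (q - 1) * q ^ 3 ≤ a * g * (q - 1) * (1 + P * m) :=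
    mul_le_mul h2 h3 q3.le (mul_nonneg (mul_nonneg (by omega) (by omega)) (by omega))
  have h5 : (q + 1) * x ≤ (q + 1) * ((q + 1) * q ^ 3) := mul_le_mul_of_nonneg_left hxx (by omega)
  have h6 : (q + 4) * (q - 1) * q ^ 3 ≤ (q + 1) * (q + 1) * q ^ 3 := by linarith
  have := le_of_mul_le_mul_right h6 q3
  linarith

theorem arith2 {k r z B c : ℤ} (hc : 4 * k * B = 4 * r + 2 + (2 * z + 1) * c) : c % 4 = 2 := by
  have h2 : c % 2 = 0 := by
    have : c = 2 * (2 * (k * B) - 2 * r - 1 - z * c) := by linear_combination -hc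
    omega
  obtain ⟨c', rfl⟩ : ∃ c', c = 2 * c' := ⟨c / 2, by omega⟩
  have : 2 * c' = 2 * (2 * (k * B - r - z * c') - 1) := by linear_combination -hc
  omega

theorem arith3 {q B P E c : ℤ} (q11 : 11 ≤ q) (P1 : q ^ 3 ≤ P) (E0 : 0 ≤ E)
    (E1 : E ≤ (q + 3) * (q - 1)) (hc : (q + 1) * B = E + P * c) (B1 : B < P) (c0 : 2 ≤ c)
    (c1 : c ≤ q - 1) (hB : B * (P - B) ≤ P * (q - 1) * (q + 3)) : False := by
  have q3 : 0 < q ^ 3 := by positivity
  have c3 : 2 * (q - 1) ≤ c * (q + 1 - c) := by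
    have : 0 ≤ (c - 2) * (q - 1 - c) := mul_nonneg (by omega) (by omega)
    linarith
  have P0 : 0 < P := by omega
  have h2 : P * c * ((q + 1) * (P - B)) ≤ (q + 1) * B * ((q + 1) * (P - B)) :=
    mul_le_mul_of_nonneg_right (by omega) (mul_nonneg (by omega) (by omega))
  have h3 : (q + 1) ^ 2 * (B * (P - B)) ≤ (q + 1) ^ 2 * (P * (q - 1) * (q + 3)) :=
    mul_le_mul_of_nonneg_left hB (sq_nonneg _)
  have h4 : c * ((q + 1) * (P - B)) ≤ (q + 1) ^ 2 * ((q - 1) * (q + 3)) :=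
    le_of_mul_le_mul_left (by linarith) P0
  have h5 : c * ((q + 1) * (P - B)) = c * (q + 1 - c) * P - c * E := by linear_combination -c * hc
  have h6 : c * E ≤ q * ((q + 3) * (q - 1)) := mul_le_mul (by omega) E1 E0 (by omega)
  have h7 : 2 * (q - 1) * q ^ 3 ≤ c * (q + 1 - c) * P := mul_le_mul c3 P1 q3.le (by omega)
  have h8 : (q - 1) * (2 * q ^ 3) ≤ (q - 1) * ((q + 1) ^ 2 * (q + 3) + q * (q + 3)) := by linarith
  have h9 := le_of_mul_le_mul_left h8 (by omega)
  have : 0 ≤ (q - 11) * (q * q) := mul_nonneg (by omega) (by positivity)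
  nlinarith

theorem arith {q k n a g m x s B P : ℤ} (hq : q + 1 = 4 * k) (hn : q = 2 * n + 1) (q11 : 11 ≤ q)
    (hP : P = a * q ^ 3) (oa : Odd a) (og : Odd g) (on : Odd n) (oP : Odd P) (a1 : 1 ≤ a)
    (g1 : 1 ≤ g) (m1 : 1 ≤ m) (hx : (q + 1) * x = a * (2 * n) * g * (1 + P * m))
    (hxx : x ≤ (q + 1) * q ^ 3) (e : x = P * s + B) (B0 : 0 ≤ B) (B1 : B < P)
    (hB : B * (P - B) ≤ P * (2 * n) * g) : False := by
  have q3 : 0 < q ^ 3 := by positivity
  have n2 : 2 * n = q - 1 := by omega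
  rw [n2] at hx hB
  have h1 := arith1 q11 hP a1 g1 m1 hx hxx
  have g2 : g ≤ q + 3 := (le_mul_of_one_le_left (by omega) a1).trans h1
  have P1 : q ^ 3 ≤ P := by rw [hP]; exact le_mul_of_one_le_left q3.le a1
  obtain ⟨E, hE⟩ : ∃ E, E = a * g * (q - 1) := ⟨_, rfl⟩
  have E0 : 0 ≤ E := by rw [hE]; exact mul_nonneg (mul_nonneg (by omega) (by omega)) (by omega)
  have E1 : E ≤ (q + 3) * (q - 1) := by rw [hE]; exact mul_le_mul_of_nonneg_right h1 (by omega)
  have E2 : (q + 3) * (q - 1) < q ^ 3 := by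
    have : 0 ≤ (q - 11) * (q * q) := mul_nonneg (by omega) (by positivity)
    nlinarith
  obtain ⟨c, hc⟩ : ∃ c, (q + 1) * B = E + P * c :=
    ⟨E * m - (q + 1) * s, by rw [hE]; linear_combination hx - (q + 1) * e⟩
  have P0 : 0 < P := by omega
  have c0 : 0 ≤ c := by
    by_contra h
    have h2 : P * c ≤ P * (-1) := mul_le_mul_of_nonneg_left (by omega) P0.le
    have h3 : 0 ≤ (q + 1) * B := mul_nonneg (by omega) B0
    linarith
  have c1 : c ≤ q := by
    by_contra h
    have h2 : P * (q + 1) ≤ P * c := mul_le_mul_of_nonneg_left (by omega) P0.le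
    have h3 : (q + 1) * B < (q + 1) * P := mul_lt_mul_of_pos_left B1 (by omega)
    linarith
  have c2 : c % 4 = 2 := by
    obtain ⟨r, hr⟩ := (oa.mul og).mul on
    obtain ⟨z, hz⟩ := oP
    have h1 : E = 4 * r + 2 := by rw [hE, ← n2]; linear_combination 2 * hr
    exact arith2 (k := k) (r := r) (z := z) (B := B) (by rw [← hq, ← h1, ← hz, hc])
  exact arith3 q11 P1 E0 E1 hc B1 (by omega) (by omega)
    (hB.trans (mul_le_mul_of_nonneg_left g2 (mul_nonneg P0.le (by omega))))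

end Cfsg.Agent.Lib.AG.EM
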