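/-
A-groups project (S2554): the case `q + 1 = 4k` of the Ree type configuration.
-/
import Cfsg.Agent.Lib.AG.EndM0
import Cfsg.Agent.Lib.AG.End0

set_option autoImplicit false

namespace Cfsg.Agent.Lib.AG

open Subgroup Cfsg.Agent.Lib.Core Cfsg.Agent.Lib.Char

universe u

variable {G : Type u} [Group G] [Finite G]
variable {t u c w : G} {L K Q D : Subgroup G} {p q n : ℕ} (h : RZ t u c w L K Q D p q n)
include h

theorem RZ.not_four_M (hn : q = 2 * n + 1) {M : Subgroup G} (tM : t ∈ M)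
    (hM : ∀ g ∈ M, t * g = g * t → g ∈ Q ⊔ D ∨ t * g ∈ Q ⊔ D) : ¬ 4 ∣ Nat.card M := by
  haveI : Fact (Nat.Prime 2) := ⟨Nat.prime_two⟩
  obtain ⟨-, on, oq, -⟩ := h.num
  have hD : Nat.card D = n := by have := h.cardD; omega
  have h1 : ¬ 2 ∣ Nat.card ↥(D ⊔ Q) := not_dvd_card_sup (by rw [hD]; exact on.not_two_dvd_nat)
    (by rw [h.cardQ]; exact oq.not_two_dvd_nat) h.normD
  have h2 : IsPGroup 2 (zpowers t) := isPGroup_zpowers (k := 1) (by simpa [pow_two] using h.tt)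
  obtain ⟨T, hT, tT⟩ := exists_isSyl_ge h2 (zpowers_le.2 tM)
  replace tT := tT (mem_zpowers t)
  have h3 : ∀ x ∈ T, x ∈ Q ⊔ D → x = 1 := fun x hx e => by
    have h4 := orderOf_dvd_of_pow_eq_one (show x ^ 2 = 1 by rw [pow_two, h.sq hT.isPGroup hx])
    rcases (Nat.dvd_prime Nat.prime_two).1 h4 with h5 | h5
    · exact orderOf_eq_one_iff.1 h5
    · exact absurd (h5 ▸ (D ⊔ Q).orderOf_dvd_natCard (sup_comm Q D ▸ e)) h1
  have h4 : T ≤ zpowers t := fun x hx => by
    rcases hM x (hT.le hx) (h.ag.comm hT.isPGroup tT hx) with e | e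
    · exact h3 x hx e ▸ one_mem _
    · rw [← h.ttx x, h3 _ (T.mul_mem tT hx) e, mul_one]; exact mem_zpowers t
  have h5 := card_dvd_of_le h4
  rw [Nat.card_zpowers, orderOf_eq_prime (by rw [pow_two, h.tt]) h.t1] at h5
  rw [← card_mul_relIndex hT.le]
  intro h6
  have h7 := hT.not_dvd
  rcases (Nat.dvd_prime Nat.prime_two).1 h5 with e | e <;> rw [e] at h6 <;> omega

theorem RZ.end_neg_of (he : q + 1 = 4 * Nat.card K) (χ : Irr G)
    (hG : Nat.card G = 4 * Nat.card K * q ^ 3 * deg χ) {P M : Subgroup G} (hP : IsSyl p P ⊤)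
    (hN : normalizer (Q : Set G) ≤ normalizer (P : Set G)) (hPM : normalizer (P : Set G) ≤ M)
    (hM : ∀ g ∈ M, t * g = g * t → g ∈ Q ⊔ D ∨ t * g ∈ Q ⊔ D)
    (hS : ∀ v ∈ P, v ≠ 1 → ∀ g : G, g * v * g⁻¹ ∈ M → g ∈ M) : False := by
  haveI : Fact p.Prime := ⟨h.prime⟩
  obtain ⟨-, on, oq, -, -, -, -, ⟨f, f0, hf⟩, -⟩ := h.num
  have hn : q = 2 * n + 1 := by rcases h.eps with e | e <;> omega
  have hD : Nat.card D = n := by have := h.cardD; omega
  have tM : t ∈ M := hPM (hN (mem_normalizer_of_conj_mem fun x hx => by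
    rwa [h.Lt x (h.QL hx), mul_inv_cancel_right]))
  have PM : P ≤ M := le_normalizer.trans hPM
  have h4 := h.not_four_M hn tM hM
  obtain ⟨i, hi⟩ := hP.isPGroup.exists_card_eq
  have oP : Odd (Nat.card P) := hi ▸ h.oddp.pow
  obtain ⟨a, ha⟩ : q ^ 3 ∣ Nat.card P := by
    refine Nat.Coprime.dvd_of_dvd_mul_right (n := P.relIndex ⊤) ?_ ?_
    · rw [hf]
      exact ((h.prime.coprime_iff_not_dvd.2 hP.not_dvd).pow_left _).pow_left _
    · rw [card_mul_relIndex le_top, card_top, hG]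
      exact (dvd_mul_left _ _).mul_right _
  obtain ⟨g, hg⟩ : Nat.card P * (2 * n) ∣ Nat.card M := by
    refine Nat.Coprime.mul_dvd_of_dvd_of_dvd ?_ (card_dvd_of_le PM)
      (Nat.Coprime.mul_dvd_of_dvd_of_dvd (Nat.coprime_two_left.2 on) ?_ ?_)
    · refine Nat.Coprime.mul_right (Nat.coprime_two_right.2 oP) ?_
      exact hi ▸ (h.prime.coprime_iff_not_dvd.2 h.p_not_n).pow_left _
    · exact orderOf_eq_prime (by rw [pow_two, h.tt]) h.t1 ▸ M.orderOf_dvd_natCard tM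
    · exact hD ▸ card_dvd_of_le (h.normD.trans (hN.trans hPM))
  obtain ⟨m, hm⟩ := EM.index_eq hS PM
  have og : Odd g := Nat.not_even_iff_odd.1 fun ⟨r, e⟩ =>
    h4 ⟨Nat.card P * n * r, by rw [hg, e]; ring⟩
  have oa : Odd a := (Nat.odd_mul.1 (ha ▸ oP)).2
  have hM' := M.index_mul_card
  have m1 : 1 ≤ m := Nat.pos_of_ne_zero fun e => h4 (by
    rw [hm, e, mul_zero, add_zero, one_mul] at hM'
    rw [hM', hG, mul_assoc, mul_assoc]; exact dvd_mul_right _ _)
  have q0 : 0 < q ^ 3 := pow_pos oq.pos 3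
  have hx : (q + 1) * deg χ = a * (2 * n) * g * (1 + Nat.card P * m) :=
    Nat.eq_of_mul_eq_mul_left q0 (by
      rw [hm, hg, hG, ← he] at hM'
      nth_rewrite 2 [ha] at hM'
      linarith)
  have hxx : deg χ ≤ (q + 1) * q ^ 3 :=
    Nat.le_of_mul_le_mul_right (by rw [he, ← hG]; exact EM.sq_deg_le χ) (deg_pos χ)
  have e := (Nat.div_add_mod (deg χ) (Nat.card P)).symm
  have hB := EM.bound (fun _ hx _ hy => h.ag.comm hP.isPGroup hx hy) PM hS χ e
  rw [hg] at hB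
  exact EM.arith (q := q) (k := Nat.card K) (n := n) (a := a) (g := g) (m := m) (x := deg χ)
    (s := (deg χ / Nat.card P : ℕ)) (B := (deg χ % Nat.card P : ℕ)) (P := Nat.card P)
    (by exact_mod_cast he) (by exact_mod_cast hn) (by exact_mod_cast h.q11)
    (by rw [mul_comm]; exact_mod_cast ha) (by exact_mod_cast oa) (by exact_mod_cast og)
    (by exact_mod_cast on) (by exact_mod_cast oP) (by exact_mod_cast oa.pos)
    (by exact_mod_cast og.pos) (by exact_mod_cast m1) (by exact_mod_cast hx)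
    (by exact_mod_cast hxx) (by exact_mod_cast e) (by positivity)
    (by exact_mod_cast Nat.mod_lt _ oP.pos) (by exact_mod_cast hB)

theorem RZ.end_neg (h3 : Nat.card K % 3 = 1) (he : q + 1 = 4 * Nat.card K) (χ : Irr G)
    (hG : Nat.card G = 4 * Nat.card K * q ^ 3 * deg χ) : False := by
  haveI : Fact p.Prime := ⟨h.prime⟩
  obtain ⟨P, hP, hQ, hN, -⟩ := h.exP
  obtain ⟨-, -, -, -, -, -, -, ⟨f, f0, hf⟩, -⟩ := h.num
  have q11 := h.q11
  have p3 : p = 3 := ((Nat.prime_dvd_prime_iff_eq Nat.prime_three h.prime).1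
    (Nat.prime_three.dvd_of_dvd_pow (n := f) (hf ▸ by omega))).symm
  have hne : P ≠ Q := fun e => hP.not_dvd (by
    have h1 := card_mul_relIndex (le_top (a := P))
    rw [card_top, hG, e, h.cardQ] at h1
    rw [e, Nat.eq_of_mul_eq_mul_left (show 0 < q by omega)
      (show q * Q.relIndex ⊤ = q * (q * (4 * Nat.card K * q * deg χ)) by rw [h1]; ring)]
    exact h.p_dvd.mul_right _)
  obtain ⟨M, h1, h2, h4⟩ := h.exM hP hQ hN hne (hQ ▸ inf_le_left) h.expQ (by
    rw [h.cardQ, hf]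
    refine Nat.pow_le_pow_right h.prime.pos (not_lt.1 fun e => ?_)
    have := Nat.pow_le_pow_right h.prime.pos (Nat.lt_succ_iff.1 e)
    rw [← hf, p3] at this
    omega)
  exact h.end_neg_of he χ hG hP hN h1 h2 h4

end Cfsg.Agent.Lib.AG
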