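/-
S2554 Part II: the case `q ≡ 1 (mod 4)` of the Ree type configuration.
-/
import Cfsg.Agent.Lib.AG.End0
import Cfsg.Agent.Lib.AG.Loc4

set_option autoImplicit false
set_option linter.unusedSectionVars false

namespace Cfsg.Agent.Lib.AG

open Subgroup Cfsg.Agent.Lib.Core

universe u

variable {G : Type u} [Group G] [Finite G]

namespace EndP

theorem four_dec {A : Type*} [CommGroup A] (τ υ : A →* A) (h1 : ∀ x, τ (τ x) = x)
    (h2 : ∀ x, υ (υ x) = x) (h3 : ∀ x, τ (υ x) = υ (τ x)) (h : ∀ x, τ x = x → υ x = x → x = 1)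
    (x : A) : x * x = (x * τ x) * (x * υ x) * (x * τ (υ x)) := by
  have := h (x * τ x * υ x * τ (υ x)) (by simp only [map_mul, h1]; ac_rfl)
    (by simp only [map_mul, ← h3, h2]; ac_rfl)
  calc x * x = x * x * (x * τ x * υ x * τ (υ x)) := by rw [this, mul_one]
    _ = _ := by ac_rfl

theorem mem_Vf {t u x : G} (tt : t * t = 1) (uu : u * u = 1) (c : t * u = u * t) (hx : x ∈ Vf t u) :
    x = 1 ∨ x = t ∨ x = u ∨ x = t * u := by
  have a1 : ∀ y, t * (t * y) = y := fun y => by rw [← mul_assoc, tt, one_mul]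
  have a2 : ∀ y, u * (u * y) = y := fun y => by rw [← mul_assoc, uu, one_mul]
  have a3 : ∀ y, u * (t * y) = t * (u * y) := fun y => by rw [← mul_assoc, ← c, mul_assoc]
  induction hx using closure_induction'' with
  | mem y hy => rcases hy with rfl | rfl <;> simp
  | inv_mem y hy =>
    rcases hy with rfl | rfl
    · simp [inv_eq_of_mul_eq_one_right tt]
    · simp [inv_eq_of_mul_eq_one_right uu]
  | one => simp
  | mul a b _ _ ha hb =>
    rcases ha with rfl | rfl | rfl | rfl <;> rcases hb with rfl | rfl | rfl | rfl <;>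
      simp [mul_assoc, a1, a2, a3, tt, uu, ← c]

theorem gen {P W : Subgroup G} {t u : G} (tt : t * t = 1) (uu : u * u = 1) (c : t * u = u * t)
    (cm : ∀ x ∈ P, ∀ y ∈ P, x * y = y * x) (ho : ¬ 2 ∣ Nat.card P)
    (tN : t ∈ normalizer (P : Set G)) (uN : u ∈ normalizer (P : Set G))
    (fix : ∀ x ∈ P, t * x = x * t → u * x = x * u → x = 1)
    (h1 : P ⊓ centralizer {t} ≤ W) (h2 : P ⊓ centralizer {u} ≤ W)
    (h3 : P ⊓ centralizer {t * u} ≤ W) : P ≤ W := fun x hx => by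
  letI : CommGroup P := { (inferInstance : Group P) with
    mul_comm := fun a b => Subtype.ext (cm _ a.2 _ b.2) }
  have ti := inv_eq_of_mul_eq_one_right tt
  have ui := inv_eq_of_mul_eq_one_right uu
  have sq : ∀ {e : G}, e * e = 1 → ∀ y : G, e * (e * y * e⁻¹) * e⁻¹ = y := fun {e} ee y => by
    rw [show e * (e * y * e⁻¹) * e⁻¹ = (e * e) * y * (e * e)⁻¹ by group, ee]; simp
  have := four_dec (conjOn t tN) (conjOn u uN) (fun y => Subtype.ext (sq tt y))
    (fun y => Subtype.ext (sq uu y)) (fun y => Subtype.ext (by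
      show t * (u * y * u⁻¹) * t⁻¹ = u * (t * y * t⁻¹) * u⁻¹
      rw [show t * (u * y * u⁻¹) * t⁻¹ = (t * u) * y * (t * u)⁻¹ by group, c]; group))
    (fun y e1 e2 => Subtype.ext (fix y y.2 (mul_inv_eq_iff_eq_mul.1 (congrArg Subtype.val e1))
      (mul_inv_eq_iff_eq_mul.1 (congrArg Subtype.val e2)))) ⟨x, hx⟩
  have e : x * x = (x * (t * x * t⁻¹)) * (x * (u * x * u⁻¹)) * (x * (t * u * x * (t * u)⁻¹)) := by
    rw [show t * u * x * (t * u)⁻¹ = t * (u * x * u⁻¹) * t⁻¹ by group]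
    exact congrArg Subtype.val this
  have m : ∀ {e : G}, e * e = 1 → e ∈ normalizer (P : Set G) →
      x * (e * x * e⁻¹) ∈ P ⊓ centralizer {e} := fun {e} ee eN =>
    ⟨mul_mem hx (conj_mem_of_mem_normalizer eN hx), mem_C.2 (by
      rw [← mul_inv_eq_iff_eq_mul, ← conj_mul, sq ee x]
      exact cm _ (conj_mem_of_mem_normalizer eN hx) _ hx)⟩
  refine mem_of_sq_mem (odd_orderOf_of_mem ho hx) ?_
  rw [e]
  exact mul_mem (mul_mem (h1 (m tt tN)) (h2 (m uu uN))) (h3 (m (by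
    rw [mul_assoc, ← mul_assoc u, ← c, mul_assoc, uu, mul_one, tt]) (mul_mem tN uN)))

end EndP

variable {t u c w : G} {L K Q D : Subgroup G} {p q n : ℕ}

theorem RZ.end_pos (h : RZ t u c w L K Q D p q n) (h3 : Nat.card K % 3 = 1)
    (he : q = 4 * Nat.card K + 1) (hG : q ^ 3 ∣ Nat.card G) : False := by
  have := Fact.mk h.prime
  have : Fact (Nat.Prime 3) := ⟨Nat.prime_three⟩
  obtain ⟨-, -, oq, p2, -, -, -, ⟨f, f0, hf⟩, -⟩ := h.num
  obtain ⟨uu, u1, tu, ctu, cc, -, -, cE, -, -, -, -⟩ := h.basic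
  have tt := h.tt
  have hD : D = K ⊔ zpowers u := by
    rcases h.eps with e | e
    exacts [e.2.2, by omega]
  obtain ⟨P, hP, hQ, hN, hU⟩ := h.exP
  have cm : ∀ x ∈ P, ∀ y ∈ P, x * y = y * x := fun x hx y hy => h.ag.comm hP.isPGroup hx hy
  have QP : Q ≤ P := hQ ▸ inf_le_left
  have pQ : IsPGroup p Q := hP.isPGroup.to_le QP
  have tN : t ∈ normalizer (P : Set G) := hN (mem_normalizer_of_conj_mem fun x hx => by
    rw [h.Lt x (h.QL hx), mul_inv_cancel_right]; exact hx)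
  have uD : u ∈ D := hD ▸ mem_sup_right (mem_zpowers u)
  have uN : u ∈ normalizer (P : Set G) := hN (h.normD uD)
  have oP : ¬ 2 ∣ Nat.card P := fun e => by
    rw [hP.card_eq] at e
    exact p2 ((Nat.prime_dvd_prime_iff_eq Nat.prime_two h.prime).1 (Nat.prime_two.dvd_of_dvd_pow e)).symm
  have inv1 : ∀ x ∈ P, x * x = 1 → x = 1 := fun x hx e => orderOf_eq_one_iff.1 (by
    have h1 := odd_orderOf_of_mem oP hx
    rcases (Nat.dvd_prime Nat.prime_two).1 (orderOf_dvd_of_pow_eq_one ((pow_two x).trans e)) with e | e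
    · exact e
    · rw [e] at h1; exact absurd h1 (by decide))
  have fix : ∀ x ∈ P, t * x = x * t → u * x = x * u → x = 1 := fun x hx e1 e2 => by_contra fun x1 =>
    u1 (inv1 u (QP (h.centQ x (hQ ▸ ⟨hx, mem_C.2 e1⟩) x1 u h.uL e2.symm)) uu)
  have tutu : t * u * (t * u) = 1 := by rw [mul_assoc, ← mul_assoc u, ← ctu, mul_assoc, uu, mul_one, tt]
  have tu1 : t * u ≠ 1 := fun e => tu (by
    rw [eq_inv_of_mul_eq_one_left e, inv_eq_of_mul_eq_one_right uu])
  have gen := @EndP.gen G _ _ P (t := t) (u := u)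
  -- `Q` and its conjugates are Sylow in the involution centralisers
  have sQ : IsSyl p Q (centralizer {t}) := by
    obtain ⟨Q', h1, h2⟩ := exists_isSyl_ge pQ (hQ ▸ inf_le_right : Q ≤ centralizer {t})
    rwa [le_antisymm (hQ ▸ le_inf (hU Q' h1.isPGroup h2) h1.le) h2] at h1
  have sQ' : ∀ g : G, IsSyl p (Q.map (MulAut.conj g).toMonoidHom) (centralizer {g * t * g⁻¹}) :=
    fun g => by
    have := sQ.conj g
    rwa [show (centralizer {t}).map (MulAut.conj g).toMonoidHom = centralizer {g * t * g⁻¹} by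
      rw [map_equiv_centralizer]; simp] at this
  have cle : ∀ g : G, Nat.card ↥(P ⊓ centralizer {g * t * g⁻¹}) ≤ q := fun g => by
    have := (sQ' g).card_le (hP.isPGroup.to_le inf_le_left) (inf_le_right : P ⊓ _ ≤ _)
    rwa [card_map_conj, h.cardQ] at this
  have wwt : w * w * t * (w * w)⁻¹ = t * u := by rw [← h.wu, ← h.wt]; group
  have q3 : q ^ 3 ≤ Nat.card P := by
    rw [hP.card_eq, hf, ← pow_mul, card_top]
    exact Nat.pow_le_pow_right h.prime.pos
      ((h.prime.pow_dvd_iff_le_factorization Nat.card_pos.ne').1 (by rw [pow_mul, ← hf]; exact hG))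
  have nrm : ∀ A B : Subgroup G, A ≤ P → B ≤ P → A ≤ normalizer (B : Set G) := fun A B hA hB x hx =>
    mem_normalizer_of_conj_mem fun y hy => by rw [cm x (hA hx) y (hB hy), mul_inv_cancel_right]; exact hy
  have cu : q ≤ Nat.card ↥(P ⊓ centralizer {u}) := by
    have h1 := card_le_of_le (gen (W := (P ⊓ centralizer {t}) ⊔ (P ⊓ centralizer {u}) ⊔
      (P ⊓ centralizer {t * u})) tt uu ctu cm oP tN uN fix (le_sup_of_le_left le_sup_left)
      (le_sup_of_le_left le_sup_right) le_sup_right)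
    have h2 := Nat.le_of_dvd (Nat.mul_pos Nat.card_pos Nat.card_pos) (card_sup_dvd (nrm _ _
      (sup_le inf_le_left inf_le_left : (P ⊓ centralizer {t}) ⊔ (P ⊓ centralizer {u}) ≤ P)
      (inf_le_left : P ⊓ centralizer {t * u} ≤ P)))
    have h3 := Nat.le_of_dvd (Nat.mul_pos Nat.card_pos Nat.card_pos) (card_sup_dvd (nrm _ _
      (inf_le_left : P ⊓ centralizer {t} ≤ P) (inf_le_left : P ⊓ centralizer {u} ≤ P)))
    have h4 := cle (w * w)
    rw [wwt] at h4
    rw [hQ] at h1 h2 h3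
    rw [h.cardQ] at h3
    have h5 := q3.trans (h1.trans (h2.trans (Nat.mul_le_mul h3 h4)))
    by_contra! hlt
    have : 0 < q := by omega
    have : q * Nat.card ↥(P ⊓ centralizer {u}) * q < q * q * q := by gcongr
    rw [pow_three'] at h5; omega
  have ex : ∀ a ∈ P, a ^ p = 1 := fun a ha => by
    have : ∀ {e : G}, e * e = 1 → e ≠ 1 → P ⊓ centralizer {e} ≤ Om p P cm := fun ee e1 x hx =>
      ⟨hx.1, by
        by_cases x1 : x = 1
        · rw [x1, one_pow]
        obtain ⟨i, hi⟩ := pow_eq_one_of_isPGroup hP.isPGroup hx.1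
        obtain ⟨g, -, hg⟩ := h.pcent ee e1 (mem_C.1 hx.2) x1 hi
        have := h.expQ _ hg
        rw [conj_pow] at this; simpa using this⟩
    exact (gen (W := Om p P cm) tt uu ctu cm oP tN uN fix (this tt h.t1) (this uu u1) (this tutu tu1) ha).2
  have q1 : 1 < q := by omega
  obtain ⟨M, hM, hMt, hMs⟩ := h.exM hP hQ hN (fun e => by
      rw [e, h.cardQ] at q3; exact absurd q3 (not_le.2 (lt_self_pow₀ q1 (by norm_num))))
    le_rfl ex (le_trans (Nat.pow_le_pow_left (hf ▸ Nat.le_self_pow f0.ne' p) 3) q3)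
  have cQD : Nat.card ↥(Q ⊔ D) ∣ 2 * Nat.card K * q := by
    have := card_sup_dvd h.normD
    have e := h.cardD
    rwa [sup_comm, h.cardQ, show Nat.card D = 2 * Nat.card K by omega] at this
  -- `E` is a Sylow 2-subgroup of `M`
  have EN : Vf t u ≤ normalizer (P : Set G) := Vf_le.2 ⟨tN, uN⟩
  have sE : IsSyl 2 (Vf t u) M := by
    refine isSyl_of_maximal (EN.trans hM) (Invol.isPGroup_closure_pair_of_commute tt uu ctu)
      fun T hT h1 h2 => le_antisymm (fun x hx => ?_) h1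
    have hc : Nat.card ↥(T ⊓ (Q ⊔ D)) ≤ 2 := by
      obtain ⟨a, ha⟩ := IsPGroup.iff_card.1 (hT.to_le (inf_le_left : T ⊓ (Q ⊔ D) ≤ T))
      have h4 := (card_dvd_of_le (inf_le_right : T ⊓ (Q ⊔ D) ≤ _)).trans cQD
      rw [ha] at h4 ⊢
      by_contra! hlt
      have : 2 ≤ a := by
        by_contra h5
        have : a ≤ 1 := by omega
        interval_cases a <;> omega
      have h6 : 2 * 2 ∣ 2 * (Nat.card K * q) := mul_assoc 2 _ q ▸ (pow_dvd_pow 2 this).trans h4
      rcases (Nat.Prime.dvd_mul Nat.prime_two).1 (Nat.dvd_of_mul_dvd_mul_left two_pos h6) with e | e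
      · exact h.num.1.not_two_dvd_nat e
      · exact oq.not_two_dvd_nat e
    have key : ∀ y ∈ T, y ∈ Q ⊔ D → y ∈ Vf t u := fun y hy hy' => by
      by_cases y1 : y = 1
      · rw [y1]; exact one_mem _
      · rw [eq_of_card_le_two hc ⟨hy, hy'⟩ ⟨h1 s_mem_Vf, mem_sup_right uD⟩ y1 u1]; exact s_mem_Vf
    rcases hMt x (h2 hx) (h.ag.comm hT (h1 t_mem_Vf) hx) with e | e
    · exact key x hx e
    · simpa [← mul_assoc, tt] using mul_mem t_mem_Vf (key _ (mul_mem (h1 t_mem_Vf) hx) e)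
  have Ec : ∀ e ∈ Vf t u, Vf t u ≤ centralizer {e} := fun e he =>
    h.ag.le_centralizer_singleton sE.isPGroup he
  -- `t` and `u` are conjugate in `N(P) ∩ N(E)`
  obtain ⟨w1, w1P, w1E, w1t⟩ : ∃ w1 ∈ normalizer (P : Set G), w1 ∈ normalizer (Vf t u : Set G) ∧
      w1 * t * w1⁻¹ = u := by
    have s1 := sQ' w
    rw [h.wt] at s1
    obtain ⟨g, hg, e⟩ := s1.exists_conj (s1.of_card_le (hP.isPGroup.to_le inf_le_left)
      (inf_le_right : P ⊓ _ ≤ _) (by rwa [card_map_conj, h.cardQ]))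
    rw [map_conj_map_conj] at e
    have h1 : g * w ∈ normalizer (P : Set G) := inv_mem_iff.1 (mem_normalizer_of_conj_mem
      (map_conj_le_iff.1 (hU _ (hP.isPGroup.map _) fun x hx => mem_map_conj.2 (by
        rw [inv_inv]; exact (e ▸ conj_mem_map_conj.2 hx : _ ∈ P ⊓ _).1))))
    have h2 : g * w * t * (g * w)⁻¹ = u := by
      rw [show g * w * t * (g * w)⁻¹ = g * (w * t * w⁻¹) * g⁻¹ by group, h.wt, ← mem_C.1 hg]; group
    have sN := sE.mono EN hM
    have s2 := (sN.conj_of_mem_normalizer (le_normalizer h1)).mono (K := _ ⊓ centralizer {u})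
      (le_inf (sN.conj_of_mem_normalizer (le_normalizer h1)).le (map_conj_le_iff.2 fun x hx =>
        mem_C.2 (by rw [← h2, conj_mul, conj_mul, mem_C.1 (Ec t t_mem_Vf hx)]))) inf_le_left
    obtain ⟨y, hy, e2⟩ := s2.exists_conj (sN.mono (le_inf EN (Ec u s_mem_Vf)) inf_le_left)
    rw [map_conj_map_conj, map_conj_eq_iff] at e2
    refine ⟨_, mul_mem hy.1 h1, e2, ?_⟩
    rw [show y * (g * w) * t * (y * (g * w))⁻¹ = y * (g * w * t * (g * w)⁻¹) * y⁻¹ by group, h2,
      ← mem_C.1 hy.2]; group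
  have n3 : ∀ z : G, t * z = z * t → u * z = z * u → ∀ i, z ^ 3 ^ i = 1 → z = 1 := fun z e1 e2 i hi => by
    obtain ⟨j, -, hj⟩ := (Nat.dvd_prime_pow Nat.prime_three).1 (orderOf_dvd_of_pow_eq_one hi)
    have := h.odd_four tt h.t1 uu u1 tu ctu e1 e2 (hj ▸ Odd.pow (by decide))
    rcases j with _ | j
    · exact orderOf_eq_one_iff.1 hj
    · have := (dvd_pow_self 3 j.succ_ne_zero).trans (hj ▸ this); omega
  have wE : w ∈ normalizer (Vf t u : Set G) := mem_normalizer_of_conj_mem (map_conj_le_iff.1 (by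
    rw [map_Vf]; exact Vf_le.2 ⟨show w * t * w⁻¹ ∈ _ from h.wt ▸ s_mem_Vf,
      show w * u * w⁻¹ ∈ _ from h.wu ▸ ts_mem_Vf⟩))
  -- the action of elements of `N(E)`
  have act : ∀ g ∈ normalizer (Vf t u : Set G), (g * t * g⁻¹ = t ∧ g * u * g⁻¹ = u) ∨
      (g * t * g⁻¹ = u ∧ g * u * g⁻¹ = t * u) ∨ (g * t * g⁻¹ = t * u ∧ g * u * g⁻¹ = t) := by
    intro g hg
    obtain ⟨i, e1, e2⟩ := h.normE (inv_mem hg)
    have a : ∀ e : G, e * (g⁻¹ * w ^ i) = g⁻¹ * w ^ i * e → g * e * g⁻¹ = w ^ i * e * (w ^ i)⁻¹ :=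
      fun e he => by
      calc g * e * g⁻¹ = g * (e * (g⁻¹ * w ^ i)) * (w ^ i)⁻¹ := by group
        _ = _ := by rw [he]; group
    rw [a t e1, a u e2, pow_eq_pow_mod i h.w3]
    have : i % 3 < 3 := Nat.mod_lt _ (by norm_num)
    interval_cases i % 3
    · simp
    · simp [h.wt, h.wu]
    · refine Or.inr (Or.inr ⟨by rw [pow_two, wwt], ?_⟩)
      rw [pow_two, show w * w * u * (w * w)⁻¹ = w * (w * u * w⁻¹) * w⁻¹ by group, h.wu, ← conj_mul,
        h.wt, h.wu, ← mul_assoc, ← ctu, mul_assoc, uu, mul_one]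
  have tut : t * u ≠ t := fun e => u1 (by simpa using e)
  have w1u : w1 * u * w1⁻¹ = t * u := by
    rcases act w1 w1E with e | e | e
    exacts [absurd (e.1.symm.trans w1t) tu, e.2, absurd (w1t.symm.trans e.1) (by simpa using h.t1)]
  have w1tu : w1 * (t * u) * w1⁻¹ = t := by
    rw [← conj_mul, w1t, w1u, ← mul_assoc, ← ctu, mul_assoc, uu, mul_one]
  have o3 : 3 ∣ orderOf w1 := by
    have c3 : Commute (w1 ^ 3) t := by
      rw [Commute, SemiconjBy, ← mul_inv_eq_iff_eq_mul,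
        show w1 ^ 3 * t * (w1 ^ 3)⁻¹ = w1 * (w1 * (w1 * t * w1⁻¹) * w1⁻¹) * w1⁻¹ by
          rw [pow_three']; group, w1t, w1u, w1tu]
    have c4 : Commute (w1 ^ (orderOf w1 % 3)) t := by
      have := (c3.pow_left (orderOf w1 / 3)).inv_left
      rwa [← pow_mul, ← eq_inv_of_mul_eq_one_right (by
        rw [← pow_add, Nat.div_add_mod, pow_orderOf_eq_one])] at this
    rw [Commute, SemiconjBy, ← mul_inv_eq_iff_eq_mul] at c4
    have : orderOf w1 % 3 < 3 := Nat.mod_lt _ (by norm_num)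
    refine Nat.dvd_of_mod_eq_zero ?_
    interval_cases orderOf w1 % 3
    · rfl
    · rw [pow_one, w1t] at c4; exact absurd c4.symm tu
    · rw [show w1 ^ 2 * t * (w1 ^ 2)⁻¹ = w1 * (w1 * t * w1⁻¹) * w1⁻¹ by rw [pow_two]; group, w1t,
        w1u] at c4
      exact absurd c4 tut
  obtain ⟨z, zP, zE, oz⟩ : ∃ z ∈ normalizer (P : Set G), z ∈ normalizer (Vf t u : Set G) ∧
      orderOf z = 3 := ⟨_, pow_mem w1P _, pow_mem w1E _,
        orderOf_pow_orderOf_div (orderOf_pos w1).ne' o3⟩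
  have z3 : z ^ 3 = 1 := oz ▸ pow_orderOf_eq_one z
  have z1 : z ≠ 1 := fun e => by rw [e, orderOf_one] at oz; omega
  -- a nontrivial element of `P` centralised by `z`
  obtain ⟨v, vP, v1, vz⟩ : ∃ v ∈ P, v ≠ 1 ∧ z * v = v * z := by
    have : Nontrivial Q := Finite.one_lt_card_iff_nontrivial.1 (h.cardQ ▸ q1)
    obtain ⟨⟨x, hx⟩, x1⟩ := exists_ne (1 : Q)
    have xP := QP hx
    have tx := h.Lt x (h.QL hx)
    have m1 := conj_mem_of_mem_normalizer zP xP
    have m2 := conj_mem_of_mem_normalizer zP m1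
    have inv : ∀ y ∈ P, (u * y = y * u ∨ t * u * y = y * (t * u)) → t * y * t⁻¹ = y⁻¹ :=
      fun y hy e => by
      have m := conj_mem_of_mem_normalizer tN hy
      have i1 : t * (t * y * t⁻¹ * y) = t * y * t⁻¹ * y * t := by
        rw [← mul_inv_eq_iff_eq_mul, ← conj_mul, cm _ m _ hy]; congr 1
        rw [show t * (t * y * t⁻¹) * t⁻¹ = (t * t) * y * (t * t)⁻¹ by group, tt]; simp
      have i2 : ∀ e : G, e * t = t * e → e * y = y * e →
          e * (t * y * t⁻¹ * y) = t * y * t⁻¹ * y * e := fun e e1 e2 =>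
        ((((show Commute e t from e1).mul_right e2).mul_right
          (show Commute e t from e1).inv_right).mul_right e2).eq
      refine eq_inv_of_mul_eq_one_left (fix _ (mul_mem m hy) i1 ?_)
      rcases e with e | e
      · exact i2 u ctu.symm e
      · have := (show Commute t _ from i1).mul_left (show Commute (t * u) _ from
          i2 _ (by rw [mul_assoc, ← ctu]) e)
        rwa [← mul_assoc, tt, one_mul] at this
    have cj : ∀ {a y : G}, a * y = y * a → z * a * z⁻¹ * (z * y * z⁻¹) = z * y * z⁻¹ * (z * a * z⁻¹) :=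
      fun e => by rw [conj_mul, conj_mul, e]
    refine ⟨_, mul_mem (mul_mem xP m1) m2, fun e => x1 (Subtype.ext (inv1 x xP ?_)), ?_⟩
    · have : t * (z * x * z⁻¹) * t⁻¹ = (z * x * z⁻¹)⁻¹ ∧
          t * (z * (z * x * z⁻¹) * z⁻¹) * t⁻¹ = (z * (z * x * z⁻¹) * z⁻¹)⁻¹ := by
        have j1 := cj tx
        have j2 := cj j1
        rcases act z zE with e | e | e
        · exact absurd (n3 z (mul_inv_eq_iff_eq_mul.1 e.1).symm (mul_inv_eq_iff_eq_mul.1 e.2).symm 1
            (by rw [pow_one, z3])) z1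
        · rw [e.1] at j1 j2; rw [e.2] at j2
          exact ⟨inv _ m1 (Or.inl j1), inv _ m2 (Or.inr j2)⟩
        · rw [e.1] at j1 j2
          rw [show z * (t * u) * z⁻¹ = u by rw [← conj_mul, e.1, e.2, mul_assoc, ← ctu, ← mul_assoc, tt,
            one_mul]] at j2
          exact ⟨inv _ m1 (Or.inr j1), inv _ m2 (Or.inl j2)⟩
      have e2 := congrArg (t * · * t⁻¹) e
      simp only [mul_one, mul_inv_cancel] at e2
      rw [← conj_mul, ← conj_mul, this.1, this.2, tx, mul_inv_cancel_right, mul_assoc, ← mul_inv_rev,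
        mul_inv_eq_one, cm _ m2 _ m1] at e2
      rwa [mul_assoc, ← e2] at e
    · rw [← mul_inv_eq_iff_eq_mul, ← conj_mul, ← conj_mul,
        show z * (z * (z * x * z⁻¹) * z⁻¹) * z⁻¹ = z ^ 3 * x * (z ^ 3)⁻¹ by rw [pow_three']; group, z3,
        one_mul, inv_one, mul_one, cm _ (mul_mem m1 m2) _ xP, ← mul_assoc]
  -- an involution centralising `z`
  obtain ⟨c', cc', c1, cz⟩ : ∃ c' : G, c' * c' = 1 ∧ c' ≠ 1 ∧ z * c' = c' * z := by
    obtain ⟨R, hR, wR⟩ := exists_isSyl_ge (isPGroup_zpowers (p := 3) (k := 1) (by rw [pow_one, h.w3]))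
      (zpowers_le_of_mem wE)
    obtain ⟨g, hg, e⟩ := hR.exists_conj_le (isPGroup_zpowers (p := 3) (k := 1) (by rw [pow_one, z3]))
      (zpowers_le_of_mem zE)
    have m := map_conj_le_iff.1 e z (mem_zpowers z)
    obtain ⟨i, e1, e2⟩ := h.normE (hR.le m)
    obtain ⟨j, hj⟩ := pow_eq_one_of_isPGroup hR.isPGroup (mul_mem m (pow_mem (wR (mem_zpowers w)) i))
    have e3 := eq_inv_of_mul_eq_one_left (n3 _ e1 e2 j hj)
    refine ⟨g⁻¹ * c * g, by rw [show g⁻¹ * c * g * (g⁻¹ * c * g) = g⁻¹ * (c * c) * g by group, cc]; simp,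
      fun e => cE (by rw [show c = 1 by simpa [mul_assoc] using congrArg (g * · * g⁻¹) e]; exact one_mem _),
      ?_⟩
    have := ((show Commute w c from h.wc).pow_left i).inv_left.eq
    rw [← e3] at this
    calc z * (g⁻¹ * c * g) = g⁻¹ * (g * z * g⁻¹ * c) * g := by group
      _ = _ := by rw [this]; group
  obtain ⟨-, S, hS, hSX, hOS⟩ := solv_of_not_four (h.not_four (z := z) (oz ▸ by decide) (by rw [oz]; omega))
  have oO := OppOf_not_dvd (p := 2) (centralizer ({z} : Set G))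
  obtain ⟨P1, hP1, nP1⟩ := (coprimeAct_of_isPGroup_left (isPGroup_zpowers (p := 2) (k := 1)
    (by rw [pow_one, pow_two, cc'])) oO (le_normalizer_OppOf
      ((zpowers_le_of_mem (mem_C.2 cz)).trans le_normalizer))).exists_isSyl p
  obtain ⟨o, ho, e⟩ := hP1.exists_conj_le (isPGroup_zpowers_of_mem hP.isPGroup vP)
    (le_O_of_odd hS hSX hOS (zpowers_le_of_mem (mem_C.2 vz)) fun e =>
      oP (e.trans (card_dvd_of_le (zpowers_le_of_mem vP))))
  have m := map_conj_le_iff.1 e v (mem_zpowers v)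
  have m' := conj_mem_of_mem_normalizer (nP1 (mem_zpowers c')) m
  have cM : o⁻¹ * c' * o ∈ M := by
    refine hMs v vP v1 _ (hMs v vP v1 _ ?_)
    have := h.ag.comm hP1.isPGroup m' m
    rw [show o⁻¹ * c' * o * v * (o⁻¹ * c' * o)⁻¹ * v * (o⁻¹ * c' * o * v * (o⁻¹ * c' * o)⁻¹)⁻¹ =
      o⁻¹ * (c' * (o * v * o⁻¹) * c'⁻¹ * (o * v * o⁻¹)) * o * (o⁻¹ * c' * o * v * (o⁻¹ * c' * o)⁻¹)⁻¹
      by group, this]
    convert hM (le_normalizer vP) using 1; group
  have cz' : z * (o⁻¹ * c' * o) = o⁻¹ * c' * o * z :=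
    mem_C.1 (mul_mem (mul_mem (inv_mem (OppOf_le _ ho)) (mem_C.2 cz)) (OppOf_le _ ho))
  have cc'' : o⁻¹ * c' * o * (o⁻¹ * c' * o) = 1 := by
    rw [show o⁻¹ * c' * o * (o⁻¹ * c' * o) = o⁻¹ * (c' * c') * o by group, cc']; simp
  have c1' : o⁻¹ * c' * o ≠ 1 := fun e => c1 (by simpa [mul_assoc] using congrArg (o * · * o⁻¹) e)
  generalize o⁻¹ * c' * o = d at cM cz' cc'' c1'
  obtain ⟨a, aM, ha⟩ : ∃ a ∈ M, a * d * a⁻¹ = t := by
    obtain ⟨a, aM, e⟩ := sE.exists_conj_le (isPGroup_zpowers (p := 2) (k := 1)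
      (by rw [pow_one, pow_two, cc''])) (zpowers_le_of_mem cM)
    rcases EndP.mem_Vf tt uu ctu (map_conj_le_iff.1 e d (mem_zpowers d)) with e | e | e | e
    · exact absurd (by simpa using e) c1'
    · exact ⟨a, aM, e⟩
    · exact ⟨w1⁻¹ * a, mul_mem (inv_mem (hM w1P)) aM, by
        rw [show w1⁻¹ * a * d * (w1⁻¹ * a)⁻¹ = w1⁻¹ * (a * d * a⁻¹) * w1 by group, e, ← w1t]; group⟩
    · exact ⟨w1 * a, mul_mem (hM w1P) aM, by
        rw [show w1 * a * d * (w1 * a)⁻¹ = w1 * (a * d * a⁻¹) * w1⁻¹ by group, e, w1tu]⟩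
  have ct : t * (a * z * a⁻¹) = a * z * a⁻¹ * t := by rw [← ha, conj_mul, conj_mul, cz']
  have oz' : orderOf (a * z * a⁻¹) = 3 := ((MulAut.conj a).orderOf_eq z).trans oz
  have mz : a * z * a⁻¹ ∈ Q ⊔ D := by
    refine mem_of_sq_mem (oz' ▸ by decide) ?_
    rcases hMt _ (mul_mem (mul_mem aM (hM zP)) (inv_mem aM)) ct with e | e
    · exact mul_mem e e
    · have := mul_mem e e
      generalize a * z * a⁻¹ = b at *
      rwa [mul_assoc, ← mul_assoc b t, ← ct, ← mul_assoc, ← mul_assoc, tt, one_mul] at this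
  have := (oz' ▸ orderOf_dvd_natCard _ mz).trans cQD
  rcases (Nat.Prime.dvd_mul Nat.prime_three).1 this with e | e <;> omega

end Cfsg.Agent.Lib.AG
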