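/-
A-groups project (S2554), Part II, piece L2: the centraliser of a fixed point of `w` on `K`.
-/
import Cfsg.Agent.Lib.AG.Rz0
import Cfsg.Agent.Lib.AG.Vs
import Cfsg.Agent.Lib.AG.Kn
import Cfsg.Agent.Lib.Misc.CycSylow

set_option autoImplicit false

namespace Cfsg.Agent.Lib.AG

open Subgroup Cfsg.Agent.Lib.Core

universe u

variable {G : Type u} [Group G] [Finite G]

namespace F0

omit [Finite G] in
theorem Vf_sq {t u : G} (tt : t * t = 1) (uu : u * u = 1) (tu : t * u = u * t) {x : G}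
    (hx : x ∈ Vf t u) : x * x = 1 := by
  have c : Vf t u ≤ centralizer (Vf t u : Set G) :=
    Vf_le.2 ⟨mem_centralizer_Vf.2 ⟨rfl, tu.symm⟩, mem_centralizer_Vf.2 ⟨tu, rfl⟩⟩
  induction hx using closure_induction with
  | mem a ha => rcases ha with rfl | rfl; exacts [tt, uu]
  | one => exact one_mul 1
  | mul a b ha hb h1 h2 =>
    calc _ = a * (b * a) * b := by group
      _ = _ := by rw [c ha b hb, ← mul_assoc, h1, one_mul, h2]
  | inv a _ h => rw [← mul_inv_rev, h, inv_one]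

/-- elements of order 3 in the simple group of order 60 are self-centralising -/
theorem cent3 (hA : AG G) (h : TA G) (h60 : Nat.card G = 60) {x : G} (x3 : x ^ 3 = 1) (x1 : x ≠ 1) :
    centralizer {x} ≤ zpowers x := by
  have := h.1
  have ox : orderOf x = 3 := orderOf_eq_prime x3 x1
  have le : zpowers x ≤ centralizer {x} := zpowers_le.2 (mem_C.2 rfl)
  have o : ¬ 2 ∣ Nat.card (centralizer ({x} : Set G)) := fun d => by
    obtain ⟨i, hi⟩ := exists_prime_orderOf_dvd_card' 2 d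
    have i2 : (i : G) * i = 1 := by
      rw [← pow_two]; exact congrArg Subtype.val (hi ▸ pow_orderOf_eq_one i : i ^ 2 = 1)
    have := (h.cent hA i2 fun e => by simp [show i = 1 from Subtype.ext e] at hi).2 x (mem_C.2 (mem_C.1 i.2).symm)
    exact x1 (by rw [pow_succ, pow_two, this, one_mul] at x3; exact x3)
  have d3 := card_dvd_of_le le
  rw [Nat.card_zpowers, ox] at d3
  have e := (centralizer ({x} : Set G)).card_mul_index
  have f := Invol.card_dvd_factorial_index (H := centralizer ({x} : Set G)) fun e => o (by rw [e, card_top, h60]; norm_num)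
  refine (eq_of_le_of_card_ge le ?_).ge
  rw [Nat.card_zpowers, ox]
  rw [h60] at e f
  obtain ⟨m, hm⟩ := d3
  rw [hm] at e o ⊢
  generalize (centralizer ({x} : Set G)).index = j at *
  have : m ≤ 20 := by nlinarith [Nat.pos_of_ne_zero (show j ≠ 0 by rintro rfl; omega)]
  interval_cases m <;> first | omega | exact absurd ((show j = 4 by omega) ▸ f) (by decide)

section core
variable (hA : AG G) {t u w : G} {K : Subgroup G} (h : K4 t u) (Ko : ¬ 2 ∣ Nat.card K)
  (KV : K ≤ centralizer (Vf t u : Set G)) (wt : w * t * w⁻¹ = u) (wu : w * u * w⁻¹ = t * u)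
  (wK : w ∈ normalizer (K : Set G)) (hc : ∀ g, t * g = g * t → ∃ y ∈ K, ∃ e ∈ Vf t u, g = y * e)
include h Ko KV wt wu wK hc

omit Ko KV wK in
theorem normV {g : G} (hg : g ∈ normalizer (Vf t u : Set G)) :
    ∃ y ∈ K, ∃ e ∈ Vf t u, ∃ z ∈ zpowers w, g = y * e * z := by
  have k : ∀ z ∈ zpowers w, t * (g * z⁻¹) = g * z⁻¹ * t → ∃ y ∈ K, ∃ e ∈ Vf t u, ∃ z ∈ zpowers w, g = y * e * z :=
    fun z hz c => by
      obtain ⟨y, hy, e, he, h1⟩ := hc _ c
      exact ⟨y, hy, e, he, z, hz, by rw [← h1]; group⟩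
  have w3 : w * (t * u) * w⁻¹ = t := by
    rw [← conj_mul, wt, wu, h.s_ts]
  rcases h.norm_cases hg with c | ⟨c1, c2⟩ | ⟨c1, c2⟩
  · exact k 1 (one_mem _) (by simpa using (mem_centralizer_Vf.1 c).1)
  · refine k w (mem_zpowers w) ?_
    have : g * (t * u) * g⁻¹ = t := by rw [← conj_mul, c1, c2, h.s_ts]
    calc _ = g * (t * u) * g⁻¹ * (g * w⁻¹) := by rw [this]
      _ = g * w⁻¹ * (w * (t * u) * w⁻¹) := by group
      _ = _ := by rw [w3]
  · refine k w⁻¹ (inv_mem (mem_zpowers w)) ?_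
    calc _ = g * u * g⁻¹ * (g * w⁻¹⁻¹) := by rw [c2]
      _ = g * w⁻¹⁻¹ * (w⁻¹ * (w * t * w⁻¹) * w) := by rw [wt]; group
      _ = _ := by group

omit KV in
theorem norm_case {g : G} (hg : g ∈ normalizer (Vf t u : Set G)) (hw : w * g = g * w) :
    g ∈ K ⊔ zpowers w := by
  obtain ⟨y, hy, e, he, z, hz, rfl⟩ := normV h wt wu hc hg
  have wz : w * z = z * w := (zpowers_le (H := centralizer {w})).2 (mem_C.2 rfl) hz w rfl
  have wV := h.mem_normalizer (g := w) (wt ▸ s_mem_Vf) (wu ▸ ts_mem_Vf)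
  have e1 : y⁻¹ * (w * y * w⁻¹) = e * (w * e * w⁻¹)⁻¹ := by
    calc _ = y⁻¹ * (w * (y * e * z)) * z⁻¹ * w⁻¹ * (w * e * w⁻¹)⁻¹ := by group
      _ = e * (z * w) * z⁻¹ * w⁻¹ * (w * e * w⁻¹)⁻¹ := by rw [hw]; group
      _ = _ := by rw [← wz]; group
  have m := mul_mem he (inv_mem (conj_mem_of_mem_normalizer wV he))
  have e2 := eq_one_of_sq Ko (e1 ▸ mul_mem (inv_mem hy) (conj_mem_of_mem_normalizer wK hy)) (h.sq m)
  rw [mul_inv_eq_one] at e2
  have : e = 1 := by
    rcases h.mem_Vf.1 he with rfl | rfl | rfl | rfl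
    · rfl
    · exact absurd (e2.trans wt) h.ts
    · exact absurd (e2.trans wu).symm h.ts_ne_s
    · rw [← conj_mul, wt, wu, h.s_ts] at e2; exact absurd e2 h.ts_ne_t
  rw [this, mul_one]
  exact mul_mem (mem_sup_left hy) (mem_sup_right hz)

omit Ko in
theorem O_le : OppOf 2 (⊤ : Subgroup G) ≤ K := by
  have o := OppOf_not_dvd (p := 2) (⊤ : Subgroup G)
  have n : (⊤ : Subgroup G) ≤ normalizer (OppOf 2 (⊤ : Subgroup G) : Set G) := le_normalizer_OppOf le_normalizer
  have k : OppOf 2 ⊤ ⊓ centralizer {t} ≤ K := fun x hx => by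
    obtain ⟨y, hy, e, he, rfl⟩ := hc x (mem_C.1 hx.2)
    refine zpowers_le.2 ?_ (mem_zpowers_sq o hx.1)
    rw [show y * e * (y * e) = y * (e * y) * e by group, KV hy e he, show y * (y * e) * e = y * y * (e * e) by group,
      h.sq he, mul_one]
    exact mul_mem hy hy
  have k2 : ∀ a b : G, w * a * w⁻¹ = b → OppOf 2 ⊤ ⊓ centralizer {a} ≤ K → OppOf 2 ⊤ ⊓ centralizer {b} ≤ K := by
    rintro a _ rfl ha x hx
    have := conj_mem_of_mem_normalizer wK (ha (x := w⁻¹ * x * w)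
      ⟨conj_mem_of_mem_normalizer' (n (mem_top w)) hx.1, mem_C.2 (by
        calc _ = w⁻¹ * (w * a * w⁻¹ * x) * w := by group
          _ = _ := by rw [mem_C.1 hx.2]; group)⟩)
    simpa [mul_assoc] using this
  exact h.gen (le_top.trans n) o k (k2 _ _ wt k) (k2 _ _ wu (k2 _ _ wt k))

include hA in
theorem core (Kc : ∀ a ∈ K, ∀ b ∈ K, a * b = b * a) (w3 : w ^ 3 = 1) {g : G} (hw : w * g = g * w) :
    g ∈ K ⊔ zpowers w := by
  have hO := O_le h KV wt wu wK hc
  by_cases hs : Group.IsSolvable (⊤ : Subgroup G)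
  · refine norm_case h Ko wt wu wK hc (sup_le (hO.trans (le_normalizer_of_le_centralizer KV)) inf_le_right
      ((hA.solv_fact hs (h.syl le_top)).ge (mem_top g))) hw
  obtain ⟨L, v, ht, hu, hv, -, hn, -, h4⟩ := h.over_cent hA le_top hs (hO.trans (KV.trans K4.cent_le_C))
  have aL := hA.subgroup L
  have VL : Vf t u ≤ L := Vf_le.2 ⟨ht, hu⟩
  obtain ⟨K', hK'⟩ := h4.vs aL
  have cL : centralizer {(⟨t, ht⟩ : L)} ≤ Vf ⟨t, ht⟩ ⟨u, hu⟩ := fun x hx => by
    obtain ⟨y, hy, e, he, h1⟩ := hc x (congrArg Subtype.val (mem_C.1 hx))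
    refine hK'.centV.le (mem_centralizer_Vf.2 ⟨mem_C.1 hx, Subtype.ext ?_⟩)
    change u * x = x * u
    rw [h1, ← mul_assoc, KV hy u s_mem_Vf, mul_assoc, h.le_centralizer he u s_mem_Vf, mul_assoc]
  have ta : TA L := h4.ta_of_not_gen fun e => h4.nsolv (by
    have := h4.k4.solv_norm
    rwa [eq_top_iff.2 (e.ge.trans (sup_le (cL.trans le_normalizer) (zpowers_le.2 h4.w_norm)))] at this)
  obtain ⟨D, j, hD⟩ := ta.dat aL (h4.k4.syl le_top)
  have c60 : Nat.card L = 60 := by rw [hD.cardG, h4.k4.card_Vf]; rfl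
  have KL : K ≤ centralizer (L : Set G) := TA.le_centralizer hA ta (h.syl VL) Ko (le_top.trans hn) KV
  -- `w = y₁ w₁`
  have vt : v * t * v⁻¹ = u := congrArg Subtype.val h4.wt
  obtain ⟨y1, hy1, e1, he1, h1⟩ := hc (v⁻¹ * w) (by
    calc _ = v⁻¹ * (v * t * v⁻¹) * w := by group
      _ = v⁻¹ * (w * t * w⁻¹) * w := by rw [vt, wt]
      _ = _ := by group)
  have m1 : v * e1 ∈ L := mul_mem hv (VL he1)
  have ew : w = y1 * (v * e1) := by
    rw [← mul_assoc, ← KL hy1 v hv, mul_assoc, ← h1]; group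
  have wm : w ∈ L ⊔ K := ew ▸ mul_mem (mem_sup_right hy1) (mem_sup_left m1)
  have top : (⊤ : Subgroup G) ≤ L ⊔ K := by
    refine ((h.syl VL).frattini_sup le_top hn).ge.trans (sup_le le_sup_left fun x hx => ?_)
    obtain ⟨y, hy, e, he, z, hz, rfl⟩ := normV h wt wu hc hx.2
    exact mul_mem (mul_mem (mem_sup_right hy) (mem_sup_left (VL he))) (zpowers_le.2 wm hz)
  obtain ⟨l, hl, y, hy, rfl⟩ := (mem_sup_of_le_normalizer_left (le_top.trans hn)).1 (top (mem_top g))
  have c1 : Commute y1 (v * e1) := (KL hy1 _ m1).symm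
  have x3 : (⟨v * e1, m1⟩ : L) ^ 3 = 1 := by
    rw [ew, c1.mul_pow, mul_eq_one_iff_inv_eq] at w3
    have mK : (v * e1) ^ 3 ∈ K := w3 ▸ inv_mem (pow_mem hy1 3)
    exact Subtype.ext (eq_one_of_sq Ko mK (congrArg Subtype.val (h4.k4.sq (cL (x := ⟨v * e1, m1⟩ ^ 3)
      (mem_C.2 (Subtype.ext (KL mK t ht)))))))
  have x1 : (⟨v * e1, m1⟩ : L) ≠ 1 := fun e => h.ts (by
    rw [← wt, ew, show v * e1 = 1 from congrArg Subtype.val e, mul_one, ← KV hy1 t t_mem_Vf, mul_inv_cancel_right])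
  have cl : v * e1 * l = l * (v * e1) := by
    have wy : w * y = y * w := by
      rw [ew, mul_assoc, KL hy _ m1, ← mul_assoc, Kc y1 hy1 y hy, mul_assoc]
    have wl : w * l = l * w := mul_right_cancel (b := y) (by rw [mul_assoc, hw, mul_assoc, mul_assoc, wy])
    rw [ew, mul_assoc, ← mul_assoc l, KL hy1 l hl, mul_assoc y1] at wl
    exact mul_left_cancel wl
  obtain ⟨i, hi⟩ := mem_zpowers_iff.1 (cent3 aL ta c60 x3 x1 (mem_C.2 (Subtype.ext cl) : (⟨l, hl⟩ : L) ∈ _))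
  refine mul_mem ?_ (mem_sup_left hy)
  rw [show l = (v * e1) ^ i from (congrArg Subtype.val hi).symm, show v * e1 = y1⁻¹ * w by rw [ew]; group]
  exact zpow_mem (mul_mem (mem_sup_left (inv_mem hy1)) (mem_sup_right (mem_zpowers w))) i

end core

end F0

open F0

variable {t u c w : G} {L K Q D : Subgroup G} {p q n : ℕ} (h : RZ t u c w L K Q D p q n)
include h

theorem RZ.K_cent : K ≤ centralizer (Vf t u : Set G) := fun y hy =>
  mem_centralizer_Vf.2 ⟨h.Lt y (h.KL hy), h.basic.2.2.2.2.2.2.2.2.2.1 y hy⟩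

theorem RZ.syl_cent {y : G} (hy : y ∈ K) (y1 : y ≠ 1) : IsSyl 2 (Vf t u) (centralizer {y}) := by
  obtain ⟨uu, -, -, tu, -⟩ := h.basic
  have V2 : IsPGroup 2 (Vf t u) := isPGroup_of_forall_pow fun x hx =>
    ⟨1, by rw [pow_one, pow_two, Vf_sq h.tt uu tu hx]⟩
  refine isSyl_of_maximal (fun e he => mem_C.2 (h.K_cent hy e he).symm) V2 fun T hT h1 h2 =>
    le_antisymm (fun x hx => ?_) h1
  obtain ⟨y', hy', e, he, rfl⟩ := h.centK hy y1 (h.ag.comm hT (h1 t_mem_Vf) hx) (mem_C.1 (h2 hx))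
  have : y' ∈ T ⊓ K := ⟨by simpa using mul_mem hx (inv_mem (h1 he)), hy'⟩
  rw [inf_eq_bot_of_isPGroup_of_not_dvd hT h.K2, mem_bot] at this
  simpa [this] using he

theorem RZ.b0a {y : G} (hy : y ∈ K) (y1 : y ≠ 1) (hw : w * y = y * w) (g : G) (h1 : y * g = g * y)
    (h2 : w * g = g * w) : g ∈ K ⊔ zpowers w := by
  obtain ⟨uu, u1, tu1, tu, -, -, -, -, -, -, wK, -⟩ := h.basic
  have hS := h.syl_cent hy y1
  have tX : t ∈ centralizer {y} := hS.le t_mem_Vf
  have uX : u ∈ centralizer {y} := hS.le s_mem_Vf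
  have wX : w ∈ centralizer {y} := mem_C.2 hw.symm
  have KX : K ≤ centralizer {y} := fun a ha => mem_C.2 (cyc_comm h.cyc y hy a ha)
  have V : (Vf (⟨t, tX⟩ : centralizer {y}) ⟨u, uX⟩).map (centralizer {y}).subtype = Vf t u := map_Vf _
  have mV : ∀ e : centralizer {y}, e ∈ Vf (⟨t, tX⟩ : centralizer {y}) ⟨u, uX⟩ ↔ (e : G) ∈ Vf t u := fun e => by
    rw [← V]; exact (mem_map_iff_mem (subtype_injective _)).symm
  have k4 : K4 (⟨t, tX⟩ : centralizer {y}) ⟨u, uX⟩ := by
    refine ⟨Subtype.ext h.tt, Subtype.ext uu, fun e => h.t1 (congrArg Subtype.val e),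
      fun e => u1 (congrArg Subtype.val e), fun e => tu1 (congrArg Subtype.val e), Subtype.ext tu, fun d => ?_⟩
    have c4 : Nat.card (Vf t u) ≤ 4 := by
      classical
      have : (Vf t u : Set G) ⊆ ({1, t, u, t * u} : Finset G) := fun x hx => by simpa using h.memE.1 hx
      have := Set.ncard_le_ncard this (Set.toFinite _)
      rw [Set.ncard_coe_finset] at this
      exact this.trans Finset.card_le_four
    have := hS.card_eq
    rw [this] at c4
    have f := (Nat.prime_two.pow_dvd_iff_le_factorization (k := 3) Nat.card_pos.ne').1 d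
    have := Nat.pow_le_pow_right (show 0 < 2 by norm_num) f
    omega
  have := core (h.ag.subgroup _) k4 (K := K.subgroupOf (centralizer {y})) (w := ⟨w, wX⟩)
    (by rw [card_subgroupOf KX]; exact h.K2) (fun a ha e he => Subtype.ext (h.K_cent ha e ((mV e).1 he)))
    (Subtype.ext h.wt) (Subtype.ext h.wu)
    (mem_normalizer_of_conj_mem fun a ha => mem_subgroupOf.2 (conj_mem_of_mem_normalizer wK (mem_subgroupOf.1 ha)))
    (fun a ha => by
      obtain ⟨y', hy', e, he, h3⟩ := h.centK hy y1 (congrArg Subtype.val ha) (mem_C.1 a.2)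
      exact ⟨⟨y', KX hy'⟩, hy', ⟨e, hS.le he⟩, (mV _).2 he, Subtype.ext h3⟩)
    (fun a ha b hb => Subtype.ext (cyc_comm h.cyc _ ha _ hb)) (Subtype.ext h.w3) (g := ⟨g, mem_C.2 h1⟩)
    (Subtype.ext h2)
  have := mem_map_of_mem (centralizer {y}).subtype this
  rwa [Subgroup.map_sup, map_subtype_subgroupOf KX, MonoidHom.map_zpowers] at this

theorem RZ.b0b {y : G} (hy : y ∈ K) (y1 : y ≠ 1) (hw : w * y = y * w) (g : G)
    (hg : g ∈ normalizer (zpowers y : Set G)) (ho : Odd (orderOf g)) : y * g = g * y := by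
  obtain ⟨x, hx, m, hm, e⟩ := (h.syl_cent hy y1).frattini
    (centralizer_zpowers y ▸ normalizer_le_normalizer_centralizer _) hg
  obtain ⟨i, h1, h2⟩ := h.normE hm
  obtain ⟨y', hy', v, hv, h3⟩ := h.centE h1 h2
  have cc := h.basic.2.2.2.2.1
  have a1 : w ^ i * y = y * w ^ i := (Commute.pow_left hw i)
  have a2 : y' * v * y = y * (y' * v) := by
    rw [mul_assoc, h.K_cent hy v hv, ← mul_assoc, cyc_comm h.cyc y' hy' y hy, mul_assoc]
  have a3 := mem_C.1 hx
  have k : g * y * g⁻¹ = x * ((m * w ^ i) * y * (m * w ^ i)⁻¹) * x⁻¹ := by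
    rw [e, mul_assoc m, a1]; group
  have o : ¬ 2 ∣ Nat.card (zpowers g) := by
    rw [Nat.card_zpowers]; exact fun d => Nat.not_even_iff_odd.2 ho (even_iff_two_dvd.2 d)
  rcases h3 with h3 | h3
  · rw [h3, a2, mul_inv_cancel_right, ← a3, mul_inv_cancel_right] at k
    rw [← k]; nth_rw 2 [k]; group
  · have k' : g * y * g⁻¹ = y⁻¹ := by
      calc _ = x * (y' * v * (c * y * c⁻¹) * (y' * v)⁻¹) * x⁻¹ := by rw [k, h3]; group
        _ = (x * (y' * v * y * (y' * v)⁻¹) * x⁻¹)⁻¹ := by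
          rw [inv_eq_of_mul_eq_one_right cc, h.basic.2.2.2.2.2.2.2.2.1 y hy]; group
        _ = _ := by rw [a2, mul_inv_cancel_right, ← a3, mul_inv_cancel_right]
    refine (comm_of_sq o (mem_zpowers g) ?_).symm
    calc _ = g * (g * y * g⁻¹) * g⁻¹ * (g * g) := by group
      _ = (g * y * g⁻¹)⁻¹ * (g * g) := by nth_rw 1 [k']; group
      _ = _ := by rw [k', inv_inv]

theorem RZ.not3 : ¬ 3 ∣ Nat.card K := fun d3 => by
  have : Fact (Nat.Prime 3) := ⟨Nat.prime_three⟩
  have := h.cyc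
  obtain ⟨-, -, -, -, cc, -, -, cV, cK, -, wK, w1⟩ := h.basic
  obtain ⟨-, -, -, -, kq, kn, -⟩ := h.num
  have ow : orderOf w = 3 := orderOf_eq_prime h.w3 w1
  obtain ⟨R, hR⟩ := exists_isSyl 3 K
  have Kt : K ≤ centralizer {t} := h.K_cent.trans K4.cent_le_C
  have hR' : IsSyl 3 R (centralizer {t}) := hR.trans Kt fun d => by
    have e := card_mul_relIndex Kt
    rw [h.cardH, show 8 * Nat.card K * q * n = Nat.card K * (8 * (q * n)) by ring] at e
    rw [Nat.eq_of_mul_eq_mul_left Nat.card_pos e] at d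
    exact absurd (Nat.dvd_gcd d3 ((Nat.Coprime.dvd_mul_left (by norm_num)).1 d)) (by
      rw [Nat.Coprime.mul_right kq kn]; norm_num)
  -- a conjugate `y` of `w` in `K`
  obtain ⟨a, ha⟩ := isConj_iff.1 (h.conj c cc fun e => cV (e ▸ one_mem _))
  obtain ⟨b, -, hb⟩ := hR'.exists_conj_le (Q := zpowers (a⁻¹ * w * a)) (isPGroup_zpowers (k := 1) (by
    rw [pow_one, show a⁻¹ * w * a = a⁻¹ * w * a⁻¹⁻¹ by simp, conj_pow, h.w3]; simp)) (zpowers_le.2 (mem_C.2 (by
      calc _ = a⁻¹ * (a * t * a⁻¹ * w) * a := by group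
        _ = _ := by rw [ha, ← h.wc, ← ha]; group)))
  have yR := map_conj_le_iff.1 hb _ (mem_zpowers _)
  generalize hy : b * (a⁻¹ * w * a) * b⁻¹ = y at yR
  have yK := hR.le yR
  have oy : orderOf y = 3 := by
    rw [← hy, ← ow, show b * (a⁻¹ * w * a) * b⁻¹ = MulAut.conj (b * a⁻¹) w by simp [mul_assoc]]
    exact (MulAut.conj _).orderOf_eq w
  have y3 : y ^ 3 = 1 := oy ▸ pow_orderOf_eq_one y
  have y1 : y ≠ 1 := fun e => by simp [e] at oy
  have z3 : ∀ {x : G}, x ^ 3 = 1 → IsPGroup 3 (zpowers x) := fun hx => isPGroup_zpowers (k := 1) (by rw [pow_one, hx])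
  have wy : w * y = y * w := (h.ag.comm_of_sup (z3 h.w3) (z3 y3) (zpowers_le.2 (mem_normalizer_of_conj_mem
    fun x hx => CycSylow.mem_zpowers_of_isCyclic (conj_mem_of_mem_normalizer wK (zpowers_le.2 yK hx)) yK
      (by obtain ⟨i, rfl⟩ := hx; rw [conj_pow, ← zpow_natCast, ← zpow_mul, mul_comm i, zpow_mul, zpow_natCast, y3]; simp)
      oy)) (mem_zpowers w) y (mem_zpowers y)).symm
  have yw : zpowers y ≤ normalizer (zpowers w : Set G) := le_normalizer_of_le_centralizer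
    (zpowers_le.2 (by rw [centralizer_zpowers]; exact mem_C.2 wy))
  obtain ⟨P, hP, OP⟩ := exists_isSyl_ge (isPGroup_sup_of_le_normalizer (z3 y3) (z3 h.w3) yw) le_top
  have yP := OP (mem_sup_left (mem_zpowers y))
  have wP := OP (mem_sup_right (mem_zpowers w))
  have dec : ∀ x ∈ P, ∃ k ∈ K, ∃ z ∈ zpowers w, k * z = x := fun x hx =>
    (mem_sup_of_le_normalizer_left (zpowers_le.2 wK)).1
      (h.b0a yK y1 wy x (h.ag.comm hP.isPGroup yP hx) (h.ag.comm hP.isPGroup wP hx))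
  have cN : c ∈ normalizer (P : Set G) := mem_normalizer_of_conj_mem fun x hx => by
    obtain ⟨k, hk, z, hz, rfl⟩ := dec x hx
    have zP := zpowers_le.2 wP hz
    have cz : c * z = z * c := ((zpowers_le (H := centralizer {c})).2 (mem_C.2 h.wc.symm) hz c rfl)
    rw [← conj_mul, cz, mul_inv_cancel_right, inv_eq_of_mul_eq_one_right cc, cK k hk]
    exact mul_mem (inv_mem (by simpa using mul_mem hx (inv_mem zP))) zP
  have nO : normalizer (P : Set G) ≤ normalizer ((zpowers y ⊔ zpowers w : Subgroup G) : Set G) := fun g hg => by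
    have k : ∀ x ∈ P, x ^ 3 = 1 → g * x * g⁻¹ ∈ zpowers y ⊔ zpowers w := fun x hx x3 => by
      have m := conj_mem_of_mem_normalizer hg hx
      obtain ⟨k, hk, z, hz, e⟩ := dec _ m
      have zP := zpowers_le.2 wP hz
      have kP : k ∈ P := by simpa [← e] using mul_mem m (inv_mem zP)
      have : (k * z) ^ 3 = 1 := by rw [e, conj_pow, x3]; simp
      rw [Commute.mul_pow (h.ag.comm hP.isPGroup kP zP), show z ^ 3 = 1 by
        obtain ⟨i, rfl⟩ := hz; rw [← zpow_natCast, ← zpow_mul, mul_comm i, zpow_mul, zpow_natCast, h.w3, one_zpow],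
        mul_one] at this
      rw [← e]
      exact mul_mem (mem_sup_left (CycSylow.mem_zpowers_of_isCyclic hk yK this oy)) (mem_sup_right hz)
    refine mem_normalizer_of_conj_mem (map_conj_le_iff.1 ?_)
    rw [Subgroup.map_sup, MonoidHom.map_zpowers, MonoidHom.map_zpowers]
    exact sup_le (zpowers_le.2 (k y yP y3)) (zpowers_le.2 (k w wP h.w3))
  have c9 : Nat.card ↥(zpowers y ⊔ zpowers w) = 3 ^ 2 := by
    have e := card_sup_mul_card_inf yw
    have : zpowers y ⊓ zpowers w = ⊥ := by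
      have : Fact (Nat.card (zpowers w)).Prime := ⟨by rw [Nat.card_zpowers, ow]; norm_num⟩
      refine ((zpowers y ⊓ zpowers w).subgroupOf (zpowers w)).eq_bot_or_eq_top_of_prime_card.elim
        (fun e => ?_) fun e => absurd ?_ h.basic.2.2.1
      · rwa [subgroupOf_eq_bot, disjoint_iff, inf_assoc, inf_idem] at e
      · have := Kt (zpowers_le.2 yK (subgroupOf_eq_top.1 e (mem_zpowers w)).1)
        rw [← h.wt, ← mem_C.1 this, mul_inv_cancel_right]
    rwa [this, card_bot, mul_one, Nat.card_zpowers, Nat.card_zpowers, oy, ow] at e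
  obtain ⟨T, hT, cT⟩ := exists_isSyl_ge (p := 2) (isPGroup_zpowers (x := c) (k := 1) (by rw [pow_one, pow_two, cc]))
    (zpowers_le.2 cN)
  have le : normalizer (P : Set G) ≤ T ⊔ centralizer ((zpowers y ⊔ zpowers w : Subgroup G) : Set G) := by
    refine le_of_forall_isSyl fun r hr => ?_
    have := Fact.mk hr
    by_cases r2 : r = 2
    · exact ⟨T, r2 ▸ hT, le_sup_left⟩
    by_cases r3 : r = 3
    · exact ⟨P, r3 ▸ hP.mono le_normalizer le_top, (h.ag.syl_le_centralizer hP OP).trans le_sup_right⟩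
    obtain ⟨U, hU⟩ := exists_isSyl r (normalizer (P : Set G))
    refine ⟨U, hU, le_trans ?_ le_sup_right⟩
    by_contra hc
    obtain ⟨k, k1, k2, dk⟩ := Transfer.exists_dvd_pow_sub_one r3 c9 hU.isPGroup (hU.le.trans nO) hc
    have : r ∣ 2 ^ 3 := by interval_cases k; exacts [dk.trans (by norm_num), dk]
    exact r2 ((Nat.prime_dvd_prime_iff_eq hr Nat.prime_two).1 (hr.dvd_of_dvd_pow this))
  obtain ⟨P', rfl⟩ := hP.exists_sylow_top
  have := h.ag.isMulCommutative P'.2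
  have e0 : a * b⁻¹ * y * (a * b⁻¹)⁻¹ = w := by rw [← hy]; group
  obtain ⟨g, hg, e⟩ := Transfer.control_of_abelian_sylow P' y yP (a * b⁻¹) (e0 ▸ wP)
  obtain ⟨τ, hτ, z, hz, rfl⟩ := (mem_sup_of_le_normalizer_right
    (le_normalizer_centralizer (hT.le.trans nO))).1 (le hg)
  have e1 : τ * y * τ⁻¹ = w := by
    rw [← e0, ← e, mul_assoc τ z, ← hz y (mem_sup_left (mem_zpowers y))]; group
  have τc := h.ag.comm hT.isPGroup hτ (cT (mem_zpowers c))
  have e2 : w = w⁻¹ := by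
    calc w = c * w * c⁻¹ := by rw [← h.wc]; group
      _ = c * τ * y * (c * τ)⁻¹ := by rw [← e1]; group
      _ = τ * (c * y * c⁻¹) * τ⁻¹ := by rw [← τc]; group
      _ = _ := by rw [inv_eq_of_mul_eq_one_right cc, cK y yK, ← e1]; group
  have := h.w3
  rw [pow_succ, pow_two] at this
  nth_rw 1 [e2] at this
  exact w1 (by simpa using this)

end Cfsg.Agent.Lib.AG
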