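/-
A-groups project (S2554): Ree type configuration, `w` has no fixed points on `K` when `3 ∤ |K|`.
-/
import Cfsg.Agent.Lib.AG.Rz0
import Cfsg.Agent.Lib.AG.Loc4d

set_option autoImplicit false

namespace Cfsg.Agent.Lib.AG

open Subgroup Cfsg.Agent.Lib.Core

universe u

variable {G : Type u} [Group G] [Finite G]

namespace Fp2

/-- a four-group -/
structure F4 (a b : G) : Prop where
  aa : a * a = 1
  bb : b * b = 1
  a1 : a ≠ 1
  b1 : b ≠ 1
  ab : a ≠ b
  comm : a * b = b * a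

namespace F4

variable {a b : G}

theorem k4 (h : F4 a b) {X : Subgroup G} (ha : a ∈ X) (hb : b ∈ X) (h8 : ¬ 8 ∣ Nat.card X) :
    K4 (⟨a, ha⟩ : X) ⟨b, hb⟩ :=
  ⟨Subtype.ext h.aa, Subtype.ext h.bb, fun e => h.a1 (congrArg Subtype.val e),
    fun e => h.b1 (congrArg Subtype.val e), fun e => h.ab (congrArg Subtype.val e),
    Subtype.ext h.comm, h8⟩

theorem abab (h : F4 a b) : a * b * (a * b) = 1 := by
  rw [show a * b * (a * b) = a * (b * a) * b by group, ← h.comm,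
    show a * (a * b) * b = a * a * (b * b) by group, h.aa, h.bb, mul_one]

theorem ab1 (h : F4 a b) : a * b ≠ 1 := fun e =>
  h.ab (by rw [eq_inv_of_mul_eq_one_left e, inv_eq_of_mul_eq_one_right h.bb])

theorem mem (h : F4 a b) {x : G} (hx : x ∈ Vf a b) : x = 1 ∨ x = a ∨ x = b ∨ x = a * b := by
  have ai : a⁻¹ = a := inv_eq_of_mul_eq_one_right h.aa
  have bi : b⁻¹ = b := inv_eq_of_mul_eq_one_right h.bb
  have e1 : a * (a * b) = b := by rw [← mul_assoc, h.aa, one_mul]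
  have e2 : b * (a * b) = a := by rw [h.comm, ← mul_assoc, h.bb, one_mul]
  induction hx using closure_induction_left with
  | one => exact Or.inl rfl
  | mul_left c hc y _ ih =>
    rcases hc with rfl | rfl <;> rcases ih with rfl | rfl | rfl | rfl <;>
      simp [h.aa, h.bb, e1, e2, ← h.comm]
  | inv_mul_cancel c hc y _ ih =>
    rcases hc with rfl | rfl <;> rcases ih with rfl | rfl | rfl | rfl <;>
      simp [h.aa, h.bb, e1, e2, ← h.comm, ai, bi]

theorem card (h : F4 a b) : Nat.card (Vf a b) = 4 := by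
  have h1 : (Vf a b : Set G) = {1, a, b, a * b} := Set.ext fun x =>
    ⟨fun hx => by simpa using h.mem hx, by
      rintro (rfl | rfl | rfl | rfl)
      exacts [one_mem _, t_mem_Vf, s_mem_Vf, ts_mem_Vf]⟩
  rw [← SetLike.coe_sort_coe, h1, Nat.card_coe_set_eq]
  rw [Set.ncard_insert_of_notMem (by simp [h.a1.symm, h.b1.symm, h.ab1.symm]),
    Set.ncard_insert_of_notMem (by simp [h.ab, h.b1]), Set.ncard_pair (by simp [h.a1])]

theorem two (h : F4 a b) : IsPGroup 2 (Vf a b) := IsPGroup.of_card (n := 2) h.card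

theorem sq (h : F4 a b) {x : G} (hx : x ∈ Vf a b) : x * x = 1 := by
  rcases h.mem hx with rfl | rfl | rfl | rfl
  exacts [one_mul _, h.aa, h.bb, h.abab]

theorem cop (h : F4 a b) {X : Subgroup G} (ha : a ∈ normalizer (X : Set G))
    (hb : b ∈ normalizer (X : Set G)) (ho : ¬ 2 ∣ Nat.card X) : CoprimeAct (Vf a b) X :=
  coprimeAct_of_isPGroup_left h.two ho (Vf_le.mpr ⟨ha, hb⟩)

theorem gen (h : F4 a b) {X W : Subgroup G} (ha : a ∈ normalizer (X : Set G))
    (hb : b ∈ normalizer (X : Set G)) (ho : ¬ 2 ∣ Nat.card X) (h1 : X ⊓ centralizer {a} ≤ W)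
    (h2 : X ⊓ centralizer {b} ≤ W) (h3 : X ⊓ centralizer {a * b} ≤ W) : X ≤ W := by
  have hc : Vf a b ≤ centralizer (Vf a b : Set G) :=
    Vf_le.mpr ⟨mem_centralizer_Vf.mpr ⟨rfl, h.comm.symm⟩, mem_centralizer_Vf.mpr ⟨h.comm, rfl⟩⟩
  refine le_of_centralizers ⟨⟨fun x y => Subtype.ext (mem_centralizer_iff.mp (hc y.2) x x.2)⟩⟩
    (fun hc => ?_) (Vf_le.mpr ⟨ha, hb⟩) (h.cop ha hb ho).coprime fun x hx x1 => ?_
  · have h1 := hc.exponent_eq_card
    rw [h.card] at h1
    have h2 : Monoid.exponent (Vf a b) ∣ 2 :=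
      Monoid.exponent_dvd_of_forall_pow_eq_one fun x => Subtype.ext (by
        rw [Subgroup.coe_pow, pow_two, h.sq x.2, Subgroup.coe_one])
    rw [h1] at h2
    omega
  · rcases h.mem hx with rfl | rfl | rfl | rfl
    exacts [absurd rfl x1, h1, h2, h3]

end F4

theorem zp2 {e : G} (he : e * e = 1) : IsPGroup 2 (zpowers e) :=
  isPGroup_zpowers (k := 1) (by simpa [pow_two] using he)

theorem card_zp {e : G} (he : e * e = 1) (e1 : e ≠ 1) : Nat.card (zpowers e) = 2 := by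
  rw [Nat.card_zpowers, orderOf_eq_prime (p := 2) (by simpa [pow_two] using he) e1]

theorem le_O {X Y : Subgroup G} (h4 : ¬ 4 ∣ Nat.card X) (hY : Y ≤ X) (ho : ¬ 2 ∣ Nat.card Y) :
    Y ≤ OppOf 2 X := by
  obtain ⟨-, S, h1, h2, h3⟩ := solv_of_not_four h4
  exact le_O_of_odd h1 h2 h3 hY ho

theorem cop_zp {e : G} (he : e * e = 1) {X : Subgroup G} (hn : e ∈ normalizer (X : Set G))
    (ho : ¬ 2 ∣ Nat.card X) : CoprimeAct (zpowers e) X :=
  coprimeAct_of_isPGroup_left (zp2 he) ho (zpowers_le_of_mem hn)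

theorem norm_cent {e z : G} (h : e * z * e⁻¹ = z ∨ e * z * e⁻¹ = z⁻¹) :
    e ∈ normalizer ((centralizer ({z} : Set G) : Subgroup G) : Set G) := by
  rw [← map_conj_eq_iff, map_conj_centralizer_singleton]
  rcases h with h | h <;> rw [h]
  rw [← centralizer_zpowers, zpowers_inv, centralizer_zpowers]

theorem nO {X : Subgroup G} {e : G} (h : e ∈ normalizer (X : Set G)) :
    e ∈ normalizer (OppOf 2 X : Set G) := le_normalizer_OppOf le_rfl h

theorem odd_of {r : ℕ} [Fact r.Prime] (r2 : r ≠ 2) {X : Subgroup G} (hX : IsPGroup r X) :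
    ¬ 2 ∣ Nat.card X := not_dvd_card_of_isPGroup hX r2.symm

theorem odd_ord {X : Subgroup G} (hX : ¬ 2 ∣ Nat.card X) {x : G} (hx : x ∈ X) : Odd (orderOf x) :=
  Nat.coprime_two_right.mp (coprime_orderOf_of_mem (p := 2) hX hx)

theorem ord_cop {r m : ℕ} [hr : Fact r.Prime] {X : Subgroup G} (hX : IsPGroup r X) {x : G}
    (hx : x ∈ X) (hm : ¬ r ∣ m) : (orderOf x).Coprime m := by
  obtain ⟨k, hk⟩ := pow_eq_one_of_isPGroup hX hx
  exact (((Nat.Prime.coprime_iff_not_dvd hr.out).mpr hm).pow_left k).of_dvd_left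
    (orderOf_dvd_of_pow_eq_one hk)

theorem not_dvd_ord {x : G} (x1 : x ≠ 1) {m : ℕ} (h : (orderOf x).Coprime m) : ¬ orderOf x ∣ m :=
  fun e => x1 (orderOf_eq_one_iff.mp (Nat.eq_one_of_dvd_coprimes h dvd_rfl e))

/-- an abelian Sylow subgroup of `O(C(z))` containing `z` is Sylow in `G` -/
theorem syl_top (hA : AG G) {r : ℕ} [Fact r.Prime] (r2 : r ≠ 2) {z : G} {P : Subgroup G}
    (h4 : ¬ 4 ∣ Nat.card (centralizer ({z} : Set G)))
    (hP : IsSyl r P (OppOf 2 (centralizer {z}))) (hz : z ∈ P) : IsSyl r P ⊤ := by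
  obtain ⟨S, hS, PS⟩ := exists_isSyl_ge hP.isPGroup (le_top : P ≤ ⊤)
  rwa [← hP.eq_of_le hS.isPGroup PS (le_O h4 (hA.le_centralizer_singleton hS.isPGroup (PS hz))
    (odd_of r2 hS.isPGroup))]

theorem comm_of_inv {c y x : G} (cc : c * c = 1) (cy : c * y * c = y⁻¹) (ho : Odd (orderOf y))
    {V : Subgroup G} (hy : y ∈ normalizer (V : Set G)) (hV : V ≤ centralizer {c}) (hx : x ∈ V) :
    y * x = x * y := by
  have h1 : c ∈ centralizer (V : Set G) := mem_centralizer_iff.mpr fun v hv => (mem_C.mp (hV hv)).symm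
  have h2 := mul_mem (conj_mem_of_mem_normalizer (normalizer_le_normalizer_centralizer _ hy) h1) h1
  rw [← cy, show y * c * (c * y * c) * c = y * (c * c) * y * (c * c) by group, cc, mul_one,
    mul_one] at h2
  have h3 : y ∈ centralizer (V : Set G) :=
    mem_of_pow_mem (p := 2) (k := 1) (Nat.coprime_two_right.mpr ho) (by simpa [pow_two] using h2)
  exact (mem_centralizer_iff.mp h3 x hx).symm

theorem cyc_mem {K : Subgroup G} (hK : IsCyclic K) {x y : G} (hy : y ∈ K) (hx : x ∈ K)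
    (h : x ^ orderOf y = 1) : x ∈ zpowers y := by
  letI := IsCyclic.commGroup (α := K)
  set X := (powMonoidHom (orderOf y) : K →* K).ker.map K.subtype
  have m : ∀ z (hz : z ∈ K), z ^ orderOf y = 1 → z ∈ X := fun z hz e =>
    ⟨⟨z, hz⟩, Subtype.ext e, rfl⟩
  have h1 : Nat.card X ∣ orderOf y := PGroup.card_dvd_of_le_isCyclic (map_subtype_le _) (by
    rintro _ ⟨z, hz, rfl⟩; exact congrArg Subtype.val hz)
  rw [eq_of_le_of_card_ge (zpowers_le_of_mem (m y hy (pow_orderOf_eq_one y)))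
    (by rw [Nat.card_zpowers]; exact Nat.le_of_dvd (orderOf_pos y) h1)]
  exact m x hx h

variable {t u c w : G} {L K Q D : Subgroup G} {p q n : ℕ}

theorem cardC (h : RZ t u c w L K Q D p q n) {e : G} (he : e * e = 1) (e1 : e ≠ 1) :
    Nat.card (centralizer ({e} : Set G)) = 8 * Nat.card K * q * n := by
  obtain ⟨g, rfl⟩ := isConj_iff.mp (h.conj e he e1)
  rw [← map_conj_centralizer_singleton, card_map_conj, h.cardH]

theorem nd (h : RZ t u c w L K Q D p q n) {r : ℕ} [hr : Fact r.Prime] (hn : r ∣ n) :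
    r ≠ 2 ∧ ¬ r ∣ Nat.card K ∧ ¬ r ∣ q ∧ ¬ r ∣ 2 * Nat.card K * p := by
  obtain ⟨-, on, -, -, -, kn, qn, ⟨f, f0, hf⟩, -⟩ := h.num
  have a : r ≠ 2 := fun e => (Nat.not_even_iff_odd.mpr on) (even_iff_two_dvd.mpr (e ▸ hn))
  have b : ¬ r ∣ Nat.card K := fun e => hr.out.one_lt.ne' (Nat.eq_one_of_dvd_coprimes kn e hn)
  have c : ¬ r ∣ q := fun e => hr.out.one_lt.ne' (Nat.eq_one_of_dvd_coprimes qn e hn)
  refine ⟨a, b, c, fun e => ?_⟩
  rcases (Nat.Prime.dvd_mul hr.out).mp e with e | e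
  · rcases (Nat.Prime.dvd_mul hr.out).mp e with e | e
    · exact a ((Nat.prime_dvd_prime_iff_eq hr.out Nat.prime_two).mp e)
    · exact b e
  · exact c (hf ▸ e.trans (dvd_pow_self p f0.ne'))

theorem not4 (h : RZ t u c w L K Q D p q n) {z : G} (z1 : z ≠ 1)
    (hz : (orderOf z).Coprime (2 * Nat.card K)) : ¬ 4 ∣ Nat.card (centralizer ({z} : Set G)) :=
  h.not_four (Nat.coprime_two_right.mp (Nat.Coprime.coprime_mul_right_right hz))
    (not_dvd_ord z1 (Nat.Coprime.coprime_mul_left_right hz))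

/-- Sylow subgroups of `C(e)` for primes dividing `n` -/
theorem sylC (h : RZ t u c w L K Q D p q n) {r : ℕ} [hr : Fact r.Prime] (hn : r ∣ n) {e z : G}
    (he : e * e = 1) (e1 : e ≠ 1) (hc : e * z = z * e) (z1 : z ≠ 1)
    (hz : (orderOf z).Coprime (2 * Nat.card K * p)) {A : Subgroup G}
    (hA : IsSyl r A (OppOf 2 (centralizer {z}) ⊓ centralizer {e})) : IsSyl r A (centralizer {e}) := by
  obtain ⟨r2, rk, rq, -⟩ := nd h hn
  obtain ⟨B, hB⟩ := exists_isSyl (p := r) (centralizer {e} ⊓ centralizer {z} : Subgroup G)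
  have h1 := card_mul_relIndex (inf_le_left : centralizer {e} ⊓ centralizer {z} ≤ centralizer {e})
  rw [(h.tor' he e1 hc z1 hz).1, cardC h he e1] at h1
  have n0 : 0 < 2 * n := by have := h.num.2.2.2.2.2.2.2.2; omega
  have h2 : (centralizer {e} ⊓ centralizer {z} : Subgroup G).relIndex (centralizer {e}) =
      2 ^ 2 * Nat.card K * q := Nat.eq_of_mul_eq_mul_left n0 (by rw [h1]; ring)
  have hB' := hB.trans inf_le_left (by
    rw [h2]
    intro e
    rcases (Nat.Prime.dvd_mul hr.out).mp e with e | e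
    · rcases (Nat.Prime.dvd_mul hr.out).mp e with e | e
      · exact r2 ((Nat.prime_dvd_prime_iff_eq hr.out Nat.prime_two).mp (hr.out.dvd_of_dvd_pow e))
      · exact rk e
    · exact rq e)
  exact hB'.of_card_le hA.isPGroup (hA.le.trans inf_le_right) (hA.card_le hB.isPGroup
    (le_inf (le_O (not4 h z1 (Nat.Coprime.coprime_mul_right_right hz)) (hB.le.trans inf_le_right)
      (odd_of r2 hB.isPGroup)) (hB.le.trans inf_le_left)))

theorem triv4 (h : RZ t u c w L K Q D p q n) {r : ℕ} [Fact r.Prime] (r2 : r ≠ 2)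
    (rk : ¬ r ∣ Nat.card K) {A : Subgroup G} (hA : IsPGroup r A) {a b : G} (h4 : F4 a b)
    (ha : A ≤ centralizer {a}) : A ⊓ centralizer {b} ≤ ⊥ := fun z hz => by
  by_contra z1
  exact not_dvd_ord z1 (ord_cop hA hz.1 rk) (h.odd_four h4.aa h4.a1 h4.bb h4.b1 h4.ab h4.comm
    (mem_C.mp (ha hz.1)) (mem_C.mp hz.2) (odd_ord (odd_of r2 hA) hz.1))

/-- the end of the case `p ≠ 3` -/
theorem fuse3 (h : RZ t u c w L K Q D p q n) (h3 : ¬ 3 ∣ Nat.card K) {a b : G} (h4 : F4 a b)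
    {P : Subgroup G} (hP : IsSyl 3 P ⊤) (ha : a ∈ normalizer (P : Set G))
    (hb : b ∈ normalizer (P : Set G)) (hA : IsSyl 3 (P ⊓ centralizer {a}) (centralizer {a}))
    (hB : IsSyl 3 (P ⊓ centralizer {b}) (centralizer {b})) (hn : 3 ∣ n) : False := by
  have oP := odd_of (by decide) hP.isPGroup
  have A1 := hA.ne_bot (by rw [cardC h h4.aa h4.a1]; exact Dvd.dvd.mul_left hn _)
  have B1 := hB.ne_bot (by rw [cardC h h4.bb h4.b1]; exact Dvd.dvd.mul_left hn _)
  -- `a` and `b` are conjugate in `N(P)`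
  obtain ⟨g, hg, gab⟩ : ∃ g ∈ normalizer (P : Set G), g * a * g⁻¹ = b := by
    obtain ⟨g0, e0⟩ := isConj_iff.mp ((h.conj a h4.aa h4.a1).symm.trans (h.conj b h4.bb h4.b1))
    have h1 := hA.conj g0
    rw [map_conj_centralizer_singleton, e0] at h1
    obtain ⟨m, hm, e1⟩ := h1.exists_conj hB
    rw [map_conj_map_conj] at e1
    have e2 : m * g0 * a * (m * g0)⁻¹ = b := by
      rw [show m * g0 * a * (m * g0)⁻¹ = m * (g0 * a * g0⁻¹) * m⁻¹ by group, e0, ← mem_C.mp hm]; group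
    generalize m * g0 = g at e1 e2
    have hP' := hP.conj_of_mem_normalizer (g := g) (by rw [normalizer_eq_top]; trivial)
    have bP' : b ∈ normalizer ((P.map (MulAut.conj g).toMonoidHom : Subgroup G) : Set G) := by
      rw [← map_conj_normalizer, ← e2]; exact conj_mem_map_conj.mpr ha
    set B := P ⊓ centralizer {b}
    obtain ⟨z, hz, z1⟩ := (bot_or_exists_ne_one B).resolve_left B1
    have n4 : ¬ 4 ∣ Nat.card (centralizer (B : Set G)) := fun e =>
      h.not_four (odd_ord oP hz.1) (not_dvd_ord z1 (ord_cop hP.isPGroup hz.1 h3))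
        (e.trans (card_dvd_of_le (centralizer_zpowers z ▸
          centralizer_le_centralizer (zpowers_le_of_mem hz))))
    have l1 := le_O n4 (h.ag.le_centralizer hP.isPGroup le_rfl (inf_le_left : B ≤ P)) oP
    have l2 := le_O n4 (h.ag.le_centralizer hP'.isPGroup le_rfl (show B ≤ _ from
      e1 ▸ map_mono inf_le_left)) (by rw [card_map_conj]; exact oP)
    have bB : b ∈ centralizer (B : Set G) :=
      mem_centralizer_iff.mpr fun x hx => (mem_C.mp hx.2).symm
    obtain ⟨x, hx, e3⟩ := (cop_zp h4.bb (nO (le_normalizer bB)) (OppOf_not_dvd _)).exists_conj_isSyl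
      (hP'.mono l2 le_top) (hP.mono l1 le_top) (zpowers_le_of_mem bP') (zpowers_le_of_mem hb)
    rw [map_conj_map_conj, map_conj_eq_iff] at e3
    refine ⟨_, e3, ?_⟩
    rw [show x * g * a * (x * g)⁻¹ = x * (g * a * g⁻¹) * x⁻¹ by group, e2,
      ← mem_centralizer_iff.mp hx.2 b (mem_zpowers b)]; group
  set N := normalizer (P : Set G)
  have WN : Vf a b ≤ N := Vf_le.mpr ⟨ha, hb⟩
  -- `⟨a, b⟩` is a Sylow 2-subgroup of `N(P)`
  have hW : IsSyl 2 (Vf a b) N := isSyl_of_maximal WN h4.two fun T hT WT TN =>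
    le_antisymm (fun e he => by
      by_contra eW
      have cm : ∀ x ∈ T, ∀ y ∈ T, x * y = y * x := fun x hx y hy => h.ag.comm hT hx hy
      have aT := WT t_mem_Vf
      have bT := WT s_mem_Vf
      have f1 : F4 b e := ⟨h4.bb, h.sq hT he, h4.b1, fun e1 => eW (e1 ▸ one_mem _),
        fun e1 => eW (e1 ▸ s_mem_Vf), cm _ bT _ he⟩
      have nA : T ≤ normalizer ((P ⊓ centralizer {a} : Subgroup G) : Set G) :=
        le_normalizer_inf TN (le_normalizer_of_le fun x hx => mem_C.mpr (cm _ aT _ hx))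
      have tr := fun (x : G) (hx : F4 a x) =>
        triv4 h (by decide) h3 hA.isPGroup hx (inf_le_right : P ⊓ centralizer {a} ≤ _)
      exact A1 (le_bot_iff.mp (f1.gen (nA bT) (nA he) (not_dvd_card_of_le oP inf_le_left) (tr _ h4)
        (tr _ ⟨h4.aa, f1.bb, h4.a1, f1.b1, fun e1 => eW (e1 ▸ t_mem_Vf), cm _ aT _ he⟩)
        (tr _ ⟨h4.aa, f1.abab, h4.a1, f1.ab1, fun e1 => eW (by
          have := mul_mem (inv_mem (s_mem_Vf (t := a) (s := b))) (t_mem_Vf (t := a) (s := b))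
          rwa [show b⁻¹ * a = e by rw [e1]; group] at this), cm _ aT _ (mul_mem bT he)⟩)))) WT
  -- Burnside
  have Wb : Vf a b ≤ centralizer {b} := Vf_le.mpr ⟨mem_C.mpr h4.comm.symm, mem_C.mpr rfl⟩
  have hW' := hW.conj_of_mem_normalizer (le_normalizer hg)
  have W'b : (Vf a b).map (MulAut.conj g).toMonoidHom ≤ centralizer {b} := by
    rw [← gab, ← map_conj_centralizer_singleton, gab]
    exact map_mono (Vf_le.mpr ⟨mem_C.mpr rfl, mem_C.mpr h4.comm⟩)
  obtain ⟨m, hm, e1⟩ := (hW'.mono (le_inf hW'.le W'b) inf_le_left).exists_conj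
    (hW.mono (le_inf WN Wb) inf_le_left)
  rw [map_conj_map_conj, map_conj_eq_iff] at e1
  have e2 : m * g * a * (m * g)⁻¹ = b := by
    rw [show m * g * a * (m * g)⁻¹ = m * (g * a * g⁻¹) * m⁻¹ by group, gab, ← mem_C.mp hm.2]; group
  have hx : m * g ∈ N := mul_mem hm.1 hg
  generalize m * g = x at e1 e2 hx
  have k4 := h4.k4 ha hb (fun e => hW.not_dvd (by
    have := card_mul_relIndex WN
    rw [h4.card] at this
    omega))
  have x3 : x ^ 3 ∈ centralizer ({a} : Set G) := by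
    rcases k4.norm_cases (g := ⟨x, hx⟩) (k4.mem_normalizer
      (by rw [show (⟨x, hx⟩ * ⟨a, ha⟩ * ⟨x, hx⟩⁻¹ : N) = ⟨b, hb⟩ from Subtype.ext e2]; exact s_mem_Vf)
      (by
        rcases h4.mem (conj_mem_of_mem_normalizer e1 s_mem_Vf) with e | e | e | e
        · exact (show (⟨x, hx⟩ * ⟨b, hb⟩ * ⟨x, hx⟩⁻¹ : N) = 1 from Subtype.ext e) ▸ one_mem _
        · exact (show (⟨x, hx⟩ * ⟨b, hb⟩ * ⟨x, hx⟩⁻¹ : N) = ⟨a, ha⟩ from Subtype.ext e) ▸ t_mem_Vf
        · rw [show (⟨x, hx⟩ * ⟨b, hb⟩ * ⟨x, hx⟩⁻¹ : N) = ⟨b, hb⟩ from Subtype.ext e]; exact s_mem_Vf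
        · exact (show (⟨x, hx⟩ * ⟨b, hb⟩ * ⟨x, hx⟩⁻¹ : N) = ⟨a, ha⟩ * ⟨b, hb⟩ from
            Subtype.ext e) ▸ ts_mem_Vf)) with e | ⟨-, e⟩ | ⟨e, -⟩
    · have : a * x = x * a := congrArg Subtype.val (mem_centralizer_Vf.mp e).1
      exact pow_mem (mem_C.mpr this) 3
    · have e3 : x * b * x⁻¹ = a * b := congrArg Subtype.val e
      have e4 : x * (a * b) * x⁻¹ = a := by
        rw [show x * (a * b) * x⁻¹ = (x * a * x⁻¹) * (x * b * x⁻¹) by group, e2, e3, h4.comm,
          ← mul_assoc, h4.bb, one_mul]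
      rw [mem_C]
      nth_rewrite 1 [← e4]
      rw [← e3, ← e2, show x ^ 3 = x * x * x by simp [pow_succ]]; group
    · have e3 : x * a * x⁻¹ = a * b := congrArg Subtype.val e
      exact (h4.a1 (by simpa [e2] using e3)).elim
  obtain ⟨k, m, hm3, e3⟩ := Nat.exists_eq_pow_mul_and_not_dvd (orderOf_pos x).ne' 3 (by decide)
  have xm : x ^ m ∈ P := zpowers_le.mp (le_of_isSyl_of_le_normalizer
    (hP.mono le_normalizer le_top) le_rfl (isPGroup_zpowers (k := k)
      (by rw [← pow_mul, mul_comm, ← e3, pow_orderOf_eq_one])) (zpowers_le_of_mem (pow_mem hx m)))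
  have xm' : x ^ m ∈ centralizer ({a} : Set G) := by
    have h1 : x ^ m * a * (x ^ m)⁻¹ * a⁻¹ ∈ Vf a b ⊓ P := mem_inf.mpr
      ⟨mul_mem (conj_mem_of_mem_normalizer (pow_mem e1 m) t_mem_Vf) (inv_mem t_mem_Vf), by
        simpa only [mul_assoc] using mul_mem xm (conj_mem_of_mem_normalizer ha (inv_mem xm))⟩
    rw [inf_eq_bot_of_isPGroup_of_not_dvd h4.two oP, mem_bot] at h1
    rw [mem_C]
    calc a * x ^ m = (x ^ m * a * (x ^ m)⁻¹ * a⁻¹) * (a * x ^ m) := by rw [h1, one_mul]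
      _ = _ := by group
  have x1 : x ∈ centralizer ({a} : Set G) := by
    have h1 : x ^ (m % 3) ∈ centralizer ({a} : Set G) := by
      have := mul_mem (inv_mem (pow_mem x3 (m / 3))) xm'
      rwa [← pow_mul, ← Nat.div_add_mod m 3, pow_add, Nat.div_add_mod, inv_mul_cancel_left] at this
    rcases (show m % 3 = 1 ∨ m % 3 = 2 by omega) with e | e <;> rw [e] at h1
    · simpa using h1
    · simpa [pow_succ, mul_assoc] using mul_mem (inv_mem h1) x3
  exact h4.ab (by rw [← e2, ← mem_C.mp x1]; group)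

theorem f4tu (h : RZ t u c w L K Q D p q n) : F4 t u :=
  ⟨h.tt, h.basic.1, h.t1, h.basic.2.1, h.basic.2.2.1, h.basic.2.2.2.1⟩

theorem ni (h : RZ t u c w L K Q D p q n) (hq : q = 2 * n + 1) {e x i : G} (he : e * e = 1)
    (e1 : e ≠ 1) (x1 : x ≠ 1) {a : ℕ} (hx : x ^ p ^ a = 1) (ex : e * x = x * e) (ii : i * i = 1)
    (ei : e * i = i * e) (ix : i * x * i = x⁻¹) : False := by
  obtain ⟨g, g1, g2⟩ := h.pcent he e1 ex x1 hx
  have o : ¬ 2 ∣ Nat.card ↥(Q ⊔ D) := fun e => by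
    have := e.trans (sup_comm Q D ▸ card_sup_dvd h.normD)
    have h1 := h.cardD
    rw [h.cardQ, show Nat.card D = n by omega] at this
    exact (Nat.not_even_iff_odd.mpr (h.num.2.1.mul h.num.2.2.1)) (even_iff_two_dvd.mpr this)
  have a1 : g * i * g⁻¹ * (g * i * g⁻¹) = 1 := by rw [conj_mul, ii]; group
  have a2 : t * (g * i * g⁻¹) = g * i * g⁻¹ * t := by rw [← g1, conj_mul, conj_mul, ei]
  have a3 : g * i * g⁻¹ * (g * x * g⁻¹) * (g * i * g⁻¹) = (g * x * g⁻¹)⁻¹ := by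
    rw [conj_mul, conj_mul, ix]; group
  have a4 : g * x * g⁻¹ ≠ 1 := by simpa using x1
  generalize g * x * g⁻¹ = x at g2 a3 a4
  generalize g * i * g⁻¹ = i at a1 a2 a3
  have key : ∀ j ∈ L, j * j = 1 → j * x * j = x⁻¹ → False := fun j hj jj jx => by
    have := C5.eq_one_of_sq o (h.tiQ j hj x g2 a4
      (by rw [inv_eq_of_mul_eq_one_right jj, jx]; exact inv_mem g2)) jj
    exact a4 (C5.eq_one_of_inv_comm o (mem_sup_left g2) jj jx (by simp [this]))
  rcases h.cent i a2 with e | e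
  · exact key i e a1 a3
  · refine key _ e (by
      calc t * i * (t * i) = t * (i * t) * i := by group
        _ = t * t * (i * i) := by rw [← a2]; group
        _ = 1 := by rw [h.tt, a1, mul_one]) ?_
    calc t * i * x * (t * i) = t * (i * x * (t * i)) := by group
      _ = t * (i * x * i) * t := by rw [a2]; group
      _ = x⁻¹ := by rw [a3, h.Lt _ (inv_mem (h.QL g2)), mul_assoc, h.tt, mul_one]

theorem sr (h : RZ t u c w L K Q D p q n) (hq : q = 2 * n + 1) (hu : ∀ d ∈ D, u * d * u = d⁻¹)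
    {d x : G} (hd : d ∈ D) (d1 : d ≠ 1) (x1 : x ≠ 1) {a : ℕ} (hx : x ^ p ^ a = 1)
    (dx : d * x = x * d) : False := by
  haveI := Fact.mk h.prime
  obtain ⟨-, on, -, p2, -, kn, qn, ⟨f, f0, hf⟩, -⟩ := h.num
  have pn : p.Coprime n := qn.of_dvd_left (hf ▸ dvd_pow_self p f0.ne')
  have dn : orderOf d ∣ n := by
    have h1 := h.cardD
    exact (show Nat.card D = n by omega) ▸ orderOf_dvd_natCard D hd
  have dc : (orderOf d).Coprime (2 * Nat.card K * p) :=
    (((Nat.coprime_two_right.mpr on).mul_right kn.symm).mul_right pn.symm).of_dvd_left dn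
  have n4 := not4 h d1 (Nat.Coprime.coprime_mul_right_right dc)
  have f4 := f4tu h
  have td := h.Lt d (h.DL hd)
  obtain ⟨Z, hZ, nZ⟩ := (f4.cop (nO (norm_cent (z := d) (.inl (by rw [td]; group))))
    (nO (norm_cent (.inr (by rw [inv_eq_of_mul_eq_one_right f4.bb, hu d hd]))))
    (OppOf_not_dvd _)).exists_isSyl p
  have oZ := odd_of p2 hZ.isPGroup
  have px : IsPGroup p (zpowers x) := isPGroup_zpowers hx
  have Z1 := hZ.ne_bot ((dvd_card_of_isPGroup_of_ne_bot px (zpowers_ne_bot.mpr x1)).trans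
    (card_dvd_of_le (le_O n4 (zpowers_le_of_mem (mem_C.mpr dx)) (odd_of p2 px))))
  have Zt : Z ⊓ centralizer {t} = ⊥ :=
    eq_bot_of_isPGroup_of_not_dvd (hZ.isPGroup.to_le inf_le_left) fun e => by
      have := e.trans (card_dvd_of_le (le_inf inf_le_right
        (inf_le_left.trans (hZ.le.trans (OppOf_le _)))))
      rw [(h.tor' h.tt h.t1 td d1 dc).1] at this
      rcases (Nat.Prime.dvd_mul h.prime).mp this with e | e
      · exact p2 ((Nat.prime_dvd_prime_iff_eq h.prime Nat.prime_two).mp e)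
      · exact (Nat.Prime.coprime_iff_not_dvd h.prime).mp pn e
  have inv : ∀ y ∈ Z, t * y * t = y⁻¹ := fun y hy => by
    have hz := C5.conj_mem h.tt (nZ t_mem_Vf) hy
    obtain ⟨c, hc, c1, c2⟩ := C5.decomp oZ h.tt y hz
    have : c⁻¹ * y ∈ Z ⊓ centralizer {t} :=
      mem_inf.mpr ⟨mul_mem (inv_mem (zpowers_le_of_mem hz hc)) hy, mem_C.mpr c2⟩
    rw [Zt, mem_bot] at this
    rw [← inv_mul_eq_one.mp this]; exact c1
  have aux : ∀ e : G, e * e = 1 → e ≠ 1 → e * t = t * e → Z ⊓ centralizer {e} ≤ ⊥ :=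
    fun e he e1 et y hy => by
      by_contra y1
      obtain ⟨k, hk⟩ := pow_eq_one_of_isPGroup hZ.isPGroup hy.1
      exact ni h hq he e1 y1 hk (mem_C.mp hy.2) h.tt et (inv y hy.1)
  exact Z1 (le_bot_iff.mp (f4.gen (nZ t_mem_Vf) (nZ s_mem_Vf) oZ Zt.le (aux u f4.bb f4.b1 f4.comm.symm)
    (aux _ f4.abab f4.ab1 (by rw [mul_assoc, ← f4.comm]))))

/-- the hypotheses of `RZ.fpf2` -/
structure Hy (t u c w : G) (L K Q D : Subgroup G) (p q n : ℕ) (y : G) : Prop where
  rz : RZ t u c w L K Q D p q n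
  h3 : ¬ 3 ∣ Nat.card K
  hy : y ∈ K
  y1 : y ≠ 1
  hw : w * y = y * w
  b0a : ∀ g, y * g = g * y → w * g = g * w → Odd (orderOf g) → g ∈ K ⊔ zpowers w
  b0b : ∀ g ∈ normalizer ((zpowers y : Subgroup G) : Set G), Odd (orderOf g) → y * g = g * y
  pr : (orderOf y).Prime

namespace Hy

variable {y : G}

theorem ow (h : Hy t u c w L K Q D p q n y) : orderOf w = 3 :=
  orderOf_eq_prime h.rz.w3 h.rz.basic.2.2.2.2.2.2.2.2.2.2.2
theorem w1 (h : Hy t u c w L K Q D p q n y) : w ≠ 1 := h.rz.basic.2.2.2.2.2.2.2.2.2.2.2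
theorem cc (h : Hy t u c w L K Q D p q n y) : c * c = 1 := h.rz.basic.2.2.2.2.1
theorem c1 (h : Hy t u c w L K Q D p q n y) : c ≠ 1 := fun e =>
  h.rz.basic.2.2.2.2.2.2.2.1 (e ▸ one_mem _)
theorem cy (h : Hy t u c w L K Q D p q n y) : c * y * c = y⁻¹ := h.rz.basic.2.2.2.2.2.2.2.2.1 y h.hy
theorem oK (h : Hy t u c w L K Q D p q n y) : ¬ 2 ∣ Nat.card K :=
  (Nat.not_even_iff_odd.mpr h.rz.num.1) ∘ even_iff_two_dvd.mpr
theorem oy (h : Hy t u c w L K Q D p q n y) : Odd (orderOf y) := odd_ord h.oK h.hy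
theorem n4 (h : Hy t u c w L K Q D p q n y) : ¬ 4 ∣ Nat.card (centralizer ({w} : Set G)) :=
  h.rz.not_four (h.ow ▸ by decide) (h.ow ▸ h.h3)
theorem cw (h : Hy t u c w L K Q D p q n y) : c ∈ centralizer ({w} : Set G) := mem_C.mpr h.rz.wc
theorem yw (h : Hy t u c w L K Q D p q n y) : y ∈ centralizer ({w} : Set G) := mem_C.mpr h.hw
theorem wK (h : Hy t u c w L K Q D p q n y) : zpowers w ≤ normalizer (K : Set G) :=
  zpowers_le_of_mem h.rz.basic.2.2.2.2.2.2.2.2.2.2.1

theorem card_Kw (h : Hy t u c w L K Q D p q n y) : Nat.card ↥(K ⊔ zpowers w) ∣ 3 * Nat.card K := by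
  have := card_sup_dvd h.wK
  rwa [Nat.card_zpowers, h.ow, sup_comm] at this

theorem le_Kw (h : Hy t u c w L K Q D p q n y) {X : Subgroup G} (ho : ¬ 2 ∣ Nat.card X)
    (h1 : X ≤ centralizer {w}) (h2 : X ≤ centralizer {y}) : X ≤ K ⊔ zpowers w := fun g hg =>
  h.b0a g (mem_C.mp (h2 hg)) (mem_C.mp (h1 hg)) (odd_ord ho hg)

theorem card3 (h : Hy t u c w L K Q D p q n y) {r : ℕ} [Fact r.Prime] (rk : ¬ r ∣ Nat.card K)
    {X : Subgroup G} (hX : IsPGroup r X) (ho : ¬ 2 ∣ Nat.card X) (h1 : X ≤ centralizer {w})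
    (h2 : X ≤ centralizer {y}) : Nat.card X ∣ 3 :=
  (coprime_card_of_isPGroup hX rk).dvd_of_dvd_mul_right
    ((card_dvd_of_le (h.le_Kw ho h1 h2)).trans h.card_Kw)

/-- invariant Sylow subgroups of `O(C(w))` -/
theorem exV (h : Hy t u c w L K Q D p q n y) (r : ℕ) [hr : Fact r.Prime] (rk : ¬ r ∣ Nat.card K) :
    ∃ V, IsSyl r V (OppOf 2 (centralizer {w})) ∧ y ∈ normalizer (V : Set G) ∧
      c ∈ normalizer (V : Set G) := by
  haveI := Fact.mk h.pr
  set O := OppOf 2 (centralizer ({w} : Set G))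
  have oO : ¬ 2 ∣ Nat.card O := OppOf_not_dvd _
  have lK : orderOf y ∣ Nat.card K := orderOf_dvd_natCard K h.hy
  have py : IsPGroup (orderOf y) (zpowers y) :=
    isPGroup_zpowers (k := 1) (by rw [pow_one, pow_orderOf_eq_one])
  have yO : zpowers y ≤ O := le_O h.n4 (zpowers_le_of_mem h.yw)
    (not_dvd_card_of_le h.oK (zpowers_le_of_mem h.hy))
  obtain ⟨R, hR, yR⟩ := exists_isSyl_ge py yO
  have Rw : R ≤ centralizer {w} := hR.le.trans (OppOf_le _)
  have RK : R ≤ K := fun g hg => by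
    refine mem_of_coprime_relIndex (sup_le le_normalizer h.wK) (h.le_Kw
      (not_dvd_card_of_le oO hR.le) Rw
      (h.rz.ag.le_centralizer_singleton hR.isPGroup (yR (mem_zpowers y))) hg) ?_
    rw [sup_comm, relIndex_sup_of_le_normalizer h.wK]
    refine (ord_cop hR.isPGroup hg (m := 3) fun e => h.h3 ?_).of_dvd_right ?_
    · exact (Nat.prime_dvd_prime_iff_eq h.pr Nat.prime_three).mp e ▸ lK
    · rw [← h.ow, ← Nat.card_zpowers]
      exact Dvd.intro_left _ (card_inf_mul_relIndex K (zpowers w))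
  have Kc : ∀ a ∈ K, ∀ b ∈ K, a * b = b * a := fun a ha b hb => by
    haveI := h.rz.cyc
    letI := IsCyclic.commGroup (α := K)
    exact congrArg Subtype.val (mul_comm (⟨a, ha⟩ : K) ⟨b, hb⟩)
  have hU := burnside_sup hR (fun g hg => by
    have g1 : g ∈ normalizer ((zpowers y : Subgroup G) : Set G) := by
      refine mem_normalizer_of_conj_mem fun x hx => ?_
      have hx' := RK (conj_mem_of_mem_normalizer hg.2 (yR hx))
      refine cyc_mem h.rz.cyc h.hy hx' ?_
      rw [conj_pow, orderOf_dvd_iff_pow_eq_one.mp (orderOf_dvd_of_mem_zpowers hx)]; group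
    have g2 := h.b0a g (h.b0b g g1 (odd_ord oO hg.1)) (mem_C.mp (OppOf_le _ hg.1)) (odd_ord oO hg.1)
    refine (show K ⊔ zpowers w ≤ centralizer (R : Set G) from sup_le (fun a ha => ?_) ?_) g2
    · exact mem_centralizer_iff.mpr fun b hb => Kc b (RK hb) a ha
    · exact zpowers_le_of_mem (mem_centralizer_iff.mpr fun b hb => (mem_C.mp (Rw hb)).symm))
  set U := OppOf (orderOf y) O
  have nU : centralizer {w} ≤ normalizer (U : Set G) :=
    le_normalizer_OppOf (le_normalizer_OppOf le_normalizer)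
  have cy : zpowers c ≤ normalizer ((zpowers y : Subgroup G) : Set G) :=
    zpowers_le_of_mem (mem_normalizer_of_conj_mem fun x hx => by
      rw [inv_eq_of_mul_eq_one_right h.cc, C5.inv_zp h.cc h.cy hx]; exact inv_mem hx)
  have cop : CoprimeAct (zpowers c ⊔ zpowers y) U := by
    have oU := not_dvd_card_of_le oO (OppOf_le (p := orderOf y) O)
    refine ⟨(sup_le (zpowers_le_of_mem h.cw) (zpowers_le_of_mem h.yw)).trans nU,
      Nat.Coprime.of_dvd_left (card_sup_dvd cy) (Nat.Coprime.mul_left ?_ ?_), .inl (solv_of_odd oU)⟩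
    · exact coprime_card_of_isPGroup (zp2 h.cc) oU
    · exact coprime_card_of_isPGroup py (OppOf_not_dvd O)
  obtain ⟨V, hV, nV⟩ := cop.exists_isSyl r
  refine ⟨V, hV.trans (OppOf_le _) fun e => rk ?_, nV (mem_sup_right (mem_zpowers y)),
    nV (mem_sup_left (mem_zpowers c))⟩
  rw [← hU, sup_comm, relIndex_sup_of_le_normalizer (Rw.trans nU)] at e
  exact (e.trans (Dvd.intro_left _ (card_inf_mul_relIndex U R))).trans (card_dvd_of_le RK)

/-- the case `3 ∣ n` -/
theorem case_n (h : Hy t u c w L K Q D p q n y) (hn : 3 ∣ n) : False := by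
  have z := h.rz
  obtain ⟨-, on, -, -, -, -, -, -, n5⟩ := z.num
  set O := OppOf 2 (centralizer ({w} : Set G))
  have oO : ¬ 2 ∣ Nat.card O := OppOf_not_dvd _
  have Ow : O ≤ centralizer {w} := OppOf_le _
  have cO : c ∈ normalizer (O : Set G) := nO (le_normalizer h.cw)
  have wcop : (orderOf w).Coprime (2 * Nat.card K * p) :=
    h.ow ▸ (Nat.Prime.coprime_iff_not_dvd Nat.prime_three).mpr (nd z hn).2.2.2
  obtain ⟨m, rfl⟩ := hn
  obtain ⟨r, hr, rm⟩ := Nat.exists_prime_and_dvd (show m ≠ 1 by omega)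
  haveI := Fact.mk hr
  obtain ⟨r2, rk, -, rc⟩ := nd z (r := r) (Dvd.dvd.mul_left rm 3)
  obtain ⟨V, hV, yV, cV⟩ := h.exV r rk
  have oV := odd_of r2 hV.isPGroup
  have hVc : ¬ V ≤ centralizer {c} := fun e => by
    have h1 := sylC z (Dvd.dvd.mul_left rm 3) h.cc h.c1 z.wc.symm h.w1 wcop
      (hV.mono (le_inf hV.le e) inf_le_left)
    have h2 := h.card3 rk hV.isPGroup oV (hV.le.trans Ow)
      fun x hx => mem_C.mpr (comm_of_inv h.cc h.cy h.oy yV e hx)
    have h4 := card_mul_relIndex e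
    rw [cardC z h.cc h.c1] at h4
    refine h1.not_dvd (Nat.dvd_of_mul_dvd_mul_left (show 0 < 3 by decide) ?_)
    refine Dvd.dvd.trans ?_ (Nat.mul_dvd_mul_right h2 _)
    rw [h4]
    exact Dvd.dvd.mul_left (Nat.mul_dvd_mul_left 3 rm) _
  obtain ⟨-, j, jj, j1, cj, jw⟩ := z.tor' h.cc h.c1 z.wc.symm h.w1 wcop
  have ow : ¬ 2 ∣ Nat.card (zpowers w) := by rw [Nat.card_zpowers, h.ow]; decide
  have main : ∀ j : G, F4 c j → j * w * j = w⁻¹ → ∀ P' : Subgroup G, IsPGroup r P' → P' ≤ O →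
      c ∈ normalizer (P' : Set G) → P' ⊓ centralizer {j} ≤ centralizer {c} := by
    intro j f4 jw P' hP' P'O cP' y0 hy0
    by_contra y0c
    have ji : j⁻¹ = j := inv_eq_of_mul_eq_one_right f4.bb
    have ci : c⁻¹ = c := inv_eq_of_mul_eq_one_right h.cc
    have hy' := C5.conj_mem h.cc (le_normalizer_inf (zpowers_le_of_mem cP') (zpowers_le_of_mem
      (le_normalizer (mem_C.mpr f4.comm.symm))) (mem_zpowers c)) hy0
    have cy' := C5.inv_comm h.cc y0
    have y'1 : y0 * c * y0⁻¹ * c ≠ 1 := fun e => y0c (mem_C.mpr (by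
      calc c * y0 = (y0 * c * y0⁻¹ * c) * (c * y0) := by rw [e, one_mul]
        _ = y0 * c * y0⁻¹ * (c * c) * y0 := by group
        _ = _ := by rw [h.cc]; group))
    generalize y0 * c * y0⁻¹ * c = y' at hy' cy' y'1
    have ycop := ord_cop hP' hy'.1 rc
    have n4' := not4 z y'1 (Nat.Coprime.coprime_mul_right_right ycop)
    have jy := mem_C.mp hy'.2
    have wO' : zpowers w ≤ OppOf 2 (centralizer {y'}) :=
      le_O n4' (zpowers_le_of_mem (mem_C.mpr (mem_C.mp (Ow (P'O hy'.1))).symm)) ow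
    have cop' := f4.cop (nO (norm_cent (.inr (by rw [ci, cy'])))) (nO (norm_cent (z := y')
      (.inl (by rw [jy]; group)))) (OppOf_not_dvd _)
    have p3 : IsPGroup 3 (zpowers w) := isPGroup_zpowers (k := 1) (by simpa using z.w3)
    have Ww : Vf c j ≤ normalizer ((zpowers w : Subgroup G) : Set G) := Vf_le.mpr
      ⟨le_normalizer_of_le_centralizer le_rfl (centralizer_zpowers w ▸ h.cw),
        mem_normalizer_of_conj_mem fun x hx => by
          rw [ji, C5.inv_zp f4.bb jw hx]; exact inv_mem hx⟩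
    obtain ⟨P3, h3, W3, w3⟩ := cop'.exists_isSyl_ge p3 wO' Ww
    have s1 := sylC z (Dvd.intro _ rfl) f4.bb f4.b1 jy y'1 ycop (centralizer_zpowers j ▸
      (cop'.mono_left (zpowers_le_of_mem s_mem_Vf)).isSyl_inf_centralizer h3
        ((zpowers_le_of_mem s_mem_Vf).trans W3))
    have cop := f4.cop cO (nO (norm_cent (.inr (by rw [ji, jw])))) oO
    obtain ⟨P, hP, WP, P3P⟩ := cop.exists_isSyl_ge h3.isPGroup (le_O h.n4
      (z.ag.le_centralizer_singleton h3.isPGroup (w3 (mem_zpowers w)))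
      (odd_of (by decide) h3.isPGroup)) W3
    have s2 := sylC z (Dvd.intro _ rfl) h.cc h.c1 z.wc.symm h.w1 wcop (centralizer_zpowers c ▸
      (cop.mono_left (zpowers_le_of_mem t_mem_Vf)).isSyl_inf_centralizer hP
        ((zpowers_le_of_mem t_mem_Vf).trans WP))
    refine fuse3 z h.h3 f4 (syl_top z.ag (by decide) h.n4 hP (P3P (w3 (mem_zpowers w))))
      (WP t_mem_Vf) (WP s_mem_Vf) s2 ?_ (Dvd.intro _ rfl)
    rwa [s1.eq_of_le (hP.isPGroup.to_le inf_le_left) (inf_le_inf_right _ P3P) inf_le_right]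
  have f4 : F4 c j := ⟨h.cc, jj, h.c1, j1, fun e => h.w1 (C5.eq_one_of_inv_comm ow (mem_zpowers w)
    jj jw (e ▸ z.wc.symm)), cj⟩
  have jO : j ∈ normalizer (O : Set G) :=
    nO (norm_cent (.inr (by rw [inv_eq_of_mul_eq_one_right jj, jw])))
  obtain ⟨P', hP', WP'⟩ := (f4.cop cO jO oO).exists_isSyl r
  have P'c : P' ≤ centralizer {c} := f4.gen (WP' t_mem_Vf) (WP' s_mem_Vf) (odd_of r2 hP'.isPGroup)
    inf_le_right (main j f4 jw P' hP'.isPGroup hP'.le (WP' t_mem_Vf))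
    (main (c * j) ⟨h.cc, f4.abab, h.c1, f4.ab1, fun e => j1 (by simpa using e), by rw [cj, ← mul_assoc, cj]⟩
      (by
        calc c * j * w * (c * j) = c * j * (w * c) * j := by group
          _ = c * (j * c) * w * j := by rw [z.wc]; group
          _ = c * c * (j * w * j) := by rw [← cj]; group
          _ = _ := by rw [h.cc, jw, one_mul]) P' hP'.isPGroup hP'.le (WP' t_mem_Vf))
  obtain ⟨x, hx, e⟩ := (cop_zp h.cc cO oO).exists_conj_isSyl hP' hV
    (zpowers_le_of_mem (WP' t_mem_Vf)) (zpowers_le_of_mem cV)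
  exact hVc (e ▸ map_conj_le_of_le P'c (le_normalizer (centralizer_zpowers c ▸ hx.2)))

/-- the case `p = 3` -/
theorem case_p (h : Hy t u c w L K Q D p q n y) (hn : ¬ 3 ∣ n) : False := by
  have z := h.rz
  obtain ⟨ok, on, -, -, -, -, -, ⟨f, f0, hf⟩, n5⟩ := z.num
  have q11 := z.q11
  have wc : w ∈ centralizer ({c} : Set G) := mem_C.mpr z.wc.symm
  obtain rfl : p = 3 := by
    have h1 := orderOf_dvd_natCard _ wc
    rw [h.ow, cardC z h.cc h.c1, hf] at h1
    have h3 := h.h3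
    rcases (Nat.Prime.dvd_mul Nat.prime_three).mp h1 with e | e
    · rcases (Nat.Prime.dvd_mul Nat.prime_three).mp e with e | e
      · omega
      · exact ((Nat.prime_dvd_prime_iff_eq Nat.prime_three z.prime).mp
          (Nat.prime_three.dvd_of_dvd_pow e)).symm
    · exact (hn e).elim
  obtain ⟨-, hq, hu⟩ : q + 1 = 4 * Nat.card K ∧ q = 2 * n + 1 ∧ ∀ d ∈ D, u * d * u = d⁻¹ := by
    refine z.eps.resolve_left fun ⟨e, _⟩ => ?_
    have : ∀ f : ℕ, 3 ^ f % 8 = 1 ∨ 3 ^ f % 8 = 3 := fun f => by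
      induction f with
      | zero => simp
      | succ f ih => rw [pow_succ]; omega
    have := this f
    obtain ⟨k, hk⟩ := ok
    omega
  set O := OppOf 2 (centralizer ({w} : Set G))
  have oO : ¬ 2 ∣ Nat.card O := OppOf_not_dvd _
  have Ow : O ≤ centralizer {w} := OppOf_le _
  obtain ⟨V, hV, yV, cV⟩ := h.exV 3 h.h3
  have oV := odd_of (by decide) hV.isPGroup
  have pQ : IsPGroup 3 Q := isPGroup_of_forall_pow fun x hx => ⟨1, by simpa using z.expQ x hx⟩
  have p3 : IsPGroup 3 (zpowers w) := isPGroup_zpowers (k := 1) (by simpa using z.w3)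
  have wV : w ∈ V := zpowers_le.mp (hV.le_of_le_normalizer p3
    (le_O h.n4 (zpowers_le_of_mem (mem_C.mpr rfl)) (odd_of (by decide) p3))
    (le_normalizer_of_le_centralizer (centralizer_zpowers w ▸ hV.le.trans Ow)))
  obtain ⟨g, g1, g2⟩ := z.pcent h.cc h.c1 z.wc.symm h.w1 (i := 1) (by simpa using z.w3)
  have a1 : Nat.card ↥(V ⊓ centralizer {c}) = q := by
    refine le_antisymm ?_ ?_
    · rw [← card_map_conj _ g, ← z.cardQ]
      refine card_le_of_le (map_conj_le_iff.mpr fun v hv => ?_)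
      have b1 : t * (g * v * g⁻¹) = g * v * g⁻¹ * t := by rw [← g1, conj_mul, conj_mul, mem_C.mp hv.2]
      refine z.centQ _ g2 (by simpa using h.w1) _ (C5.mem_of_sq
        (X := V.map (MulAut.conj g).toMonoidHom) (by rw [card_map_conj]; exact oV)
        (conj_mem_map_conj.mpr hv.1) ?_) (by rw [conj_mul, conj_mul, mem_C.mp (Ow (hV.le hv.1))])
      generalize g * v * g⁻¹ = v at b1
      rcases z.cent v b1 with e | e
      · exact mul_mem e e
      · have := mul_mem e e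
        rwa [show t * v * (t * v) = t * (v * t) * v by group, ← b1,
          show t * (t * v) * v = t * t * (v * v) by group, z.tt, one_mul] at this
    · rw [← z.cardQ, ← card_map_conj _ g⁻¹]
      have s := (cop_zp h.cc (nO (le_normalizer h.cw)) oO).isSyl_inf_centralizer hV
        (zpowers_le_of_mem cV)
      rw [centralizer_zpowers] at s
      refine s.card_le (pQ.map _) (le_inf (le_O h.n4 (map_conj_le_iff.mpr fun x hx => mem_C.mpr ?_)
        (odd_of (by decide) (pQ.map _))) (map_conj_le_iff.mpr fun x hx => mem_C.mpr ?_))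
      · calc w * (g⁻¹ * x * g⁻¹⁻¹) = g⁻¹ * (g * w * g⁻¹ * x) * g := by group
          _ = _ := by rw [z.ag.comm pQ g2 hx]; group
      · calc c * (g⁻¹ * x * g⁻¹⁻¹) = g⁻¹ * (g * c * g⁻¹ * x) * g := by group
          _ = _ := by rw [g1, z.Lt x (z.QL hx), ← g1]; group
  have cy : zpowers c ≤ normalizer ((zpowers y : Subgroup G) : Set G) :=
    zpowers_le_of_mem (mem_normalizer_of_conj_mem fun x hx => by
      rw [inv_eq_of_mul_eq_one_right h.cc, C5.inv_zp h.cc h.cy hx]; exact inv_mem hx)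
  have oy := not_dvd_card_of_le h.oK (zpowers_le_of_mem h.hy)
  have fr := FT.H6.frob_sup (K := zpowers y) (R := zpowers c) (fun x hx x1 => eq_bot_iff.mpr
    fun a ha => by
      rcases eq_or_of_mem_zpowers h.cc hx with e | e
      · exact (x1 e).elim
      · exact C5.eq_one_of_inv_comm oy ha.1 h.cc (C5.inv_zp h.cc h.cy ha.1) (e ▸ mem_C.mp ha.2))
    cy (zpowers_ne_bot.mpr h.y1) (zpowers_ne_bot.mpr h.c1)
  have wl := FT.H6.wielandt G _ _ _ V fr (sup_le (zpowers_le_of_mem yV) (zpowers_le_of_mem cV))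
    (coprime_card_of_isPGroup hV.isPGroup (sup_comm (zpowers c) _ ▸ not_dvd_card_sup
      (by rw [card_zp h.cc h.c1]; decide) (not_dvd_card_of_le h.h3 (zpowers_le_of_mem h.hy)) cy))
    (solv_of_odd oV)
  have a2 : ∀ X : Subgroup G, w ∈ X → X ≤ centralizer {y} → Nat.card ↥(V ⊓ X) = 3 := fun X h1 h2 =>
    Nat.dvd_antisymm (h.card3 h.h3 (hV.isPGroup.to_le inf_le_left) (not_dvd_card_of_le oV inf_le_left)
      (inf_le_left.trans (hV.le.trans Ow)) (inf_le_right.trans h2))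
      (h.ow ▸ orderOf_dvd_natCard _ (mem_inf.mpr ⟨wV, h1⟩))
  rw [centralizer_sup, centralizer_zpowers, centralizer_zpowers, card_zp h.cc h.c1, a1,
    a2 _ (mem_inf.mpr ⟨mem_C.mpr h.hw.symm, wc⟩) inf_le_left, a2 _ (mem_C.mpr h.hw.symm) le_rfl] at wl
  obtain ⟨P, hP, PQ, nQ, -⟩ := z.exP
  rw [(syl_top z.ag (by decide) h.n4 hV wV).card_eq_card hP] at wl
  have oP := odd_of (by decide) hP.isPGroup
  have tP : t ∈ normalizer (P : Set G) := nQ (le_normalizer_of_le_centralizer le_rfl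
    (mem_centralizer_iff.mpr fun x hx => (z.Lt x (z.QL hx)).symm))
  obtain ⟨v, hv, vt⟩ : ∃ v ∈ P, v ∉ centralizer ({t} : Set G) := by
    by_contra hc
    push Not at hc
    rw [inf_eq_left.mpr hc] at PQ
    rw [PQ, z.cardQ] at wl
    nlinarith
  have hx := C5.conj_mem z.tt tP hv
  have tx := C5.inv_comm z.tt v
  have x1 : v * t * v⁻¹ * t ≠ 1 := fun e => vt (mem_C.mpr (by
    calc t * v = (v * t * v⁻¹ * t) * (t * v) := by rw [e, one_mul]
      _ = v * t * v⁻¹ * (t * t) * v := by group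
      _ = _ := by rw [z.tt]; group))
  generalize v * t * v⁻¹ * t = x at hx tx x1
  have QP : Q ≤ P := PQ ▸ inf_le_left
  have dx : ∀ d : D, (d : G) * x * (d : G)⁻¹ ∈ P := fun d =>
    conj_mem_of_mem_normalizer (nQ (z.normD d.2)) hx
  have tdx : ∀ d : D, t * ((d : G) * x * (d : G)⁻¹) * t = ((d : G) * x * (d : G)⁻¹)⁻¹ := fun d => by
    have e := z.Lt d (z.DL d.2)
    calc _ = (t * d) * x * (t⁻¹ * d)⁻¹ := by group
      _ = d * (t * x * t) * (d : G)⁻¹ := by
        rw [inv_eq_of_mul_eq_one_right z.tt, e, mul_inv_rev, inv_eq_of_mul_eq_one_right z.tt]; group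
      _ = _ := by rw [tx]; group
  have inj := Nat.card_le_card_of_injective
    (fun a : D × Q => (⟨a.2 * (a.1 * x * (a.1 : G)⁻¹), mul_mem (QP a.2.2) (dx a.1)⟩ : P)) (by
      rintro ⟨d, a⟩ ⟨d', a'⟩ e
      have e1 : (a : G) * (d * x * (d : G)⁻¹) = a' * (d' * x * (d' : G)⁻¹) := congrArg Subtype.val e
      have e2 : (a' : G)⁻¹ * a = (d' * x * (d' : G)⁻¹) * (d * x * (d : G)⁻¹)⁻¹ := by
        rw [inv_mul_eq_iff_eq_mul, ← mul_assoc, ← e1]; group
      have e3 : (a' : G)⁻¹ * a = 1 := by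
        have m := mul_mem (inv_mem a'.2) a.2
        refine C5.eq_one_of_inv_comm oP (QP m) z.tt ?_ (z.Lt _ (z.QL m))
        have b1 := tdx d'
        have b2 := C5.inv_zp z.tt (tdx d) (inv_mem (mem_zpowers _))
        have b3 := z.ag.comm hP.isPGroup (inv_mem (dx d')) (dx d)
        rw [e2]
        generalize (d : G) * x * (d : G)⁻¹ = α at b2 b3
        generalize (d' : G) * x * (d' : G)⁻¹ = β at b1 b3
        calc t * (β * α⁻¹) * t = (t * β * t) * (t * t)⁻¹ * (t * α⁻¹ * t) := by group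
          _ = _ := by rw [b1, b2, z.tt, inv_one, mul_one, inv_inv, b3]; group
      rw [e3, eq_comm, mul_inv_eq_one] at e2
      obtain ⟨k, hk⟩ := pow_eq_one_of_isPGroup hP.isPGroup hx
      have e4 : (d : G)⁻¹ * d' = 1 := by
        by_contra e4
        refine sr z hq hu (mul_mem (inv_mem d.2) d'.2) e4 x1 hk ?_
        calc (d : G)⁻¹ * d' * x = (d : G)⁻¹ * (d' * x * (d' : G)⁻¹) * d' := by group
          _ = _ := by rw [e2]; group
      rw [Prod.mk.injEq]
      exact ⟨Subtype.ext (inv_mul_eq_one.mp e4), Subtype.ext (inv_mul_eq_one.mp e3).symm⟩)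
  have cD := z.cardD
  rw [Nat.card_prod, z.cardQ, show Nat.card D = n by omega] at inj
  nlinarith

end Hy

end Fp2

theorem RZ.fpf2 {t u c w : G} {L K Q D : Subgroup G} {p q n : ℕ} (h : RZ t u c w L K Q D p q n)
    (h3 : ¬ 3 ∣ Nat.card K) {y : G} (hy : y ∈ K) (y1 : y ≠ 1) (hw : w * y = y * w)
    (b0a : ∀ g, y * g = g * y → w * g = g * w → Odd (orderOf g) → g ∈ K ⊔ zpowers w)
    (b0b : ∀ g ∈ normalizer ((zpowers y : Subgroup G) : Set G), Odd (orderOf g) → y * g = g * y)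
    (hp : (orderOf y).Prime) : False :=
  have H : Fp2.Hy t u c w L K Q D p q n y := ⟨h, h3, hy, y1, hw, b0a, b0b, hp⟩
  (em (3 ∣ n)).elim H.case_n H.case_p

end Cfsg.Agent.Lib.AG
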