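/-
A-groups project (S2554), Part II, piece L2: `w` acts fixed point freely on `K`.
-/
import Cfsg.Agent.Lib.AG.Fpf0
import Cfsg.Agent.Lib.AG.Fpf2

set_option autoImplicit false

namespace Cfsg.Agent.Lib.AG

open Subgroup Cfsg.Agent.Lib.Core

universe u

variable {G : Type u} [Group G] [Finite G]
  {t u c w : G} {L K Q D : Subgroup G} {p q n : ℕ} (h : RZ t u c w L K Q D p q n)
include h

theorem RZ.fpf {y : G} (hy : y ∈ K) (hw : w * y = y * w) : y = 1 := by
  by_contra y1
  obtain ⟨r, hr, dr⟩ := Nat.exists_prime_and_dvd (mt orderOf_eq_one_iff.1 y1)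
  have o := orderOf_pow_orderOf_div (orderOf_pos y).ne' dr
  have m := pow_mem hy (orderOf y / r)
  have c' : w * y ^ (orderOf y / r) = y ^ (orderOf y / r) * w := Commute.pow_right hw _
  have y1' : y ^ (orderOf y / r) ≠ 1 := fun e => hr.ne_one (by rw [← o, e, orderOf_one])
  exact h.fpf2 h.not3 m y1' c' (fun g h1 h2 _ => h.b0a m y1' c' g h1 h2) (h.b0b m y1' c') (by rwa [o])

end Cfsg.Agent.Lib.AG
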