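/-
A-groups project (S2554), piece GAM: an odd prime `r` whose Sylow subgroup `R` of `C(t)` is
centralised by `N(S)`.
-/
import Cfsg.Agent.Lib.AG.Cx0
import Cfsg.Agent.Lib.AG.Kn
import Cfsg.Agent.FT.BG02GL

set_option autoImplicit false

namespace Cfsg.Agent.Lib.AG.Gm

open Subgroup Cfsg.Agent.Lib.Core
open scoped commutatorElement

universe u

local notation "C[" a "]" => centralizer ({a} : Set _)
local notation "𝐍" X:max => normalizer (SetLike.coe X)
local notation "𝐂" X:max => centralizer (SetLike.coe X)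
local notation "cj(" g ", " X ")" => Subgroup.map (MulEquiv.toMonoidHom (MulAut.conj g)) X

variable {G : Type u} [Group G] [Finite G]

structure GR (S R : Subgroup G) (t w : G) (r : ℕ) : Prop where
  ag : AG G
  simple : IsSimpleGroup G
  ih : IH.{u} (Nat.card G)
  syl : IsSyl 2 S ⊤
  card : Nat.card S = 8
  sq : ∀ x ∈ S, x * x = 1
  tS : t ∈ S
  t1 : t ≠ 1
  trans : ∀ x ∈ S, x ≠ 1 → ∃ g ∈ normalizer (S : Set G), g * t * g⁻¹ = x
  r2 : r ≠ 2
  r3 : r ≠ 3
  R1 : R ≠ ⊥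
  Rsyl : IsSyl r R (centralizer {t})
  NR : normalizer (S : Set G) ≤ centralizer (R : Set G)
  wN : w ∈ normalizer (S : Set G)
  wC : w ∉ centralizer (S : Set G)
  wr : ¬ r ∣ orderOf w

theorem relIndex_sup' {H O : Subgroup G} (h : H ≤ 𝐍 O) : H.relIndex (H ⊔ O) = H.relIndex O := by
  have h1 := card_sup_mul_card_inf h
  rw [← card_mul_relIndex (le_sup_left : H ≤ H ⊔ O), ← card_inf_mul_relIndex H O, mul_assoc,
    mul_comm (H.relIndex _)] at h1
  exact Nat.eq_of_mul_eq_mul_left Nat.card_pos (Nat.eq_of_mul_eq_mul_left Nat.card_pos h1)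

theorem idx {S : Subgroup G} {t : G} (tS : t ∈ S) (t1 : t ≠ 1)
    (tr : ∀ x ∈ S, x ≠ 1 → ∃ g ∈ normalizer (S : Set G), g * t * g⁻¹ = x) :
    (C[t]).relIndex (𝐍 S) + 1 = Nat.card S := by
  let : MulAction (𝐍 S) G := MulAction.compHom G (MulAut.conj.comp (𝐍 S).subtype)
  have e : ∀ (g : 𝐍 S) (x : G), g • x = g * x * (g : G)⁻¹ := fun _ _ => rfl
  have h1 : MulAction.stabilizer (𝐍 S) t = (C[t]).subgroupOf (𝐍 S) := by
    ext g
    rw [MulAction.mem_stabilizer_iff, e, mem_subgroupOf, mem_C, mul_inv_eq_iff_eq_mul, eq_comm]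
  have h2 : MulAction.orbit (𝐍 S) t = (S : Set G) \ {1} := by
    ext x
    constructor
    · rintro ⟨g, rfl⟩
      exact ⟨conj_mem_of_mem_normalizer g.2 tS, fun h => t1 (by simpa [e] using h)⟩
    · rintro ⟨h3, h4⟩
      obtain ⟨g, hg, h5⟩ := tr x h3 h4
      exact ⟨⟨g, hg⟩, h5⟩
  rw [relIndex, ← h1, MulAction.index_stabilizer, h2,
    Set.ncard_sdiff_singleton_add_one (one_mem S) (Set.toFinite _)]
  rfl

theorem le_of_prime {H U N : Subgroup G} {p : ℕ} (hp : p.Prime) (hi : H.relIndex N = p)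
    (hU : H ⊓ N ≤ U) (hUN : U ≤ N) : U ≤ H ∨ N ≤ U := by
  have h1 := relIndex_mul_relIndex (H ⊓ N) U N hU hUN
  rw [inf_relIndex_right, hi] at h1
  rcases (Nat.dvd_prime hp).1 (Dvd.intro _ h1) with h2 | h2
  · exact Or.inl ((relIndex_eq_one.1 h2).trans inf_le_left)
  · rw [h2] at h1
    exact Or.inr (relIndex_eq_one.1 (by simpa [hp.ne_zero] using h1))

theorem cent_N {p : ℕ} [Fact p.Prime] (hA : AG G) (h : commutator G = ⊤) {P : Subgroup G}
    (hP : IsSyl p P ⊤) : P ⊓ 𝐂 (𝐍 P) = ⊥ := by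
  obtain ⟨P, rfl⟩ := hP.exists_sylow_top
  have := hA.isMulCommutative P.2
  obtain ⟨-, h1, -⟩ := Transfer.commutator_sup_centralizer_of_abelian (A := (P : Subgroup G))
    le_normalizer le_rfl (Transfer.coprime_card_sylow_relIndex P le_normalizer)
  rwa [← Transfer.commutator_inf_abelian_sylow, h, top_inf_eq, ← inf_assoc, inf_idem] at h1

theorem le_of_cj {S U : Subgroup G} {t : G}
    (tr : ∀ x ∈ S, x ≠ 1 → ∃ g ∈ normalizer (S : Set G), g * t * g⁻¹ = x)
    (hn : 𝐍 S ≤ 𝐍 U) (h : U ≤ C[t]) : U ≤ 𝐂 S := fun y hy => mem_centralizer_iff.2 fun x hx => by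
  by_cases x1 : x = 1
  · simp [x1]
  obtain ⟨g, hg, rfl⟩ := tr x hx x1
  have := mem_C.1 (h (conj_mem_of_mem_normalizer' (hn hg) hy))
  calc g * t * g⁻¹ * y = g * (t * (g⁻¹ * y * g)) * g⁻¹ := by group
    _ = _ := by rw [this]; group

variable {S R : Subgroup G} {t w : G} {r : ℕ} [hr : Fact r.Prime] (h : GR S R t w r)
include h

namespace GR

omit hr in
theorem idx7 : (C[t]).relIndex (𝐍 S) = 7 := by
  have := idx h.tS h.t1 h.trans
  rw [h.card] at this
  omega

omit hr in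
theorem perfect : commutator G = ⊤ := by
  have := h.simple
  refine (commutator_normal ⊤ ⊤).eq_bot_or_eq_top.resolve_left fun e => h.wC ?_
  exact mem_centralizer_iff.2 fun x _ => commutatorElement_eq_one_iff_mul_comm.1
    (mem_bot.1 (e.le (commutator_mem_commutator (mem_top x) (mem_top w))))

omit hr in
theorem SR : S ≤ 𝐂 R := le_normalizer.trans h.NR

omit hr in
theorem RS : R ≤ 𝐂 S := le_centralizer_iff.1 h.SR

omit hr in
theorem RN : R ≤ 𝐍 S := le_normalizer_of_le_centralizer h.RS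

omit hr in
theorem sq' {T : Subgroup G} (hT : IsPGroup 2 T) {x : G} (hx : x ∈ T) : x * x = 1 := by
  obtain ⟨g, -, hg⟩ := h.syl.exists_conj_le hT le_top
  have := h.sq _ (map_conj_le_iff.1 hg x hx)
  rwa [show g * x * g⁻¹ * (g * x * g⁻¹) = g * (x * x) * g⁻¹ by group, conj_eq_one_iff] at this

omit hr in
theorem odd_sq (g : G) : ¬ 2 ∣ orderOf (g * g) := fun e => by
  have h1 : orderOf g ≠ 0 := (orderOf_pos g).ne'
  have h2 : ¬ 4 ∣ orderOf g := fun e => by
    have h3 : orderOf (g ^ (orderOf g / 4)) = 4 := orderOf_pow_orderOf_div h1 e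
    have h4 := h.sq' (isPGroup_zpowers (p := 2) (k := 2) (h3 ▸ pow_orderOf_eq_one _))
      (mem_zpowers _)
    have := h3 ▸ orderOf_dvd_of_pow_eq_one ((pow_two _).trans h4)
    omega
  rw [← pow_two, orderOf_pow' _ two_ne_zero] at e
  rcases (Nat.dvd_prime Nat.prime_two).1 (Nat.gcd_dvd_right (orderOf g) 2) with h3 | h3
  · rw [h3, Nat.div_one] at e
    have := Nat.dvd_gcd e dvd_rfl
    omega
  · rw [h3] at e
    have := h3 ▸ Nat.gcd_dvd_left (orderOf g) 2
    omega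

omit hr in
theorem nc {Y : Subgroup G} (hY : Y ≤ R) : 𝐍 Y ≤ 𝐂 Y := fun g hg => by
  have h1 := centralizer_le_centralizer hY
  obtain ⟨c, hc, m, hm, rfl⟩ := (h.syl.mono (h.SR.trans h1) le_top).frattini
    (le_normalizer_centralizer le_rfl) hg
  exact mul_mem hc (h1 (h.NR hm))

theorem conjR {e : G} (ee : e * e = 1) (e1 : e ≠ 1) {Y : Subgroup G} (hY : IsPGroup r Y)
    (hc : Y ≤ C[e]) : ∃ g, cj(g, Y) ≤ R := by
  obtain ⟨a, -, ha⟩ := h.syl.exists_conj_le (isPGroup_zpowers (p := 2) (k := 1)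
    (by rwa [pow_one, pow_two])) le_top
  obtain ⟨b, -, hb⟩ := h.trans _ (map_conj_le_iff.1 ha e (mem_zpowers e)) (by simpa using e1)
  have h1 : cj(b⁻¹ * a, Y) ≤ C[t] := by
    have := map_mono (f := (MulAut.conj (b⁻¹ * a)).toMonoidHom) hc
    rwa [map_conj_centralizer_singleton, show b⁻¹ * a * e * (b⁻¹ * a)⁻¹ =
      b⁻¹ * (a * e * a⁻¹) * b by group, ← hb, show b⁻¹ * (b * t * b⁻¹) * b = t by group] at this
  obtain ⟨c, -, h2⟩ := h.Rsyl.exists_conj_le (hY.map _) h1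
  exact ⟨_, map_conj_map_conj Y _ _ ▸ h2⟩

theorem nc' {e : G} (ee : e * e = 1) (e1 : e ≠ 1) {Y : Subgroup G} (hY : IsPGroup r Y)
    (hc : Y ≤ C[e]) : 𝐍 Y ≤ 𝐂 Y := by
  obtain ⟨g, hg⟩ := h.conjR ee e1 hY hc
  have := h.nc hg
  rw [← map_conj_normalizer, ← map_conj_centralizer] at this
  exact (map_le_map_iff_of_injective (MulAut.conj g).injective).1 this

variable {P : Subgroup G} (hP : IsSyl r P ⊤) (hR : R ≤ P)
include hP hR

theorem not_N : ¬ 𝐍 P ≤ 𝐂 R := fun e => h.R1 (eq_bot_iff.2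
  ((le_inf hR (le_centralizer_iff.1 e)).trans (cent_N h.ag h.perfect hP).le))

theorem ne : P ≠ R := fun e => h.not_N hP hR (e ▸ h.nc e.le)

theorem not4 : ¬ 4 ∣ Nat.card (𝐍 P) := fun e => by
  obtain ⟨T, hT⟩ := exists_isSyl (p := 2) (𝐍 P)
  have h4 : 4 ≤ Nat.card T := by
    rw [hT.card_eq]
    exact Nat.pow_le_pow_right (n := 2) (by norm_num) (i := 2)
      ((Nat.prime_two.pow_dvd_iff_le_factorization Nat.card_pos.ne').1 e)
  have hc := h.ag.isMulCommutative hT.isPGroup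
  have hcy : ¬ IsCyclic T := fun hc' => by
    have := card_le_of_isCyclic_of_isElementaryAbelian (p := 2)
      ⟨hc, fun x hx => by rw [pow_two, h.sq' hT.isPGroup hx]⟩ hc'
    omega
  have hC : P ≤ 𝐂 T := le_of_centralizers hc hcy hT.le
    (coprime_card_of_isPGroup hT.isPGroup (not_dvd_card_of_isPGroup hP.isPGroup h.r2.symm))
    fun a ha a1 => le_centralizer_iff.1 ((le_normalizer_inf hT.le (le_normalizer.trans' (h.ag.le_centralizer_singleton hT.isPGroup ha))).trans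
      (h.nc' (h.sq' hT.isPGroup ha) a1 (hP.isPGroup.to_le inf_le_left) inf_le_right))
  obtain ⟨⟨a, ha⟩, a1⟩ := ne_bot_iff_exists_ne_one.1
    (show T ≠ ⊥ from fun e => by rw [e, card_bot] at h4; omega)
  obtain ⟨g, hg⟩ := h.conjR (h.sq' hT.isPGroup ha) (fun e => a1 (Subtype.ext e)) hP.isPGroup
    (hC.trans (centralizer_le (by simpa using ha)))
  have := card_le_of_le hg
  rw [card_map_conj] at this
  exact h.ne hP hR (eq_of_le_of_card_ge hR this).symm

theorem final (hi : Nat.card P = Nat.card R * r) {g : G} (hg : g ∈ 𝐍 P) (hgR : g ∈ 𝐂 R) :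
    g * g ∈ 𝐂 P := by
  by_contra hgP
  have hPc := h.ag.le_centralizer hP.isPGroup le_rfl le_rfl
  obtain ⟨-, T, hT, hTN, hs⟩ := solv_of_not_four (h.not4 hP hR)
  set O := OppOf 2 (𝐍 P)
  have hO : ∀ x ∈ 𝐍 P, x * x ∈ O := fun x hx => zpowers_le.1 (le_O_of_odd hT hTN hs
    (zpowers_le.2 (mul_mem hx hx)) (by rw [Nat.card_zpowers]; exact h.odd_sq x))
  have hPO : P ≤ O := le_OppOf le_normalizer le_rfl (not_dvd_card_of_isPGroup hP.isPGroup h.r2.symm)
  have hON : O ≤ 𝐍 P := OppOf_le _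
  have hi' : ¬ r ∣ P.relIndex O := (hP.mono hPO le_top).not_dvd_relIndex le_rfl
  obtain ⟨B, hB, -, hBP, hcB⟩ := exists_complement hPO hON (by
    obtain ⟨k, hk⟩ := IsPGroup.iff_card.1 hP.isPGroup
    rw [hk]; exact (hr.out.coprime_iff_not_dvd.2 hi').pow_left k)
  rw [← hcB] at hi'
  -- elements with fixed subgroup of index `r`
  have key : ∀ n ∈ 𝐍 P, ∃ b ∈ B, P ⊓ C[b] = cj(n, R) := fun n hn => by
    have h1 := hO _ (mul_mem (mul_mem hn hg) (inv_mem hn))
    rw [← hBP, mem_sup_of_le_normalizer_right (hB.trans hON)] at h1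
    obtain ⟨b, hb, y, hy, e⟩ := h1
    refine ⟨b, hb, ?_⟩
    have e' : b = n * (g * g) * n⁻¹ * y⁻¹ := by rw [eq_mul_inv_iff_mul_eq, e]; group
    have h2 : cj(n, R) ≤ P := map_conj_le_of_le hR hn
    have h3 : cj(n, R) ≤ C[b] := by
      rw [← centralizer_zpowers, le_centralizer_iff, zpowers_le, e']
      refine mul_mem ?_ (inv_mem (centralizer_le_centralizer h2 (hPc hy)))
      rw [← map_conj_centralizer]
      exact conj_mem_map_conj.2 (mul_mem hgR hgR)
    have h4 : (cj(n, R)).relIndex P = r := by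
      have := card_mul_relIndex h2
      rw [card_map_conj, hi] at this
      exact Nat.eq_of_mul_eq_mul_left Nat.card_pos this
    rcases le_of_prime hr.out h4 (U := P ⊓ C[b]) (inf_le_left.trans (le_inf h2 h3)) inf_le_left
      with h5 | h5
    · exact le_antisymm h5 (le_inf h2 h3)
    · have h6 : b ∈ 𝐂 P := by
        rw [← zpowers_le, le_centralizer_iff, centralizer_zpowers]; exact h5.trans inf_le_right
      have h7 := conj_mem_of_mem_normalizer' (le_normalizer_centralizer le_rfl hn)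
        (mul_mem h6 (hPc hy))
      rw [e'] at h7
      exact (hgP (by convert h7 using 1; group)).elim
  refine h.not_N hP hR fun n hn => h.nc le_rfl ?_
  obtain ⟨b, hb, e⟩ := key 1 (one_mem _)
  obtain ⟨c, hc, e'⟩ := key n hn
  rw [map_conj_one] at e
  set R' := cj(n, R)
  have hR' : R' ≤ P := e'.ge.trans inf_le_left
  have hcR : Nat.card R' = Nat.card R := card_map_conj _ _
  have i1 : ∀ U ≤ P, Nat.card U = Nat.card R → U.relIndex P = r := fun U hU hc => by
    have := card_mul_relIndex hU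
    rw [hc, hi] at this
    exact Nat.eq_of_mul_eq_mul_left Nat.card_pos this
  have n1 : ∀ U ≤ P, P ≤ 𝐍 U := fun U hU =>
    le_normalizer_of_le_centralizer (hPc.trans (centralizer_le_centralizer hU))
  have x1 : ∀ U ≤ P, Nat.card U = Nat.card R → ∀ x ∈ P, x ^ r ∈ U := fun U hU hc x hx => by
    have := normal_subgroupOf_of_le_normalizer (n1 U hU)
    have h1 : (⟨x, hx⟩ : P) ^ (U.subgroupOf P).index ∈ U.subgroupOf P := pow_index_mem _ _
    rwa [← relIndex, i1 U hU hc] at h1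
  set A := B ⊓ 𝐂 (R ⊓ R' : Subgroup G)
  have hAB : A ≤ B := inf_le_left
  have hAN : A ≤ 𝐍 P := hAB.trans (hB.trans hON)
  have hA : ¬ r ∣ Nat.card A := not_dvd_card_of_le hi' hAB
  have h1 : ⁅P, ⁅A, A⁆⁆ ≤ R ⊓ R' := FT.charf'_GL2_abelian_sec (p := r)
    ⟨inf_le_left.trans hR, n1 _ (inf_le_left.trans hR)⟩ hAN
    (le_normalizer_of_le_centralizer inf_le_right)
    ((commutator_eq_bot_iff_le_centralizer.2 hPc).le.trans bot_le)
    (fun x hx => ⟨x1 R hR rfl x hx, x1 R' hR' hcR x hx⟩)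
    (by
      rw [← relIndex_mul_relIndex (R ⊓ R') R' P inf_le_right hR', i1 R' hR' hcR, pow_two,
        inf_relIndex_right]
      have := normal_subgroupOf_of_le_normalizer (n1 R hR)
      have h2 := relIndex_dvd_index_of_normal (R.subgroupOf P) (R'.subgroupOf P)
      rw [relIndex_subgroupOf hR', ← relIndex, i1 R hR rfl] at h2
      exact Nat.mul_dvd_mul_right h2 r)
    (Nat.odd_iff.2 (Nat.two_dvd_ne_zero.1 (not_dvd_card_of_le (OppOf_not_dvd _) (hAB.trans hB)))) hA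
  have hAA : ⁅A, A⁆ ≤ A := commutator_le_of_le_normalizer_left le_normalizer
  have h2 : P ≤ 𝐂 (⁅A, A⁆ : Subgroup G) := (coprimeAct_of_isPGroup_right
    (not_dvd_card_of_le hA hAA) hP.isPGroup (hAA.trans hAN)).le_centralizer
    (h1.trans (le_centralizer_iff.1 (hAA.trans inf_le_right)))
  have mA : ∀ x ∈ B, R ⊓ R' ≤ C[x] → x ∈ A := fun x hx hc => mem_inf.2 ⟨hx, by
    rw [← zpowers_le, le_centralizer_iff, centralizer_zpowers]; exact hc⟩
  have h3 := le_centralizer_iff.1 h2 (commutator_mem_commutator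
    (mA c hc (inf_le_right.trans (e'.ge.trans inf_le_right)))
    (mA b hb (inf_le_left.trans (e.ge.trans inf_le_right))))
  have h4 : c⁻¹ ∈ 𝐍 R := mem_normalizer_of_conj_mem fun x hx => by
    rw [← e] at hx ⊢
    have h5 := conj_mem_of_mem_normalizer (inv_mem (hON (hB hc))) hx.1
    refine ⟨h5, mem_C.2 ?_⟩
    have h6 := mem_centralizer_iff.1 h3 x hx.1
    have h7 := mem_C.1 hx.2
    rw [commutatorElement_def] at h6
    calc b * (c⁻¹ * x * c⁻¹⁻¹) = c⁻¹ * (c * b * c⁻¹ * b⁻¹ * (b * x)) * c := by group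
      _ = c⁻¹ * (c * b * c⁻¹ * b⁻¹ * x) * b * c := by rw [h7]; group
      _ = _ := by rw [← h6]; group
  have h5 : R ≤ R' := by
    rw [← e']
    refine le_inf hR ?_
    rw [← centralizer_zpowers, le_centralizer_iff, zpowers_le]
    exact inv_mem_iff.1 (h.nc le_rfl h4)
  exact map_conj_eq_iff.1 (eq_of_le_of_card_ge h5 hcR.le).symm

end GR

end Cfsg.Agent.Lib.AG.Gm
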