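/-
A-groups project (S2554), piece GAM: the structure of `C(R)`.
-/
import Cfsg.Agent.Lib.AG.Gam1
import Cfsg.Agent.Lib.AG.Del1

set_option autoImplicit false

namespace Cfsg.Agent.Lib.AG.Gm

open Subgroup Cfsg.Agent.Lib.Core
open scoped commutatorElement

universe u

local notation "C[" a "]" => centralizer ({a} : Set _)
local notation "𝐍" X:max => normalizer (SetLike.coe X)
local notation "𝐂" X:max => centralizer (SetLike.coe X)
local notation "cj(" g ", " X ")" => Subgroup.map (MulEquiv.toMonoidHom (MulAut.conj g)) X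

variable {G : Type u} [Group G] [Finite G]

theorem card_syl {r : ℕ} [hr : Fact r.Prime] {P : Subgroup G} (hP : IsSyl r P ⊤) (h1 : P ≠ ⊥)
    (h2 : ¬ r ^ 2 ∣ Nat.card G) : Nat.card P = r := by
  obtain ⟨k, hk⟩ := IsPGroup.iff_card.1 hP.isPGroup
  have h3 := hk ▸ card_subgroup_dvd_card P
  rcases k with _ | _ | k
  · exact absurd (card_eq_one.1 hk) h1
  · simpa using hk
  · exact absurd ((pow_dvd_pow r (by omega)).trans h3) h2

theorem j1 [IsSimpleGroup G] {t : G} {φ : Root.J1.T →* G} (H : Root.J1.Hyp t φ) {r : ℕ}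
    [hr : Fact r.Prime] (h : r = 11 ∨ r = 19) {P : Subgroup G} (hP : IsSyl r P ⊤)
    (hc : Nat.card P = r) : ¬ ∀ g ∈ 𝐍 P, g * g ∈ 𝐂 P := fun hg => by
  have hG := H.card_G
  have := isCyclic_of_prime_card hc
  obtain ⟨⟨y, hy⟩, y1⟩ := ne_bot_iff_exists_ne_one.1
    (show P ≠ ⊥ from fun e => by rw [e, card_bot] at hc; omega)
  have h1 : (Nat.card (𝐂 P)).Coprime 30 := (H.big_coprime (g := y) (fun e => y1 (Subtype.ext e))
    (Nat.Coprime.coprime_dvd_left (hc ▸ orderOf_dvd_natCard P hy)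
      (by rcases h with rfl | rfl <;> decide))).coprime_dvd_left
    (card_dvd_of_le (centralizer_le (by simpa using hy)))
  have h2 : (𝐂 P).relIndex (𝐍 P) = Nat.card P.normalizerMonoidHom.range := by
    rw [relIndex, ← P.normalizerMonoidHom_ker, index_ker]
  have h3 : (𝐂 P).relIndex (𝐍 P) ∣ r - 1 := by
    rw [h2, ← Nat.totient_prime hr.out, ← hc, ← IsCyclic.card_mulAut]
    exact card_subgroup_dvd_card _
  have h4 : ∀ l, l.Prime → l ∣ (𝐂 P).relIndex (𝐍 P) → l ∣ 2 := fun l hl hd => by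
    have := Fact.mk hl
    obtain ⟨⟨_, g, rfl⟩, h5⟩ := exists_prime_orderOf_dvd_card' l (h2 ▸ hd)
    rw [← h5]
    refine orderOf_dvd_of_pow_eq_one (Subtype.ext ?_)
    change P.normalizerMonoidHom g ^ 2 = 1
    rw [← map_pow, ← MonoidHom.mem_ker, P.normalizerMonoidHom_ker, pow_two]
    exact hg g g.2
  obtain ⟨Q, rfl⟩ := hP.exists_sylow_top
  have h5 := card_sylow_modEq_one r G
  rw [Q.card_eq_index_normalizer] at h5
  have h6 := (𝐍 (Q : Subgroup G)).card_mul_index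
  rw [← card_mul_relIndex (centralizer_le_normalizer ((Q : Subgroup G) : Set G)), hG] at h6
  obtain ⟨c, h7⟩ : r ∣ Nat.card (𝐂 (Q : Subgroup G)) := hc.symm.dvd.trans (card_dvd_of_le
    (le_centralizer (Q : Subgroup G)))
  rw [h7] at h1 h6
  replace h1 := h1.coprime_mul_left
  generalize (𝐂 (Q : Subgroup G)).relIndex (𝐍 (Q : Subgroup G)) = a at *
  change (𝐍 (Q : Subgroup G)).index % r = 1 % r at h5
  generalize (𝐍 (Q : Subgroup G)).index = n at *
  have h8 := mt (h4 5 (by norm_num)) (by norm_num)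
  have h9 := mt (h4 3 (by norm_num)) (by norm_num)
  rcases h with rfl | rfl
  · have h10 : c ∣ 133 := (h1.coprime_dvd_right (by norm_num : 30 ∣ 30)).pow_right 3
      |>.coprime_dvd_right (by norm_num : 120 ∣ 30 ^ 3) |>.dvd_of_dvd_mul_left
        ⟨a * n, by nlinarith⟩
    have := Nat.le_of_dvd (by norm_num) h3
    have h11 : c = 1 ∨ c = 7 ∨ c = 19 ∨ c = 133 := by
      have : c ∈ Nat.divisors 133 := by simpa using h10
      revert this; rw [show Nat.divisors 133 = {1, 7, 19, 133} by decide +kernel]; simp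
    rcases h11 with rfl | rfl | rfl | rfl <;> interval_cases a <;> omega
  · have h10 : c ∣ 77 := (h1.coprime_dvd_right (by norm_num : 30 ∣ 30)).pow_right 3
      |>.coprime_dvd_right (by norm_num : 120 ∣ 30 ^ 3) |>.dvd_of_dvd_mul_left
        ⟨a * n, by nlinarith⟩
    have := Nat.le_of_dvd (by norm_num) h3
    have h11 : c = 1 ∨ c = 7 ∨ c = 11 ∨ c = 77 := by
      have : c ∈ Nat.divisors 77 := by simpa using h10
      revert this; rw [show Nat.divisors 77 = {1, 7, 11, 77} by decide +kernel]; simp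
    rcases h11 with rfl | rfl | rfl | rfl <;> interval_cases a <;> omega

variable {S R : Subgroup G} {t w : G} {r : ℕ} [hr : Fact r.Prime] (h : GR S R t w r)
include h

namespace GR

theorem sylN {P : Subgroup G} (hP : IsSyl r P (𝐍 S)) (hR : R ≤ P) :
    P = R ∨ (r = 7 ∧ Nat.card P = Nat.card R * r) := by
  have h0 : IsSyl r R (C[t] ⊓ 𝐍 S) := h.Rsyl.mono (le_inf h.Rsyl.le h.RN) inf_le_left
  by_cases r7 : r = 7
  · refine Or.inr ⟨r7, ?_⟩
    rw [hP.card_eq, h0.card_eq, ← card_inf_mul_relIndex C[t] (𝐍 S), h.idx7,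
      Nat.factorization_mul Nat.card_pos.ne' (by norm_num), ← r7, Finsupp.add_apply,
      hr.out.factorization_self, pow_succ]
  · refine Or.inl ((h0.trans inf_le_right ?_).eq_of_le hP.isPGroup hR hP.le)
    rw [inf_relIndex_right, h.idx7]
    exact fun e => r7 ((Nat.prime_dvd_prime_iff_eq hr.out (by norm_num)).1 e)

theorem f21 {P : Subgroup G} (hP : IsSyl r P ⊤) (hR : R ≤ P) (hN : P ≤ 𝐍 S) : False := by
  have hP' := hP.mono hN le_top
  obtain ⟨r7, hc⟩ := (h.sylN hP' hR).resolve_left (h.ne hP hR)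
  have h1 : 𝐍 S ⊓ 𝐍 P ≤ 𝐂 P := fun g hg => by
    have h2 := h.final hP hR hc hg.2 (h.NR hg.1)
    obtain ⟨m, hm⟩ := Nat.odd_iff.2 (Nat.two_dvd_ne_zero.1 (h.odd_sq g))
    have h3 : (g ^ (2 * m + 1)) ^ 2 ^ 1 = 1 := by
      rw [pow_one, ← pow_mul, mul_comm, pow_mul, pow_two, ← hm, pow_orderOf_eq_one]
    have h4 : zpowers (g ^ (2 * m + 1)) ≤ S ⊓ 𝐍 P := le_inf
      ((h.syl.mono le_normalizer le_top).le_of_le_normalizer' (isPGroup_zpowers h3)
        (zpowers_le.2 (pow_mem hg.1 _)) (zpowers_le.2 (pow_mem hg.1 _)))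
      (zpowers_le.2 (pow_mem hg.2 _))
    have h5 : S ⊓ 𝐍 P ≤ 𝐂 P := commutator_eq_bot_iff_le_centralizer.1 (eq_bot_iff.2
      ((le_inf ((commutator_mono inf_le_left le_rfl).trans
        (commutator_le_of_le_normalizer_left hN))
        (commutator_le_of_le_normalizer_right inf_le_right)).trans
        (inf_eq_bot_of_isPGroup_of_not_dvd h.syl.isPGroup
          (not_dvd_card_of_isPGroup hP.isPGroup h.r2.symm)).le))
    have h6 := mul_mem (inv_mem (pow_mem h2 m)) (h5 (h4 (mem_zpowers _)))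
    rwa [← pow_two, ← pow_mul, pow_succ, inv_mul_cancel_left] at h6
  have h2 := burnside_sup hP' h1
  set U := OppOf r (𝐍 S)
  have hU : 𝐍 S ≤ 𝐍 U := le_normalizer_OppOf le_normalizer
  have h3 : w ∈ U := by
    refine mem_of_coprime_relIndex hU h.wN ?_
    have h1 : U.relIndex (𝐍 S) = U.relIndex P := by
      nth_rw 1 [← h2]
      rw [sup_comm, relIndex_sup_of_le_normalizer (hN.trans hU)]
    obtain ⟨k, hk⟩ := IsPGroup.iff_card.mp hP.isPGroup
    rw [h1]
    refine Nat.Coprime.coprime_dvd_right (relIndex_dvd_card _ _) ?_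
    rw [hk]
    exact (coprime_iff_not_dvd.mpr h.wr).pow_right _
  refine h.wC (le_of_cj h.trans hU ?_ h3)
  rcases le_of_prime (by norm_num) h.idx7 (U := C[t] ⊓ 𝐍 S ⊔ U) le_sup_left
    (sup_le inf_le_right (OppOf_le _)) with h4 | h4
  · exact le_sup_right.trans h4
  · have h5 := not_dvd_relIndex_of_le_sup (p := r) (OppOf_not_dvd (𝐍 S))
      (K := C[t] ⊓ 𝐍 S) (inf_le_right.trans hU) inf_le_right h4
    rw [inf_relIndex_right, h.idx7, r7] at h5
    exact absurd dvd_rfl h5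

omit hr in
theorem sylX : IsSyl 2 S (𝐂 R) := h.syl.mono h.SR le_top

theorem R_le : R ≤ 𝐂 R := h.ag.le_centralizer h.Rsyl.isPGroup le_rfl le_rfl

theorem Rodd : ¬ 2 ∣ Nat.card R := not_dvd_card_of_isPGroup h.Rsyl.isPGroup h.r2.symm

theorem ne_top : 𝐂 R ≠ ⊤ := fun e => by
  obtain ⟨P, hP, hR⟩ := exists_isSyl_ge h.Rsyl.isPGroup le_top
  exact h.not_N hP hR (le_top.trans e.ge)

theorem R_le_O : R ≤ OppOf 2 (𝐂 R) :=
  le_OppOf h.R_le (centralizer_le_normalizer _) h.Rodd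

theorem sylO : IsSyl r R (OppOf 2 (𝐂 R)) := by
  have hn : S ≤ 𝐍 (OppOf 2 (𝐂 R)) := le_normalizer_OppOf (h.SR.trans le_normalizer)
  obtain ⟨Q, hQ, hS, hR⟩ := (coprimeAct_of_isPGroup_left h.syl.isPGroup (OppOf_not_dvd _)
    hn).exists_isSyl_ge h.Rsyl.isPGroup h.R_le_O (le_normalizer_of_le_centralizer h.SR)
  have hc := h.ag.isMulCommutative h.syl.isPGroup
  suffices Q ≤ R from le_antisymm this hR ▸ hQ
  refine le_of_centralizers hc (fun hc' => ?_) hS
    (coprime_card_of_isPGroup h.syl.isPGroup (not_dvd_card_of_isPGroup hQ.isPGroup h.r2.symm))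
    fun a ha a1 => ?_
  · have := card_le_of_isCyclic_of_isElementaryAbelian (p := 2)
      ⟨hc, fun x hx => by rw [pow_two, h.sq x hx]⟩ hc'
    rw [h.card] at this
    omega
  · obtain ⟨g, hg⟩ := h.conjR (h.sq a ha) a1 (hQ.isPGroup.to_le inf_le_left)
      (inf_le_right : Q ⊓ C[a] ≤ _)
    have := card_le_of_le hg
    rw [card_map_conj] at this
    exact (eq_of_le_of_card_ge (le_inf hR (h.RS.trans (centralizer_le (by simpa using ha))))
      this).ge

theorem solv (hK : ∀ K, ¬ PComp 2 (𝐂 R) K) : False := by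
  have h1 : 𝐂 R ≤ 𝐍 S ⊔ OppOf 2 (𝐂 R) := fact h.ag h.ih h.ne_top h.sylX le_sup_right
    (fun K k => (hK K k).elim) (inf_le_right.trans le_sup_left)
  have hn : 𝐍 S ≤ 𝐍 (OppOf 2 (𝐂 R)) := le_normalizer_OppOf (h.NR.trans le_normalizer)
  obtain ⟨P, hP, hR⟩ := exists_isSyl_ge h.Rsyl.isPGroup h.RN
  obtain ⟨P', hP', hR', hc⟩ := h.ag.exists_syl_le_centralizer h.Rsyl.isPGroup le_top
  have h2 : IsSyl r P (𝐂 R) := hP.trans h.NR (by
    rw [le_antisymm h1 (sup_le h.NR (OppOf_le _)), relIndex_sup' hn]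
    exact h.sylO.not_dvd_relIndex h.RN)
  exact h.f21 (hP'.of_card_le hP.isPGroup le_top (h2.card_le hP'.isPGroup hc)) hR hP.le

section comp
variable {K : Subgroup G} (hK : PComp 2 (𝐂 R) K)
include hK

theorem uniq {L : Subgroup G} (hL : PComp 2 (𝐂 R) L) : K = L := by
  obtain ⟨D, hD⟩ := AG.PComp.cd h.ag h.ih h.ne_top h.sylX hK
  obtain ⟨D', hD'⟩ := AG.PComp.cd h.ag h.ih h.ne_top h.sylX hL
  by_contra hne
  have h1 : K ≤ AG.CM L := DS.le_CM_of_ne hK hL hne
  have h2 : S ⊓ K ⊓ (S ⊓ L) = ⊥ := eq_bot_iff.2 fun x hx => hD'.disj x hx.2 (h1 hx.1.2)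
  have h3 := card_sup_mul_card_inf (H := S ⊓ K) (N := S ⊓ L) (le_normalizer_of_le_centralizer
    (h.ag.le_centralizer h.syl.isPGroup inf_le_left inf_le_left))
  have h4 := card_le_of_le (sup_le inf_le_left inf_le_left : S ⊓ K ⊔ S ⊓ L ≤ S)
  rw [h2, card_bot, mul_one] at h3
  rw [h3, h.card] at h4
  nlinarith [hD.four, hD'.four]

theorem normK : 𝐂 R ≤ 𝐍 K := fun g hg =>
  map_conj_eq_iff.1 (h.uniq (hK.conj (le_normalizer hg)) hK)

theorem SK : S ≤ K := fun x hx => by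
  obtain ⟨D, hD⟩ := AG.PComp.cd h.ag h.ih h.ne_top h.sylX hK
  obtain ⟨⟨a, ha⟩, a1⟩ := ne_bot_iff_exists_ne_one.1
    (show S ⊓ K ≠ ⊥ from fun e => by have := hD.four; rw [e, card_bot] at this; omega)
  by_cases x1 : x = 1
  · simp [x1]
  obtain ⟨g, hg, rfl⟩ := h.trans x hx x1
  obtain ⟨b, hb, e⟩ := h.trans a ha.1 fun e => a1 (Subtype.ext e)
  have := conj_mem_of_mem_normalizer (h.normK hK (h.NR (mul_mem hg (inv_mem hb)))) ha.2
  rwa [← e, show g * b⁻¹ * (b * t * b⁻¹) * (g * b⁻¹)⁻¹ = g * t * g⁻¹ by group] at this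

theorem XK : 𝐂 R ≤ (𝐂 R ⊓ C[t]) ⊔ K := fun g hg => by
  obtain ⟨D, hD⟩ := AG.PComp.cd h.ag h.ih h.ne_top h.sylX hK
  have SK := h.SK hK
  obtain ⟨k, hk, m, hm, rfl⟩ := (h.syl.mono SK le_top).frattini (h.normK hK) hg
  have h1 := conj_mem_of_mem_normalizer hm h.tS
  obtain ⟨d, hd, e⟩ := hD.trans _ ⟨h1, SK h1⟩ t ⟨h.tS, SK h.tS⟩ (by simpa using h.t1) h.t1
  rw [show k * m = k * d⁻¹ * (d * m) by group]
  refine mul_mem (mem_sup_right (mul_mem hk (inv_mem (hD.DK hd))))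
    (mem_sup_left ⟨h.NR (mul_mem (hD.DN hd) hm), mem_C.2 ?_⟩)
  nth_rw 1 [← e]; group

theorem split {P : Subgroup G} (hP : IsSyl r P (𝐂 R)) (hR : R ≤ P) : P = R ⊔ K ⊓ P := by
  have hn := h.normK hK
  have h1 : 𝐂 R ≤ 𝐍 (R ⊔ K : Subgroup G) := le_normalizer_sup (centralizer_le_normalizer _) hn
  have h2 : R ⊔ K ≤ 𝐂 R := sup_le h.R_le hK.le
  have h3 : ¬ r ∣ (R ⊔ K).relIndex (𝐂 R) := by
    have : 𝐂 R = (𝐂 R ⊓ C[t]) ⊔ (R ⊔ K) := le_antisymm
      ((h.XK hK).trans (sup_le_sup_left le_sup_right _)) (sup_le inf_le_left h2)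
    rw [this, relIndex_sup_of_le_normalizer (inf_le_left.trans h1)]
    exact (h.Rsyl.mono (le_inf h.R_le h.Rsyl.le) inf_le_right).not_dvd_relIndex le_sup_left
  have h4 := ((hP.inf_normal h2 h1).trans h2 h3).eq_of_le hP.isPGroup inf_le_left hP.le
  rw [← sup_inf_of_le_normalizer_right hR (h.R_le.trans hn), inf_comm, ← h4]

theorem comp : False := by
  have hn := h.normK hK
  have SK := h.SK hK
  obtain ⟨P, hP, hR, hPX⟩ := h.ag.exists_syl_le_centralizer h.Rsyl.isPGroup le_top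
  have hP' := hP.mono hPX le_top
  have hs := h.split hK hP' hR
  have hPK : IsSyl r (K ⊓ P) K := inf_comm P K ▸ hP'.inf_normal hK.le hn
  have main : ∀ (Q : Type u) [Group Q] [Finite Q] (f : K →* Q), Function.Surjective f →
      kerOf f = OppOf 2 K → ¬ r ^ 2 ∣ Nat.card Q →
      (r ∣ Nat.card Q → ¬ r ∣ Nat.card C[f ⟨t, SK h.tS⟩] → r = 7 ∨ ∀ Y : Subgroup Q, IsSyl r Y ⊤ →
        Nat.card Y = r → ¬ ∀ g ∈ 𝐍 Y, g * g ∈ 𝐂 Y) → False := fun Q _ _ f hf hk h1 h2 => by
    have e1 : kerOf f ⊓ (K ⊓ P) = R ⊓ (K ⊓ P) := by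
      rw [hk, hK.OppOf_eq]
      refine le_antisymm (le_inf ?_ inf_le_right) (le_inf (inf_le_inf h.R_le_O inf_le_left)
        inf_le_right)
      refine (inf_le_inf inf_le_left inf_le_right).trans (h.sylO.eq_of_le
        (hP.isPGroup.to_le inf_le_right) (le_inf h.R_le_O hR) inf_le_left).le
    have e2 := card_sup_mul_card_inf (H := R) (N := K ⊓ P) (le_normalizer_of_le_centralizer
      (h.ag.le_centralizer hP.isPGroup hR inf_le_right))
    rw [← hs, ← card_bar_mul f (inf_le_left : K ⊓ P ≤ K), e1, ← mul_assoc] at e2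
    replace e2 := Nat.eq_of_mul_eq_mul_right Nat.card_pos e2
    have hY := hPK.bar f le_rfl
    rw [bar_self f hf] at hY
    have Y1 : bar f (K ⊓ P) ≠ ⊥ := fun e => by
      rw [e, card_bot, mul_one] at e2
      exact h.ne hP hR (eq_of_le_of_card_ge hR e2.le).symm
    have hc := card_syl hY Y1 h1
    rw [hc] at e2
    have h3 : ¬ r ∣ Nat.card C[f ⟨t, SK h.tS⟩] := fun e => by
      have h4 := ((h.Rsyl.mono (le_inf h.R_le h.Rsyl.le) inf_le_right).inf_of_le_normalizer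
        (inf_le_left.trans hn)).bar f inf_le_right
      rw [show 𝐂 R ⊓ C[t] ⊓ K = K ⊓ C[t] from le_antisymm
        (le_inf inf_le_right (inf_le_left.trans inf_le_right))
        (le_inf (inf_le_inf_right _ hK.le) inf_le_left),
        St3.cent_bar hk hf (SK h.tS) (h.sq t h.tS)] at h4
      refine h4.ne_bot e ((bar_eq_bot_iff f inf_le_right).2 ?_)
      rw [hk, hK.OppOf_eq]
      exact inf_le_inf_right _ h.R_le_O
    rcases h2 (hc ▸ card_subgroup_dvd_card _) h3 with r7 | h4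
    · obtain ⟨P1, hP1, hR1⟩ := exists_isSyl_ge h.Rsyl.isPGroup h.RN
      rcases h.sylN hP1 hR1 with e | ⟨-, e⟩
      · have := (e ▸ hP1).not_dvd_relIndex h.Rsyl.le
        rw [h.idx7, r7] at this
        exact this dvd_rfl
      · exact h.f21 (hP.of_card_le hP1.isPGroup le_top (e2.trans e.symm).le) hR1 hP1.le
    refine h4 _ hY hc fun y hy => ?_
    obtain ⟨g, rfl⟩ := hf y
    have h5 := unbar_normalizer_le f _ ((mem_unbar f).2 hy)
    rw [unbar_bar f inf_le_left] at h5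
    obtain ⟨o, ho, m, hm, e⟩ := (hPK.mono le_sup_left (sup_le inf_le_left (kerOf_le f))).frattini
      le_rfl h5
    have oK : o ∈ K := sup_le inf_le_left (kerOf_le f) ho
    have mK : m ∈ K := by simpa [e] using mul_mem (inv_mem oK) g.2
    have h6 : m * m ∈ 𝐂 P := h.final hP hR e2 (by
      rw [hs]
      exact zpowers_le.1 (le_normalizer_sup (le_normalizer_of_le_centralizer
        (zpowers_le.2 (hK.le mK))) (zpowers_le.2 hm))) (hK.le mK)
    have h7 : f ⟨o, oK⟩ ∈ bar f (K ⊓ P) := by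
      rw [← bar_sup_kerOf f inf_le_left]; exact mem_bar_of_mem f ho
    have h8 : f ⟨m, mK⟩ ∈ 𝐍 (bar f (K ⊓ P)) :=
      bar_le_normalizer f le_rfl (mem_bar_of_mem f hm)
    have h9 : f (⟨m, mK⟩ * ⟨m, mK⟩) ∈ 𝐂 (bar f (K ⊓ P)) := bar_le_centralizer f le_rfl
      (mem_bar_of_mem f (centralizer_le_centralizer inf_le_right h6))
    have h10 := bar_le_centralizer f
      (h.ag.le_centralizer hP.isPGroup (inf_le_right : K ⊓ P ≤ P) (inf_le_right : K ⊓ P ≤ P))
    rw [show g = ⟨o, oK⟩ * ⟨m, mK⟩ from Subtype.ext e, map_mul]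
    rw [map_mul] at h9
    convert mul_mem (mul_mem (h10 h7) (h10 (conj_mem_of_mem_normalizer h8 h7))) h9 using 1
    group
  have hS : ∀ {Q : Type u} [Group Q] (f : K →* Q), Function.Surjective f → kerOf f = OppOf 2 K →
      IsSyl 2 (bar f S) ⊤ ∧ Nat.card (bar f S) = 8 ∧ AG Q := fun f hf hk =>
    ⟨bar_self f hf ▸ (h.syl.mono SK le_top).bar f le_rfl, by
      rw [card_bar_of_isPGroup f h.syl.isPGroup SK (hk ▸ OppOf_not_dvd K), h.card], h.ag.bar f hf⟩
  have r2 := h.r2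
  have r3 := h.r3
  have hp := hr.out
  rcases AG.PComp.ty h.ag h.ih h.ne_top hK with ⟨Q, _, _, f, hf, hk, hT⟩ | hT | ⟨Q, _, _, f, hf, hk, hT⟩
  · obtain ⟨h1, h2, h3⟩ := hS f hf hk
    obtain ⟨D, j, hD⟩ := hT.dat h3 h1
    have hc := hD.cardG
    rw [h2] at hc
    have : r ∣ Nat.card Q → r = 7 := fun e => by
      have : r ∈ Nat.primeFactors 504 := by simpa [hp, hc] using e
      simp only [Nat.primeFactors, Nat.primeFactorsList_ofNat] at this
      simp at this
      omega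
    refine main Q f hf hk (fun e => ?_) fun e _ => Or.inl (this e)
    rw [this ((dvd_pow_self r two_ne_zero).trans e), hc] at e
    norm_num at e
  · have := Ty.card_TB h.ag h.ih h.ne_top h.sylX hK hT
    rw [inf_eq_left.2 SK, h.card] at this
    omega
  · obtain ⟨h1, h2, h3⟩ := hS f hf hk
    obtain ⟨t', φ, H⟩ := hT.hyp
    have := hT.1
    have hc := H.card_G
    have : r ∣ Nat.card Q → r = 5 ∨ r = 7 ∨ r = 11 ∨ r = 19 := fun e => by
      have : r ∈ Nat.primeFactors 175560 := by simpa [hp, hc] using e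
      simp only [Nat.primeFactors, Nat.primeFactorsList_ofNat] at this
      simp at this
      omega
    refine main Q f hf hk (fun e => ?_) fun e e' => ?_
    · have := this ((dvd_pow_self r two_ne_zero).trans e)
      rw [hc] at e
      rcases this with rfl | rfl | rfl | rfl <;> norm_num at e
    rw [St2.card_cent_TC h3 hT (by rw [← map_mul, ← map_one f]; exact congrArg f (Subtype.ext
      (h.sq t h.tS))) fun e => h.t1 (eq_one_of_sq (OppOf_not_dvd K)
        (hk ▸ (mem_kerOf f).2 e) (h.sq t h.tS))] at e'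
    rcases this e with rfl | r7 | r7
    · norm_num at e'
    · exact Or.inl r7
    · exact Or.inr fun Y hY hc => j1 H r7 hY hc

end comp

theorem false : False := h.solv fun _ hK => h.comp hK

end GR

end Cfsg.Agent.Lib.AG.Gm
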