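/-
A-groups project (S2554), piece E: the configuration `E₈` with `L ≅ A₅`.
-/
import Cfsg.Agent.Lib.AG.K4
import Cfsg.Agent.Lib.AG.TA
import Cfsg.Agent.Lib.AG.Defs1
import Cfsg.Agent.Lib.Forms.SmallPerm

set_option autoImplicit false

namespace Cfsg.Agent.Lib.AG

open Subgroup Cfsg.Agent.Lib.Core

universe u

variable {G : Type u} [Group G] [Finite G]

namespace PE

theorem alt5 {T D : Subgroup G} {j : G} (h : TAD T D j) (h4 : Nat.card T = 4) :
    Nonempty (G ≃* alternatingGroup (Fin 5)) := by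
  classical
  set N := normalizer (T : Set G)
  have hG : Nat.card G = 60 := by rw [h.cardG, h4]; norm_num
  have hD : Nat.card D = 3 := by have := h.cardD; omega
  have hN : Nat.card N = 12 := by
    have h1 := card_sup_mul_card_inf h.DN
    rw [sup_comm, h.norm, inf_comm, inf_eq_bot_of_isPGroup_of_not_dvd h.syl.isPGroup (by omega),
      card_bot, hD, h4, mul_one] at h1
    exact h1
  have hi : Nat.card (G ⧸ N) = 5 := by
    have := N.card_mul_index
    rw [hN, hG, index_eq_card] at this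
    omega
  haveI := Fintype.ofFinite (G ⧸ N)
  haveI := h.simple
  have hφ : Function.Injective (MulAction.toPermHom G (G ⧸ N)) := by
    rw [← MonoidHom.ker_eq_bot_iff, ← normalCore_eq_ker]
    exact N.normalCore_normal.eq_bot_or_eq_top.resolve_right fun e =>
      h.jN (N.normalCore_le (e.ge (mem_top j)))
  refine Forms.equiv_of_range_eq hφ (Equiv.Perm.eq_alternatingGroup_of_index_eq_two ?_) hi
  have := (MulAction.toPermHom G (G ⧸ N)).range.card_mul_index
  rw [← Nat.card_congr (MonoidHom.ofInjective hφ).toEquiv, hG, Nat.card_perm, hi] at this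
  norm_num [Nat.factorial] at this
  omega

omit [Finite G] in
theorem prod_equiv {C L : Subgroup G} {t : G} (tt : t * t = 1) (hL : L ≤ C) (ht : t ∈ C)
    (tL : t ∉ L) (hc : ∀ x ∈ L, t * x = x * t) (hs : ∀ g ∈ C, g ∈ L ∨ t * g ∈ L) :
    Nonempty (C ≃* Multiplicative (ZMod 2) × L) := by
  let φ : Multiplicative (ZMod 2) →* C :=
    { toFun := fun e => if e = 1 then 1 else ⟨t, ht⟩
      map_one' := if_pos rfl
      map_mul' := by
        have h2 : (⟨t, ht⟩ : C) * ⟨t, ht⟩ = 1 := Subtype.ext tt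
        have h3 : ∀ e : Multiplicative (ZMod 2), e = 1 ∨ e = Multiplicative.ofAdd 1 := by decide
        have h4 : (Multiplicative.ofAdd 1 : Multiplicative (ZMod 2)) ≠ 1 := by decide
        have h5 : (Multiplicative.ofAdd 1 * Multiplicative.ofAdd 1 : Multiplicative (ZMod 2)) = 1 := by
          decide
        intro a b
        rcases h3 a with rfl | rfl <;> rcases h3 b with rfl | rfl <;> simp [h2, h4, h5] }
  have hφ : ∀ e, φ e = 1 ∧ e = 1 ∨ φ e = ⟨t, ht⟩ := fun e => by
    by_cases he : e = 1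
    · exact Or.inl ⟨by rw [he, map_one], he⟩
    · exact Or.inr (if_neg he)
  let ψ := φ.noncommCoprod (inclusion hL) fun e x => by
    rcases hφ e with h | h
    · rw [h.1]; exact Commute.one_left _
    · rw [h]; exact Subtype.ext (hc x x.2)
  refine ⟨(MulEquiv.ofBijective ψ ⟨(injective_iff_map_eq_one ψ).mpr fun ⟨e, x⟩ h => ?_,
    fun g => ?_⟩).symm⟩
  · have h1 : (φ e : G) * x = 1 := congrArg Subtype.val h
    rcases hφ e with h2 | h2
    · rw [h2.1, Subgroup.coe_one, one_mul] at h1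
      exact Prod.ext h2.2 (Subtype.ext h1)
    · rw [h2] at h1
      exact absurd ((show t = (x : G)⁻¹ from eq_inv_of_mul_eq_one_left h1) ▸ inv_mem x.2) tL
  · rcases hs g g.2 with h | h
    · exact ⟨(1, ⟨g, h⟩), Subtype.ext (by simp [ψ])⟩
    · refine ⟨(Multiplicative.ofAdd 1, ⟨_, h⟩), Subtype.ext ?_⟩
      change (φ (Multiplicative.ofAdd 1) : G) * (t * g) = g
      rw [(hφ _).resolve_left fun e => absurd e.2 (by decide), ← mul_assoc, tt, one_mul]

theorem comm_of_sq (hA : AG G) {S : Subgroup G} (hS : IsSyl 2 S ⊤) {g x : G}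
    (hg : g ∈ normalizer (S : Set G)) (hx : x ∈ S) (h : g * (g * x * g⁻¹) * g⁻¹ = x) :
    g * x * g⁻¹ = x := by
  obtain ⟨P, rfl⟩ := hS.exists_sylow_top
  have := Invol.commute_of_commute_sq_of_normalizer P (n := g) (a := x)
    (fun a ha b hb => hA.comm P.isPGroup' ha hb) hg hx
    (by rw [Commute, SemiconjBy, pow_two]; nth_rw 2 [← h]; group)
  rw [this.eq, mul_inv_cancel_right]

/-- an index 2 subgroup -/
theorem mem_or {S V : Subgroup G} {t : G} (hV : V ≤ S) (h : Nat.card S = 2 * Nat.card V)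
    (ht : t ∈ S) (tV : t ∉ V) {x : G} (hx : x ∈ S) : x ∈ V ∨ t * x ∈ V := by
  have h1 : (V.subgroupOf S).index = 2 := by
    have := card_mul_relIndex hV
    rw [h, mul_comm 2] at this
    exact Nat.eq_of_mul_eq_mul_left Nat.card_pos this
  refine or_iff_not_imp_left.mpr fun xV => ?_
  exact ((mul_mem_iff_of_index_two h1 (a := ⟨t, ht⟩) (b := ⟨x, hx⟩)).mpr
    (iff_of_false tV xV) : _)

/-- the third involution of a four-group -/
theorem four_cases {V : Subgroup G} (h : Nat.card V = 4) {a b x : G} (ha : a ∈ V) (hb : b ∈ V)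
    (a1 : a ≠ 1) (b1 : b ≠ 1) (ab : a ≠ b) (sq : ∀ x ∈ V, x * x = 1) (hx : x ∈ V) :
    x = 1 ∨ x = a ∨ x = b ∨ x = a * b := by
  have h1 : a * b ≠ 1 := fun e => ab (by rw [eq_inv_of_mul_eq_one_left e,
    inv_eq_of_mul_eq_one_right (sq b hb)])
  have h2 : ({1, a, b, a * b} : Set G) = V := Set.eq_of_subset_of_ncard_le
    (by simp [Set.insert_subset_iff, ha, hb, mul_mem]) (by
      rw [← Nat.card_coe_set_eq, SetLike.coe_sort_coe, h,
        Set.ncard_insert_of_notMem (by simp [a1.symm, b1.symm, h1.symm]),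
        Set.ncard_insert_of_notMem (by simp [ab, b1]), Set.ncard_pair (by simpa using a1)])
  exact h2.ge hx

end PE

open PE

theorem E8.sup {S L : Subgroup G} {t : G} (h : E8 S L t) (hL : TA L) {g : G}
    (hg : g ∈ centralizer ({t} : Set G)) : g ∈ L ∨ t * g ∈ L := by
  have hSC : S ≤ centralizer {t} := h.ag.le_centralizer_singleton h.syl.isPGroup h.tS
  have hV : IsSyl 2 (S ⊓ L) L := (h.syl.mono hSC le_top).inf_normal h.Lle h.Lnorm
  have idx : ∀ x ∈ S, x ∈ S ⊓ L ∨ t * x ∈ S ⊓ L := fun x hx =>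
    mem_or inf_le_left (by rw [h.card, h.cardSL]) h.tS (fun e => h.tL e.2) hx
  have tt := h.sq t h.tS
  -- `C(S) = S`
  have hCS : centralizer (S : Set G) ≤ S := by
    have h1 := h.ag.syl_le_centralizer h.syl le_rfl
    have h2 : centralizer (S : Set G) ≤ centralizer {t} := centralizer_le (by simpa using h.tS)
    rw [← burnside_sup (h.syl.mono h1 le_top) inf_le_left]
    refine sup_le (fun x hx => ?_) le_rfl
    rcases h.centL x (mem_C.mp (h2 (OppOf_le _ hx))) (TA.le_centralizer h.ag hL hV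
      (OppOf_not_dvd _) (((OppOf_le _).trans h2).trans h.Lnorm)
      ((OppOf_le _).trans (centralizer_le_centralizer inf_le_left)) hx) with rfl | rfl
    exacts [one_mem _, h.tS]
  have h1 := hV.subgroupOf le_rfl
  rw [subgroupOf_self] at h1
  obtain ⟨D, j, hD⟩ := hL.dat (h.ag.subgroup L) h1
  obtain ⟨l, hl, m, hm, rfl⟩ := hV.frattini h.Lnorm hg
  have hm' : m ∈ centralizer ({t} : Set G) := by simpa using mul_mem (inv_mem (h.Lle hl)) hg
  obtain ⟨⟨a, ha⟩, a1⟩ := ne_bot_iff_exists_ne_one.mp hD.ne_bot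
  have a1' : (a : G) ≠ 1 := fun e => a1 (Subtype.ext (Subtype.ext e))
  have ha' := conj_mem_of_mem_normalizer hm (show (a : G) ∈ S ⊓ L from ha)
  obtain ⟨d, hd, e⟩ := hD.trans ⟨_, ha'.2⟩ ha' a ha (fun e => a1' (by simpa using e))
    fun e => a1' (congrArg Subtype.val e)
  have e' : d * m * a * ((d : G) * m)⁻¹ = a := by
    have h3 : d * (m * a * m⁻¹) * (d : G)⁻¹ = a := congrArg Subtype.val e
    nth_rw 2 [← h3]; group
  have hdV : (d : G) ∈ normalizer ((S ⊓ L : Subgroup G) : Set G) :=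
    mem_normalizer_of_conj_mem fun x hx =>
      conj_mem_of_mem_normalizer (hD.DN hd) (x := ⟨x, hx.2⟩) hx
  obtain ⟨n, hn⟩ : ∃ n : G, n = d * m := ⟨_, rfl⟩
  have nV := mul_mem hdV hm
  have nt := mem_C.mp (mul_mem (h.Lle d.2) hm')
  rw [← hn] at nV nt e'
  replace nt : n * t * n⁻¹ = t := by rw [← nt, mul_inv_cancel_right]
  have nS : n ∈ normalizer (S : Set G) := mem_normalizer_of_conj_mem fun x hx => by
    rcases idx x hx with h2 | h2
    · exact (conj_mem_of_mem_normalizer nV h2).1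
    · have := mul_mem h.tS (conj_mem_of_mem_normalizer nV h2).1
      rwa [show n * (t * x) * n⁻¹ = n * t * n⁻¹ * (n * x * n⁻¹) by group, nt, ← mul_assoc, tt,
        one_mul] at this
  have nV' : ∀ x ∈ S ⊓ L, n * x * n⁻¹ = x := fun x hx => by
    by_cases x1 : x = 1
    · simp [x1]
    by_cases xa : a = x
    · rw [← xa, e']
    rcases four_cases (a := (a : G)) h.cardSL ha hx a1' x1 xa (fun x hx => h.sq x hx.1)
      (conj_mem_of_mem_normalizer nV hx) with h2 | h2 | h2 | h2
    · exact absurd (by simpa using h2) x1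
    · exact absurd (by simpa using h2.trans e'.symm) (Ne.symm xa)
    · exact h2
    · refine comm_of_sq h.ag h.syl nS hx.1 ?_
      rw [h2, show n * (a * x) * n⁻¹ = n * a * n⁻¹ * (n * x * n⁻¹) by group, e', h2, ← mul_assoc,
        h.sq a ha.1, one_mul]
  have h2 : n ∈ S := hCS (mem_centralizer_iff.mpr fun x hx => by
    refine (mul_inv_eq_iff_eq_mul.mp ?_).symm
    rcases idx x hx with h2 | h2
    · exact nV' x h2
    · have := nV' _ h2
      rwa [show n * (t * x) * n⁻¹ = n * t * n⁻¹ * (n * x * n⁻¹) by group, nt,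
        mul_left_cancel_iff] at this)
  have h3 : l * m = l * (d : G)⁻¹ * n := by rw [hn]; group
  have h4 : l * (d : G)⁻¹ ∈ L := mul_mem hl (inv_mem d.2)
  rw [h3]
  refine (idx n h2).imp (fun h5 => mul_mem h4 h5.2) fun h5 => ?_
  rw [← mul_assoc, mem_C.mp (h.Lle h4), mul_assoc]
  exact mul_mem h4 h5.2

theorem E8.tc {S L : Subgroup G} {t : G} (h : E8 S L t) (hL : TA L) : TC G := by
  have hSC : S ≤ centralizer {t} := h.ag.le_centralizer_singleton h.syl.isPGroup h.tS
  have hV : IsSyl 2 (S ⊓ L) L := (h.syl.mono hSC le_top).inf_normal h.Lle h.Lnorm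
  have h1 := hV.subgroupOf le_rfl
  rw [subgroupOf_self] at h1
  obtain ⟨D, j, hD⟩ := hL.dat (h.ag.subgroup L) h1
  obtain ⟨e1⟩ := alt5 hD (by rw [card_subgroupOf inf_le_right, h.cardSL])
  obtain ⟨e2⟩ := prod_equiv (h.sq t h.tS) h.Lle (mem_C.mpr rfl) h.tL
    (fun x hx => mem_C.mp (h.Lle hx)) fun g hg => h.sup hL hg
  refine ⟨h.simple, fun e => ?_, t, h.t1, h.sq t h.tS, ⟨e2.trans ((MulEquiv.refl _).prodCongr e1)⟩⟩
  obtain ⟨R, hR⟩ := Sylow.exists_subgroup_card_pow_prime (G := G) 2 (n := 4) e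
  have := h.syl.card_le (IsPGroup.of_card hR) le_top
  rw [hR, h.card] at this
  omega

end Cfsg.Agent.Lib.AG
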