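/-
A-groups project (S2554), piece GAM: `C(t) = ⟨t⟩ × L`.
-/
import Cfsg.Agent.Lib.AG.Gam2
import Cfsg.Agent.Lib.AG.PE1
import Cfsg.Agent.Lib.AG.Aut
import Cfsg.Agent.Lib.AG.BSW
import Cfsg.Agent.Lib.AG.Zas
import Cfsg.Agent.S2602

set_option autoImplicit false

namespace Cfsg.Agent.Lib.AG

open Subgroup Cfsg.Agent.Lib.Core PE
open scoped commutatorElement

universe u

local notation "C[" a "]" => centralizer ({a} : Set _)
local notation "𝐍" X:max => normalizer (SetLike.coe X)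
local notation "𝐂" X:max => centralizer (SetLike.coe X)

variable {G : Type u} [Group G] [Finite G]

namespace Gm

theorem tb_iso (hA : AG G) (h : TB G) : ∃ (F : Type) (_ : Field F) (_ : Fintype F),
    4 ≤ Fintype.card F ∧ Nonempty (G ≃* Matrix.ProjectiveSpecialLinearGroup (Fin 2) F) := by
  obtain ⟨t, s, w, K, h, hK⟩ := h
  obtain ⟨Q, D, p, q, j, hz, -⟩ := VK.zs hA h hK
  obtain ⟨F, _, _, hF, e⟩ := hz.iso
  exact ⟨F, _, _, by have := hz.q11; omega, e⟩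

theorem out_comm (hA : AG G) (h : TB G) {Γ : Type*} [Group Γ] [Finite Γ] (hΓ : ¬ 2 ∣ Nat.card Γ)
    (ψ : Γ →* MulAut G) (hψ : ∀ γ, ψ γ ∈ Inn G → γ = 1) (a b : Γ) : a * b = b * a := by
  obtain ⟨F, _, _, h4, ⟨e⟩⟩ := tb_iso hA h
  obtain ⟨p, hp, f, hp', hF⟩ := FiniteField.card' F
  have := Fact.mk hp'
  obtain ⟨φ, -, -, hk⟩ := S2602.result f.pos hF (hF ▸ h4)
  let θ := (QuotientGroup.mk' (Inn _)).comp ((MulAut.congr e).toMonoidHom.comp ψ)
  refine (injective_iff_map_eq_one (φ.comp θ)).2 (fun γ hγ => hψ γ ?_)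
    (by rw [map_mul, map_mul, mul_comm])
  have h1 : θ γ ^ 2 = 1 := orderOf_dvd_iff_pow_eq_one.1
    ((orderOf_dvd_natCard φ.ker hγ).trans (hk ▸ Nat.gcd_dvd_left _ _))
  have h2 : θ γ = 1 := orderOf_eq_one_iff.1 (Nat.eq_one_of_dvd_coprimes
    ((Nat.Prime.coprime_iff_not_dvd Nat.prime_two).2 hΓ) (orderOf_dvd_of_pow_eq_one h1)
    ((orderOf_map_dvd θ γ).trans (_root_.orderOf_dvd_natCard γ)))
  obtain ⟨g, hg⟩ : MulAut.congr e (ψ γ) ∈ Inn _ := (QuotientGroup.eq_one_iff _).1 h2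
  refine ⟨e.symm g, MulEquiv.ext fun x => e.injective ?_⟩
  simpa using DFunLike.congr_fun hg (e x)

variable {S L : Subgroup G} {t : G} (h : E8 S L t)
include h

theorem SC : S ≤ C[t] := h.ag.le_centralizer_singleton h.syl.isPGroup h.tS

theorem sylV : IsSyl 2 (S ⊓ L) L := (h.syl.mono (SC h) le_top).inf_normal h.Lle h.Lnorm

theorem sylV' : IsSyl 2 ((S ⊓ L).subgroupOf L) ⊤ := by
  have h1 := (sylV h).subgroupOf le_rfl
  rwa [subgroupOf_self] at h1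

theorem idx2 {x : G} (hx : x ∈ S) : x ∈ S ⊓ L ∨ t * x ∈ S ⊓ L :=
  mem_or inf_le_left (by rw [h.card, h.cardSL]) h.tS (fun e => h.tL e.2) hx

theorem normS {n : G} (nV : n ∈ 𝐍 (S ⊓ L : Subgroup G)) (nt : n ∈ C[t]) : n ∈ 𝐍 S := by
  replace nt : n * t * n⁻¹ = t := by rw [← mem_C.1 nt, mul_inv_cancel_right]
  refine mem_normalizer_of_conj_mem fun x hx => ?_
  rcases idx2 h hx with h2 | h2
  · exact (conj_mem_of_mem_normalizer nV h2).1
  · have := mul_mem h.tS (conj_mem_of_mem_normalizer nV h2).1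
    rwa [show n * (t * x) * n⁻¹ = n * t * n⁻¹ * (n * x * n⁻¹) by group, nt, ← mul_assoc,
      h.sq t h.tS, one_mul] at this

omit h [Finite G] in
theorem normV {d : L} (hd : d ∈ 𝐍 ((S ⊓ L).subgroupOf L)) [Finite G] :
    (d : G) ∈ 𝐍 (S ⊓ L : Subgroup G) :=
  mem_normalizer_of_conj_mem fun x hx => conj_mem_of_mem_normalizer hd (x := ⟨x, hx.2⟩) hx

theorem frat (hL : Kn L) {g : G} (hg : g ∈ C[t]) : ∃ l ∈ L, ∃ n ∈ 𝐂 S, g = l * n := by
  obtain ⟨-, -, -, D, DN, -, -, tr, -⟩ := hL.dat (h.ag.subgroup L) (sylV' h)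
  obtain ⟨l, hl, m, hm, rfl⟩ := (sylV h).frattini h.Lnorm hg
  have hm' : m ∈ centralizer ({t} : Set G) := by simpa using mul_mem (inv_mem (h.Lle hl)) hg
  obtain ⟨⟨a, ha⟩, a1⟩ := ne_bot_iff_exists_ne_one.mp
    (show S ⊓ L ≠ ⊥ from fun e => by have := h.cardSL; rw [e, card_bot] at this; omega)
  have a1' : a ≠ 1 := fun e => a1 (Subtype.ext e)
  have ha' := conj_mem_of_mem_normalizer hm ha
  obtain ⟨d, hd, e⟩ := tr ⟨_, ha'.2⟩ ha' ⟨a, ha.2⟩ ha (fun e => a1' (by simpa using e))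
    fun e => a1' (congrArg Subtype.val e)
  have e' : d * m * a * ((d : G) * m)⁻¹ = a := by
    have h3 : d * (m * a * m⁻¹) * (d : G)⁻¹ = a := congrArg Subtype.val e
    nth_rw 2 [← h3]; group
  obtain ⟨n, hn⟩ : ∃ n : G, n = d * m := ⟨_, rfl⟩
  have nV := mul_mem (normV (DN hd)) hm
  have nt := mul_mem (h.Lle d.2) hm'
  rw [← hn] at nV nt e'
  have nS := normS h nV nt
  replace nt : n * t * n⁻¹ = t := by rw [← mem_C.1 nt, mul_inv_cancel_right]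
  have nV' : ∀ x ∈ S ⊓ L, n * x * n⁻¹ = x := fun x hx => by
    by_cases x1 : x = 1
    · simp [x1]
    by_cases xa : a = x
    · rw [← xa, e']
    rcases four_cases h.cardSL ha hx a1' x1 xa (fun x hx => h.sq x hx.1)
      (conj_mem_of_mem_normalizer nV hx) with h2 | h2 | h2 | h2
    · exact absurd (by simpa using h2) x1
    · exact absurd (by simpa using h2.trans e'.symm) (Ne.symm xa)
    · exact h2
    · refine PE.comm_of_sq h.ag h.syl nS hx.1 ?_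
      rw [h2, show n * (a * x) * n⁻¹ = n * a * n⁻¹ * (n * x * n⁻¹) by group, e', h2, ← mul_assoc,
        h.sq a ha.1, one_mul]
  refine ⟨l * (d : G)⁻¹, mul_mem hl (inv_mem d.2), n, mem_centralizer_iff.mpr fun x hx => ?_,
    by rw [hn]; group⟩
  refine (mul_inv_eq_iff_eq_mul.mp ?_).symm
  rcases idx2 h hx with h2 | h2
  · exact nV' x h2
  · have := nV' _ h2
    rwa [show n * (t * x) * n⁻¹ = n * t * n⁻¹ * (n * x * n⁻¹) by group, nt,
      mul_left_cancel_iff] at this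

theorem CC : 𝐂 S ≤ C[t] := centralizer_le (by simpa using h.tS)

theorem nL : OppOf 2 (𝐂 S) ≤ 𝐍 L := (OppOf_le _).trans ((CC h).trans h.Lnorm)

theorem inn (hL : Kn L) {γ : G} (hγ : γ ∈ OppOf 2 (𝐂 S)) {l : L}
    (e : ∀ x : L, γ * x * γ⁻¹ = l * x * (l : G)⁻¹) : γ = 1 := by
  obtain ⟨sq, -, hc, -⟩ := hL.dat (h.ag.subgroup L) (sylV' h)
  have h1 := OppOf_le _ hγ
  have h2 := mem_C.1 (h.Lle l.2)
  have h3 : γ * γ = l * l := by
    rcases h.centL ((l : G)⁻¹ * γ) (mem_C.1 (mul_mem (inv_mem (h.Lle l.2)) (CC h h1)))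
      (mem_centralizer_iff.2 fun x hx => by
        calc x * ((l : G)⁻¹ * γ) = (l : G)⁻¹ * (l * x * (l : G)⁻¹) * γ := by group
          _ = _ := by rw [← e ⟨x, hx⟩]; group) with h3 | h3
    · rw [inv_mul_eq_one.1 h3]
    · rw [inv_mul_eq_iff_eq_mul.1 h3, mul_assoc, ← mul_assoc t, h2, mul_assoc, h.sq t h.tS,
        mul_one]
  have h4 : l * l ∈ (S ⊓ L).subgroupOf L := by
    rw [← hc, mem_centralizer_iff]
    intro x hx
    refine Subtype.ext ?_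
    rw [coe_mul, coe_mul _ (l * l), coe_mul, ← h3]
    exact mem_centralizer_iff.1 (mul_mem h1 h1) x hx.1
  have h5 : γ * γ * (γ * γ) = 1 := by rw [h3]; exact congrArg Subtype.val (sq _ h4)
  exact eq_one_of_sq (OppOf_not_dvd _) hγ (eq_one_of_sq (OppOf_not_dvd _) (mul_mem hγ hγ) h5)

theorem comm (hL : TB L) : OppOf 2 (𝐂 S) ≤ 𝐂 (OppOf 2 (𝐂 S)) := fun a ha =>
  mem_centralizer_iff.2 fun b hb => congrArg Subtype.val (out_comm (h.ag.subgroup L) hL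
    (OppOf_not_dvd (𝐂 S)) (L.normalizerMonoidHom.comp (inclusion (nL h)))
    (fun γ ⟨l, e⟩ => Subtype.ext (inn h (Or.inr (Or.inl hL)) γ.2 (l := l) fun x =>
      (congrArg Subtype.val (DFunLike.congr_fun e x)).symm)) ⟨b, hb⟩ ⟨a, ha⟩)

theorem cop (hL : TB L) {r : ℕ} [Fact r.Prime] (hr : r ∣ Nat.card (OppOf 2 (𝐂 S))) :
    ¬ r ∣ Nat.card L := fun hd => by
  obtain ⟨⟨γ, hγ⟩, ho⟩ := exists_prime_orderOf_dvd_card' r hr
  have h1 : γ ^ r ^ 1 = 1 := by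
    rw [pow_one, ← ho, ← orderOf_coe]; exact pow_orderOf_eq_one _
  obtain ⟨P, hP, hγP⟩ := exists_isSyl_ge (isPGroup_zpowers h1) (zpowers_le.2 (nL h hγ))
  obtain ⟨R, hR⟩ := (hP.inf_normal le_normalizer le_rfl).exists_sylow
  obtain ⟨F, _, _, -, e⟩ := tb_iso (h.ag.subgroup L) hL
  obtain ⟨u, s, w, K, hv, -⟩ := id hL
  have := hv.simple
  obtain ⟨k, -, hk⟩ := (Nat.dvd_prime_pow Fact.out).1 (orderOf_dvd_of_pow_eq_one
    (show L.normalizerMonoidHom ⟨γ, nL h hγ⟩ ^ r ^ 1 = 1 by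
      rw [← map_pow, ← map_one L.normalizerMonoidHom]; exact congrArg _ (Subtype.ext h1)))
  obtain ⟨l, hl⟩ := inn_of_known (fun c => by
      obtain ⟨a, b, hab⟩ := hv.toV4.not_comm
      exact hab (c.is_comm.comm a b)) (Or.inr ⟨F, _, inferInstance, e⟩) r hd _ k hk R
    ((h.ag.subgroup L).isMulCommutative R.2) fun x hx => Subtype.ext (by
      rw [hR] at hx
      change γ * x * γ⁻¹ = x
      rw [h.ag.comm (y := x) hP.isPGroup (hγP (mem_zpowers γ)) hx.1, mul_inv_cancel_right])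
  have := inn h (Or.inr (Or.inl hL)) hγ (l := l) fun x => congrArg Subtype.val (hl x)
  subst this
  rw [show (⟨1, hγ⟩ : OppOf 2 (𝐂 S)) = 1 from rfl, orderOf_one] at ho
  exact (Fact.out : r.Prime).one_lt.ne ho

theorem CS : OppOf 2 (𝐂 S) ⊔ S = 𝐂 S :=
  burnside_sup (h.syl.mono (h.ag.syl_le_centralizer h.syl le_rfl) le_top) inf_le_left

theorem exw (hL : TB L) : 3 ∣ Nat.card L ∧ ∃ w ∈ L, w ∈ 𝐍 S ∧ w ∉ 𝐂 S := by
  obtain ⟨⟨a, ha⟩, a1⟩ := ne_bot_iff_exists_ne_one.mp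
    (show S ⊓ L ≠ ⊥ from fun e => by have := h.cardSL; rw [e, card_bot] at this; omega)
  obtain ⟨s, w, K, hv, -, e⟩ := hL.dat (sylV' h) (t := ⟨a, ha.2⟩) ha
    fun e => a1 (Subtype.ext (congrArg Subtype.val e :))
  obtain ⟨D, -, h3, -⟩ := hv.dat
  refine ⟨h3 ▸ card_subgroup_dvd_card D, w, w.2, normS h (normV (e ▸ hv.toV4.w_norm))
    (h.Lle w.2), fun hc => hv.ts (Subtype.ext ?_)⟩
  have h1 : (w : G) * a * (w : G)⁻¹ = s := congrArg Subtype.val hv.wt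
  rw [← h1, ← mem_centralizer_iff.1 hc a ha.1, mul_inv_cancel_right]

theorem NG (hL : TB L) : 𝐍 S ≤ 𝐂 (OppOf 2 (𝐂 S)) := by
  have hK : Kn L := Or.inr (Or.inl hL)
  obtain ⟨sq, -, hc, -⟩ := hK.dat (h.ag.subgroup L) (sylV' h)
  have h1 : 𝐂 S ≤ 𝐂 (OppOf 2 (𝐂 S)) := (CS h).ge.trans
    (sup_le (comm h hL) (le_centralizer_iff.1 (OppOf_le _)))
  have h7 : (C[t]).relIndex (𝐍 S) = 7 := by
    have := idx h.tS h.t1 h.trans
    rw [h.card] at this
    omega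
  have h8 : C[t] ⊓ 𝐍 S ≤ 𝐍 S ⊓ 𝐂 (OppOf 2 (𝐂 S)) := fun g hg => by
    obtain ⟨l, hl, n, hn, rfl⟩ := frat h hK hg.1
    have lN : l ∈ 𝐍 S := by
      simpa using mul_mem (mem_inf.1 hg).2 (inv_mem (centralizer_le_normalizer _ hn))
    refine ⟨hg.2, mul_mem (mem_centralizer_iff.2 fun x hx => ?_) (h1 hn)⟩
    exact comm_of_norm (OppOf_not_dvd _) sq hc hx (nL h hx)
      (fun y hy => (mem_centralizer_iff.1 (OppOf_le _ hx) y hy.1).symm) (z := ⟨l, hl⟩)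
      (mem_normalizer_of_conj_mem fun y hy => ⟨conj_mem_of_mem_normalizer lN hy.1,
        L.mul_mem (L.mul_mem hl y.2) (L.inv_mem hl)⟩)
  rcases le_of_prime (by norm_num) h7 h8 inf_le_left with h2 | h2
  · obtain ⟨-, w, wL, wN, wC⟩ := exw h hL
    refine (wC (le_of_cj h.trans (le_normalizer_inf le_normalizer (le_normalizer_centralizer
      (le_normalizer_OppOf (le_normalizer_centralizer le_rfl)))) h2 ⟨wN, ?_⟩)).elim
    exact mem_centralizer_iff.2 fun x hx => comm_of_norm (OppOf_not_dvd _) sq hc hx (nL h hx)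
      (fun y hy => (mem_centralizer_iff.1 (OppOf_le _ hx) y hy.1).symm) (z := ⟨w, wL⟩)
      (mem_normalizer_of_conj_mem fun y hy => ⟨conj_mem_of_mem_normalizer wN hy.1,
        L.mul_mem (L.mul_mem wL y.2) (L.inv_mem wL)⟩)
  · exact h2.trans inf_le_right

theorem eq_bot (hL : TB L) : OppOf 2 (𝐂 S) = ⊥ := by
  by_contra h0
  obtain ⟨r, hp, hr⟩ := Nat.exists_prime_and_dvd (mt card_eq_one.1 h0)
  have := Fact.mk hp
  have hc := cop h hL hr
  obtain ⟨h3, w, wL, wN, wC⟩ := exw h hL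
  obtain ⟨R, hR⟩ := exists_isSyl (p := r) (OppOf 2 (𝐂 S))
  have r2 : r ≠ 2 := fun e => OppOf_not_dvd _ (e ▸ hr)
  have hSL := (SC h).trans h.Lnorm
  refine GR.false (r := r) ⟨h.ag, h.simple, h.ih, h.syl, h.card, h.sq, h.tS, h.t1, h.trans, r2,
    fun e => hc (e ▸ h3), hR.ne_bot hr, hR.trans ((OppOf_le _).trans (CC h)) ?_,
    (NG h hL).trans (centralizer_le_centralizer hR.le), wN, wC,
    fun e => hc (e.trans (orderOf_dvd_natCard L wL))⟩
  refine not_dvd_relIndex_of_le_sup (O := S ⊔ L)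
    (not_dvd_card_sup (not_dvd_card_of_isPGroup h.syl.isPGroup r2) hc hSL)
    (le_normalizer_sup (le_normalizer_of_le_centralizer (OppOf_le _)) (nL h))
    ((OppOf_le _).trans (CC h)) fun g hg => ?_
  obtain ⟨l, hl, n, hn, rfl⟩ := frat h (Or.inr (Or.inl hL)) hg
  exact mul_mem (mem_sup_right (mem_sup_right hl))
    ((CS h).ge.trans (sup_le_sup_left le_sup_left _) hn)

end Gm

theorem E8.gam {S L : Subgroup G} {t : G} (h : E8 S L t) (hL : TB L) (g : G)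
    (hg : t * g = g * t) : g ∈ L ∨ t * g ∈ L := by
  obtain ⟨l, hl, n, hn, rfl⟩ := Gm.frat h (Or.inr (Or.inl hL)) (mem_C.2 hg)
  rw [← Gm.CS h, Gm.eq_bot h hL, bot_sup_eq] at hn
  refine (Gm.idx2 h hn).imp (fun h5 => mul_mem hl h5.2) fun h5 => ?_
  rw [← mul_assoc, mem_C.mp (h.Lle hl), mul_assoc]
  exact mul_mem hl h5.2

end Cfsg.Agent.Lib.AG
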