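/-
A-groups project (S2554): producing the Ree type configuration.
-/
import Cfsg.Agent.Lib.AG.Defs2
import Cfsg.Agent.Lib.AG.Kn
import Cfsg.Agent.Lib.AG.BSW
import Cfsg.Agent.Lib.AG.Tor

set_option autoImplicit false

namespace Cfsg.Agent.Lib.AG

open Subgroup Cfsg.Agent.Lib.Core

universe u

variable {G : Type u} [Group G]

theorem cyc_inv {a b w : G} (ha : a * a = 1) (hb : b * b = 1) (hc : a * b = b * a) (h1 : w * a * w⁻¹ = b)
    (h2 : w * b * w⁻¹ = a * b) : w⁻¹ * a * w⁻¹⁻¹ = a * b ∧ w⁻¹ * (a * b) * w⁻¹⁻¹ = a * (a * b) := by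
  have : w * (a * b) * w⁻¹ = a := by rw [← conj_mul, h1, h2, hc, ← mul_assoc, hb, one_mul]
  refine ⟨by simpa [mul_assoc] using congrArg (w⁻¹ * · * w) this.symm, ?_⟩
  rw [← mul_assoc a, ha, one_mul, ← h2]; group

theorem VS.swap {t s w : G} {K : Subgroup G} (h : VS t s w K) : VS t (t * s) w⁻¹ K := by
  have k := h.toV4.k4
  obtain ⟨e1, e2⟩ := cyc_inv h.tt h.ss h.comm h.wt h.ws
  refine { (k.rot2.symm).v4 h.simple e1 e2 with
    Kodd := h.Kodd, Bodd := h.Bodd, Kt := h.Kt, Bt := h.Bt, BK := h.BK, ti := h.ti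
    Ks := fun x hx => ?_, Bs := fun b hb => by simp [mem_bot.1 hb], cent := fun g hg => ?_
    gen := fun hK => by rw [zpowers_inv, h.gen hK] }
  · rw [show t * s * x * (t * s) = t * (s * x * s) * t by nth_rw 2 [h.comm]; simp only [mul_assoc], h.Ks x hx,
      h.Kt _ (inv_mem hx), mul_assoc, h.tt, mul_one]
  · obtain ⟨x, hx, b, hb, e⟩ := h.cent g hg
    exact ⟨x, hx, b, hb, by rw [k.t_ts]; tauto⟩

variable [Finite G]

theorem VS.num {t s w j : G} {K Q D : Subgroup G} {p q : ℕ} (h : VS t s w K) (hK : K ≠ ⊥) (hZ : ZS Q D p q j)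
    (he : q = 4 * Nat.card K + 1 ∨ q + 1 = 4 * Nat.card K) : IsCyclic K ∧ ∃ n, Nat.card G = 4 * Nat.card K * q * n ∧
      (q = 4 * Nat.card K + 1 → q + 1 = 2 * n) ∧ (q + 1 = 4 * Nat.card K → q = 2 * n + 1) ∧
      ∀ z : G, z ≠ 1 → (orderOf z).Coprime (2 * Nat.card K * p) →
        Nat.card (centralizer ({z} : Set G)) = n ∧ ∃ i : G, i * i = 1 ∧ i ≠ 1 ∧ i * z * i = z⁻¹ := by
  have := Fact.mk hZ.prime
  have q11 := hZ.q11
  have hp : p ∣ q := hZ.cardQ ▸ dvd_card_of_isPGroup_of_ne_bot (isPGroup_of_forall_pow fun x hx =>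
    ⟨1, by simpa using hZ.expQ x hx⟩) fun e => by have := hZ.cardQ; simp [e] at this; omega
  have c : (4 * Nat.card K).Coprime q := by
    rcases he with e | e
    · simp [e]
    · simp [← e]
  obtain ⟨x, hx, x1⟩ := (bot_or_exists_ne_one K).resolve_left hK
  refine ⟨?_, ?_⟩
  · have := (hZ.tor x1 (Nat.Coprime.coprime_dvd_left (K.orderOf_dvd_natCard hx) (Nat.Coprime.mul_right
      (Nat.coprime_two_right.2 h.Kodd) ((c.coprime_mul_left).coprime_dvd_right hp)))).1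
    refine Subgroup.isCyclic_of_le (H' := centralizer {x}) fun y hy => mem_C.2 ?_
    have e := h.Ks _ (mul_mem hx hy)
    rw [show s * (x * y) * s = s * x * s * (s * y * s) by simp only [mul_assoc, ← mul_assoc s s, h.ss, one_mul],
      h.Ks x hx, h.Ks y hy, ← mul_inv_rev, inv_inj] at e
    exact e.symm
  have hG := hZ.cardG
  obtain ⟨m, hm⟩ : ∃ m, q = m + 1 := ⟨q - 1, by omega⟩
  rw [show q ^ 2 - 1 = m * (q + 1) by rw [hm, Nat.sub_eq_iff_eq_add (Nat.one_le_pow _ _ (by omega))]; ring] at hG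
  have key : ∀ n, (q = 4 * Nat.card K + 1 → q + 1 = 2 * n) → (q + 1 = 4 * Nat.card K → q = 2 * n + 1) →
      ∀ z : G, z ≠ 1 → (orderOf z).Coprime (2 * Nat.card K * p) →
        Nat.card (centralizer ({z} : Set G)) = n ∧ ∃ i : G, i * i = 1 ∧ i ≠ 1 ∧ i * z * i = z⁻¹ := fun n h1 h2 z z1 hz => by
    obtain ⟨-, h3, h4⟩ := hZ.tor z1 (hz.coprime_dvd_right (mul_dvd_mul (dvd_mul_right _ _) dvd_rfl))
    have : Nat.card (centralizer ({z} : Set G)) ≠ 2 * Nat.card K := fun e => z1 (orderOf_eq_one_iff.1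
      (hz.coprime_mul_right_right.eq_one_of_dvd (e ▸ Subgroup.orderOf_dvd_natCard _ (mem_C.2 rfl))))
    exact ⟨by omega, h4⟩
  rcases he with e | e
  · refine ⟨2 * Nat.card K + 1, ?_, by omega, by omega, key _ (by omega) (by omega)⟩
    rw [show m = 4 * Nat.card K by omega, show q + 1 = 2 * (2 * Nat.card K + 1) by omega] at hG
    linarith
  · obtain ⟨n, hn⟩ : ∃ n, m = 2 * n := ⟨m / 2, by omega⟩
    refine ⟨n, ?_, by omega, by omega, key _ (by omega) (by omega)⟩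
    rw [hn, e] at hG
    linarith

theorem E8.rz {S L : Subgroup G} {t : G} (h : E8 S L t) (hL : TB L)
    (hc : ∀ g : G, t * g = g * t → g ∈ L ∨ t * g ∈ L) :
    ∃ u c w K Q D p q n, RZ t u c w L K Q D p q n := by
  have tt := h.sq t h.tS
  have cS : ∀ {x y}, x ∈ S → y ∈ S → x * y = y * x := h.ag.comm h.syl.isPGroup
  have Lt : ∀ g ∈ L, t * g = g * t := fun g hg => mem_C.1 (h.Lle hg)
  have hT : IsSyl 2 ((S ⊓ L).subgroupOf L) ⊤ := by
    simpa using ((h.syl.mono (fun x hx => mem_C.2 (cS h.tS hx)) le_top).inf_normal h.Lle h.Lnorm).subgroupOf (X := L) le_rfl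
  have mT : ∀ {x : L}, x ∈ (S ⊓ L).subgroupOf L ↔ (x : G) ∈ S := fun {x} => ⟨fun a => a.1, fun a => ⟨a, x.2⟩⟩
  obtain ⟨x, hx, x1⟩ := (bot_or_exists_ne_one ((S ⊓ L).subgroupOf L)).resolve_left fun e => by
    have := h.cardSL
    rw [← card_subgroupOf inf_le_right, e] at this
    simp at this
  obtain ⟨d, y, hy, d3, d1, d2⟩ : ∃ d y : L, (y : G) ∈ S ∧ d ^ 3 = 1 ∧ d * x * d⁻¹ = y ∧ d * y * d⁻¹ = x * y := by
    obtain ⟨y, v, K, hv, -, hV⟩ := hL.dat hT hx x1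
    obtain ⟨D, h1, h2, -, h3⟩ := hv.dat
    obtain ⟨d, hd, d1⟩ := (bot_or_exists_ne_one D).resolve_left fun e => by simp [e] at h2
    have d3 : d ^ 3 = 1 := orderOf_dvd_iff_pow_eq_one.1 (h2 ▸ D.orderOf_dvd_natCard hd)
    have k := hv.toV4.k4
    rcases k.norm_cases (h1 hd) with e | ⟨e1, e2⟩ | ⟨e1, e2⟩
    · exact absurd (h3 d hd x t_mem_Vf x1 (mem_centralizer_Vf.1 e).1.symm) d1
    · exact ⟨d, y, mT.1 (hV ▸ s_mem_Vf), d3, e1, e2⟩
    · obtain ⟨e1, e2⟩ := k.inv_cycle e1 e2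
      exact ⟨d⁻¹, y, mT.1 (hV ▸ s_mem_Vf), by rw [inv_pow, d3, inv_one], e1, e2⟩
  obtain ⟨g, hg, gt⟩ := h.trans x (mT.1 hx) (by simpa using x1)
  obtain ⟨u, w, c, uL, uS, cS', w3, wt, wu, wc, cV⟩ : ∃ u w c : G, u ∈ L ∧ u ∈ S ∧ c ∈ S ∧ w ^ 3 = 1 ∧ w * t * w⁻¹ = u ∧
      w * u * w⁻¹ = t * u ∧ w * c = c * w ∧ c ≠ 1 := by
    have a1 : g⁻¹ * d * g * t * (g⁻¹ * d * g)⁻¹ = g⁻¹ * y * g := by
      rw [← d1]; push_cast; rw [← gt]; group
    have a2 : g⁻¹ * d * g * (g⁻¹ * y * g) * (g⁻¹ * d * g)⁻¹ = t * (g⁻¹ * y * g) := by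
      have := congrArg Subtype.val d2
      push_cast at this
      rw [show g⁻¹ * d * g * (g⁻¹ * y * g) * (g⁻¹ * d * g)⁻¹ = g⁻¹ * (d * y * (d : G)⁻¹) * g by group, this, ← gt]; group
    have a3 : (g⁻¹ * d * g) ^ 3 = 1 := by
      have := congrArg Subtype.val d3
      push_cast at this
      simpa [this] using conj_pow (a := g⁻¹) (b := (d : G)) (i := 3)
    have a4 : g⁻¹ * d * g * (g⁻¹ * t * g) = g⁻¹ * t * g * (g⁻¹ * d * g) := by
      rw [show g⁻¹ * d * g * (g⁻¹ * t * g) = g⁻¹ * (d * t) * g by group, ← Lt d d.2]; group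
    have a5 := conj_mem_of_mem_normalizer' hg hy
    have a6 := conj_mem_of_mem_normalizer' hg h.tS
    have a7 : g⁻¹ * t * g ≠ 1 := fun e => h.t1 (by simpa [mul_assoc] using congrArg (g * · * g⁻¹) e)
    generalize g⁻¹ * y * g = u at *
    generalize g⁻¹ * d * g = w at *
    rcases hc u (cS h.tS a5) with e | e
    · exact ⟨u, w, _, e, a5, a6, a3, a1, a2, a4, a7⟩
    · obtain ⟨b1, b2⟩ := cyc_inv tt (h.sq u a5) (cS h.tS a5) a1 a2
      exact ⟨t * u, w⁻¹, _, e, mul_mem h.tS a5, a6, by rw [inv_pow, a3, inv_one], b1, b2,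
        (show Commute w _ from a4).inv_left, a7⟩
  have u1 : u ≠ 1 := fun e => h.t1 (by simpa [e] using wt)
  have wc' : w * c * w⁻¹ = c := by rw [wc, mul_inv_cancel_right]
  have tu : t ≠ u := fun e => h.tL (e ▸ uL)
  have ct : c ≠ t := fun e => tu (by rw [← wt, ← e, wc'])
  have cu : c ≠ u := fun e => h.t1 (by rw [← e, wc'] at wu; simpa using wu)
  have ctu : c ≠ t * u := fun e => u1 (by
    rw [e, ← conj_mul, wt, wu] at wc'
    simpa [← mul_assoc, ← cS h.tS uS, mul_assoc t, h.sq u uS] using wc')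
  obtain ⟨s, v, K, hv, hK, hs⟩ : ∃ (s v : L) (K : Subgroup L), VS (⟨u, uL⟩ : L) s v K ∧ K ≠ ⊥ ∧ (c = s ∨ c = t * s) := by
    obtain ⟨s, v, K, hv, hK, hV⟩ := hL.dat hT (t := ⟨u, uL⟩) (mT.2 uS) (by simpa using u1)
    have k : ∀ z : L, (z : G) ∈ S → (z : G) ≠ 1 → (z : G) ≠ u → ∃ v, VS (⟨u, uL⟩ : L) z v K := fun z hz z1 zu => by
      rcases hv.toV4.k4.mem_Vf.1 (hV ▸ mT.2 hz) with rfl | rfl | rfl | rfl
      exacts [absurd rfl z1, absurd rfl zu, ⟨_, hv⟩, ⟨_, hv.swap⟩]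
    rcases hc c (cS h.tS cS') with e | e
    · obtain ⟨v, hv⟩ := k ⟨c, e⟩ cS' cV cu
      exact ⟨_, v, K, hv, hK, .inl rfl⟩
    · obtain ⟨v, hv⟩ := k ⟨t * c, e⟩ (mul_mem h.tS cS') (fun e => ct (by simpa [← mul_assoc, tt] using congrArg (t * ·) e))
        fun e => ctu (by simpa [← mul_assoc, tt] using congrArg (t * ·) e)
      exact ⟨_, v, K, hv, hK, .inr (by simp [← mul_assoc, tt])⟩
  obtain ⟨Q, D, p, q, j, hZ, he⟩ := VK.zs (h.ag.subgroup L) hv hK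
  obtain ⟨h1, n, h2, h3, h4, h5⟩ := hv.num hK hZ (he.imp (·.1) (·.1))
  have inj := L.subtype_injective
  have mm : ∀ {X : Subgroup L} {z : L}, (z : G) ∈ X.map L.subtype ↔ z ∈ X := mem_map_iff_mem inj
  refine ⟨u, c, w, K.map L.subtype, Q.map L.subtype, D.map L.subtype, p, q, n, h.ag, h.simple, fun e => ?_, tt, h.t1,
    fun e ee e1 => ?_, h.tL, Lt, hc, uL, map_subtype_le _, by rwa [Ne, map_eq_bot_iff_of_injective _ inj],
    isCyclic_of_surjective _ (K.equivMapOfInjective _ inj).surjective,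
    ⟨s, v, by rwa [subgroupOf, comap_map_eq_self_of_injective inj], hs⟩, w3, wt, wu, wc, hZ.prime, map_subtype_le _,
    map_subtype_le _, ?_, by rw [card_map_subtype, hZ.cardQ], hZ.q11, by rwa [card_map_subtype], ?_, ?_,
    (map_mono hZ.normD).trans ((map_subtype_normalizer Q).le.trans inf_le_right), by rw [card_map_subtype, hZ.cardD],
    fun M m1 m2 => ?_, ?_, fun z hz z1 hz' => ?_⟩
  · have := h.syl.card_eq
    rw [card_top, h.card] at this
    have := Nat.pow_le_pow_right two_pos ((Nat.prime_two.pow_dvd_iff_le_factorization (k := 4) Nat.card_pos.ne').1 e)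
    omega
  · obtain ⟨a, -, ha⟩ := h.syl.exists_conj_le (isPGroup_zpowers (k := 1) (x := e) (by simpa [pow_two] using ee)) le_top
    obtain ⟨b, -, hb⟩ := h.trans _ (ha ⟨e, mem_zpowers e, rfl⟩) (by simpa using e1)
    exact (isConj_iff.2 ⟨b, hb⟩).trans (isConj_iff.2 ⟨a, rfl⟩).symm
  · rintro _ ⟨z, hz, rfl⟩
    exact congrArg Subtype.val (hZ.expQ z hz)
  · rintro _ ⟨z, hz, rfl⟩ z1 a ha e
    exact mm.2 (hZ.centQ z hz (fun e => z1 (congrArg Subtype.val e)) ⟨a, ha⟩ (Subtype.ext e))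
  · rintro a ha _ ⟨z, hz, rfl⟩ z1 e
    rw [← Subgroup.map_sup]
    exact mm.2 (hZ.ti ⟨a, ha⟩ z hz (fun e => z1 (congrArg Subtype.val e)) (mm.1 e))
  · rw [← Subgroup.map_sup] at m1 ⊢
    refine or_iff_not_imp_left.2 fun hne => le_antisymm m2 ?_
    have m : ∀ {z : L}, z ∈ Q ⊔ D → (z : G) ∈ M := fun hz => m1 (mm.2 hz)
    obtain ⟨a, ha, na⟩ := SetLike.not_le_iff_exists.1 fun e => hne (le_antisymm e m1)
    obtain ⟨a1, b1, a2, b2, a3, b3, e⟩ := hZ.cell ⟨a, m2 ha⟩ fun e => na (mm.2 e)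
    have jM : (j : G) ∈ M := by
      rw [show a = a1 * a2 * j * a3 from congrArg Subtype.val e] at ha
      rwa [mul_mem_cancel_right (m (mem_sup_left b3)), mul_mem_cancel_left (mul_mem (m (mem_sup_left b1)) (m (mem_sup_right b2)))] at ha
    intro b hb
    by_cases e : (⟨b, hb⟩ : L) ∈ Q ⊔ D
    · exact m e
    · obtain ⟨a1, b1, a2, b2, a3, b3, e⟩ := hZ.cell _ e
      rw [show b = a1 * a2 * j * a3 from congrArg Subtype.val e]
      exact mul_mem (mul_mem (m (mul_mem_sup b1 b2)) jM) (m (mem_sup_left b3))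
  · rw [card_map_subtype]
    refine he.imp (fun ⟨a, b, _⟩ => ⟨a, h3 a, by rw [b, Subgroup.map_sup, MonoidHom.map_zpowers]; rfl⟩)
      fun ⟨a, b, _⟩ => ⟨a, h4 a, ?_⟩
    rintro _ ⟨z, hz, rfl⟩
    exact congrArg Subtype.val (b ▸ hZ.jD z hz)
  · obtain ⟨a, i, b1, b2, b3⟩ := h5 ⟨z, hz⟩ (fun e => z1 (congrArg Subtype.val e))
      (by rwa [card_map_subtype, ← orderOf_mk _ hz] at hz')
    refine ⟨?_, i, i.2, congrArg Subtype.val b1, fun e => b2 (Subtype.ext e), congrArg Subtype.val b3⟩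
    rw [← a, ← card_subgroupOf inf_le_left, inf_subgroupOf_left]
    congr 2
    ext y
    simp only [mem_subgroupOf, mem_C, Subtype.ext_iff, coe_mul]

end Cfsg.Agent.Lib.AG
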