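/-
A-groups project (S2554), part II: the Ree type configuration does not occur.
-/
import Cfsg.Agent.Lib.AG.Rz
import Cfsg.Agent.Lib.AG.Gam
import Cfsg.Agent.Lib.AG.Fpf
import Cfsg.Agent.Lib.AG.Ch
import Cfsg.Agent.Lib.AG.EndM
import Cfsg.Agent.Lib.AG.EndP

set_option autoImplicit false

namespace Cfsg.Agent.Lib.AG

open Subgroup Cfsg.Agent.Lib.Core Cfsg.Agent.Lib.Char

universe u

variable {G : Type u} [Group G] [Finite G]

/-- a `p`-group acting on `K` by conjugation without nontrivial fixed points -/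
theorem card_modEq_one {p : ℕ} [Fact p.Prime] {P K : Subgroup G} (hP : IsPGroup p P)
    (hn : P ≤ normalizer (K : Set G)) (hf : K ⊓ centralizer (P : Set G) = ⊥) :
    Nat.card K ≡ 1 [MOD p] := by
  let a : MulAction P K :=
    { smul := fun g x => ⟨g * x * (g : G)⁻¹, conj_mem_of_mem_normalizer (hn g.2) x.2⟩
      one_smul := fun x => Subtype.ext (by change (1 : G) * x * 1⁻¹ = x; simp)
      mul_smul := fun g g' x => Subtype.ext (by
        change (g : G) * g' * x * ((g : G) * g')⁻¹ = g * (g' * x * (g' : G)⁻¹) * (g : G)⁻¹; group) }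
  have e := hP.card_modEq_card_fixedPoints K
  have : Nat.card (MulAction.fixedPoints P K) = 1 := by
    rw [Nat.card_eq_one_iff_exists]
    refine ⟨⟨1, fun g => Subtype.ext (by change (g : G) * 1 * (g : G)⁻¹ = 1; simp)⟩, fun x => ?_⟩
    refine Subtype.ext (Subtype.ext (mem_bot.mp (hf.le ⟨x.1.2, fun g hg => ?_⟩)))
    have := congrArg Subtype.val (x.2 ⟨g, hg⟩)
    exact mul_inv_eq_iff_eq_mul.mp this
  rwa [this] at e

theorem RZ.false {t u c w : G} {L K Q D : Subgroup G} {p q n : ℕ}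
    (h : RZ t u c w L K Q D p q n) : False := by
  have := Fact.mk Nat.prime_three
  have h3 : Nat.card K % 3 = 1 := card_modEq_one (P := zpowers w)
    (isPGroup_zpowers (k := 1) (by simpa using h.w3))
    (zpowers_le.mpr h.basic.2.2.2.2.2.2.2.2.2.2.1)
    (eq_bot_iff.mpr fun y hy => h.fpf hy.1 (hy.2 w (mem_zpowers w)))
  obtain ⟨χ, hχ⟩ := h.ch fun y hy => h.fpf hy
  rcases h.eps with e | e
  · exact h.end_pos h3 e.1 ⟨4 * Nat.card K * deg χ, by rw [hχ]; ring⟩
  · exact h.end_neg h3 e.1 χ hχ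

theorem E8.not_TB {S L : Subgroup G} {t : G} (h : E8 S L t) : ¬ TB L := fun hL => by
  obtain ⟨u, c, w, K, Q, D, p, q, n, hr⟩ := h.rz hL (h.gam hL)
  exact hr.false

end Cfsg.Agent.Lib.AG
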