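/-
A-groups project (S2554), piece E: reduction to the configuration `E₈`.
-/
import Cfsg.Agent.Lib.AG.PE1
import Cfsg.Agent.Lib.AG.Good
import Cfsg.Agent.Lib.AG.Lin
import Cfsg.Agent.Lib.AG.Loc4

set_option autoImplicit false

namespace Cfsg.Agent.Lib.AG

open Subgroup Cfsg.Agent.Lib.Core
open scoped commutatorElement

universe u

variable {G : Type u} [Group G] [Finite G] {S A K D : Subgroup G} {t : G}

namespace PE

theorem C_ne_top (h : Cx S A) {a : G} (ha : a ∈ S) (a1 : a ≠ 1) : centralizer ({a} : Set G) ≠ ⊤ :=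
  fun e => a1 (mem_bot.mp (h.cent_N.le ⟨ha, mem_centralizer_iff.mpr fun g _ =>
    (mem_C.mp (e.ge (mem_top g))).symm⟩))

theorem syl_C (h : Cx S A) {a : G} (ha : a ∈ S) : IsSyl 2 S (centralizer {a}) :=
  h.syl.mono (h.ag.le_centralizer_singleton h.syl.isPGroup ha) le_top

theorem exists_move (h : Cx S A) {a : G} (ha : a ∈ S) (a1 : a ≠ 1) :
    ∃ g ∈ normalizer (S : Set G), g * a * g⁻¹ ≠ a := by
  by_contra! e
  exact a1 (mem_bot.mp (h.cent_N.le ⟨ha, mem_centralizer_iff.mpr fun g hg =>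
    mul_inv_eq_iff_eq_mul.mp (e g hg)⟩))

/-- the configuration with `|S| = 8` -/
structure P8 (S K D : Subgroup G) (t : G) : Prop where
  cx : Cx S S
  card : Nat.card S = 8
  tS : t ∈ S
  t1 : t ≠ 1
  hK : PComp 2 (centralizer {t}) K
  cd : CD S K D
  tC : t ∈ CM K

theorem exists_p8 (h : Cx S A) (hb : ¬ Beta2 A) : ∃ K D t, P8 S K D t := by
  simp only [Beta2, not_forall] at hb
  obtain ⟨a, ha, a1, K, hK, h4⟩ := hb
  have haS := h.A_le ha
  obtain ⟨D, hD⟩ := PComp.cd h.ag h.ih (C_ne_top h haS a1) (syl_C h haS) hK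
  have haC : a ∈ CM K := ⟨hD.norm haS, fun k hk => by
    rw [mem_C.mp (hK.le hk)]; simp⟩
  have h2 : Nat.card ↥(A ⊓ CM K) = 2 := by
    have h1 := dvd_card_of_isPGroup_of_ne_bot (h.A_two.to_le (inf_le_left (b := CM K)))
      fun e => a1 (mem_bot.mp (e.le ⟨ha, haC⟩))
    have := Nat.card_pos (α := ↥(A ⊓ CM K))
    omega
  have key : ∀ y ∈ S, y * y ≠ 1 → y * y * (y * y) = 1 → y * y = a := fun y hy y1 y2 => by
    refine eq_of_card_le_two h2.le ⟨(h.memA _).mpr ⟨mul_mem hy hy, y2⟩, ?_⟩ ⟨ha, haC⟩ y1 a1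
    obtain ⟨v, hv, c, hc, rfl⟩ := hD.split y hy
    rw [show v * c * (v * c) = v * (c * v) * c by group, h.S_comm hc.1 hv.1,
      show v * (v * c) * c = v * v * (c * c) by group, hD.sq v hv, one_mul]
    exact mul_mem hc.2 hc.2
  have hSA : A = S := le_antisymm h.A_le fun x hx => (h.memA x).mpr ⟨hx, by_contra fun x1 => by
    obtain ⟨u, ⟨k, rfl⟩, u1, u2⟩ := exists_order_p
      (isPGroup_zpowers_of_mem h.syl.isPGroup (mul_mem hx hx)) (by simpa using x1)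
    have e : (x * x) ^ k = x ^ k * x ^ k := (Commute.refl x).mul_zpow k
    simp only [e, pow_two] at u1 u2
    obtain ⟨g, hg, e'⟩ := exists_move h haS a1
    refine e' ?_
    nth_rw 1 [← key _ (zpow_mem hx k) u1 u2]
    rw [← conj_mul]
    refine key _ (conj_mem_of_mem_normalizer hg (zpow_mem hx k)) (by simpa using u1) ?_
    rw [conj_mul, conj_mul, u2]; simp⟩
  have h8 := h.lin1 hD h2
  subst hSA
  exact ⟨K, D, a, h, h8, ha, a1, hK, hD, haC⟩

namespace P8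

theorem sq (h : P8 S K D t) {x : G} (hx : x ∈ S) : x * x = 1 := h.cx.sq hx

theorem tK (h : P8 S K D t) : t ∉ S ⊓ K := fun e => h.t1 (h.cd.disj t e h.tC)

theorem four (h : P8 S K D t) : Nat.card ↥(S ⊓ K) = 4 := by
  have h1 := mul_card_le_of_lt h.cx.syl.isPGroup
    (lt_of_le_of_ne inf_le_left fun e => h.tK (e.ge h.tS) : S ⊓ K < S)
  have := h.cd.four
  rw [h.card] at h1; omega

theorem idx (h : P8 S K D t) {x : G} (hx : x ∈ S) : x ∈ S ⊓ K ∨ t * x ∈ S ⊓ K :=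
  mem_or inf_le_left (by rw [h.card, h.four]) h.tS h.tK hx

theorem Dt (h : P8 S K D t) {d : G} (hd : d ∈ D) : d * t * d⁻¹ = t := by
  rw [← mem_C.mp (h.hK.le (h.cd.DK hd)), mul_inv_cancel_right]

theorem same (h : P8 S K D t) {x y : G} (hx : x ∈ S) (hy : y ∈ S) (x1 : x ≠ 1) (y1 : y ≠ 1)
    (xt : x ≠ t) (yt : y ≠ t) (e : x ∈ S ⊓ K ↔ y ∈ S ⊓ K) : ∃ d ∈ D, d * x * d⁻¹ = y := by
  by_cases hx' : x ∈ S ⊓ K
  · exact h.cd.trans x hx' y (e.mp hx') x1 y1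
  have key : ∀ z, z ≠ t → t * z ≠ 1 := fun z zt e =>
    zt (by rw [eq_inv_of_mul_eq_one_right e, inv_eq_of_mul_eq_one_right (h.sq h.tS)])
  obtain ⟨d, hd, e'⟩ := h.cd.trans _ ((h.idx hx).resolve_left hx') _
    ((h.idx hy).resolve_left (mt e.mpr hx')) (key x xt) (key y yt)
  refine ⟨d, hd, ?_⟩
  rwa [show d * (t * x) * d⁻¹ = d * t * d⁻¹ * (d * x * d⁻¹) by group, h.Dt hd,
    mul_left_cancel_iff] at e'

theorem orb (h : P8 S K D t) {Y : Subgroup G} (hD : D ≤ Y) {g : G} (hg : g ∈ Y)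
    (hg' : g ∈ normalizer (S : Set G)) (e : g * t * g⁻¹ ≠ t) {x : G} (hx : x ∈ S) (x1 : x ≠ 1) :
    ∃ n ∈ Y ⊓ normalizer (S : Set G), n * t * n⁻¹ = x := by
  by_cases xt : x = t
  · exact ⟨1, one_mem _, by simp [xt]⟩
  have e' : g⁻¹ * t * g ≠ t := fun e' => e (by nth_rw 1 [← e']; group)
  have h1 := conj_mem_of_mem_normalizer hg' h.tS
  have h2 := conj_mem_of_mem_normalizer' hg' h.tS
  have n1 : g * t * g⁻¹ ≠ 1 := by simpa using h.t1
  have n2 : g⁻¹ * t * g ≠ 1 := by simpa [mul_assoc, inv_mul_eq_one] using h.t1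
  have h3 : ¬ (g⁻¹ * t * g ∈ S ⊓ K ↔ g * t * g⁻¹ ∈ S ⊓ K) := fun e1 => by
    obtain ⟨d, hd, e2⟩ := h.same h2 h1 n2 n1 e' e e1
    have h4 : g * d⁻¹ * t * (g * d⁻¹)⁻¹ = g * t * g⁻¹ := by
      rw [show g * d⁻¹ * t * (g * d⁻¹)⁻¹ = g * (d⁻¹ * t * d⁻¹⁻¹) * g⁻¹ by group, h.Dt (inv_mem hd)]
    refine e (h4 ▸ PE.comm_of_sq h.cx.ag h.cx.syl (mul_mem hg' (inv_mem (h.cd.DN hd))) h.tS ?_)
    rw [h4, ← e2]; group
  by_cases h4 : g * t * g⁻¹ ∈ S ⊓ K ↔ x ∈ S ⊓ K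
  · obtain ⟨d, hd, e2⟩ := h.same h1 hx n1 x1 e xt h4
    exact ⟨d * g, ⟨mul_mem (hD hd) hg, mul_mem (h.cd.DN hd) hg'⟩, by rw [← e2]; group⟩
  · obtain ⟨d, hd, e2⟩ := h.same h2 hx n2 x1 e' xt (by tauto)
    exact mem_inf.mpr ⟨mul_mem (hD hd) (inv_mem hg), mul_mem (h.cd.DN hd) (inv_mem hg')⟩ |>
      fun h5 => ⟨d * g⁻¹, h5, by rw [← e2]; group⟩

theorem trans (h : P8 S K D t) (x : G) (hx : x ∈ S) (x1 : x ≠ 1) :
    ∃ g ∈ normalizer (S : Set G), g * t * g⁻¹ = x := by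
  obtain ⟨g, hg, e⟩ := exists_move h.cx h.tS h.t1
  obtain ⟨n, hn, e'⟩ := h.orb le_top (mem_top g) hg e hx x1
  exact ⟨n, hn.2, e'⟩

theorem max (h : P8 S K D t) {M : Subgroup G} (hM : centralizer {t} ≤ M) (hMt : M ≠ ⊤) :
    M ≤ centralizer {t} := by
  have hS := h.cx.syl.mono ((syl_C h.cx h.tS).le.trans hM) le_top
  have h1 : OppOf 2 M ≤ centralizer {t} :=
    h.cx.good h.tS h.t1 (OppOf_not_dvd M) (le_normalizer_OppOf (hM.trans le_normalizer))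
  have h3 : M ⊓ normalizer (S : Set G) ≤ centralizer {t} := fun g hg => mem_C.mpr (by
    refine (mul_inv_eq_iff_eq_mul.mp (by_contra fun e => ?_)).symm
    have h4 := fun x => h.orb (x := x) ((h.cd.DK.trans h.hK.le).trans hM) hg.1 hg.2 e
    refine h.cx.se hMt (fun n hn => ?_) fun a ha a1 => ?_
    · obtain ⟨m, hm, e'⟩ := h4 _ (conj_mem_of_mem_normalizer hn h.tS) (by simpa using h.t1)
      have : m⁻¹ * n ∈ centralizer {t} := mem_C.mpr (by
        rw [show m⁻¹ * n * t = m⁻¹ * (n * t * n⁻¹) * n by group, ← e']; group)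
      simpa using mul_mem hm.1 (hM this)
    · obtain ⟨m, hm, rfl⟩ := h4 a ha a1
      rw [← map_conj_centralizer_singleton]
      exact map_conj_le_of_le hM (le_normalizer hm.1))
  refine fact h.cx.ag h.cx.ih hMt hS h1 (fun J hJ k hk => mem_C.mpr ?_) h3
  obtain ⟨E, hE⟩ := PComp.cd h.cx.ag h.cx.ih hMt hS hJ
  obtain ⟨v, hv, c, hc, e⟩ := hE.split t h.tS
  have hv1 : v = 1 := by
    by_contra v1
    obtain ⟨y, hy, y1⟩ : ∃ y ∈ S ⊓ J, ¬ (y = 1 ∨ y = v) := by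
      by_contra! e1
      have h5 : (↑(S ⊓ J) : Set G) ⊆ {1, v} := e1
      have h6 := (Set.ncard_le_ncard h5).trans (Set.ncard_pair (Ne.symm v1)).le
      have := hE.four
      rw [← Nat.card_coe_set_eq, SetLike.coe_sort_coe] at h6
      omega
    obtain ⟨d, hd, e1⟩ := hE.trans v hv y hy v1 fun e => y1 (Or.inl e)
    have h5 := mem_C.mp (h3 ⟨hJ.le (hE.DK hd), hE.DN hd⟩)
    rw [e, mul_assoc, mem_centralizer_iff.mp (hE.DC hd) c hc, ← mul_assoc, ← mul_assoc,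
      mul_right_cancel_iff] at h5
    exact y1 (Or.inr (by rw [← e1, ← h5, mul_inv_cancel_right]))
  rw [hv1, one_mul] at e
  have h4 := hJ.OppOf_le ((e ▸ hc.2 : t ∈ CM J).2 k hk)
  have h5 := mem_C.mp (h1 h4)
  have tt := h.sq h.tS
  have h6 := eq_one_of_sq (OppOf_not_dvd M) h4 (by
    rw [inv_eq_of_mul_eq_one_right tt] at h5 ⊢
    calc _ = t * k * t * k⁻¹ * t * (k * t * k⁻¹) := by group
      _ = 1 := by rw [← h5, show t * (t * k * t * k⁻¹) * (k * t * k⁻¹) =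
          (t * t) * k * (t * t) * k⁻¹ by group, tt]; group)
  rwa [mul_inv_eq_one, mul_inv_eq_iff_eq_mul] at h6

theorem norm_le (h : P8 S K D t) {X : Subgroup G} (X1 : X ≠ ⊥) (hX : X ≤ centralizer {t})
    (hn : centralizer {t} ≤ normalizer (X : Set G)) : normalizer (X : Set G) ≤ centralizer {t} := by
  haveI := h.cx.simple
  refine h.max hn fun e => (normal_of_le_normalizer_top e.ge).eq_bot_or_eq_top.elim X1 fun e' =>
    C_ne_top h.cx h.tS h.t1 (top_le_iff.mp (e'.ge.trans hX))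

theorem uniq (h : P8 S K D t) {M K1 K2 : Subgroup G} (hM : M ≠ ⊤) (hS : S ≤ M)
    (h1 : PComp 2 M K1) (h2 : PComp 2 M K2) : K1 = K2 := by
  by_contra e
  have hS' := h.cx.syl.mono hS le_top
  obtain ⟨D1, c1⟩ := PComp.cd h.cx.ag h.cx.ih hM hS' h1
  obtain ⟨D2, c2⟩ := PComp.cd h.cx.ag h.cx.ih hM hS' h2
  have h3 : K1 ≤ CM K2 := St0.le_CM_iff.mpr ⟨h1.le_normalizer_of_pcomp h2, h1.commutator_le_of_ne h2 e⟩
  have h4 := card_sup_mul_card_inf (H := S ⊓ K1) (N := S ⊓ K2)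
    (inf_le_left.trans (le_normalizer_inf le_normalizer c2.norm))
  rw [show S ⊓ K1 ⊓ (S ⊓ K2) = ⊥ from eq_bot_iff.mpr fun x hx =>
    mem_bot.mpr (c2.disj x hx.2 (h3 hx.1.2)), card_bot, mul_one] at h4
  have h5 := card_le_of_le (sup_le inf_le_left inf_le_left : S ⊓ K1 ⊔ S ⊓ K2 ≤ S)
  have := Nat.mul_le_mul c1.four c2.four
  rw [h.card] at h5; omega

theorem five (h : P8 S K D t) {e x y z : G} (he : e ∈ S) (hx : x ∈ S) (hy : y ∈ S) (e1 : e ≠ 1)
    (x1 : ¬ (x = 1 ∨ x = e)) (y1 : ¬ (y = 1 ∨ y = e ∨ y = x ∨ y = e * x))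
    (c1 : e * z = z * e) (c2 : x * z = z * x) (c3 : y * z = z * y) :
    z ∈ centralizer (S : Set G) := by
  push Not at x1 y1
  have ex : e * x ≠ 1 := fun e' =>
    x1.2 (by rw [eq_inv_of_mul_eq_one_right e', inv_eq_of_mul_eq_one_right (h.sq he)])
  have m : ∀ a ∈ S, a * z = z * a → a ∈ S ⊓ centralizer {z} := fun a ha c => ⟨ha, mem_C.mpr c.symm⟩
  have h1 : ({y, 1, e, x, e * x} : Set G).ncard ≤ (↑(S ⊓ centralizer {z}) : Set G).ncard :=
    Set.ncard_le_ncard (by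
      rintro a (rfl | rfl | rfl | rfl | rfl)
      exacts [m _ hy c3, one_mem _, m _ he c1, m _ hx c2, mul_mem (m _ he c1) (m _ hx c2)])
  rw [Set.ncard_insert_of_notMem (by simp [y1]),
    Set.ncard_insert_of_notMem (by simp [e1.symm, x1.1.symm, ex.symm]),
    Set.ncard_insert_of_notMem (by simp [x1.2.symm, x1.1]), Set.ncard_pair (by simpa using e1),
    ← Nat.card_coe_set_eq, SetLike.coe_sort_coe] at h1
  by_contra hz
  have h2 := mul_card_le_of_lt h.cx.syl.isPGroup (lt_of_le_of_ne inf_le_left fun e' =>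
    hz (mem_centralizer_iff.mpr fun a ha => (mem_C.mp (e'.ge ha).2).symm) :
      S ⊓ centralizer {z} < S)
  rw [h.card] at h2; omega

theorem exists_notin (h : P8 S K D t) (e x : G) :
    ∃ y ∈ S, ¬ (y = 1 ∨ y = e ∨ y = x ∨ y = e * x) := by
  by_contra! h1
  have h2 : (S : Set G) ⊆ {1, e, x, e * x} := h1
  have h3 := Set.ncard_le_ncard h2
  have h4 := Set.ncard_insert_le 1 ({e, x, e * x} : Set G)
  have h5 := Set.ncard_insert_le e ({x, e * x} : Set G)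
  have h6 := Set.ncard_insert_le x ({e * x} : Set G)
  rw [Set.ncard_singleton] at h6
  rw [← Nat.card_coe_set_eq, SetLike.coe_sort_coe, h.card] at h3
  omega

end P8

end PE

end Cfsg.Agent.Lib.AG
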