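/-
A-groups project (S2554), piece E: `O(C(t)) = 1` and the configuration `E₈`.
-/
import Cfsg.Agent.Lib.AG.PE2

set_option autoImplicit false

namespace Cfsg.Agent.Lib.AG

open Subgroup Cfsg.Agent.Lib.Core
open scoped commutatorElement

universe u

variable {G : Type u} [Group G] [Finite G] {S A K D : Subgroup G} {t : G}

namespace PE

namespace P8

variable {q : ℕ} [Fact q.Prime] (h : P8 S K D t) (q2 : q ≠ 2)
  (hn : ¬ OpOf q (centralizer {t}) ≤ centralizer (S : Set G))
include h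

omit [Fact q.Prime] in
theorem S_le {e : G} (he : e ∈ S) : S ≤ centralizer {e} := (syl_C h.cx he).le

theorem S_norm {e : G} (he : e ∈ S) : S ≤ normalizer (OpOf q (centralizer {e}) : Set G) :=
  le_normalizer_OpOf ((h.S_le he).trans le_normalizer)

omit h in
theorem act_conj {e f g : G} (hg : g ∈ normalizer (S : Set G))
    (ha : Act S (OpOf q (centralizer {e})) f) :
    Act S (OpOf q (centralizer {g * e * g⁻¹})) (g * f * g⁻¹) := by
  have := ha.conj hg
  rwa [OpOf_conj, map_conj_centralizer_singleton] at this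

include q2 hn

theorem act {e f : G} (he : e ∈ S) (e1 : e ≠ 1) (hf : f ∈ S) (f1 : ¬ (f = 1 ∨ f = e)) :
    Act S (OpOf q (centralizer {e})) f := by
  have hZ := odd_of_isPGroup q2 (OpOf_isPGroup (p := q) (centralizer ({t} : Set G)))
  have hV : IsPGroup 2 ↥(S ⊓ K) := h.cx.syl.isPGroup.to_le inf_le_left
  have h1 : ∃ v ∈ S ⊓ K, v ≠ 1 ∧ Act S (OpOf q (centralizer {t})) v := by
    by_contra! e
    refine hn (le_of_centralizers (h.cx.ag.isMulCommutative hV) (fun hc => ?_)
      (inf_le_left.trans (h.S_norm h.tS)) (coprime_card_of_isPGroup hV hZ)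
      fun a ha a1 => not_not.mp (e a ha a1))
    have := card_le_of_isCyclic_of_isElementaryAbelian (p := 2)
      ⟨h.cx.ag.isMulCommutative hV, fun x hx => by rw [pow_two, h.sq hx.1]⟩ hc
    rw [h.four] at this; omega
  obtain ⟨v, hv, v1, ha⟩ := h1
  have h2 : ∀ x ∈ S ⊓ K, x ≠ 1 → Act S (OpOf q (centralizer {t})) x := fun x hx x1 => by
    obtain ⟨d, hd, rfl⟩ := h.cd.trans v hv x hx v1 x1
    have := act_conj (h.cd.DN hd) ha
    rwa [h.Dt hd] at this
  have h3 : ∀ x ∈ S, ¬ (x = 1 ∨ x = t) → Act S (OpOf q (centralizer {t})) x := fun x hx x1 => by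
    rcases h.idx hx with h4 | h4
    · exact h2 x h4 fun e => x1 (Or.inl e)
    · refine fun e => h2 _ h4 (fun e' => x1 (Or.inr ?_)) fun z hz => e ⟨hz.1, mem_C.mpr ?_⟩
      · rw [eq_inv_of_mul_eq_one_right e', inv_eq_of_mul_eq_one_right (h.sq h.tS)]
      · have h5 := mem_C.mp hz.2
        rwa [← mul_assoc, ← mem_C.mp (OpOf_le _ hz.1), mul_assoc, mul_assoc,
          mul_left_cancel_iff] at h5
  obtain ⟨g, hg, rfl⟩ := h.trans e he e1
  have := act_conj hg (h3 _ (conj_mem_of_mem_normalizer' hg hf) fun e => f1 (e.imp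
    (fun e => by simpa [mul_assoc, inv_mul_eq_one] using e) fun e => by rw [← e]; group))
  simpa [mul_assoc] using this

theorem CZ {e f : G} (he : e ∈ S) (e1 : e ≠ 1) (hf : f ∈ S)
    (hc : OpOf q (centralizer {e}) ≤ centralizer {f}) : f = 1 ∨ f = e := by
  by_contra f1
  obtain ⟨y, hy, y1⟩ := h.exists_notin e f
  exact h.act q2 hn he e1 hy (fun e => y1 (e.imp_right Or.inl)) fun z hz =>
    h.five he hf hy e1 f1 y1 (mem_C.mp (OpOf_le _ hz.1)) (mem_C.mp (hc hz.1)) (mem_C.mp hz.2)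

theorem star {U : Subgroup G} (hU : IsPGroup q U) (hS : S ≤ normalizer (U : Set G)) :
    S ⊓ centralizer (U : Set G) ≠ ⊥ := by
  intro e
  have hA := h.cx.ag
  have syl : ∀ X : Subgroup G, S ≤ normalizer (X : Set G) →
      IsSyl 2 (S ⊓ centralizer (X : Set G)) (centralizer (X : Set G)) := fun X hX =>
    (h.cx.syl.mono hX le_top).inf_normal (centralizer_le_normalizer _)
      (le_normalizer_centralizer le_rfl)
  have h1 := (syl U hS).not_dvd
  rw [e, relIndex_bot_left] at h1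
  obtain ⟨Q', hQ', h2, h3⟩ := (coprimeAct_of_isPGroup_left h.cx.syl.isPGroup h1
    (le_normalizer_centralizer hS)).exists_isSyl_ge hU (hA.le_centralizer hU le_rfl le_rfl) hS
  obtain ⟨R', hR', -, h4⟩ := hA.exists_syl_le_centralizer hU le_top
  replace hQ' := hR'.of_card_le hQ'.isPGroup le_top (hQ'.card_le hR'.isPGroup h4)
  set Z := OpOf q (centralizer ({t} : Set G)) with hZ
  have h5 := syl Z (h.S_norm h.tS)
  have h6 : Nat.card ↥(S ⊓ centralizer (Z : Set G)) ≤ 2 := by
    rw [← SetLike.coe_sort_coe, Nat.card_coe_set_eq, ← Set.ncard_pair h.t1.symm]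
    exact Set.ncard_le_ncard fun f hf => h.CZ q2 hn h.tS h.t1 hf.1 fun z hz =>
      mem_C.mpr (mem_centralizer_iff.mp hf.2 z hz).symm
  obtain ⟨R, hR, -, h7⟩ := hA.exists_syl_le_centralizer (OpOf_isPGroup (p := q) (centralizer {t}))
    le_top
  obtain ⟨Q, hQ, h8⟩ := (coprimeAct_of_isPGroup_left h.cx.syl.isPGroup (OppOf_not_dvd _)
    (le_normalizer_OppOf (le_normalizer_centralizer (h.S_norm (q := q) h.tS)))).exists_isSyl q
  have h9 : Q ≤ centralizer {t} := (hQ.le.trans (OppOf_le _)).trans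
    ((centralizer_le_normalizer _).trans (h.norm_le (fun e => hn (e.le.trans bot_le)) (OpOf_le _)
      (le_normalizer_OpOf le_normalizer)))
  replace hQ := hR.of_card_le hQ.isPGroup le_top (hQ.card_le hR.isPGroup
    (le_O_of_odd h5.isPGroup h5.le (sup_of_card_le_two h5 h6) h7 (odd_of_isPGroup q2 hR.isPGroup)))
  obtain ⟨g, -, rfl⟩ := hQ.exists_conj hQ'
  obtain ⟨m, hm, e'⟩ := ((isSyl_top_conj h.cx.syl g).mono (by
    rw [← map_conj_normalizer]; exact map_mono h8) le_top).exists_conj (h.cx.syl.mono h2 le_top)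
  rw [map_conj_map_conj] at e'
  have h10 : m * g * t * (m * g)⁻¹ ∈ S ⊓ centralizer (U : Set G) :=
    ⟨conj_mem_of_mem_normalizer (map_conj_eq_iff.mp e') h.tS, mem_centralizer_iff.mpr fun u hu => by
      have h11 := h3 hu
      rw [← map_conj_eq_iff.mpr hm, map_conj_map_conj] at h11
      have := map_mono (f := (MulAut.conj (m * g)).toMonoidHom) h9 h11
      rw [map_conj_centralizer_singleton] at this
      exact (mem_C.mp this).symm⟩
  rw [e, mem_bot] at h10
  exact h.t1 (conj_eq_one_iff.mp h10)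

theorem false_of_act : False := by
  have hA := h.cx.ag
  obtain ⟨v, hv, v1⟩ := h.exists_notin t t
  replace v1 : ¬ (v = 1 ∨ v = t) := fun e => v1 (e.imp_right Or.inl)
  have hX := h.act q2 hn h.tS h.t1 hv v1
  set X := OpOf q (centralizer ({t} : Set G)) ⊓ centralizer {v} with hXd
  have Xq : IsPGroup q X := (OpOf_isPGroup _).to_le inf_le_left
  have hSX : S ≤ normalizer (X : Set G) :=
    le_normalizer_inf (h.S_norm h.tS) ((h.S_le hv).trans le_normalizer)
  have hR : normalizer (X : Set G) ≠ ⊤ := fun e => by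
    haveI := h.cx.simple
    refine (normal_of_le_normalizer_top e.ge).eq_bot_or_eq_top.elim (fun e' => hX (e'.le.trans bot_le))
      fun e' => C_ne_top h.cx h.tS h.t1 (top_le_iff.mp (e'.ge.trans (inf_le_left.trans (OpOf_le _))))
  have hS := h.cx.syl.mono hSX le_top
  have hact := coprimeAct_of_isPGroup_left h.cx.syl.isPGroup
    (OppOf_not_dvd (p := 2) (centralizer (X : Set G)))
    (le_normalizer_OppOf (le_normalizer_centralizer hSX))
  obtain ⟨U, hU, hSU⟩ := hact.exists_isSyl q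
  have hin : ∀ M : Subgroup G, IsPGroup q M → M ≤ OppOf 2 (centralizer (X : Set G)) →
      S ≤ normalizer (M : Set G) → OppOf 2 (centralizer (X : Set G)) ⊓ centralizer (S : Set G) ≤
        normalizer (M : Set G) → M ≤ U := fun M h1 h2 h3 h4 =>
    ((hact.isSyl_inf hU hSU h2 h3 h4).eq_of_le h1 inf_le_right le_rfl).le.trans inf_le_left
  have hXU : X ≤ U := hin X Xq (le_OppOf (hA.le_centralizer Xq le_rfl le_rfl)
    (centralizer_le_normalizer _) (odd_of_isPGroup q2 Xq)) hSX
    (inf_le_left.trans ((OppOf_le _).trans (centralizer_le_normalizer _)))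
  obtain ⟨⟨e0, he0⟩, e01⟩ := ne_bot_iff_exists_ne_one.mp (h.star q2 hn hU.isPGroup hSU)
  replace e01 : e0 ≠ 1 := fun e => e01 (Subtype.ext e)
  obtain ⟨e, he, e1, ee, hXe⟩ : ∃ e ∈ S, e ≠ 1 ∧ e0 ≠ e ∧ X ≤ centralizer {e} := by
    by_cases e : e0 = t
    · exact ⟨v, hv, fun e => v1 (Or.inl e), fun e' => v1 (Or.inr (e'.symm.trans e)), inf_le_right⟩
    · exact ⟨t, h.tS, h.t1, e, inf_le_left.trans (OpOf_le _)⟩
  set Z := OpOf q (centralizer ({e} : Set G)) with hZ
  have Zq : IsPGroup q Z := OpOf_isPGroup _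
  have Zo := odd_of_isPGroup q2 Zq
  have ZC : Z ≤ centralizer (X : Set G) :=
    le_centralizer_iff.mp (hA.le_centralizer_OpOf Xq (hXe.trans le_normalizer))
  have ZR := ZC.trans (centralizer_le_normalizer _)
  have ZN : centralizer {e} ≤ normalizer (Z : Set G) := le_normalizer_OpOf le_normalizer
  have hW : ∀ z ∈ Z, z ∈ OppOf 2 (normalizer (X : Set G)) → e0 * z = z * e0 := fun z hz hz' => by
    have h1 := hin (Z ⊓ OppOf 2 (centralizer (X : Set G))) (Zq.to_le inf_le_left) inf_le_right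
      (le_normalizer_inf (h.S_norm he) hact.le_norm) (le_normalizer_inf
        (inf_le_right.trans ((centralizer_le (by simpa using he)).trans ZN))
        (inf_le_left.trans le_normalizer))
    exact (mem_centralizer_iff.mp he0.2 z (h1 ⟨hz, inf_OppOf_le (centralizer_le_normalizer _)
      ⟨hz', ZC hz⟩⟩)).symm
  have hc := St3.comm_le hA hS he ZR Zo (inf_le_right.trans ZN)
  by_cases hall : ∀ J, PComp 2 (normalizer (X : Set G)) J → Z ≤ CM J
  · have h1 := le_O_of_CM hA h.cx.ih hR hS ZR Zo hall hc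
    exact (h.CZ q2 hn he e1 he0.1 fun z hz => mem_C.mpr (hW z hz (h1 hz))).elim e01 ee
  obtain ⟨J, hJ, h1⟩ : ∃ J, PComp 2 (normalizer (X : Set G)) J ∧ ¬ Z ≤ CM J := by
    simpa using hall
  obtain ⟨h2, h3, -⟩ := (PComp.act hA h.cx.ih hR hS hJ he (h.sq he) ZR Zo
    (inf_le_right.trans ZN)).resolve_left h1
  obtain ⟨E, hE⟩ := PComp.cd hA h.cx.ih hR hS hJ
  obtain ⟨c, hc', c1⟩ : ∃ c ∈ S ⊓ CM J, c ≠ 1 := by
    by_contra! e
    have h4 := Ty.card_TB hA h.cx.ih hR hS hJ h2
    have h5 : S ≤ J := fun x hx => by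
      obtain ⟨v, hv, c, hc, rfl⟩ := hE.split x hx
      rw [e c hc, mul_one]; exact hv.2
    rw [inf_eq_left.mpr h5, h.card] at h4
    omega
  have ce : ¬ (c = 1 ∨ c = e) := fun e => e.elim c1 fun e => h3 (e ▸ hc'.2)
  have hZJ := PComp.odd_le_norm hA h.cx.ih hR hS hJ ZR Zo
    (inf_le_left.trans (h.S_norm he))
  have hcZ : c ∈ normalizer (Z : Set G) := h.S_norm he hc'.1
  have hY : ⁅Z, zpowers c⁆ ≤ Z := commutator_le_of_le_normalizer_left (by simpa using hcZ)
  have h4 : ⁅Z, zpowers c⁆ ≤ OppOf 2 (normalizer (X : Set G)) :=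
    le_O_of_CM hA h.cx.ih hR hS (hY.trans ZR) (not_dvd_card_of_le Zo hY) (fun J' hJ' => by
      rw [h.uniq hR hSX hJ' hJ]
      exact commutator_le.mpr fun z hz y hy => mul_mem (St2.conj_mem_CM (hZJ hz)
        (zpowers_le.mpr hc'.2 hy)) (inv_mem (zpowers_le.mpr hc'.2 hy)))
      ((commutator_mono le_rfl hY).trans hc)
  have h5 : ∀ z ∈ Z, e0 * (z * c * z⁻¹ * c⁻¹) = z * c * z⁻¹ * c⁻¹ * e0 := fun z hz =>
    hW _ (hY (commutator_mem_commutator hz (mem_zpowers c)))
      (h4 (commutator_mem_commutator hz (mem_zpowers c)))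
  have fin : ∀ z ∈ Z, z * c * z⁻¹ * c⁻¹ ∈ centralizer {c * e0} → c * z = z * c := fun z hz h6 => by
    refine comm_of_inv Zo hz (h.sq hc'.1) hcZ ?_
    have h7 := mem_C.mp h6
    rwa [mul_assoc c, h5 z hz, ← mul_assoc, ← mul_assoc _ c e0, mul_right_cancel_iff] at h7
  by_cases hf : c * e0 = 1 ∨ c * e0 = e
  · refine ce (h.CZ q2 hn he e1 hc'.1 fun z hz => mem_C.mpr (fin z hz ?_))
    rcases hf with hf | hf <;> rw [hf]
    · exact mem_C.mpr (by simp)
    · exact OpOf_le _ (hY (commutator_mem_commutator hz (mem_zpowers c)))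
  have hf' := mul_mem hc'.1 he0.1
  refine h.act q2 hn he e1 hf' hf fun z hz => h.five he hc'.1 hf' e1 ce ?_
    (mem_C.mp (OpOf_le _ hz.1)) (fin z hz.1 ?_) (mem_C.mp hz.2)
  · rintro (e' | e' | e' | e')
    exacts [hf (Or.inl e'), hf (Or.inr e'), e01 (by simpa using e'),
      ee (by rwa [h.cx.S_comm he hc'.1, mul_left_cancel_iff] at e')]
  · have h6 : z ∈ centralizer {c * e0} := hz.2
    have h7 := h.S_le hf' hc'.1
    exact mul_mem (mul_mem (mul_mem h6 h7) (inv_mem h6)) (inv_mem h7)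

omit q2 hn

omit [Fact q.Prime] in
theorem O_bot : OppOf 2 (centralizer ({t} : Set G)) = ⊥ := by
  have h1 : OppOf 2 (centralizer {t}) ≤ centralizer (S : Set G) := by
    refine le_centralizer_of_fitting (coprimeAct_of_isPGroup_left h.cx.syl.isPGroup (OppOf_not_dvd _)
      (le_normalizer_OppOf ((h.S_le h.tS).trans le_normalizer))) (solv_O _)
      (le_centralizer_iff.mp (fittingOf_le_of_forall_OpOf fun q hq => ?_))
    haveI : Fact q.Prime := ⟨hq⟩
    by_cases q2 : q = 2
    · subst q2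
      rw [eq_bot_of_isPGroup_of_not_dvd (OpOf_isPGroup _)
        (not_dvd_card_of_le (OppOf_not_dvd _) (OpOf_le _))]
      exact bot_le
    exact (OpOf_mono_of_normal (OppOf_le _) (le_normalizer_OppOf le_normalizer)).trans
      (by_contra fun hn => h.false_of_act q2 hn)
  by_contra e
  obtain ⟨g, hg, e'⟩ := exists_move h.cx h.tS h.t1
  refine e' (mul_inv_eq_iff_eq_mul.mpr (mem_C.mp (h.norm_le e (OppOf_le _)
    (le_normalizer_OppOf le_normalizer) (mem_normalizer_of_conj_mem (map_conj_le_iff.mp ?_)))).symm)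
  have h2 := map_conj_le_of_le h1 (normalizer_le_normalizer_centralizer _ hg)
  have ha := conj_mem_of_mem_normalizer hg h.tS
  rw [OppOf_conj, map_conj_centralizer_singleton] at h2 ⊢
  refine le_O_of_cent h.cx.ag h.cx.ih (C_ne_top h.cx h.tS h.t1) (syl_C h.cx h.tS) ha (h.sq ha)
    (h2.trans (centralizer_le (by simpa using h.tS))) (OppOf_not_dvd _)
    (inf_le_right.trans (le_normalizer_OppOf le_normalizer)) fun J _ _ => ?_
  rw [commutator_eq_bot_iff_le_centralizer.mpr (inf_le_left.trans (le_centralizer_iff.mp h2))]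
  exact bot_le

omit [Fact q.Prime] in
theorem e8 : E8 S K t := by
  have hM := C_ne_top h.cx h.tS h.t1
  have hn : centralizer {t} ≤ normalizer (K : Set G) := fun g hg =>
    map_conj_eq_iff.mp (h.uniq hM (h.S_le h.tS) (h.hK.conj (le_normalizer hg)) h.hK)
  have c := h.hK.comp h.O_bot
  refine ⟨h.cx.ag, h.cx.simple, h.cx.ih, h.cx.syl, h.card, fun x hx => h.sq hx, h.tS, h.t1, h.trans,
    ⟨hM, fun M hM => by_contra fun e => hM.not_ge (h.max hM.le e)⟩, h.hK.le, hn,
    fun e => h.tK ⟨h.tS, e⟩, h.four, fun g h1 h2 => ?_, ?_, h.cx.nse⟩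
  · have hY : centralizer {t} ≤ normalizer ((centralizer {t} ⊓ centralizer (K : Set G) :
        Subgroup G) : Set G) := le_normalizer_inf le_normalizer (le_normalizer_centralizer hn)
    have h3 := (syl_C h.cx h.tS).inf_normal inf_le_left hY
    have h4 := card_sup_mul_card_inf (H := S ⊓ K)
      (N := S ⊓ (centralizer {t} ⊓ centralizer (K : Set G)))
      (inf_le_left.trans (le_normalizer_inf le_normalizer ((h.S_le h.tS).trans hY)))
    rw [show S ⊓ K ⊓ (S ⊓ (centralizer {t} ⊓ centralizer (K : Set G))) = ⊥ from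
      eq_bot_iff.mpr fun x hx => (h.cx.ag.inf_centralizer_of_perfect c.qs.perfect).le
        ⟨hx.1.2, hx.2.2.2⟩, card_bot, mul_one, h.four] at h4
    have h5 := card_le_of_le (sup_le inf_le_left inf_le_left :
      S ⊓ K ⊔ S ⊓ (centralizer {t} ⊓ centralizer (K : Set G)) ≤ S)
    rw [h.card] at h5
    have h6 : Nat.card ↥(S ⊓ (centralizer {t} ⊓ centralizer (K : Set G))) ≤ 2 := by omega
    have h7 := sup_of_card_le_two h3 h6
    rw [eq_bot_iff.mpr ((OppOf_mono_of_normal inf_le_left hY).trans h.O_bot.le), bot_sup_eq] at h7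
    refine or_iff_not_imp_left.mpr fun g1 => eq_of_card_le_two h6 (h7.ge ⟨mem_C.mpr h1, h2⟩)
      ⟨h.tS, mem_C.mpr rfl, mem_centralizer_iff.mpr fun k hk => (mem_C.mp (h.hK.le hk)).symm⟩ g1 h.t1
  · have h1 : Kn K := by
      refine h.cx.ih K (card_lt_of_ne_top fun e => hM (top_le_iff.mp (e.ge.trans h.hK.le)))
        (h.cx.ag.subgroup K) (h.cx.ag.simple_of_qs c.qs) ?_
      by_contra! e
      exact c.qs.not_le_centralizer fun x hx => mem_centralizer_iff.mpr fun y hy =>
        congrArg Subtype.val (e ⟨y, hy⟩ ⟨x, hx⟩)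
    refine (or_assoc.mpr h1).resolve_right fun h2 => ?_
    have h3 := ((syl_C h.cx h.tS).inf_normal h.hK.le hn).subgroupOf le_rfl
    rw [subgroupOf_self] at h3
    have h4 := h2.card_syl h3
    rw [card_subgroupOf inf_le_right, h.four] at h4
    omega

end P8

end PE

theorem Cx.e8 (h : Cx S A) (hb : ¬ Beta2 A) : ∃ L t, E8 S L t := by
  obtain ⟨K, D, t, h⟩ := PE.exists_p8 h hb
  exact ⟨K, t, h.e8⟩

end Cfsg.Agent.Lib.AG
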