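/-
A-groups project (S2554): tools for passing to `M / O(M)`.
-/
import Cfsg.Agent.Lib.AG.Defs1
import Cfsg.Agent.Lib.AG.Basic
import Cfsg.Agent.Lib.AG.Aut

set_option autoImplicit false

namespace Cfsg.Agent.Lib.AG.St0

open Subgroup Cfsg.Agent.Lib.Core
open scoped commutatorElement

universe u

/-- `T` is invariant under isomorphism -/
def Iso (T : ∀ (Q : Type u) [Group Q], Prop) : Prop :=
  ∀ (X Y : Type u) [Group X] [Group Y] [Finite X], (X ≃* Y) → T X → T Y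

theorem se_equiv {X Y : Type*} [Group X] [Group Y] [Finite X] (e : X ≃* Y) {H : Subgroup X}
    (h : Cfsg.IsStronglyEmbedded H) : Cfsg.IsStronglyEmbedded (H.map e.toMonoidHom) := by
  have : Finite Y := Finite.of_equiv X e.toEquiv
  obtain ⟨h1, h2, h3⟩ := Invol.isStronglyEmbedded_iff.1 h
  have m : ∀ y, y ∈ H.map e.toMonoidHom ↔ e.symm y ∈ H := fun y => mem_map_equiv
  refine Invol.isStronglyEmbedded_iff.2 ⟨fun ht => h1 (eq_top_iff.2 fun x _ => ?_), ?_, fun g t ht t2 hg => ?_⟩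
  · simpa using (m (e x)).1 (ht ▸ mem_top _)
  · rwa [card_map_of_injective e.injective]
  · rw [m] at ht hg ⊢
    exact h3 _ _ ht (by rw [e.symm.orderOf_eq, t2]) (by simpa using hg)

theorem TA_equiv {X Y : Type*} [Group X] [Group Y] [Finite X] (e : X ≃* Y) (h : TA X) : TA Y := by
  obtain ⟨h1, ⟨a, b, h2⟩, H, h3⟩ := h
  exact ⟨e.symm.isSimpleGroup, ⟨e a, e b, fun c => h2 (e.injective (by simpa using c))⟩, _, se_equiv e h3⟩

theorem V4_equiv {X Y : Type*} [Group X] [Group Y] (e : X ≃* Y) {t s w : X} (h : V4 t s w) :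
    V4 (e t) (e s) (e w) where
  simple := have := h.simple; e.symm.isSimpleGroup
  tt := by rw [← map_mul, h.tt, map_one]
  ss := by rw [← map_mul, h.ss, map_one]
  t1 := by simpa using h.t1
  s1 := by simpa using h.s1
  ts := by simpa using h.ts
  comm := by rw [← map_mul, h.comm, map_mul]
  n8 := by rw [← Nat.card_congr e.toEquiv]; exact h.n8
  wt := by rw [← map_inv, ← map_mul, ← map_mul, h.wt]
  ws := by rw [← map_inv, ← map_mul, ← map_mul, h.ws, map_mul]

theorem TB_equiv {X Y : Type*} [Group X] [Group Y] (e : X ≃* Y) (h : TB X) : TB Y := by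
  obtain ⟨t, s, w, K, h, hK⟩ := h
  have c : ∀ {a b : X}, e a * e b = e b * e a ↔ a * b = b * a := by
    intro a b; rw [← map_mul, ← map_mul, e.apply_eq_iff_eq]
  refine ⟨e t, e s, e w, K.map e.toMonoidHom, ⟨V4_equiv e h.toV4, ?_, by simp, ?_, ?_, ?_, ?_, ?_, ?_, ?_, ?_⟩,
    fun hb => hK ((map_eq_bot_iff_of_injective _ e.injective).1 hb)⟩
  · rw [card_map_of_injective e.injective]; exact h.Kodd
  · rintro _ ⟨x, hx, rfl⟩; exact c.2 (h.Kt x hx)
  · rintro _ ⟨x, hx, rfl⟩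
    simpa using congrArg e (h.Ks x hx)
  · intro b hb; rw [mem_bot.1 hb]; simp
  · intro b hb; rw [mem_bot.1 hb]; simp
  · intro b hb x hx; rw [mem_bot.1 hb]; simpa using hx
  · intro g hg
    obtain ⟨g, rfl⟩ := e.surjective g
    obtain ⟨x, hx, b, hb, h1⟩ := h.cent g (c.1 hg)
    rw [mem_bot.1 hb] at h1
    refine ⟨e x, mem_map_of_mem _ hx, 1, one_mem _, ?_⟩
    rcases h1 with h1 | h1 | h1 | h1 <;> simp [h1]
  · rintro _ ⟨x, hx, rfl⟩ x1 g hg
    obtain ⟨g, rfl⟩ := e.surjective g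
    exact c.2 (h.ti x hx (fun e1 => x1 (by simp [e1])) g (c.1 hg))
  · intro _
    have := congrArg (map e.toMonoidHom) (h.gen hK)
    rwa [Subgroup.map_sup, map_equiv_centralizer, MonoidHom.map_zpowers, map_top_of_surjective _ e.surjective,
      Set.image_singleton] at this

theorem TC_equiv {X Y : Type*} [Group X] [Group Y] (e : X ≃* Y) (h : TC X) : TC Y := by
  obtain ⟨h1, h2, t, t1, tt, ⟨φ⟩⟩ := h
  refine ⟨e.symm.isSimpleGroup, by rwa [← Nat.card_congr e.toEquiv], e t, by simpa using t1,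
    by rw [← map_mul, tt, map_one], ⟨MulEquiv.trans ?_ φ⟩⟩
  have := map_equiv_centralizer e {t}
  rw [Set.image_singleton] at this
  exact (MulEquiv.subgroupCongr this.symm).trans (equivMap _ e.toMonoidHom e.injective).symm

theorem iso_TA : Iso.{u} TA := fun _ _ _ _ _ e h => TA_equiv e h
theorem iso_TB : Iso.{u} TB := fun _ _ _ _ _ e h => TB_equiv e h
theorem iso_TC : Iso.{u} TC := fun _ _ _ _ _ e h => TC_equiv e h

variable {G : Type u} [Group G] {Q : Type u} [Group Q] {M : Subgroup G} (f : M →* Q)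

/-- the restriction of `f` to `K`, onto `bar f K` -/
def res {K : Subgroup G} (hK : K ≤ M) : K →* bar f K :=
  (f.comp (inclusion hK)).codRestrict _ fun x => mem_bar_of_mem f x.2

theorem res_surj {K : Subgroup G} (hK : K ≤ M) : Function.Surjective (res f hK) := by
  rintro ⟨y, hy⟩
  obtain ⟨x, hx, rfl⟩ := (mem_bar f).1 hy
  exact ⟨⟨x, hx⟩, rfl⟩

theorem kerOf_res {K : Subgroup G} (hK : K ≤ M) : kerOf (res f hK) = kerOf f ⊓ K := by
  ext x
  refine ⟨fun h => ?_, fun h => ?_⟩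
  · have hx := kerOf_le _ h
    exact ⟨(mem_kerOf f (x := ⟨x, hK hx⟩)).2 (congrArg Subtype.val ((mem_kerOf _ (x := ⟨x, hx⟩)).1 h)), hx⟩
  · exact (mem_kerOf _ (x := ⟨x, h.2⟩)).2 (Subtype.ext ((mem_kerOf f (x := ⟨x, hK h.2⟩)).1 h.1))

variable [Finite G]

/-- `K / O(K)` is `bar f K` -/
theorem ty_iff {T : ∀ (Q : Type u) [Group Q], Prop} (hT : Iso T) {K : Subgroup G} (hK : K ≤ M)
    (hk : kerOf f ⊓ K = OppOf 2 K) : Ty T K ↔ T (bar f K) := by
  have : Finite (bar f K) := Finite.of_surjective _ (res_surj f hK)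
  refine ⟨fun ⟨X, _, _, g, h1, h2, h3⟩ => hT _ _ ?_ h3,
    fun h => ⟨_, inferInstance, inferInstance, res f hK, res_surj f hK, (kerOf_res f hK).trans hk, h⟩⟩
  have e : g.ker = (res f hK).ker := by
    rw [← kerOf_subgroupOf, ← kerOf_subgroupOf, h2, kerOf_res, hk]
  exact ((QuotientGroup.quotientKerEquivOfSurjective g h1).symm.trans
    (QuotientGroup.quotientMulEquivOfEq e)).trans
      (QuotientGroup.quotientKerEquivOfSurjective _ (res_surj f hK))

theorem le_CM_iff {X K : Subgroup G} :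
    X ≤ CM K ↔ X ≤ normalizer (K : Set G) ∧ ⁅X, K⁆ ≤ OppOf 2 K :=
  ⟨fun h => ⟨fun _ hx => (h hx).1, commutator_le.2 fun _ hx k hk => (h hx).2 k hk⟩,
    fun h _ hx => ⟨h.1 hx, fun k hk => commutator_le.1 h.2 _ hx k hk⟩⟩

theorem CM_le_normalizer (K : Subgroup G) : CM K ≤ normalizer (K : Set G) := fun _ h => h.1

section Lift
variable {K R : Subgroup G} (hk : ¬ 2 ∣ Nat.card (kerOf f)) (hK : K ≤ M) (hR : IsPGroup 2 R)
  (hRM : R ≤ M) (hn : R ≤ normalizer (K : Set G))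
include hk hR hn

theorem ker_inf_sup_le : kerOf f ⊓ (R ⊔ K) ≤ K := fun x hx => by
  refine mem_of_coprime_relIndex (sup_le hn le_normalizer) hx.2 ?_
  obtain ⟨n, e⟩ := IsPGroup.iff_card.1 hR
  rw [relIndex_sup_of_le_normalizer hn]
  exact Nat.Coprime.coprime_dvd_right (e ▸ relIndex_dvd_card K R)
    ((coprime_orderOf_of_mem hk hx.1).pow_right n)

include hRM in
theorem cop_ker : CoprimeAct R (kerOf f ⊓ K) :=
  coprimeAct_of_isPGroup_left hR (not_dvd_card_of_le hk inf_le_left)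
    (le_normalizer_inf (hRM.trans (le_normalizer_kerOf f)) hn)

include hK hRM

/-- centralisers of 2-groups lift into `K` -/
theorem bar_cent : bar f (K ⊓ centralizer (R : Set G)) = bar f K ⊓ centralizer (bar f R : Set Q) := by
  refine le_antisymm (le_inf (bar_mono f inf_le_left) (bar_le_centralizer f inf_le_right)) ?_
  rintro y ⟨h1, h2⟩
  obtain ⟨k, hk', rfl⟩ := (mem_bar f).1 h1
  obtain ⟨c, hc, n, hn', e⟩ := (cop_ker f hk hR hRM hn).exists_centralizer_mul (g := k) fun a ha => by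
    refine ⟨(mem_kerOf f (x := (⟨a, hRM ha⟩ : M)⁻¹ * (k⁻¹ * ⟨a, hRM ha⟩ * k))).2 ?_, ?_⟩
    · have := h2 _ (mem_bar_of_mem f (x := ⟨a, hRM ha⟩) ha)
      simp only [map_mul, map_inv, mul_assoc, this]; group
    · have := mul_mem (conj_mem_of_mem_normalizer' (hn ha) (inv_mem hk')) hk'
      simp only [mul_assoc] at this ⊢; exact this
  have hc' : c = k * n⁻¹ := by rw [e]; group
  have cK : c ∈ K := hc' ▸ mul_mem hk' (K.inv_mem hn'.2)
  refine (mem_bar f).2 ⟨⟨c, hK cK⟩, ⟨cK, hc⟩, ?_⟩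
  have : k = ⟨c, hK cK⟩ * ⟨n, hK hn'.2⟩ := Subtype.ext e
  rw [this, map_mul, (mem_kerOf f (x := ⟨n, hK hn'.2⟩)).1 hn'.1, mul_one]

/-- normalisers of 2-groups lift into `K` -/
theorem bar_norm : bar f (K ⊓ normalizer (R : Set G)) = bar f K ⊓ normalizer (bar f R : Set Q) := by
  refine le_antisymm (le_inf (bar_mono f inf_le_left) (bar_le_normalizer f inf_le_right)) ?_
  rintro y ⟨h1, h2⟩
  obtain ⟨k, hk', rfl⟩ := (mem_bar f).1 h1
  obtain ⟨n, hn', e⟩ := (cop_ker f hk hR hRM hn).exists_conj_le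
      (S := R.map (MulAut.conj (k : G)⁻¹).toMonoidHom) fun a ha => by
    obtain ⟨r, hr, e⟩ := (mem_bar f).1 (conj_mem_of_mem_normalizer h2 (mem_bar_of_mem f (x := ⟨a, hRM ha⟩) ha))
    have m : a * ((k : G)⁻¹ * r * k)⁻¹ ∈ kerOf f := by
      refine (mem_kerOf f (x := (⟨a, hRM ha⟩ : M) * (k⁻¹ * r * k)⁻¹)).2 ?_
      simp only [map_mul, map_inv, e]; group
    refine ⟨_, ⟨m, ker_inf_sup_le f hk hR hn ⟨m, ?_⟩⟩, (k : G)⁻¹ * r * k, mem_map_conj.2 (by simpa [mul_assoc] using hr),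
      by group⟩
    exact (R ⊔ K).mul_mem (mem_sup_left ha) ((R ⊔ K).inv_mem (mul_mem (mul_mem (mem_sup_right (inv_mem hk'))
      (mem_sup_left hr)) (mem_sup_right hk')))
  refine (mem_bar f).2 ⟨k * ⟨n, hK hn'.2⟩, ⟨mul_mem hk' hn'.2, mem_normalizer_of_conj_mem fun x hx => ?_⟩, ?_⟩
  · have := mem_map_conj.1 (map_conj_le_iff.1 e x hx)
    simpa [mul_assoc] using this
  · rw [map_mul, (mem_kerOf f (x := ⟨n, hK hn'.2⟩)).1 hn'.1, mul_one]

end Lift

section Free
variable (hA : AG G) (hO : OppOf 2 (⊤ : Subgroup G) = ⊥) {S L : Subgroup G} (hS : IsSyl 2 S ⊤)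
include hA hO hS

omit hA in
theorem q_ne (hL : Comp ⊤ L) : S ⊓ L ≠ ⊥ :=
  (hS.inf_subn hL.subn).ne_bot (hL.dvd_card_of_OppOf_eq_bot hO)

/-- a Sylow 2-subgroup normalises each component -/
theorem q_norm (hL : Comp ⊤ L) : S ≤ normalizer (L : Set G) := fun s hs => by
  by_contra h
  have c := (hL.conj (g := s) (le_normalizer (mem_top s))).le_centralizer_of_ne hL fun e => h (map_conj_eq_iff.1 e)
  refine q_ne hO hS hL (eq_bot_iff.2 (le_trans (fun x hx => mem_inf.2 ⟨hx.2, c (mem_map_conj.2 ?_)⟩)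
    (hA.inf_centralizer_of_perfect hL.qs.perfect).le))
  rw [mul_assoc, hA.comm hS.isPGroup hx.1 hs, inv_mul_cancel_left]; exact hx.2

/-- `S = (S ∩ L) × C_S(L)` -/
theorem q_split (hL : Comp ⊤ L) {s : G} (hs : s ∈ S) :
    ∃ v ∈ S ⊓ L, v⁻¹ * s ∈ centralizer (L : Set G) := by
  have := hA.simple_of_qs hL.qs
  have hT := hS.inf_subn hL.subn
  obtain ⟨R, hR⟩ := hT.exists_sylow
  have : IsMulCommutative R := (hA.subgroup L).isMulCommutative R.2
  have sN := q_norm hA hO hS hL hs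
  obtain ⟨k, hk⟩ := pow_eq_one_of_isPGroup hS.isPGroup hs
  have hα : (L.normalizerMonoidHom ⟨s, sN⟩) ^ 2 ^ k = 1 := by
    rw [← map_pow, show (⟨s, sN⟩ : normalizer (L : Set G)) ^ 2 ^ k = 1 from Subtype.ext hk, map_one]
  have na : ¬ IsMulCommutative L := fun h => hL.qs.not_le_centralizer fun x hx y hy =>
    congrArg Subtype.val (h.is_comm.comm (⟨y, hy⟩ : L) ⟨x, hx⟩)
  obtain ⟨l, hl⟩ := inn_two na (hL.dvd_card_of_OppOf_eq_bot hO) R hα fun x hx => Subtype.ext (by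
    rw [hR] at hx
    change s * x * s⁻¹ = x
    rw [hA.comm hS.isPGroup hs (mem_subgroupOf.1 hx).1, mul_inv_cancel_right])
  have e : ∀ x ∈ L, (l : G) * x * (l : G)⁻¹ = s * x * s⁻¹ := fun x hx =>
    congrArg Subtype.val (DFunLike.congr_fun hl (⟨x, hx⟩ : L))
  have l2 : (l : G) ^ 2 ^ k = 1 := by
    rw [← hl, ← map_pow, ← map_one MulAut.conj] at hα
    exact congrArg Subtype.val (conj_inj na hα)
  have lT : (l : G) ∈ S ⊓ L := hT.le_of_le_normalizer' (isPGroup_zpowers l2) (zpowers_le.2 l.2)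
    (zpowers_le.2 (mem_normalizer_of_conj_mem fun x hx => by
      rw [e x hx.2, hA.comm hS.isPGroup hs hx.1, mul_inv_cancel_right]; exact hx)) (mem_zpowers _)
  refine ⟨l, lT, fun x hx => ?_⟩
  calc x * ((l : G)⁻¹ * s) = (l : G)⁻¹ * ((l : G) * x * (l : G)⁻¹) * s := by group
    _ = _ := by rw [e x hx]; group

/-- `S` is generated by `O₂` and the `S ∩ L` -/
theorem q_all {W : Subgroup G} (h1 : ∀ L, Comp ⊤ L → S ⊓ L ≤ W) (h2 : OpOf 2 ⊤ ≤ W) : S ≤ W := by
  intro s hs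
  have key : ∀ T : Set (Subgroup G), T.Finite → (∀ L ∈ T, Comp ⊤ L) →
      ∃ p ∈ S ⊓ W, ∀ L ∈ T, p⁻¹ * s ∈ centralizer (L : Set G) := by
    intro T hT
    induction T, hT using Set.Finite.induction_on with
    | empty => exact fun _ => ⟨1, one_mem _, by simp⟩
    | @insert J T hJ _ ih =>
      intro h
      obtain ⟨p, hp, h3⟩ := ih fun L hL => h L (Set.mem_insert_of_mem _ hL)
      have cJ := h J (Set.mem_insert _ _)
      obtain ⟨v, hv, h4⟩ := q_split hA hO hS cJ (mul_mem (inv_mem hp.1) hs)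
      refine ⟨p * v, ⟨mul_mem hp.1 hv.1, mul_mem hp.2 (h1 J cJ hv)⟩, ?_⟩
      rintro L (rfl | hL)
      · simpa only [mul_inv_rev, mul_assoc] using h4
      · have := cJ.le_centralizer_of_ne (h L (Set.mem_insert_of_mem _ hL)) (fun e => hJ (e ▸ hL)) hv.2
        simpa only [mul_inv_rev, mul_assoc] using mul_mem (inv_mem this) (h3 L hL)
  obtain ⟨p, hp, h3⟩ := key {L | Comp ⊤ L} (Set.toFinite _) fun _ h => h
  have m := S.mul_mem (S.inv_mem hp.1) hs
  have : zpowers (p⁻¹ * s) ≤ fittingOf ⊤ := le_fittingOf_of_le_centralizer le_top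
    (le_centralizer_iff.1 (EOf_le_iff.2 fun L hL => le_centralizer_iff.1 (zpowers_le.2 (h3 L hL))))
    (by rw [fittingOf_eq_OpOf hO]
        exact hA.le_centralizer hS.isPGroup (zpowers_le.2 m) (OpOf_le_of_isSyl hS))
  rw [fittingOf_eq_OpOf hO] at this
  simpa using W.mul_mem hp.2 (h2 (this (mem_zpowers _)))

theorem q_le_Fstar : S ≤ FstarOf ⊤ :=
  q_all hA hO hS (fun _ hL => inf_le_right.trans (hL.le_EOf.trans (EOf_le_FstarOf _)))
    ((OpOf_le_fittingOf _).trans (fittingOf_le_FstarOf _))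

end Free

variable {f} (hf : kerOf f = OppOf 2 M)
include hf

theorem ker_inf {K : Subgroup G} (hK : Subn M K) : kerOf f ⊓ K = OppOf 2 K := by
  rw [hf, hK.OppOf_eq]

theorem ker_odd : ¬ 2 ∣ Nat.card (kerOf f) := hf ▸ OppOf_not_dvd M

theorem pty_iff {T : ∀ (Q : Type u) [Group Q], Prop} (hT : Iso T) {K : Subgroup G}
    (hK : PComp 2 M K) : Ty T K ↔ T (bar f K) := ty_iff f hT hK.le (ker_inf hf hK.subn)

variable [Finite Q]

theorem CM_iff {K X : Subgroup G} (hK : PComp 2 M K) (hX : X ≤ M) :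
    X ≤ CM K ↔ bar f X ≤ centralizer (bar f K : Set Q) := by
  rw [le_CM_iff, bar_le_centralizer_iff f hX hK.le]
  refine ⟨fun h => h.2.trans (hf ▸ hK.OppOf_le), fun h => ?_⟩
  have n := hK.le_normalizer_of_bar f le_rfl hX hf
    (le_normalizer_of_le_centralizer ((bar_le_centralizer_iff f hX hK.le).2 h))
  exact ⟨n, (le_inf h (commutator_le_of_le_normalizer_right n)).trans (ker_inf hf hK.subn).le⟩

theorem mem_CM_iff {K : Subgroup G} (hK : PComp 2 M K) (x : M) :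
    (x : G) ∈ CM K ↔ f x ∈ centralizer (bar f K : Set Q) := by
  rw [← zpowers_le, CM_iff hf hK (zpowers_le.2 x.2), bar_zpowers, zpowers_le]

variable (hs : Function.Surjective f)
include hs

omit [Finite Q] in
theorem O_bot : OppOf 2 (⊤ : Subgroup Q) = ⊥ := bar_self f hs ▸ OppOf_bar_eq_bot f le_rfl hf

theorem comp_top {K : Subgroup G} (hK : PComp 2 M K) : Comp ⊤ (bar f K) :=
  bar_self f hs ▸ hK.comp_bar f le_rfl hf

theorem lift_comp {L : Subgroup Q} (hL : Comp ⊤ L) : ∃ K, PComp 2 M K ∧ bar f K = L :=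
  Comp.lift_bar f le_rfl hf (by rwa [bar_self f hs])

omit hf [Finite Q] in
theorem syl_top {S : Subgroup G} (hS : IsSyl 2 S M) : IsSyl 2 (bar f S) ⊤ :=
  bar_self f hs ▸ hS.bar f le_rfl

omit hf hs in
theorem bar_inf_subn {S K : Subgroup G} (hS : IsSyl 2 S M) (hK : Subn M K) :
    bar f (S ⊓ K) = bar f S ⊓ bar f K :=
  (((hS.inf_subn hK).bar f hK.le).eq_of_le ((isPGroup_bar f hS.isPGroup).to_inf_left) (bar_inf_le f _ _)
    inf_le_right).symm

omit hf [Finite Q] in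
/-- components of `M / O(M)` are known -/
theorem kn_comp (hA : AG G) (ih : IH.{u} (Nat.card G)) (hM : M ≠ ⊤) {L : Subgroup Q}
    (hL : Comp ⊤ L) : Kn L := by
  have : Finite Q := Finite.of_surjective f hs
  refine ih L ?_ ((hA.bar f hs).subgroup L) ((hA.bar f hs).simple_of_qs hL.qs) ?_
  · exact ((card_le_card_group L).trans (Nat.card_le_card_of_surjective f hs)).trans_lt (card_lt_of_ne_top hM)
  · by_contra h
    push Not at h
    exact hL.qs.not_le_centralizer fun x hx y hy => congrArg Subtype.val (h ⟨y, hy⟩ ⟨x, hx⟩)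

end Cfsg.Agent.Lib.AG.St0
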