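/-
A-groups project (S2554): structure of proper subgroups, part 1.
-/
import Cfsg.Agent.Lib.AG.St1a
import Cfsg.Agent.Lib.AG.Kn

set_option autoImplicit false

namespace Cfsg.Agent.Lib.AG

open Subgroup Cfsg.Agent.Lib.Core
open scoped commutatorElement

universe u

variable {G : Type u} [Group G] [Finite G]

namespace St1

/-- the quotient `M / O(M)` -/
structure Br {M : Subgroup G} {Q : Type u} [Group Q] (f : M →* Q) : Prop where
  hG : AG G
  surj : Function.Surjective f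
  ker : kerOf f = OppOf 2 M
  kn : ∀ L : Subgroup Q, Comp ⊤ L → Kn L

theorem exists_br (hA : AG G) (ih : IH.{u} (Nat.card G)) {M : Subgroup G} (hM : M ≠ ⊤) :
    ∃ (Q : Type u) (_ : Group Q) (_ : Finite Q) (f : M →* Q), Br f := by
  obtain ⟨Q, _, _, f, hf, hk, -⟩ := exists_bar (OppOf_le (p := 2) M) (le_normalizer_OppOf le_normalizer)
  refine ⟨Q, _, ‹_›, f, hA, hf, hk, fun L hL => ih L ?_ ((hA.bar f hf).subgroup L)
    ((hA.bar f hf).simple_of_qs hL.qs) ?_⟩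
  · exact ((card_le_card_group L).trans (Nat.card_le_card_of_surjective f hf)).trans_lt
      (card_lt_of_ne_top hM)
  · by_contra h
    push Not at h
    exact hL.qs.not_le_centralizer fun a ha => mem_centralizer_iff.mpr fun b hb =>
      congrArg Subtype.val (h ⟨b, hb⟩ ⟨a, ha⟩)

theorem CM_of_le {K X : Subgroup G} (hn : X ≤ normalizer (K : Set G)) (h : ⁅X, K⁆ ≤ OppOf 2 K) :
    X ≤ CM K := fun _ hx => ⟨hn hx, fun _ hk => h (commutator_mem_commutator hx hk)⟩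

theorem le_of_CM {K X : Subgroup G} (h : X ≤ CM K) : ⁅X, K⁆ ≤ OppOf 2 K :=
  commutator_le.mpr fun _ hx k hk => (h hx).2 k hk

theorem eq_one_of {S O : Subgroup G} (hS : IsPGroup 2 S) (hO : ¬ 2 ∣ Nat.card O) {x : G}
    (h1 : x ∈ S) (h2 : x ∈ O) : x = 1 := by
  have : x ∈ S ⊓ O := ⟨h1, h2⟩
  rwa [inf_eq_bot_of_isPGroup_of_not_dvd hS hO] at this

namespace Br

variable {M S K : Subgroup G} {Q : Type u} [Group Q] [Finite Q] {f : M →* Q}

theorem ag (h : Br f) : AG Q := h.hG.bar f h.surj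
theorem top (h : Br f) : bar f M = ⊤ := bar_self f h.surj
theorem odd (h : Br f) : ¬ 2 ∣ Nat.card (kerOf f) := h.ker ▸ OppOf_not_dvd M
theorem O (h : Br f) : OppOf 2 (⊤ : Subgroup Q) = ⊥ := h.top ▸ OppOf_bar_eq_bot f le_rfl h.ker
theorem comp (h : Br f) (hK : PComp 2 M K) : Comp ⊤ (bar f K) := h.top ▸ hK.comp_bar f le_rfl h.ker
theorem lift (h : Br f) {L : Subgroup Q} (hL : Comp ⊤ L) : ∃ K, PComp 2 M K ∧ bar f K = L :=
  Comp.lift_bar f le_rfl h.ker (h.top ▸ hL)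
theorem syl (h : Br f) (hS : IsSyl 2 S M) : IsSyl 2 (bar f S) ⊤ := h.top ▸ hS.bar f le_rfl
theorem kerK (h : Br f) (hK : PComp 2 M K) : kerOf f ⊓ K = OppOf 2 K := by rw [h.ker, hK.OppOf_eq]
theorem Z (h : Br f) (hK : PComp 2 M K) : bar f K ⊓ centralizer (bar f K : Set Q) = ⊥ :=
  h.ag.inf_centralizer_of_perfect (h.comp hK).qs.perfect
theorem norm (h : Br f) (hK : PComp 2 M K) {X : Subgroup G} (hX : X ≤ M)
    (hn : bar f X ≤ normalizer (bar f K : Set Q)) : X ≤ normalizer (K : Set G) :=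
  hK.le_normalizer_of_bar f le_rfl hX h.ker hn

theorem le_CM (h : Br f) (hK : PComp 2 M K) {X : Subgroup G} (hX : X ≤ M) :
    X ≤ CM K ↔ bar f X ≤ centralizer (bar f K : Set Q) := by
  rw [bar_le_centralizer_iff f hX hK.le]
  refine ⟨fun e => (le_of_CM e).trans (h.ker ▸ hK.OppOf_le), fun e => ?_⟩
  have hn := h.norm hK hX
    (le_normalizer_of_le_centralizer ((bar_le_centralizer_iff f hX hK.le).mpr e))
  exact CM_of_le hn (h.kerK hK ▸ le_inf e (commutator_le_of_le_normalizer_right hn))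

theorem mem_CM (h : Br f) (hK : PComp 2 M K) {x : M} :
    (x : G) ∈ CM K ↔ f x ∈ centralizer (bar f K : Set Q) := by
  rw [← zpowers_le, h.le_CM hK (zpowers_le_of_mem x.2), bar_zpowers, zpowers_le]

theorem inj (h : Br f) (hS : IsPGroup 2 S) {x : M} (hx : (x : G) ∈ S) (e : f x = 1) :
    (x : G) = 1 :=
  eq_one_of hS h.odd hx ((mem_kerOf f).mpr e)

theorem bar_inf (h : Br f) (hS : IsSyl 2 S M) {U : Subgroup G} (hU : Subn M U) :
    bar f (S ⊓ U) = bar f S ⊓ bar f U :=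
  (((hS.inf_subn hU).bar f hU.le).eq_of_le ((isPGroup_bar f hS.isPGroup).to_le inf_le_left)
    (bar_inf_le f _ _) inf_le_right).symm

theorem card_inf (h : Br f) (hS : IsSyl 2 S M) {U : Subgroup G} (hU : Subn M U) :
    Nat.card ↥(bar f S ⊓ bar f U) = Nat.card ↥(S ⊓ U) := by
  rw [← h.bar_inf hS hU,
    card_bar_of_isPGroup f (hS.isPGroup.to_le inf_le_left) (inf_le_left.trans hS.le) h.odd]

theorem sylK (h : Br f) (hS : IsSyl 2 S M) (hK : PComp 2 M K) :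
    IsSyl 2 (bar f S ⊓ bar f K) (bar f K) := (h.syl hS).inf_subn (h.comp hK).subn

theorem sylL (h : Br f) (hS : IsSyl 2 S M) (hK : PComp 2 M K) :
    IsSyl 2 ((bar f S ⊓ bar f K).subgroupOf (bar f K)) ⊤ :=
  subgroupOf_self (bar f K) ▸ (h.sylK hS hK).subgroupOf le_rfl

theorem bar_P (h : Br f) (hS : IsSyl 2 S M) : bar f (S ⊓ OppPOf 2 M) = OpOf 2 ⊤ := by
  rw [h.bar_inf hS (subn_OppPOf M), bar_OppPOf_eq_OpOf f le_rfl h.ker, h.top,
    inf_eq_right.mpr (OpOf_le_of_isSyl (h.syl hS))]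

theorem Sn (h : Br f) (hS : IsSyl 2 S M) (hK : PComp 2 M K) : S ≤ normalizer (K : Set G) :=
  h.norm hK hS.le (comp_norm h.ag h.O (h.syl hS) (h.comp hK))

theorem split (h : Br f) (hS : IsSyl 2 S M) (hK : PComp 2 M K) {s : G} (hs : s ∈ S) :
    ∃ v ∈ S ⊓ K, ∃ c ∈ S ⊓ CM K, s = v * c := by
  obtain ⟨v, hv, c, hc, e⟩ := comp_split h.ag h.O (h.syl hS) (h.comp hK)
    (mem_bar_of_mem f (x := ⟨s, hS.le hs⟩) hs)
  rw [← h.bar_inf hS hK.subn] at hv
  obtain ⟨x, hx, rfl⟩ := (mem_bar f).mp hv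
  refine ⟨x, hx, (x : G)⁻¹ * s, mem_inf.mpr ⟨mul_mem (inv_mem (mem_inf.mp hx).1) hs, ?_⟩,
    (mul_inv_cancel_left _ _).symm⟩
  refine (h.mem_CM hK (x := x⁻¹ * ⟨s, hS.le hs⟩)).mpr ?_
  rw [map_mul, map_inv, e, inv_mul_cancel_left]; exact hc.2

theorem disj (h : Br f) (hS : IsSyl 2 S M) (hK : PComp 2 M K) {x : G} (hx : x ∈ S ⊓ K)
    (hc : x ∈ CM K) : x = 1 := by
  have : f ⟨x, hS.le hx.1⟩ ∈ bar f K ⊓ centralizer (bar f K : Set Q) :=
    ⟨mem_bar_of_mem f hx.2, (h.mem_CM hK).mp hc⟩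
  rw [h.Z hK] at this
  exact h.inj hS.isPGroup (x := ⟨x, hS.le hx.1⟩) hx.1 this

end Br

end St1

open St1

section St
variable (hA : AG G) (ih : IH.{u} (Nat.card G)) {M S : Subgroup G} (hM : M ≠ ⊤) (hS : IsSyl 2 S M)
include hA ih hM

theorem PComp.ty {K : Subgroup G} (hK : PComp 2 M K) : Ty TA K ∨ Ty TB K ∨ Ty TC K := by
  obtain ⟨Q, _, _, f, h⟩ := exists_br hA ih hM
  rw [tyA_iff f hK.le (h.kerK hK), tyB_iff f hK.le (h.kerK hK), tyC_iff f hK.le (h.kerK hK)]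
  exact h.kn _ (h.comp hK)

theorem Ty.not_TA {K : Subgroup G} (hK : PComp 2 M K) (h : Ty TB K ∨ Ty TC K) : ¬ Ty TA K := by
  obtain ⟨Q, _, _, f, hb⟩ := exists_br hA ih hM
  rw [tyA_iff f hK.le (hb.kerK hK)]
  rw [tyB_iff f hK.le (hb.kerK hK), tyC_iff f hK.le (hb.kerK hK)] at h
  exact h.elim (TB.not_TA (hb.ag.subgroup _)) (TC.not_TA (hb.ag.subgroup _))

include hS

theorem Ty.card_TB {K : Subgroup G} (hK : PComp 2 M K) (h : Ty TB K) :
    Nat.card ↥(S ⊓ K) = 4 := by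
  obtain ⟨Q, _, _, f, hb⟩ := exists_br hA ih hM
  rw [← hb.card_inf hS hK.subn, ← card_subgroupOf inf_le_right]
  exact ((tyB_iff f hK.le (hb.kerK hK)).mp h).card_syl (hb.sylL hS hK)

theorem Ty.card_TC {K : Subgroup G} (hK : PComp 2 M K) (h : Ty TC K) :
    Nat.card ↥(S ⊓ K) = 8 := by
  obtain ⟨Q, _, _, f, hb⟩ := exists_br hA ih hM
  rw [← hb.card_inf hS hK.subn, ← card_subgroupOf inf_le_right]
  exact ((tyC_iff f hK.le (hb.kerK hK)).mp h).card_syl (hb.sylL hS hK)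

theorem PComp.cd {K : Subgroup G} (hK : PComp 2 M K) : ∃ D, CD S K D := by
  obtain ⟨Q, _, _, f, h⟩ := exists_br hA ih hM
  obtain ⟨sq, four, -, D, DN, Do, Dc, Dt, Dr⟩ :=
    Kn.dat (h.ag.subgroup _) (h.kn _ (h.comp hK)) (h.sylL hS hK)
  have memT : ∀ x (hx : x ∈ S ⊓ K), (⟨f ⟨x, hS.le hx.1⟩, mem_bar_of_mem f hx.2⟩ : bar f K) ∈
      (bar f S ⊓ bar f K).subgroupOf (bar f K) := fun x hx =>
    mem_subgroupOf.mpr ⟨mem_bar_of_mem f hx.1, mem_bar_of_mem f hx.2⟩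
  have ne1 : ∀ x (hx : x ∈ S ⊓ K), x ≠ 1 →
      (⟨f ⟨x, hS.le hx.1⟩, mem_bar_of_mem f hx.2⟩ : bar f K) ≠ 1 := fun x hx x1 e =>
    x1 (h.inj hS.isPGroup (x := ⟨x, hS.le hx.1⟩) hx.1 (congrArg Subtype.val e))
  have cS : ∀ g ∈ normalizer (S : Set G), g ∈ kerOf f → g ∈ centralizer (S : Set G) :=
    fun g h1 h2 => mem_centralizer_iff.mpr fun s hs => by
      have := eq_one_of hS.isPGroup h.odd (x := s * (g * s⁻¹ * g⁻¹))
        (mul_mem hs (conj_mem_of_mem_normalizer h1 (inv_mem hs))) (by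
          have := mul_mem (conj_mem_of_mem_normalizer (le_normalizer_kerOf f (hS.le hs)) h2)
            (inv_mem h2)
          simpa only [mul_assoc] using this)
      calc s * g = (s * (g * s⁻¹ * g⁻¹)) * (g * s) := by group
        _ = g * s := by rw [this, one_mul]
  have memD : ∀ d ∈ unbar f (D.map (bar f K).subtype) ⊓ K ⊓ normalizer (S : Set G),
      ∃ (hd : d ∈ M) (e : bar f K), e ∈ D ∧ (e : Q) = f ⟨d, hd⟩ := fun d hd => by
    obtain ⟨e, he, e1⟩ := (mem_unbar f (x := ⟨d, hK.le hd.1.2⟩)).mp hd.1.1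
    exact ⟨hK.le hd.1.2, e, he, e1⟩
  refine ⟨unbar f (D.map (bar f K).subtype) ⊓ K ⊓ normalizer (S : Set G), h.Sn hS hK,
    fun x hx => ?_, ?_, fun x => h.disj hS hK, fun s => h.split hS hK,
    inf_le_left.trans inf_le_right, inf_le_right, fun d hd => ?_, ?_, fun d hd e he => ?_,
    fun x hx y hy x1 y1 => ?_, fun d hd x hx x1 e => ?_⟩
  · exact h.inj hS.isPGroup (x := ⟨x, hS.le hx.1⟩ * ⟨x, hS.le hx.1⟩) (mul_mem hx.1 hx.1)
      (by rw [map_mul]; exact congrArg Subtype.val (sq _ (memT x hx)))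
  · rwa [card_subgroupOf inf_le_right, h.card_inf hS hK.subn] at four
  · refine mem_centralizer_iff.mpr fun c hc => ?_
    have := eq_one_of hS.isPGroup (OppOf_not_dvd K) (x := c * d * c⁻¹ * d⁻¹) (by
      have c1 := (mem_inf.mp hc).1
      simpa only [mul_assoc] using mul_mem c1 (conj_mem_of_mem_normalizer hd.2 (inv_mem c1)))
      (hc.2.2 d hd.1.2)
    calc c * d = (c * d * c⁻¹ * d⁻¹) * (d * c) := by group
      _ = d * c := by rw [this, one_mul]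
  · refine Nat.odd_iff.mpr (Nat.two_dvd_ne_zero.mp (not_dvd_card_of_le
      (not_dvd_card_unbar f ?_ h.odd) (inf_le_left.trans inf_le_left)))
    rw [card_map_subtype]; exact (Nat.not_even_iff_odd.mpr Do) ∘ even_iff_two_dvd.mpr
  · obtain ⟨dM, d', hd', e1⟩ := memD d hd
    obtain ⟨eM, e', he', e2⟩ := memD e he
    refine cS _ (mul_mem (mul_mem (mul_mem hd.2 he.2) (inv_mem hd.2)) (inv_mem he.2))
      ((mem_kerOf f (x := ⟨d, dM⟩ * ⟨e, eM⟩ * ⟨d, dM⟩⁻¹ * ⟨e, eM⟩⁻¹)).mpr ?_)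
    have : (d' : Q) * e' = e' * d' := congrArg Subtype.val (Dc d' hd' e' he')
    simp only [map_mul, map_inv, ← e1, ← e2, this]; group
  · obtain ⟨d', hd', e⟩ := Dt _ (memT x hx) _ (memT y hy) (ne1 x hx x1) (ne1 y hy y1)
    have h1 : (d' : Q) ∈ bar f K ⊓ normalizer (bar f S : Set Q) := by
      refine ⟨d'.2, mem_normalizer_of_conj_mem fun s hs => ?_⟩
      obtain ⟨v, hv, c, hc, rfl⟩ := comp_split h.ag h.O (h.syl hS) (h.comp hK) hs
      have a1 : (d' : Q) * v * (d' : Q)⁻¹ ∈ bar f S :=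
        (mem_subgroupOf.mp (conj_mem_of_mem_normalizer (DN hd')
          (x := ⟨v, hv.2⟩) (mem_subgroupOf.mpr hv))).1
      have a2 := mem_centralizer_iff.mp hc.2 _ d'.2
      rw [show (d' : Q) * (v * c) * (d' : Q)⁻¹ = (d' * v * (d' : Q)⁻¹) * (d' * c * (d' : Q)⁻¹) by group,
        a2, mul_inv_cancel_right]
      exact mul_mem a1 hc.1
    rw [← bar_inf_norm f hS.isPGroup hS.le hK.le h.odd (h.Sn hS hK)] at h1
    obtain ⟨d, hd, e1⟩ := (mem_bar f).mp h1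
    refine ⟨d, ⟨⟨(mem_unbar f).mpr ⟨d', hd', e1.symm⟩, hd.1⟩, hd.2⟩, ?_⟩
    have e2 : (d' : Q) * f ⟨x, hS.le hx.1⟩ * (d' : Q)⁻¹ = f ⟨y, hS.le hy.1⟩ := congrArg Subtype.val e
    refine mul_inv_eq_one.mp (h.inj hS.isPGroup (x := d * ⟨x, hS.le hx.1⟩ * d⁻¹ * ⟨y, hS.le hy.1⟩⁻¹)
      (mul_mem (conj_mem_of_mem_normalizer hd.2 hx.1) (inv_mem (mem_inf.mp hy).1)) ?_)
    simp only [map_mul, map_inv, e1, e2, mul_inv_cancel]
  · obtain ⟨dM, d', hd', e1⟩ := memD d hd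
    have := Dr d' hd' _ (memT x hx) (ne1 x hx x1) (Subtype.ext (by
      show (d' : Q) * f ⟨x, hS.le hx.1⟩ = f ⟨x, hS.le hx.1⟩ * d'
      rw [e1, ← map_mul, ← map_mul]; exact congrArg f (Subtype.ext e)))
    exact cS d hd.2 ((mem_kerOf f (x := ⟨d, dM⟩)).mpr (by rw [← e1, this]; rfl))

/-- `S` is generated by its intersections with the 2-components and `O_{2',2}` -/
theorem St1.syl_le' {W : Subgroup G} (h1 : ∀ K, PComp 2 M K → S ⊓ K ≤ W)
    (h2 : S ⊓ OppPOf 2 M ≤ W) : S ≤ W := by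
  obtain ⟨Q, _, _, f, h⟩ := exists_br hA ih hM
  have : bar f S ≤ bar f (S ⊓ W) := syl_le h.ag h.O (h.syl hS) (fun L hL => by
    obtain ⟨K, hK, rfl⟩ := h.lift hL
    rw [← h.bar_inf hS hK.subn]
    exact bar_mono f (le_inf inf_le_left (h1 K hK))) (by
    rw [← h.bar_P hS]; exact bar_mono f (le_inf inf_le_left h2))
  intro s hs
  obtain ⟨x, hx, e⟩ := (mem_bar f).mp (this (mem_bar_of_mem f (x := ⟨s, hS.le hs⟩) hs))
  have := h.inj hS.isPGroup (x := x⁻¹ * ⟨s, hS.le hs⟩) (mul_mem (inv_mem (mem_inf.mp hx).1) hs)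
    (by rw [map_mul, map_inv, e, inv_mul_cancel])
  rw [← inv_mul_eq_one.mp (show (x : G)⁻¹ * s = 1 from this)]; exact hx.2

/-- S0 -/
theorem fact {Y : Subgroup G} (h1 : OppOf 2 M ≤ Y) (h2 : ∀ K, PComp 2 M K → K ≤ Y)
    (h3 : M ⊓ normalizer (S : Set G) ≤ Y) : M ≤ Y := by
  have hN : M ≤ normalizer ((LOf 2 M ⊔ OppPOf 2 M : Subgroup G) : Set G) :=
    le_normalizer_sup (le_normalizer_LOf le_normalizer) (self_le_normalizer_OppPOf M)
  have hle : LOf 2 M ⊔ OppPOf 2 M ≤ M := sup_le (LOf_le M) (OppPOf_le M)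
  have hS' : IsSyl 2 S (LOf 2 M ⊔ OppPOf 2 M) := hS.mono (St1.syl_le' hA ih hM hS
    (fun K hK => inf_le_right.trans (hK.le_LOf.trans le_sup_left))
    (inf_le_right.trans le_sup_right)) hle
  rw [← hS'.frattini_sup hle hN]
  refine sup_le (sup_le (LOf_le_iff.mpr h2) ?_) h3
  rw [← (hS.inf_subn (subn_OppPOf M)).sup_OppOf]
  exact sup_le (inf_le_left.trans ((le_inf hS.le le_normalizer).trans h3)) h1

/-- S0' -/
theorem le_O_of_CM {X : Subgroup G} (hXM : X ≤ M) (hX : ¬ 2 ∣ Nat.card X)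
    (h1 : ∀ K, PComp 2 M K → X ≤ CM K) (h2 : ⁅S ⊓ OppPOf 2 M, X⁆ ≤ OppOf 2 M) :
    X ≤ OppOf 2 M := by
  obtain ⟨Q, _, _, f, h⟩ := exists_br hA ih hM
  rw [← h.ker, ← bar_eq_bot_iff f hXM]
  refine eq_bot_of_isPGroup_of_not_dvd ((OpOf_isPGroup ⊤).to_le (le_Op_of_cent h.O (fun L hL => ?_) ?_))
    (not_dvd_card_bar f hX)
  · obtain ⟨K, hK, rfl⟩ := h.lift hL
    exact (h.le_CM hK hXM).mp (h1 K hK)
  · rw [← h.bar_P hS, le_centralizer_iff,
      bar_le_centralizer_iff f (inf_le_left.trans hS.le) hXM, h.ker]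
    exact h2

/-- S3 -/
theorem St1.down {K B : Subgroup G} (hK : PComp 2 M K) (hB : B ≤ S ⊓ CM K) :
    ∃ K0, PComp 2 (M ⊓ centralizer (B : Set G)) K0 ∧ K0 ≤ K ∧ K ≤ K0 ⊔ OppOf 2 K ∧
      S ⊓ K0 = S ⊓ K ∧ OppOf 2 K0 ≤ OppOf 2 K := by
  obtain ⟨Q, _, _, f, h⟩ := exists_br hA ih hM
  have BS := hB.trans inf_le_left
  have BM := BS.trans hS.le
  obtain ⟨K0, h0, e⟩ := PComp.lift_bar f (H := M ⊓ centralizer (B : Set G)) (L := bar f K)
    inf_le_left (not_dvd_card_of_le h.odd inf_le_left) (by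
      rw [bar_inf_centralizer f (hS.isPGroup.to_le BS) BM h.odd (kerOf_le f), h.top]
      exact ((h.comp hK).pcomp ((h.comp hK).dvd_card_of_OppOf_eq_bot h.O)).mono
        (le_inf le_top (le_centralizer_iff.mp ((h.le_CM hK BM).mp (hB.trans inf_le_right)))) le_top)
  have K0M := h0.le.trans inf_le_left
  have l1 : K0 ≤ K := le_of_bar_le f h0.pqs.res hK.subn K0M le_rfl h.odd (kerOf_le f) e.le
  refine ⟨K0, h0, l1, ?_, ?_, ?_⟩
  · have := (bar_le_bar_iff f hK.le K0M).mp e.ge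
    rw [← h.kerK hK, ← sup_inf_of_le_normalizer_right l1 (K0M.trans (le_normalizer_kerOf f))]
    exact le_inf this le_rfl
  · have hS0 : IsSyl 2 S (M ⊓ centralizer (B : Set G)) :=
      hS.mono (le_inf hS.le (hA.le_centralizer hS.isPGroup le_rfl BS)) inf_le_left
    have a := (hS0.inf_subn h0.subn).bar f K0M
    rw [e] at a
    refine eq_of_le_of_card_ge (inf_le_inf_left _ l1) (le_of_eq ?_)
    rw [← h.card_inf hS hK.subn, (h.sylK hS hK).card_eq_card a,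
      card_bar_of_isPGroup f (hS.isPGroup.to_le inf_le_left) (inf_le_left.trans hS.le) h.odd]
  · rw [← h.kerK hK]
    refine le_inf ?_ ((OppOf_le _).trans l1)
    rw [← bar_eq_bot_iff f ((OppOf_le _).trans K0M), eq_bot_iff, ← h.O]
    exact (bar_OppOf_le f K0M).trans (e ▸ (h.comp hK).subn.OppOf_le)

end St

end Cfsg.Agent.Lib.AG
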