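/-
A-groups project (S2554): 2-components of centralisers of 2-subgroups (down, up) and generation.
-/
import Cfsg.Agent.Lib.AG.St0
import Cfsg.Agent.Lib.AG.Ord
import Cfsg.Agent.Lib.AG.Kn

set_option autoImplicit false

namespace Cfsg.Agent.Lib.AG

open Subgroup Cfsg.Agent.Lib.Core
open scoped commutatorElement

universe u

variable {G : Type u} [Group G] [Finite G]

namespace St2
open St0

theorem conj_mem_CM {K : Subgroup G} {g x : G} (hg : g ∈ normalizer (K : Set G)) (hx : x ∈ CM K) :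
    g * x * g⁻¹ ∈ CM K := by
  refine ⟨mul_mem (mul_mem hg hx.1) (inv_mem hg), fun k hk => ?_⟩
  have := conj_mem_of_mem_normalizer (le_normalizer_OppOf (p := 2) le_rfl hg)
    (hx.2 _ (conj_mem_of_mem_normalizer' hg hk))
  convert this using 1; group

theorem not_syl_le_CM {K P : Subgroup G} (hK : PQS 2 K) (hP : IsSyl 2 P K) : ¬ P ≤ CM K := fun h => by
  refine hK.not_commutator_le (OppOf_not_dvd K) (le_CM_iff.1 (hK.res.ge.trans ?_)).2
  refine OupOf_le_of_forall_isSyl fun P' hP' => ?_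
  obtain ⟨k, hk, rfl⟩ := hP.exists_conj hP'
  exact map_conj_le_iff.2 fun x hx => conj_mem_CM (le_normalizer hk) (h hx)

/-- the standard criterion for strong embedding -/
theorem se_of (hA : AG G) {T H : Subgroup G} (hT : IsSyl 2 T ⊤) (T1 : T ≠ ⊥) (hH : H ≠ ⊤)
    (h1 : normalizer (T : Set G) ≤ H) (h2 : ∀ a ∈ T, a ≠ 1 → centralizer {a} ≤ H) :
    Cfsg.IsStronglyEmbedded H := by
  have hS : IsSyl 2 T H := hT.mono (le_normalizer.trans h1) le_top
  have k : ∀ t ∈ H, orderOf t = 2 → ∃ m ∈ H, m * t * m⁻¹ ∈ T := fun t ht t2 => by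
    obtain ⟨m, hm, e⟩ := hS.exists_conj_le (isPGroup_zpowers (k := 1) (x := t)
      (by rw [pow_one, ← t2, pow_orderOf_eq_one])) (zpowers_le.2 ht)
    exact ⟨m, hm, map_conj_le_iff.1 e t (mem_zpowers t)⟩
  refine Invol.isStronglyEmbedded_iff.2 ⟨hH, even_iff_two_dvd.2
    ((dvd_card_of_isPGroup_of_ne_bot hT.isPGroup T1).trans (card_dvd_of_le hS.le)), fun g t ht t2 hg => ?_⟩
  obtain ⟨m, hm, e⟩ := k t ht t2
  obtain ⟨m', hm', e'⟩ := k _ hg (by rw [← t2]; exact (MulAut.conj g).orderOf_eq t)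
  obtain ⟨P, rfl⟩ := hT.exists_sylow_top
  have := hA.isMulCommutative P.2
  obtain ⟨n, hn, e2⟩ := Transfer.control_of_abelian_sylow P _ e (m' * g * m⁻¹) (by convert e' using 1; group)
  have := h2 (m * t * m⁻¹) e (fun e => by simp at e; simp [e] at t2) (x := n⁻¹ * (m' * g * m⁻¹))
    (mem_centralizer_singleton_iff.2 (by
      calc _ = n⁻¹ * (m' * g * m⁻¹ * (m * t * m⁻¹) * (m' * g * m⁻¹)⁻¹) * (m' * g * m⁻¹) := by group
        _ = _ := by rw [← e2]; group))
  simpa [mul_assoc] using mul_mem (mul_mem (inv_mem hm') (mul_mem (h1 hn) this)) hm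

theorem card_TB (h : TB G) : 192 ≤ Nat.card G := by
  obtain ⟨t, s, w, K, h, hK⟩ := h
  obtain ⟨x, hx, x1⟩ := (K.bot_or_exists_ne_one).resolve_left hK
  have r1 : (centralizer {s}).relIndex (centralizer ({t} : Set G)) ≠ 1 := fun e => by
    have c := mem_centralizer_singleton_iff.1
      (relIndex_eq_one.1 e (mem_centralizer_singleton_iff.2 (h.Kt x hx).symm))
    have e2 := h.Ks x hx
    rw [← c, mul_assoc, h.ss, mul_one] at e2
    have o : orderOf x ∣ 2 := orderOf_dvd_of_pow_eq_one (by rw [pow_two]; nth_rw 1 [e2]; exact inv_mul_cancel x)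
    rcases (Nat.dvd_prime Nat.prime_two).1 o with o | o
    · exact x1 (orderOf_eq_one_iff.1 o)
    · exact (Nat.not_even_iff_odd.2 h.Kodd) (even_iff_two_dvd.2 (o ▸ orderOf_dvd_natCard K hx))
  have r0 : (centralizer {s}).relIndex (centralizer ({t} : Set G)) ≠ 0 := index_ne_zero_of_finite
  have c4 : 4 ≤ Nat.card ↥(centralizer {s} ⊓ centralizer ({t} : Set G)) := by
    rw [← h.toV4.card_VV]
    exact card_le_of_le fun y hy => ⟨mem_centralizer_singleton_iff.2 (h.toV4.VV_comm hy h.toV4.s_mem),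
      mem_centralizer_singleton_iff.2 (h.toV4.VV_comm hy h.toV4.t_mem)⟩
  have e1 := card_inf_mul_relIndex (centralizer {s}) (centralizer ({t} : Set G))
  have e2 := (centralizer ({t} : Set G)).card_mul_index
  have o := h.toV4.order.1
  generalize (centralizer {s}).relIndex (centralizer ({t} : Set G)) = r at *
  have : 2 ≤ r := by omega
  calc 192 = 4 * 2 * (6 * 2 ^ 2) := by norm_num
    _ ≤ _ := by rw [← e2, ← e1]; gcongr; exact le_trans (by gcongr) o

theorem card_cent_TC (hA : AG G) (h : TC G) {v : G} (v2 : v * v = 1) (v1 : v ≠ 1) :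
    Nat.card (centralizer ({v} : Set G)) = 120 := by
  obtain ⟨T, hT, vT⟩ := exists_isSyl_ge (p := 2) (isPGroup_zpowers (k := 1) (x := v) (by rw [pow_one, pow_two, v2]))
    le_top
  obtain ⟨-, -, -, D, -, -, -, tr, -⟩ := Kn.dat hA (Or.inr (Or.inr h)) hT
  obtain ⟨-, -, t, t1, tt, ⟨e⟩⟩ := h
  obtain ⟨g, -, hg⟩ := hT.exists_conj_le (isPGroup_zpowers (k := 1) (x := t) (by rw [pow_one, pow_two, tt])) le_top
  obtain ⟨d, -, rfl⟩ := tr _ (map_conj_le_iff.1 hg t (mem_zpowers t)) v (vT (mem_zpowers v)) (by simpa using t1) v1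
  rw [← map_conj_centralizer_singleton, card_map_conj, ← map_conj_centralizer_singleton, card_map_conj,
    Nat.card_congr e.toEquiv, Nat.card_prod, nat_card_alternatingGroup]
  simp; rfl

section Bar
variable {Q : Type u} [Group Q] [Finite Q] {M S : Subgroup G} {f : M →* Q} (hf : kerOf f = OppOf 2 M)
  (hs : Function.Surjective f) (hA : AG G) (hS : IsSyl 2 S M)
include hf hs hA hS

theorem S_norm {K : Subgroup G} (hK : PComp 2 M K) : S ≤ normalizer (K : Set G) :=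
  hK.le_normalizer_of_bar f le_rfl hS.le hf
    (q_norm (hA.bar f hs) (O_bot hf hs) (syl_top hs hS) (comp_top hf hs hK))

omit hs hA hS [Finite Q] in
theorem le_of_bar {K Y : Subgroup G} (hK : Subn M K) (hY : Y ≤ K) (h : bar f K ≤ bar f Y) :
    K ≤ Y ⊔ OppOf 2 K := by
  rw [← ker_inf hf hK, ← sup_inf_of_le_normalizer_right hY ((hY.trans hK.le).trans (le_normalizer_kerOf f))]
  exact le_inf ((bar_le_bar_iff f hK.le (hY.trans hK.le)).1 h) le_rfl

theorem down {K B : Subgroup G} (hK : PComp 2 M K) (hB : B ≤ S ⊓ CM K) {K0 : Subgroup G}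
    (e : K0 = OupOf 2 (K ⊓ centralizer (B : Set G))) :
    PComp 2 (M ⊓ centralizer (B : Set G)) K0 ∧ K0 ≤ K ∧ bar f K0 = bar f K ∧
      S ⊓ K0 = S ⊓ K ∧ kerOf f ⊓ K0 = OppOf 2 K0 := by
  have BS : B ≤ S := hB.trans inf_le_left
  have BC : B ≤ CM K := hB.trans inf_le_right
  have h1 : K0 ≤ K := e ▸ (OupOf_le _).trans inf_le_left
  have h2 : bar f K0 = bar f K := by
    rw [e, bar_OupOf f (inf_le_left.trans hK.le), bar_cent f (ker_odd hf) hK.le (hS.isPGroup.to_le BS)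
      (BS.trans hS.le) (BC.trans (CM_le_normalizer K)),
      inf_eq_left.2 (le_centralizer_iff.1 ((CM_iff hf hK (BS.trans hS.le)).1 BC)), ← bar_OupOf f hK.le, hK.pqs.res]
  have o : ¬ 2 ∣ Nat.card ↥(kerOf f ⊓ K0) := not_dvd_card_of_le (ker_odd hf) inf_le_left
  refine ⟨⟨PQS.of_bar f (h2 ▸ (hK.bar' f hK.le (ker_odd hf)).pqs) (h1.trans hK.le) (e ▸ OupOf_OupOf _) o,
    e ▸ (hK.subn.inf _).trans (subn_OupOf _)⟩, h1, h2, le_antisymm (inf_le_inf_left _ h1) (le_inf inf_le_left ?_),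
    le_antisymm (le_OppOf inf_le_right (le_normalizer_inf ((h1.trans hK.le).trans (le_normalizer_kerOf f))
      le_normalizer) o) (le_inf ?_ (OppOf_le _))⟩
  · exact e ▸ le_OupOf hS.isPGroup.to_inf_left (le_inf inf_le_right (inf_le_left.trans (hA.syl_le_centralizer hS BS)))
  · rw [← bar_eq_bot_iff f ((OppOf_le _).trans (h1.trans hK.le)), eq_bot_iff, ← O_bot hf hs]
    exact (bar_OppOf_le f (h1.trans hK.le)).trans (h2 ▸ (comp_top hf hs hK).subn.OppOf_le)

theorem gen {K Y : Subgroup G} (hK : PComp 2 M K) (h : ¬ Ty TA K) (h1 : OppOf 2 K ≤ Y)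
    (h2 : K ⊓ normalizer (S : Set G) ≤ Y)
    (h3 : ∀ v ∈ S ⊓ K, v ≠ 1 →
      K ⊓ centralizer ((S ⊓ CM K : Subgroup G) : Set G) ⊓ centralizer {v} ≤ Y) : K ≤ Y := by
  by_contra hY
  have aQ := hA.bar f hs
  have hL := comp_top hf hs hK
  have hO := O_bot hf hs
  have sQ := syl_top hs hS
  have sN := S_norm hf hs hA hS hK
  refine h ((pty_iff hf iso_TA hK).2 ⟨aQ.simple_of_qs hL.qs, ?_, (bar f (K ⊓ Y)).subgroupOf (bar f K), ?_⟩)
  · by_contra c
    push Not at c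
    exact hL.qs.not_le_centralizer fun x hx y hy => congrArg Subtype.val (c ⟨y, hy⟩ ⟨x, hx⟩)
  have hT := (sQ.inf_subn hL.subn).subgroupOf le_rfl
  rw [subgroupOf_self] at hT
  refine se_of (aQ.subgroup _) hT (fun e => q_ne hO sQ hL ?_) (fun e => hY ?_) (fun l hl => ?_) fun a ha a1 l hl => ?_
  · rw [← map_subtype_subgroupOf (inf_le_right : bar f S ⊓ bar f K ≤ _), e, Subgroup.map_bot]
  · exact (le_of_bar hf hK.subn inf_le_left (subgroupOf_eq_top.1 e)).trans (sup_le inf_le_right h1)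
  · refine mem_subgroupOf.2 (bar_mono f (le_inf inf_le_left h2)
      ((bar_norm f (ker_odd hf) hK.le hS.isPGroup hS.le sN).ge ⟨l.2, mem_normalizer_of_conj_mem fun s hs' => ?_⟩))
    obtain ⟨v, hv, c⟩ := q_split aQ hO sQ hL hs'
    have m := mem_subgroupOf.1 (conj_mem_of_mem_normalizer hl (x := ⟨v, hv.2⟩) hv)
    have e : (l : Q) * s * (l : Q)⁻¹ = (l : Q) * v * (l : Q)⁻¹ * (v⁻¹ * s) := by
      calc _ = (l : Q) * v * ((l : Q)⁻¹ * ((l : Q) * (v⁻¹ * s)) * (l : Q)⁻¹) := by group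
        _ = _ := by rw [c l l.2]; group
    rw [e]
    exact mul_mem m.1 (mul_mem ((bar f S).inv_mem hv.1) hs')
  · obtain ⟨v, hv, e⟩ := (mem_bar f).1 ((bar_inf_subn hS hK.subn).ge (mem_subgroupOf.1 ha))
    have RS : S ⊓ CM K ⊔ zpowers (v : G) ≤ S := sup_le inf_le_left (zpowers_le.2 hv.1)
    have := bar_cent f (ker_odd hf) hK.le (hS.isPGroup.to_le RS) (RS.trans hS.le) (RS.trans sN)
    rw [centralizer_sup, centralizer_zpowers, ← inf_assoc,
      bar_sup f (inf_le_left.trans hS.le) (zpowers_le.2 v.2), centralizer_sup, bar_zpowers, centralizer_zpowers] at this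
    refine mem_subgroupOf.2 (bar_mono f (le_inf (inf_le_left.trans inf_le_left) (h3 v hv fun v1 => a1 ?_))
      (this.ge ⟨l.2, le_centralizer_iff.1 ((CM_iff hf hK (inf_le_left.trans hS.le)).1 inf_le_right) l.2, ?_⟩))
    · exact Subtype.ext (by rw [← e, show v = 1 from Subtype.ext v1, map_one]; rfl)
    · rw [e]
      exact mem_centralizer_singleton_iff.2 (congrArg Subtype.val (mem_centralizer_singleton_iff.1 hl))

/-- balance -/
theorem bal {K0 B : Subgroup G} (hB : B ≤ S) (hK : PComp 2 (M ⊓ centralizer (B : Set G)) K0) :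
    ∃ K, PComp 2 M K ∧ K0 ≤ K := by
  have aQ := hA.bar f hs
  have hO := O_bot hf hs
  have sQ := syl_top hs hS
  have KM : K0 ≤ M := hK.le.trans inf_le_left
  have h0 := hK.bar' f KM (ker_odd hf)
  rw [bar_inf_centralizer f (hS.isPGroup.to_le hB) (hB.trans hS.le) (ker_odd hf) (kerOf_le f), bar_self f hs] at h0
  have SC : bar f S ≤ ⊤ ⊓ centralizer (bar f B : Set Q) := le_inf le_top (aQ.syl_le_centralizer sQ (bar_mono f hB))
  have : ∃ L, Comp ⊤ L ∧ bar f K0 ≤ L := by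
    by_contra c
    push Not at c
    refine not_syl_le_CM h0.pqs ((sQ.mono SC le_top).inf_subn h0.subn) (inf_le_left.trans (q_all aQ hO sQ (fun L hL => ?_) ?_))
    · have := (commutator_mono (le_inf inf_le_right ((inf_le_left.trans SC).trans inf_le_right)) le_rfl).trans
        ((h0.le_or_commutator_le (hL.subn.inf _)).resolve_left fun e => c L hL (e.trans inf_le_left))
      exact le_CM_iff.2 ⟨h0.le_normalizer_of_commutator_le ((inf_le_left.trans SC).trans le_normalizer)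
        (this.trans ((OppOf_le _).trans le_sup_left)), this⟩
    · have := le_centralizer_iff.1 (h0.le_centralizer_OpOf (isPGroup_bar f (hS.isPGroup.to_le hB)) (le_top.trans le_normalizer))
      exact le_CM_iff.2 ⟨le_normalizer_of_le_centralizer this,
        (commutator_eq_bot_iff_le_centralizer.2 this).le.trans bot_le⟩
  obtain ⟨L, hL, h⟩ := this
  obtain ⟨K, h1, rfl⟩ := lift_comp hf hs hL
  exact ⟨K, h1, le_of_bar_le f hK.pqs.res h1.subn KM le_rfl (ker_odd hf) (kerOf_le f) h⟩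

theorem up_eq {K K0 B : Subgroup G} (hB : B ≤ S) (h0 : PComp 2 (M ⊓ centralizer (B : Set G)) K0)
    (hK : PComp 2 M K) (h : K0 ≤ K) (hC : B ≤ CM K) :
    K ≤ K0 ⊔ OppOf 2 K ∧ S ⊓ K0 = S ⊓ K ∧ S ⊓ CM K0 = S ⊓ CM K ∧
      (Ty TB K0 ↔ Ty TB K) ∧ (Ty TA K0 ↔ Ty TA K) := by
  obtain ⟨h1, -⟩ := down hf hs hA hS hK (le_inf hB hC) rfl
  have e := h0.eq_of_le h1 (h0.pqs.res.ge.trans (OupOf_mono (le_inf h (h0.le.trans inf_le_right))))
  obtain ⟨-, -, h2, h3, h4⟩ := down hf hs hA hS hK (le_inf hB hC) e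
  have KM := h.trans hK.le
  refine ⟨le_of_bar hf hK.subn h h2.ge, h3, le_antisymm (le_inf inf_le_left ?_) (le_inf inf_le_left ?_), ?_, ?_⟩
  · rw [CM_iff hf hK (inf_le_left.trans hS.le), ← h2, bar_le_centralizer_iff f (inf_le_left.trans hS.le) KM]
    exact (le_CM_iff.1 inf_le_right).2.trans (h4.ge.trans inf_le_left)
  · have n : S ⊓ CM K ≤ normalizer (K0 : Set G) := e ▸ le_normalizer_OupOf (le_normalizer_inf
      (inf_le_right.trans (CM_le_normalizer K)) ((inf_le_left.trans (hA.syl_le_centralizer hS hB)).trans le_normalizer))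
    refine le_CM_iff.2 ⟨n, (le_inf ?_ (commutator_le_of_le_normalizer_right n)).trans h4.le⟩
    exact (commutator_mono le_rfl h).trans ((le_CM_iff.1 inf_le_right).2.trans (hf ▸ hK.OppOf_le))
  · rw [ty_iff f iso_TB KM h4, pty_iff hf iso_TB hK, h2]
  · rw [ty_iff f iso_TA KM h4, pty_iff hf iso_TA hK, h2]

theorem up_lt (ih : IH.{u} (Nat.card G)) (hM : M ≠ ⊤) {K K0 B : Subgroup G} (hB : B ≤ S)
    (h0 : PComp 2 (M ⊓ centralizer (B : Set G)) K0) (hK : PComp 2 M K) (h : K0 ≤ K) (hC : ¬ B ≤ CM K) :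
    Nat.card ↥(S ⊓ K0) < Nat.card ↥(S ⊓ K) ∧ ¬ Ty TB K0 := by
  have aQ := hA.bar f hs
  have hL := comp_top hf hs hK
  have hO := O_bot hf hs
  have sQ := syl_top hs hS
  have KM := h.trans hK.le
  have q0 := (h0.bar' f KM (ker_odd hf)).pqs
  obtain ⟨b, hb, b1⟩ := SetLike.not_le_iff_exists.1 hC
  have bM := hS.le (hB hb)
  obtain ⟨v, hv, c⟩ := q_split aQ hO sQ hL (mem_bar_of_mem f (x := ⟨b, bM⟩) (hB hb))
  have v1 : v ≠ 1 := fun e => b1 ((mem_CM_iff hf hK ⟨b, bM⟩).2 (by simpa [e] using c))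
  have vc : v ∈ centralizer (bar f K0 : Set Q) := by
    have h1 : f ⟨b, bM⟩ ∈ centralizer (bar f K0 : Set Q) := bar_le_centralizer f
      (le_centralizer_iff.1 (h0.le.trans inf_le_right)) (mem_bar_of_mem f (x := ⟨b, bM⟩) hb)
    simpa using mul_mem h1 (inv_mem (centralizer_le_centralizer (bar_mono f h) c))
  constructor
  · obtain ⟨x, hx, rfl⟩ := (mem_bar f).1 ((bar_inf_subn hS hK.subn).ge hv)
    refine card_lt_of_lt (lt_of_le_of_ne (inf_le_inf_left _ h) fun e => v1 ?_)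
    exact mem_bot.1 ((aQ.inf_centralizer_of_perfect q0.perfect).le ⟨mem_bar_of_mem f (e.ge hx).2, vc⟩)
  rintro ⟨X, _, _, g, g1, g2, g3⟩
  have kn := kn_comp hs hA ih hM hL
  have hT := (sQ.inf_subn hL.subn).subgroupOf le_rfl
  rw [subgroupOf_self] at hT
  have v2 := (Kn.dat (aQ.subgroup _) kn hT).1 ⟨v, hv.2⟩ hv
  have v1' : (⟨v, hv.2⟩ : bar f K) ≠ 1 := fun e => v1 (congrArg Subtype.val e)
  have le : (bar f K0).subgroupOf (bar f K) ≤ centralizer {(⟨v, hv.2⟩ : bar f K)} := fun x hx =>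
    mem_centralizer_singleton_iff.2 (Subtype.ext (vc _ (mem_subgroupOf.1 hx)))
  have tc : TC (bar f K) := by
    refine (or_assoc.2 kn).resolve_left fun ab => q0.not_isSolvable ?_
    have := Kn.solv (aQ.subgroup _) ab v2 v1'
    exact Group.isSolvable_of_isSolvable_injective
      (f := (inclusion le).comp (subgroupOfEquivOfLe (bar_mono f h)).symm.toMonoidHom)
      ((inclusion_injective le).comp (subgroupOfEquivOfLe (bar_mono f h)).symm.injective)
  have c1 := card_le_of_le le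
  rw [card_cent_TC (aQ.subgroup _) tc v2 v1', card_subgroupOf (bar_mono f h)] at c1
  have c2 := card_TB g3
  have c3 := card_bar_mul f KM
  have c4 := card_bar_mul g le_rfl
  rw [bar_self g g1, card_top, g2] at c4
  have c5 : Nat.card ↥(kerOf f ⊓ K0) ≤ Nat.card ↥(OppOf 2 K0 ⊓ K0) := card_le_of_le (le_inf
    (le_OppOf inf_le_right (le_normalizer_inf (KM.trans (le_normalizer_kerOf f)) le_normalizer)
      (not_dvd_card_of_le (ker_odd hf) inf_le_left)) inf_le_right)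
  have c6 := Nat.card_pos (α := ↥(OppOf 2 K0 ⊓ K0))
  nlinarith

end Bar

end St2

section St
variable (hA : AG G) (ih : IH.{u} (Nat.card G)) {M S : Subgroup G} (hM : M ≠ ⊤) (hS : IsSyl 2 S M)
include hA ih hM hS
set_option linter.unusedSectionVars false

/-- S3 -/
theorem PComp.down {K B : Subgroup G} (hK : PComp 2 M K) (hB : B ≤ S ⊓ CM K) :
    ∃ K0, PComp 2 (M ⊓ centralizer (B : Set G)) K0 ∧ K0 ≤ K ∧ K ≤ K0 ⊔ OppOf 2 K ∧
      S ⊓ K0 = S ⊓ K ∧ OppOf 2 K0 ≤ OppOf 2 K := by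
  obtain ⟨Q, _, _, f, hs, hf, -⟩ := exists_bar (OppOf_le (p := 2) M) (le_normalizer_OppOf le_normalizer)
  obtain ⟨h1, h2, h3, h4, h5⟩ := St2.down hf hs hA hS hK hB rfl
  exact ⟨_, h1, h2, St2.le_of_bar hf hK.subn h2 h3.ge, h4,
    h5.ge.trans ((inf_le_inf_left _ h2).trans (St0.ker_inf hf hK.subn).le)⟩

/-- S4 -/
theorem PComp.gen {K Y : Subgroup G} (hK : PComp 2 M K) (h : ¬ Ty TA K) (h1 : OppOf 2 K ≤ Y)
    (h2 : K ⊓ normalizer (S : Set G) ≤ Y)
    (h3 : ∀ v ∈ S ⊓ K, v ≠ 1 →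
      K ⊓ centralizer ((S ⊓ CM K : Subgroup G) : Set G) ⊓ centralizer {v} ≤ Y) : K ≤ Y := by
  obtain ⟨Q, _, _, f, hs, hf, -⟩ := exists_bar (OppOf_le (p := 2) M) (le_normalizer_OppOf le_normalizer)
  exact St2.gen hf hs hA hS hK h h1 h2 h3

/-- S5 (balance and pump-up) -/
theorem PComp.up {K0 B : Subgroup G} (hB : B ≤ S) (hK : PComp 2 (M ⊓ centralizer (B : Set G)) K0) :
    ∃ K, PComp 2 M K ∧ K0 ≤ K ∧
      ((B ≤ CM K ∧ K ≤ K0 ⊔ OppOf 2 K ∧ S ⊓ K0 = S ⊓ K ∧ S ⊓ CM K0 = S ⊓ CM K ∧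
          (Ty TB K0 ↔ Ty TB K) ∧ (Ty TA K0 ↔ Ty TA K)) ∨
        (Nat.card ↥(S ⊓ K0) < Nat.card ↥(S ⊓ K) ∧ ¬ Ty TB K0)) := by
  obtain ⟨Q, _, _, f, hs, hf, -⟩ := exists_bar (OppOf_le (p := 2) M) (le_normalizer_OppOf le_normalizer)
  obtain ⟨K, h1, h2⟩ := St2.bal hf hs hA hS hB hK
  refine ⟨K, h1, h2, ?_⟩
  by_cases hC : B ≤ CM K
  · exact Or.inl ⟨hC, St2.up_eq hf hs hA hS hB hK h1 h2 hC⟩
  · exact Or.inr (St2.up_lt hf hs hA hS ih hM hB hK h1 h2 hC)

end St

end Cfsg.Agent.Lib.AG
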