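/-
A-groups project (S2554), piece St3: odd subgroups normalised by an involution centraliser.
-/
import Cfsg.Agent.Lib.AG.Loc4a
import Cfsg.Agent.Lib.AG.St1

set_option autoImplicit false

namespace Cfsg.Agent.Lib.AG

open Subgroup Cfsg.Agent.Lib.Core
open scoped commutatorElement

universe u

variable {G : Type u} [Group G] [Finite G]

namespace St3

variable {M K X : Subgroup G} {Q : Type u} [Group Q] [Finite Q] {f : M →* Q}

omit [Finite G] [Finite Q] in
theorem sq_mem {H : Subgroup G} {x : G} (hX : ¬ 2 ∣ Nat.card X) (hx : x ∈ X) (h : x * x ∈ H) :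
    x ∈ H := by
  obtain ⟨m, hm⟩ := exists_pow_eq_self_of_coprime (x := x) (n := 2) (Nat.coprime_two_left.mpr
    (Odd.of_dvd_nat (Nat.odd_iff.mpr (by omega)) (orderOf_dvd_natCard X hx)))
  rw [← hm, pow_two]; exact pow_mem h m

omit [Finite Q] in
theorem le_CM (hk : kerOf f = OppOf 2 M) (hK : PComp 2 M K) (hXM : X ≤ M)
    (hX : X ≤ normalizer (K : Set G)) :
    X ≤ CM K ↔ bar f X ≤ centralizer (bar f K : Set Q) := by
  rw [bar_le_centralizer_iff f hXM hK.le, hk, commutator_le]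
  refine ⟨fun h x hx k hk => hK.OppOf_le ((h hx).2 k hk), fun h x hx => ⟨hX hx, fun k hk => ?_⟩⟩
  rw [hK.OppOf_eq]
  exact mem_inf.mpr ⟨h x hx k hk, mul_mem (conj_mem_of_mem_normalizer (hX hx) hk) (inv_mem hk)⟩

theorem ty_bar (hk : kerOf f = OppOf 2 M) (hK : PComp 2 M K)
    {T : ∀ (Q : Type u) [Group Q], Prop} (h : T (bar f K)) : Ty T K := by
  let φ : K →* bar f K := (f.comp (inclusion hK.le)).codRestrict _ fun x =>
    mem_bar_of_mem f (x := ⟨x, hK.le x.2⟩) x.2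
  refine ⟨bar f K, inferInstance, inferInstance, φ, fun y => ?_, ?_, h⟩
  · obtain ⟨x, hx, e⟩ := (mem_bar f).mp y.2
    exact ⟨⟨x, hx⟩, Subtype.ext e⟩
  · rw [hK.OppOf_eq, ← hk]
    ext x
    refine ⟨fun hx => ?_, fun hx => ?_⟩
    · have hx' := kerOf_le φ hx
      exact ⟨(mem_kerOf f (x := ⟨x, hK.le hx'⟩)).mpr
        (congrArg Subtype.val ((mem_kerOf φ (x := ⟨x, hx'⟩)).mp hx)), hx'⟩
    · exact (mem_kerOf φ (x := ⟨x, hx.2⟩)).mpr
        (Subtype.ext ((mem_kerOf f (x := ⟨x, hK.le hx.2⟩)).mp hx.1))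

theorem kn_bar (hA : AG G) (ih : IH.{u} (Nat.card G)) (hM : M ≠ ⊤) (hf : Function.Surjective f)
    {J : Subgroup Q} (hJ : QS J) : Kn J := by
  refine ih J (((card_le_card_group J).trans (Nat.card_le_card_of_surjective f hf)).trans_lt
    (card_lt_of_ne_top hM)) ((hA.bar f hf).subgroup J) ((hA.bar f hf).simple_of_qs hJ) ?_
  obtain ⟨x, hx, h⟩ := SetLike.not_le_iff_exists.mp hJ.not_le_centralizer
  obtain ⟨y, hy⟩ := not_forall.mp (mt mem_centralizer_iff.mpr h)
  obtain ⟨hy, e⟩ := Classical.not_imp.mp hy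
  exact ⟨⟨y, hy⟩, ⟨x, hx⟩, fun e' => e (congrArg Subtype.val e')⟩

omit [Finite Q] in
theorem cent_bar (hk : kerOf f = OppOf 2 M) (hf : Function.Surjective f) {a : G} (ha : a ∈ M)
    (ha2 : a * a = 1) : bar f (M ⊓ centralizer {a}) = centralizer {f ⟨a, ha⟩} := by
  have h := bar_inf_centralizer f (H := M) (R := zpowers a)
    (isPGroup_zpowers (p := 2) (k := 1) (by simpa [pow_two] using ha2)) (by simpa using ha)
    (hk ▸ OppOf_not_dvd M) (kerOf_le f)
  rwa [centralizer_zpowers, bar_self f hf, top_inf_eq, bar_zpowers f ⟨a, ha⟩,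
    centralizer_zpowers] at h

theorem comm_le (hA : AG G) {S : Subgroup G} (hS : IsSyl 2 S M) {a : G} (ha : a ∈ S)
    (hXM : X ≤ M) (hX : ¬ 2 ∣ Nat.card X) (hn : M ⊓ centralizer {a} ≤ normalizer (X : Set G)) :
    ⁅S ⊓ OppPOf 2 M, X⁆ ≤ OppOf 2 M := by
  have h1 := (hS.inf_normal (OppPOf_le (p := 2) M) (self_le_normalizer_OppPOf M))
  have h2 : ⁅S ⊓ OppPOf 2 M, X⁆ ≤ X := commutator_le_of_le_normalizer_right
    (inf_le_left.trans ((le_inf hS.le (hA.le_centralizer_singleton hS.isPGroup ha)).trans hn))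
  have h3 : ⁅S ⊓ OppPOf 2 M, X⁆ ≤ OppPOf 2 M := (commutator_mono inf_le_right le_rfl).trans
    (commutator_le_of_le_normalizer_left (hXM.trans (self_le_normalizer_OppPOf M)))
  refine (le_O_of_odd h1.isPGroup h1.le (le_antisymm (sup_le (OppOf_le _) h1.le) ?_) h3
    (not_dvd_card_of_le hX h2)).trans (subn_OppPOf M).OppOf_le
  rw [← h1.sup_OppOf, sup_comm]
  refine sup_le_sup (le_OppOf le_sup_left ?_ (OppOf_not_dvd M)) (by rw [sup_comm, h1.sup_OppOf])
  exact le_normalizer_OppOf ((sup_le (OppOf_le M) (inf_le_left.trans hS.le)).trans le_normalizer)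

/-- an abelian group `Y` inverted by `a` and centralising `C_Z(a)` centralises `Z` -/
theorem le_cent_of_inv {Y Z : Subgroup G} {a : G} (h : CoprimeAct Y Z) (hZ : IsMulCommutative Z)
    (ha : a ∈ normalizer (Z : Set G)) (ha2 : a * a = 1) (hY : ¬ 2 ∣ Nat.card Y)
    (hi : ∀ y ∈ Y, a * y * a = y⁻¹) (hc : Z ⊓ centralizer {a} ≤ centralizer (Y : Set G)) :
    Z ≤ centralizer (Y : Set G) := by
  have ainv : a⁻¹ = a := inv_eq_of_mul_eq_one_right ha2
  have hW : ⁅Z, Y⁆ ≤ Z := commutator_le_of_le_normalizer_left h.le_norm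
  have haY : a ∈ normalizer (Y : Set G) :=
    mem_normalizer_of_conj_mem fun y hy => by rw [ainv, hi y hy]; exact inv_mem hy
  have haW : zpowers a ≤ normalizer ((⁅Z, Y⁆ : Subgroup G) : Set G) :=
    le_normalizer_commutator (by simpa using ha) (by simpa using haY)
  have hinv : ∀ w ∈ ⁅Z, Y⁆, a * w * a = w⁻¹ := fun w hw => by
    have h1 : a * w * a ∈ ⁅Z, Y⁆ := by
      simpa only [ainv] using conj_mem_of_mem_normalizer (haW (mem_zpowers a)) hw
    have h2 : w * (a * w * a) = a * w * a * w :=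
      congrArg Subtype.val (hZ.is_comm.comm (⟨w, hW hw⟩ : Z) ⟨_, hW h1⟩)
    have h3 := (inf_centralizer_inf_commutator_eq_bot hZ h.le_norm h.coprime).le
      (x := w * (a * w * a)) ⟨hc ⟨hW (mul_mem hw h1), mem_C.mpr (by
        rw [show w * (a * w * a) * a = w * a * w * (a * a) by group, ha2, h2,
          show a * (a * w * a * w) = (a * a) * w * a * w by group, ha2]; group)⟩, mul_mem hw h1⟩
    exact (eq_inv_of_mul_eq_one_right (mem_bot.mp h3))
  refine h.le_centralizer (le_centralizer_iff.mp fun y hy => sq_mem hY hy ?_)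
  refine mem_centralizer_iff.mpr fun w hw => ?_
  have h1 := hinv _ (conj_mem_of_mem_normalizer (h.commutator.le_norm hy) hw)
  rw [show a * (y * w * y⁻¹) * a = a * y * (a * a)⁻¹ * w * (a * a)⁻¹ * y⁻¹ * a by rw [ha2]; group,
    mul_inv_rev, ainv, show a * y * (a * a) * w * (a * a) * y⁻¹ * a =
      (a * y * a) * (a * w * a) * (a * y⁻¹ * a) by group, hi y hy, hi _ (inv_mem hy),
    hinv w hw] at h1
  calc w * (y * y) = y * (y⁻¹ * w⁻¹ * y⁻¹⁻¹)⁻¹ * y := by group
    _ = y * y * w := by rw [h1]; group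

end St3

open St3

section St
variable (hA : AG G) (ih : IH.{u} (Nat.card G)) {M S : Subgroup G} (hM : M ≠ ⊤) (hS : IsSyl 2 S M)
include hA ih hM hS

set_option linter.unusedSectionVars false in
/-- S6 -/
theorem PComp.odd_le_norm {K X : Subgroup G} (hK : PComp 2 M K) (hXM : X ≤ M)
    (hX : ¬ 2 ∣ Nat.card X) (hn : S ⊓ K ≤ normalizer (X : Set G)) :
    X ≤ normalizer (K : Set G) := by
  intro x hx
  obtain ⟨Q, _, _, f, hf, hk, -⟩ := exists_bar (OppOf_le (p := 2) M)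
    (le_normalizer_OppOf le_normalizer)
  have hK' := hK.conj (le_normalizer (hXM hx))
  refine map_conj_eq_iff.mp (hK'.eq_of_bar_eq f hK le_rfl hk.le ?_)
  have c := hK.comp_bar f le_rfl hk
  refine (hK'.comp_bar f le_rfl hk).eq_of_not_le_centralizer c fun e => ?_
  have h1 := hS.inf_subn hK.subn
  obtain ⟨⟨v, hv⟩, hv2⟩ := exists_prime_orderOf_dvd_card' (G := ↥(S ⊓ K)) 2
    (dvd_card_of_isPGroup_of_ne_bot h1.isPGroup (h1.ne_bot hK.pqs.dvd))
  rw [orderOf_mk] at hv2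
  have vv : v * v = 1 := by rw [← pow_two, ← hv2, pow_orderOf_eq_one]
  set a := f ⟨v, hK.le hv.2⟩ with ha
  set b := f ⟨x, hXM hx⟩ with hb
  have h2 : a ∈ bar f K := mem_bar_of_mem f hv.2
  have aa : a * a = 1 := by rw [ha, ← map_mul, ← map_one f]; exact congrArg f (Subtype.ext vv)
  have h3 : b * a * b⁻¹ ∈ centralizer (bar f K : Set Q) := e (by
    rw [bar_conj f K ⟨x, hXM hx⟩]; exact conj_mem_map_conj.mpr h2)
  have h4 : a * b * a⁻¹ * b⁻¹ ∈ bar f X := mul_mem (conj_mem_of_mem_normalizer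
    (bar_le_normalizer f hn (mem_bar_of_mem f hv)) (mem_bar_of_mem f hx))
    (inv_mem (mem_bar_of_mem f hx))
  have ainv : a⁻¹ = a := inv_eq_of_mul_eq_one_right aa
  have h5 := mem_bot.mp (sq_mem (H := ⊥) (not_dvd_card_bar f hX) h4 (mem_bot.mpr (by
    rw [ainv, show a * b * a * b⁻¹ * (a * b * a * b⁻¹) = a * (b * a * b⁻¹ * a) * (b * a * b⁻¹) by group,
      ← mem_centralizer_iff.mp h3 a h2,
      show a * (a * (b * a * b⁻¹)) * (b * a * b⁻¹) = (a * a) * b * (a * a) * b⁻¹ by group, aa]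
    group)))
  have h6 : b * a * b⁻¹ = a := by
    rw [ainv, show a * b * a * b⁻¹ = a * (b * a * b⁻¹) by group] at h5
    rw [eq_inv_of_mul_eq_one_right h5, ainv]
  have h7 := mem_bot.mp (((hA.bar f hf).inf_centralizer_of_perfect c.qs.perfect).le ⟨h2, h6 ▸ h3⟩)
  have h8 : v ∈ OppOf 2 M := hk ▸ (mem_kerOf f (x := ⟨v, hK.le hv.2⟩)).mpr h7
  exact OppOf_not_dvd M (hv2 ▸ orderOf_dvd_natCard _ h8)

/-- F -/
theorem PComp.act {K X : Subgroup G} (hK : PComp 2 M K) {a : G} (ha : a ∈ S) (ha2 : a * a = 1)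
    (hXM : X ≤ M) (hX : ¬ 2 ∣ Nat.card X) (hn : M ⊓ centralizer {a} ≤ normalizer (X : Set G)) :
    X ≤ CM K ∨ (Ty TB K ∧ a ∉ CM K ∧ ⁅X, zpowers a⁆ ≤ CM K ∧ ¬ ⁅S ⊓ K, X⁆ ≤ OppOf 2 K) := by
  obtain ⟨Q, _, _, f, hf, hk, -⟩ := exists_bar (OppOf_le (p := 2) M)
    (le_normalizer_OppOf le_normalizer)
  have hXK := PComp.odd_le_norm hA ih hM hS hK hXM hX
    (inf_le_left.trans ((le_inf hS.le (hA.le_centralizer_singleton hS.isPGroup ha)).trans hn))
  have c := hK.comp_bar f le_rfl hk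
  have hQ := hA.bar f hf
  have h1 := bar_le_normalizer f hn
  rw [cent_bar hk hf (hS.le ha) ha2] at h1
  have h2 := bar_le_normalizer f hXK
  have hXo := not_dvd_card_bar f hX
  obtain ⟨D, hD⟩ := PComp.cd hA ih hM hS hK
  have cm : ∀ (g : G) (hg : g ∈ S), g ∈ CM K → f ⟨g, hS.le hg⟩ ∈ centralizer (bar f K : Set Q) :=
    fun g hg h => (le_CM (X := zpowers g) hk hK (by simpa using hS.le hg)
      (by simpa using hD.norm hg)).mp (by simpa using h) (mem_bar_of_mem f (mem_zpowers g))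
  by_cases haC : a ∈ CM K
  · refine Or.inl ((le_CM hk hK hXM hXK).mpr ?_)
    have h3 : bar f K ≤ normalizer (bar f X : Set Q) := fun k hk' =>
      h1 (mem_C.mpr (mem_centralizer_iff.mp (cm a ha haC) k hk').symm)
    refine le_centralizer_of_inf_eq_bot h2 h3 ((hQ.eq_bot_or_eq_of_qs c.qs inf_le_right
      (le_normalizer_inf h3 le_normalizer)).resolve_right fun e => ?_)
    exact c.qs.not_isSolvable (solv_of_odd (not_dvd_card_of_le hXo (inf_eq_right.mp e)))
  obtain ⟨v, hv, z, hz, e⟩ := hD.split a ha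
  have hz' := cm z hz.1 hz.2
  have e' : f ⟨a, hS.le ha⟩ = f ⟨v, hS.le hv.1⟩ * f ⟨z, hS.le hz.1⟩ := by
    rw [← map_mul]; exact congrArg f (Subtype.ext e)
  have hv' : f ⟨v, hS.le hv.1⟩ ∈ bar f (S ⊓ K) := mem_bar_of_mem f hv
  have v1 : f ⟨v, hS.le hv.1⟩ ≠ 1 := fun e1 => by
    have h3 : v ∈ S ⊓ OppOf 2 M := ⟨hv.1, hk ▸ (mem_kerOf f (x := ⟨v, hS.le hv.1⟩)).mpr e1⟩
    rw [inf_eq_bot_of_isPGroup_of_not_dvd hS.isPGroup (OppOf_not_dvd M), mem_bot] at h3
    exact haC (by rw [e, h3, one_mul]; exact hz.2)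
  rcases Kn.act hQ (kn_bar hA ih hM hf c.qs) ((hS.inf_subn hK.subn).bar f hK.le) hv' v1 hXo h2
    (fun k hk' => h1 (mem_C.mpr (by
      rw [e', mul_assoc, ← mem_centralizer_iff.mp hz' k hk'.1, ← mul_assoc, mem_C.mp hk'.2,
        mul_assoc]))) with h3 | ⟨h3, h4, h5⟩
  · exact Or.inl ((le_CM hk hK hXM hXK).mpr h3)
  have haM : zpowers a ≤ M := by simpa using hS.le ha
  refine Or.inr ⟨ty_bar hk hK h3, haC, ?_, fun e1 => h5 (le_centralizer_iff.mp ?_)⟩
  · have h6 : ⁅X, zpowers a⁆ ≤ X :=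
      commutator_le_of_le_normalizer_left (by simpa using hn ⟨hS.le ha, mem_C.mpr rfl⟩)
    rw [le_CM hk hK (h6.trans hXM) (h6.trans hXK), bar_commutator f hXM haM,
      bar_zpowers f ⟨a, hS.le ha⟩, commutator_le]
    intro x hx y hy
    have hN := le_normalizer_centralizer h2 hx
    have aa : f ⟨a, hS.le ha⟩ * f ⟨a, hS.le ha⟩ = 1 := by
      rw [← map_mul, ← map_one f]; exact congrArg f (Subtype.ext ha2)
    have hy' : y = 1 ∨ y = f ⟨a, hS.le ha⟩ := by
      obtain ⟨n, rfl⟩ := hy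
      rcases Int.even_or_odd' n with ⟨m, rfl | rfl⟩
      · left; simp only [zpow_mul, zpow_two, aa, one_zpow]
      · right; simp only [zpow_add, zpow_mul, zpow_two, aa, one_zpow, one_mul, zpow_one]
    rcases hy' with rfl | rfl
    · simp
    rw [e', commutatorElement_def, ← mul_assoc, ← mem_C.mp (h4 hx)]
    have := conj_mem_of_mem_normalizer (le_normalizer_centralizer le_normalizer
      (bar_mono f inf_le_right hv')) (mul_mem (conj_mem_of_mem_normalizer hN hz') (inv_mem hz'))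
    simpa [mul_assoc] using this
  · rw [bar_le_centralizer_iff f (inf_le_left.trans hS.le) hXM, hk]
    exact e1.trans hK.OppOf_le

/-- L3 -/
theorem le_O_of_cent {X : Subgroup G} {a : G} (ha : a ∈ S) (ha2 : a * a = 1) (hXM : X ≤ M)
    (hX : ¬ 2 ∣ Nat.card X) (hn : M ⊓ centralizer {a} ≤ normalizer (X : Set G))
    (hc : ∀ K, PComp 2 M K → Ty TB K → ⁅S ⊓ K, X⁆ ≤ OppOf 2 K) : X ≤ OppOf 2 M :=
  le_O_of_CM hA ih hM hS hXM hX (fun K hK => (PComp.act hA ih hM hS hK ha ha2 hXM hX hn).resolve_right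
    fun h => h.2.2.2 (hc K hK h.1)) (comm_le hA hS ha hXM hX hn)

omit hS in
/-- L1 -/
theorem le_fitting_of_inv {X : Subgroup G} {a : G} (ha : a ∈ M) (ha2 : a * a = 1) (hXM : X ≤ M)
    (hX : ¬ 2 ∣ Nat.card X) (hi : ∀ x ∈ X, a * x * a = x⁻¹)
    (hn : M ⊓ centralizer {a} ≤ normalizer (X : Set G)) : X ≤ fittingOf M := by
  have ainv : a⁻¹ = a := inv_eq_of_mul_eq_one_right ha2
  obtain ⟨S, hS, haS⟩ := exists_isSyl_ge (H := M)
    (isPGroup_zpowers (p := 2) (k := 1) (x := a) (by simpa [pow_two] using ha2)) (by simpa using ha)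
  have haS' := haS (mem_zpowers a)
  have h1 : X ≤ ⁅X, zpowers a⁆ := fun x hx => sq_mem hX hx (by
    have := commutator_mem_commutator hx (mem_zpowers a)
    rwa [commutatorElement_def, ainv, mul_assoc, mul_assoc, ← mul_assoc a, hi _ (inv_mem hx),
      inv_inv] at this)
  have hO : X ≤ OppOf 2 M := le_O_of_CM hA ih hM hS hXM hX (fun K hK =>
    (PComp.act hA ih hM hS hK haS' ha2 hXM hX hn).elim id fun h => h1.trans h.2.2.1)
    (comm_le hA hS haS' hXM hX hn)
  have hXc : IsMulCommutative X := ⟨⟨fun x y => Subtype.ext (by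
    have h2 := hi _ (mul_mem x.2 y.2)
    rw [show a * (x * y) * a = a * x * (a * a)⁻¹ * y * a by rw [ha2]; group, mul_inv_rev, ainv,
      show a * x * (a * a) * y * a = a * x * a * (a * y * a) by group, hi _ x.2, hi _ y.2,
      ← mul_inv_rev, inv_inj] at h2
    exact h2.symm)⟩⟩
  refine le_trans (le_trans (le_inf hO ?_) (inf_centralizer_fittingOf_le_of_isSolvable (solv_O M)))
    (fittingOf_mono_of_normal (OppOf_le M) (le_normalizer_OppOf le_normalizer))
  refine le_centralizer_iff.mp (fittingOf_le_of_forall_OpOf fun q hq => le_centralizer_iff.mp ?_)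
  haveI : Fact q.Prime := ⟨hq⟩
  have hZ : M ≤ normalizer (OpOf q (OppOf 2 M) : Set G) :=
    le_normalizer_OpOf (le_normalizer_OppOf le_normalizer)
  refine le_of_isNilpotent_of_forall_OpOf (isNilpotent_of_isMulCommutative hXc) fun p hp => ?_
  haveI : Fact p.Prime := ⟨hp⟩
  have hY := ((OpOf_le (p := p) X).trans hXM).trans hZ
  by_cases e : p = q
  · subst e
    exact hA.comm_of_sup (OpOf_isPGroup X) (OpOf_isPGroup _) hY
  have hc := coprimeAct_of_isPGroup_left (OpOf_isPGroup X)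
    (not_dvd_card_of_isPGroup (OpOf_isPGroup (OppOf 2 M)) e) hY
  refine le_centralizer_iff.mp (le_cent_of_inv hc (hA.isMulCommutative (OpOf_isPGroup _)) (hZ ha) ha2
    (not_dvd_card_of_le hX (OpOf_le X)) (fun y hy => hi y (OpOf_le X hy)) ?_)
  refine commutator_eq_bot_iff_le_centralizer.mp (eq_bot_iff.mpr (le_trans (le_inf ?_ ?_)
    hc.inf_eq_bot.le))
  · exact commutator_le_of_le_normalizer_right (le_normalizer_OpOf
      ((inf_le_inf_right _ ((OpOf_le _).trans (OppOf_le M))).trans hn))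
  · exact (commutator_mono inf_le_left le_rfl).trans (commutator_le_of_le_normalizer_left hY)

end St

end Cfsg.Agent.Lib.AG
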